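import Mathlib

/-!
# Minimal degree of `SL_n(q)`: definitions (helper18, S2332)

`lev` is the block embedding `g ↦ diag(1, g)` of `SL_k` into `SL_{k+1}`; `x1 u` is the element
`1 + e₀ ⊗ (0, u)` of `SL_{k+1}` (first row `(1, u)`); `IsTv g` says that `g` is a transvection
`1 + a ⊗ φ` (`φ ⬝ᵥ a = 0`); `wt ψ ρ l` is the weight space of the abelian group `{x1 u}` for the
character `u ↦ ψ (l ⬝ᵥ u)`; `M1` says all non-zero weights have multiplicity one; `EP` says a
transvection of `SL_k` fixing a non-zero weight `l` acts trivially on its weight space; `d0` is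
the dimension of the fixed space; `resW` is the representation of `SL_k` on the fixed space.
-/

set_option autoImplicit false

namespace Cfsg.Agent.Lib.Helper18.SLM

open Matrix

universe u

variable {F : Type u} [Field F]

/-- the block matrix `diag(1, M)` -/
def blk {k : ℕ} (M : Matrix (Fin k) (Fin k) F) : Matrix (Fin (k + 1)) (Fin (k + 1)) F :=
  Matrix.of fun i j =>
    Fin.cases (Fin.cases 1 (fun _ => 0) j) (fun i' => Fin.cases 0 (fun j' => M i' j') j) i

@[simp] theorem blk_zero_zero {k : ℕ} (M : Matrix (Fin k) (Fin k) F) : blk M 0 0 = 1 := rfl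
@[simp] theorem blk_zero_succ {k : ℕ} (M : Matrix (Fin k) (Fin k) F) (j : Fin k) :
    blk M 0 j.succ = 0 := rfl
@[simp] theorem blk_succ_zero {k : ℕ} (M : Matrix (Fin k) (Fin k) F) (i : Fin k) :
    blk M i.succ 0 = 0 := rfl
@[simp] theorem blk_succ_succ {k : ℕ} (M : Matrix (Fin k) (Fin k) F) (i j : Fin k) :
    blk M i.succ j.succ = M i j := rfl

theorem blk_one {k : ℕ} : blk (1 : Matrix (Fin k) (Fin k) F) = 1 := by
  ext i j
  refine Fin.cases ?_ (fun i' => ?_) i <;> refine Fin.cases ?_ (fun j' => ?_) j <;>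
    simp [Matrix.one_apply, Fin.succ_ne_zero, Ne.symm (Fin.succ_ne_zero _)]

theorem blk_mul {k : ℕ} (M N : Matrix (Fin k) (Fin k) F) : blk (M * N) = blk M * blk N := by
  ext i j
  refine Fin.cases ?_ (fun i' => ?_) i <;> refine Fin.cases ?_ (fun j' => ?_) j <;>
    simp [Matrix.mul_apply, Fin.sum_univ_succ]

theorem det_blk {k : ℕ} (M : Matrix (Fin k) (Fin k) F) : (blk M).det = M.det := by
  rw [Matrix.det_succ_row_zero, Fin.sum_univ_succ]
  have h : (blk M).submatrix Fin.succ Fin.succ = M := by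
    ext i j
    simp
  simp [h]

/-- the block embedding `g ↦ diag(1, g)` of `SL_k` into `SL_{k+1}` -/
def lev {k : ℕ} : Matrix.SpecialLinearGroup (Fin k) F →* Matrix.SpecialLinearGroup (Fin (k + 1)) F where
  toFun g := ⟨blk g.1, by rw [det_blk]; exact g.2⟩
  map_one' := by
    apply Subtype.ext
    show blk (1 : Matrix (Fin k) (Fin k) F) = 1
    exact blk_one
  map_mul' g h := by
    apply Subtype.ext
    show blk (g.1 * h.1) = blk g.1 * blk h.1
    exact blk_mul _ _

theorem lev_val {k : ℕ} (g : Matrix.SpecialLinearGroup (Fin k) F) :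
    ((lev g : Matrix.SpecialLinearGroup (Fin (k + 1)) F) : Matrix (Fin (k + 1)) (Fin (k + 1)) F) =
      blk (g : Matrix (Fin k) (Fin k) F) := rfl

/-- the matrix `1 + e₀ ⊗ (0, u)` -/
def x1m {k : ℕ} (u : Fin k → F) : Matrix (Fin (k + 1)) (Fin (k + 1)) F :=
  1 + vecMulVec (Pi.single 0 1) (Fin.cons 0 u : Fin (k + 1) → F)

theorem det_x1m {k : ℕ} (u : Fin k → F) : (x1m u).det = 1 := by
  unfold x1m
  rw [vecMulVec_eq Unit, det_one_add_replicateCol_mul_replicateRow]
  simp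

/-- the element `1 + e₀ ⊗ (0, u)` of `SL_{k+1}` -/
def x1 {k : ℕ} (u : Fin k → F) : Matrix.SpecialLinearGroup (Fin (k + 1)) F := ⟨x1m u, det_x1m u⟩

theorem x1_val {k : ℕ} (u : Fin k → F) :
    ((x1 u : Matrix.SpecialLinearGroup (Fin (k + 1)) F) : Matrix (Fin (k + 1)) (Fin (k + 1)) F) =
      1 + vecMulVec (Pi.single 0 1) (Fin.cons 0 u : Fin (k + 1) → F) := rfl

/-- `g` is a transvection `1 + a ⊗ φ` with `φ ⬝ᵥ a = 0` (the identity is allowed) -/
def IsTv {k : ℕ} (g : Matrix.SpecialLinearGroup (Fin k) F) : Prop :=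
  ∃ a φ : Fin k → F, φ ⬝ᵥ a = 0 ∧ (g : Matrix (Fin k) (Fin k) F) = 1 + vecMulVec a φ

/-- `∑_{i < m} q^i = (q^m - 1)/(q - 1)` -/
def wsum (q m : ℕ) : ℕ := ∑ i ∈ Finset.range m, q ^ i

section rep

variable {V : Type*} [AddCommGroup V] [Module ℂ V]

/-- the weight space of `{x1 u}` for the character `u ↦ ψ (l ⬝ᵥ u)` -/
def wt (ψ : AddChar F ℂ) {k : ℕ} (ρ : Representation ℂ (Matrix.SpecialLinearGroup (Fin (k + 1)) F) V)
    (l : Fin k → F) : Submodule ℂ V where
  carrier := {v | ∀ u : Fin k → F, ρ (x1 u) v = ψ (l ⬝ᵥ u) • v}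
  add_mem' := fun {x y} hx hy u => by rw [map_add, hx u, hy u, smul_add]
  zero_mem' := fun u => by rw [map_zero, smul_zero]
  smul_mem' := fun c x hx u => by rw [map_smul, hx u, smul_comm]

theorem mem_wt (ψ : AddChar F ℂ) {k : ℕ}
    (ρ : Representation ℂ (Matrix.SpecialLinearGroup (Fin (k + 1)) F) V) (l : Fin k → F) (v : V) :
    v ∈ wt ψ ρ l ↔ ∀ u : Fin k → F, ρ (x1 u) v = ψ (l ⬝ᵥ u) • v := Iff.rfl

/-- all non-zero weights have multiplicity one -/
def M1 (ψ : AddChar F ℂ) {k : ℕ}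
    (ρ : Representation ℂ (Matrix.SpecialLinearGroup (Fin (k + 1)) F) V) : Prop :=
  ∀ l : Fin k → F, l ≠ 0 → Module.finrank ℂ (wt ψ ρ l) = 1

/-- a transvection of `SL_k` fixing a non-zero weight acts trivially on its weight space -/
def EP (ψ : AddChar F ℂ) {k : ℕ}
    (ρ : Representation ℂ (Matrix.SpecialLinearGroup (Fin (k + 1)) F) V) : Prop :=
  ∀ l : Fin k → F, l ≠ 0 → ∀ g : Matrix.SpecialLinearGroup (Fin k) F, IsTv g →
    (g : Matrix (Fin k) (Fin k) F) *ᵥ l = l → ∀ v ∈ wt ψ ρ l, ρ (lev g) v = v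

/-- the dimension of the space of fixed vectors of `{x1 u}` -/
noncomputable def d0 (ψ : AddChar F ℂ) {k : ℕ}
    (ρ : Representation ℂ (Matrix.SpecialLinearGroup (Fin (k + 1)) F) V) : ℕ :=
  Module.finrank ℂ (wt ψ ρ 0)

/-- restriction of a representation to an invariant submodule -/
def subRep {G : Type*} [Group G] (ρ : Representation ℂ G V) (C : Submodule ℂ V)
    (hC : ∀ g, ∀ v ∈ C, ρ g v ∈ C) : Representation ℂ G ↥C where
  toFun g := (ρ g).restrict (hC g)
  map_one' := by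
    apply LinearMap.ext
    intro x
    apply Subtype.ext
    rw [LinearMap.coe_restrict_apply, map_one]
    rfl
  map_mul' g h := by
    apply LinearMap.ext
    intro x
    apply Subtype.ext
    rw [LinearMap.coe_restrict_apply, map_mul]
    rfl

theorem subRep_apply {G : Type*} [Group G] (ρ : Representation ℂ G V) (C : Submodule ℂ V)
    (hC : ∀ g, ∀ v ∈ C, ρ g v ∈ C) (g : G) (x : ↥C) :
    ((subRep ρ C hC g x : ↥C) : V) = ρ g (x : V) := rfl

/-- the representation of `SL_k` on the fixed space of `{x1 u}` (given its invariance) -/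
def resW (ψ : AddChar F ℂ) {k : ℕ}
    (ρ : Representation ℂ (Matrix.SpecialLinearGroup (Fin (k + 1)) F) V)
    (h : ∀ g : Matrix.SpecialLinearGroup (Fin k) F, ∀ v ∈ wt ψ ρ 0, ρ (lev g) v ∈ wt ψ ρ 0) :
    Representation ℂ (Matrix.SpecialLinearGroup (Fin k) F) ↥(wt ψ ρ 0) :=
  subRep (ρ.comp lev) (wt ψ ρ 0) h

theorem resW_apply (ψ : AddChar F ℂ) {k : ℕ}
    (ρ : Representation ℂ (Matrix.SpecialLinearGroup (Fin (k + 1)) F) V)
    (h : ∀ g : Matrix.SpecialLinearGroup (Fin k) F, ∀ v ∈ wt ψ ρ 0, ρ (lev g) v ∈ wt ψ ρ 0)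
    (g : Matrix.SpecialLinearGroup (Fin k) F) (x : ↥(wt ψ ρ 0)) :
    ((resW ψ ρ h g x : ↥(wt ψ ρ 0)) : V) = ρ (lev g) (x : V) := rfl

end rep

end Cfsg.Agent.Lib.Helper18.SLM
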