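import Mathlib

/-!
# Minimal degree of `Sp_{2n}(q)`, `q` even: definitions (helper18, S2333)

`qf M x = xᵀ M x` is the quadratic form of a square matrix `M` (every quadratic form on `F^n`
arises this way), `bl M` its polar form, `orb M` the `GL_n`-orbit of `qf M` (as a set of
functions).  `uS S` is the element `[[1, S], [0, 1]]` of `Sp_{2n}(F)` (for symmetric `S`; `1`
otherwise) and `dG g` the element `[[g, 0], [0, g⁻ᵀ]]`.
-/

set_option autoImplicit false

namespace Cfsg.Agent.Lib.Helper18.LS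

open Matrix

universe u

variable {F : Type u} [Field F] {n : ℕ}

/-- the quadratic form `x ↦ xᵀ M x` -/
def qf (M : Matrix (Fin n) (Fin n) F) (x : Fin n → F) : F := x ⬝ᵥ (M *ᵥ x)

/-- the polar form `(x, y) ↦ xᵀ (M + Mᵀ) y` of `qf M` -/
def bl (M : Matrix (Fin n) (Fin n) F) (x y : Fin n → F) : F := x ⬝ᵥ ((M + Mᵀ) *ᵥ y)

/-- the `GL_n`-orbit of the quadratic form `qf M` -/
def orb (M : Matrix (Fin n) (Fin n) F) : Set ((Fin n → F) → F) :=
  Set.range (fun (g : GL (Fin n) F) (x : Fin n → F) =>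
    qf M ((g : Matrix (Fin n) (Fin n) F) *ᵥ x))

/-- linear independence of two vectors, spelled out -/
def Indep (u v : Fin n → F) : Prop := ∀ a c : F, a • u + c • v = 0 → a = 0 ∧ c = 0

/-- the common annihilator of two vectors under the dot product -/
def ann (a b : Fin n → F) : Set (Fin n → F) := {x | x ⬝ᵥ a = 0 ∧ x ⬝ᵥ b = 0}

/-- the orthogonal complement of `u, v` under the polar form -/
def Wperp (M : Matrix (Fin n) (Fin n) F) (u v : Fin n → F) : Set (Fin n → F) :=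
  {w | bl M w u = 0 ∧ bl M w v = 0}

/-- pairs `(u, v)` with `qf u = α`, `qf v = β`, `bl u v = 1` -/
def Omega (M : Matrix (Fin n) (Fin n) F) (α β : F) : Set ((Fin n → F) × (Fin n → F)) :=
  {p | qf M p.1 = α ∧ qf M p.2 = β ∧ bl M p.1 p.2 = 1}

/-- the shear `x ↦ x + (ℓ·x) u + (m·x) v` -/
def shearM (u v ℓ m : Fin n → F) : Matrix (Fin n) (Fin n) F :=
  1 + vecMulVec u ℓ + vecMulVec v m

/-- the binary quadratic form `α a² + a c + β c²` -/
def f2 (α β : F) (p : F × F) : F := p.1 ^ 2 * α + p.1 * p.2 + p.2 ^ 2 * β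

/-- the additive group of symmetric matrices -/
def symG (n : ℕ) (F : Type u) [Field F] : AddSubgroup (Matrix (Fin n) (Fin n) F) where
  carrier := {S | S.IsSymm}
  add_mem' := fun hS hT => Matrix.IsSymm.add hS hT
  zero_mem' := Matrix.isSymm_zero
  neg_mem' := fun hS => Matrix.IsSymm.neg hS

theorem mem_symG {S : Matrix (Fin n) (Fin n) F} : S ∈ symG n F ↔ S.IsSymm := Iff.rfl

/-- the symmetric matrix `E₀₁ + E₁₀` -/
def S0 (n : ℕ) (F : Type u) [Field F] : Matrix (Fin n) (Fin n) F :=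
  fun i j => if (i.val = 0 ∧ j.val = 1) ∨ (i.val = 1 ∧ j.val = 0) then 1 else 0

theorem S0_isSymm : (S0 n F).IsSymm := by
  ext i j
  simp only [transpose_apply, S0]
  congr 1
  exact propext ⟨fun h => h.elim (fun h => Or.inr ⟨h.2, h.1⟩) (fun h => Or.inl ⟨h.2, h.1⟩),
    fun h => h.elim (fun h => Or.inr ⟨h.2, h.1⟩) (fun h => Or.inl ⟨h.2, h.1⟩)⟩

theorem uM_mem {S : Matrix (Fin n) (Fin n) F} (hS : S.IsSymm) :
    (fromBlocks 1 S 0 1 : Matrix (Fin n ⊕ Fin n) (Fin n ⊕ Fin n) F) ∈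
      symplecticGroup (Fin n) F := by
  rw [SymplecticGroup.fromBlocks_mem_iff]
  refine ⟨by simp, ?_, by simp⟩
  simp [hS.eq]

open Classical in
/-- `u(S) = [[1, S], [0, 1]]` for symmetric `S` (and `1` otherwise) -/
noncomputable def uS (S : Matrix (Fin n) (Fin n) F) : symplecticGroup (Fin n) F :=
  if h : S.IsSymm then ⟨fromBlocks 1 S 0 1, uM_mem h⟩ else 1

theorem uS_coe {S : Matrix (Fin n) (Fin n) F} (hS : S.IsSymm) :
    ((uS S : symplecticGroup (Fin n) F) : Matrix (Fin n ⊕ Fin n) (Fin n ⊕ Fin n) F) =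
      fromBlocks 1 S 0 1 := by
  unfold uS
  rw [dif_pos hS]

theorem dM_mem (g : GL (Fin n) F) :
    (fromBlocks (g : Matrix (Fin n) (Fin n) F) 0 0
      ((g⁻¹ : GL (Fin n) F) : Matrix (Fin n) (Fin n) F)ᵀ :
        Matrix (Fin n ⊕ Fin n) (Fin n ⊕ Fin n) F) ∈ symplecticGroup (Fin n) F := by
  rw [SymplecticGroup.fromBlocks_mem_iff]
  refine ⟨by simp, by simp, ?_⟩
  rw [← transpose_mul]
  simp

/-- `d(g) = [[g, 0], [0, g⁻ᵀ]]` -/
def dG (g : GL (Fin n) F) : symplecticGroup (Fin n) F :=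
  ⟨fromBlocks (g : Matrix (Fin n) (Fin n) F) 0 0
      ((g⁻¹ : GL (Fin n) F) : Matrix (Fin n) (Fin n) F)ᵀ, dM_mem g⟩

theorem dG_coe (g : GL (Fin n) F) :
    ((dG g : symplecticGroup (Fin n) F) : Matrix (Fin n ⊕ Fin n) (Fin n ⊕ Fin n) F) =
      fromBlocks (g : Matrix (Fin n) (Fin n) F) 0 0
        ((g⁻¹ : GL (Fin n) F) : Matrix (Fin n) (Fin n) F)ᵀ := rfl

/-! ### basic identities -/

theorem bl_eq (M : Matrix (Fin n) (Fin n) F) (x y : Fin n → F) :
    bl M x y = x ⬝ᵥ (M *ᵥ y) + y ⬝ᵥ (M *ᵥ x) := by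
  unfold bl
  rw [add_mulVec, dotProduct_add, mulVec_transpose, dotProduct_comm x (y ᵥ* M),
    ← dotProduct_mulVec]

theorem qf_add (M : Matrix (Fin n) (Fin n) F) (x y : Fin n → F) :
    qf M (x + y) = qf M x + qf M y + bl M x y := by
  rw [bl_eq]
  unfold qf
  rw [mulVec_add, dotProduct_add, add_dotProduct, add_dotProduct]
  ring

theorem qf_smul (M : Matrix (Fin n) (Fin n) F) (c : F) (x : Fin n → F) :
    qf M (c • x) = c ^ 2 * qf M x := by
  unfold qf
  rw [mulVec_smul, dotProduct_smul, smul_dotProduct, smul_eq_mul, smul_eq_mul]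
  ring

theorem qf_zero (M : Matrix (Fin n) (Fin n) F) : qf M 0 = 0 := by
  unfold qf
  simp

theorem bl_comm (M : Matrix (Fin n) (Fin n) F) (x y : Fin n → F) : bl M x y = bl M y x := by
  rw [bl_eq, bl_eq, add_comm]

theorem bl_add_right (M : Matrix (Fin n) (Fin n) F) (x y z : Fin n → F) :
    bl M x (y + z) = bl M x y + bl M x z := by
  unfold bl
  rw [mulVec_add, dotProduct_add]

theorem bl_add_left (M : Matrix (Fin n) (Fin n) F) (x y z : Fin n → F) :
    bl M (x + y) z = bl M x z + bl M y z := by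
  unfold bl
  rw [add_dotProduct]

theorem bl_smul_right (M : Matrix (Fin n) (Fin n) F) (c : F) (x y : Fin n → F) :
    bl M x (c • y) = c * bl M x y := by
  unfold bl
  rw [mulVec_smul, dotProduct_smul, smul_eq_mul]

theorem bl_smul_left (M : Matrix (Fin n) (Fin n) F) (c : F) (x y : Fin n → F) :
    bl M (c • x) y = c * bl M x y := by
  unfold bl
  rw [smul_dotProduct, smul_eq_mul]

theorem bl_zero_right (M : Matrix (Fin n) (Fin n) F) (x : Fin n → F) : bl M x 0 = 0 := by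
  unfold bl
  simp

theorem bl_zero_left (M : Matrix (Fin n) (Fin n) F) (x : Fin n → F) : bl M 0 x = 0 := by
  unfold bl
  simp

theorem bl_self [CharP F 2] (M : Matrix (Fin n) (Fin n) F) (x : Fin n → F) : bl M x x = 0 := by
  rw [bl_eq]
  exact CharTwo.add_self_eq_zero _

theorem qf_mulVec (M A : Matrix (Fin n) (Fin n) F) (x : Fin n → F) :
    qf M (A *ᵥ x) = qf (Aᵀ * M * A) x := by
  unfold qf
  rw [← mulVec_mulVec, ← mulVec_mulVec, dotProduct_mulVec x Aᵀ, vecMul_transpose]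

theorem shearM_mulVec (u v ℓ m x : Fin n → F) :
    shearM u v ℓ m *ᵥ x = x + (ℓ ⬝ᵥ x) • u + (m ⬝ᵥ x) • v := by
  unfold shearM
  rw [add_mulVec, add_mulVec, one_mulVec, vecMulVec_mulVec, vecMulVec_mulVec]
  ext i
  simp [mul_comm]

theorem Wperp_eq_ann (M : Matrix (Fin n) (Fin n) F) (u v : Fin n → F) :
    Wperp M u v = ann ((M + Mᵀ) *ᵥ u) ((M + Mᵀ) *ᵥ v) := rfl

end Cfsg.Agent.Lib.Helper18.LS
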