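import Mathlib

/-!
# The Weil representation of `Sp_{2n}(q)`, `q` odd: definitions (helper18, S2347)

`sform u v = uᵀ J v` is the symplectic form of `Matrix.symplecticGroup (Fin n) F` on
`Fin n ⊕ Fin n → F`; `W ψ v` is the Weyl operator on the functions `(Fin n → F) → ℂ`,
`(W ψ (a, b) f) x = ψ (b·x + a·b/2) f (x + a)` (`a = v ∘ Sum.inl`, `b = v ∘ Sum.inr`);
`par` is the parity operator `(par f) x = f (-x)`; `coc ψ u v = ψ (sform v u / 2)` is the cocycle,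
`W ψ u * W ψ v = coc ψ u v • W ψ (u + v)`; `act g` is the action of a symplectic matrix on vectors.
-/

set_option autoImplicit false

namespace Cfsg.Agent.Lib.Helper18.WR

open Matrix

universe u

variable {F : Type u} [Field F] {n : ℕ}

/-- the symplectic form `(u, v) ↦ uᵀ J v` -/
def sform (u v : Fin n ⊕ Fin n → F) : F := u ⬝ᵥ (J (Fin n) F *ᵥ v)

theorem sform_eq (u v : Fin n ⊕ Fin n → F) :
    sform u v = (u ∘ Sum.inr) ⬝ᵥ (v ∘ Sum.inl) - (u ∘ Sum.inl) ⬝ᵥ (v ∘ Sum.inr) := by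
  unfold sform
  simp [J, dotProduct, Matrix.mulVec, Fintype.sum_sum_type, Matrix.fromBlocks, Matrix.one_apply,
    Finset.sum_ite_eq, Matrix.neg_apply]
  rw [add_comm, ← sub_eq_add_neg]

/-- the Weyl operator `(W ψ (a, b) f) x = ψ (b·x + a·b/2) f (x + a)` -/
def W (ψ : AddChar F ℂ) (v : Fin n ⊕ Fin n → F) : Module.End ℂ ((Fin n → F) → ℂ) where
  toFun f := fun x =>
    ψ ((v ∘ Sum.inr) ⬝ᵥ x + 2⁻¹ * ((v ∘ Sum.inl) ⬝ᵥ (v ∘ Sum.inr))) * f (x + v ∘ Sum.inl)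
  map_add' f f' := by
    funext x
    simp only [Pi.add_apply, mul_add]
  map_smul' c f := by
    funext x
    simp only [Pi.smul_apply, smul_eq_mul, RingHom.id_apply]
    ring

theorem W_apply (ψ : AddChar F ℂ) (v : Fin n ⊕ Fin n → F) (f : (Fin n → F) → ℂ) (x : Fin n → F) :
    W ψ v f x =
      ψ ((v ∘ Sum.inr) ⬝ᵥ x + 2⁻¹ * ((v ∘ Sum.inl) ⬝ᵥ (v ∘ Sum.inr))) * f (x + v ∘ Sum.inl) :=
  rfl

/-- the parity operator `(par f) x = f (-x)` -/
def par : Module.End ℂ ((Fin n → F) → ℂ) where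
  toFun f := fun x => f (-x)
  map_add' _ _ := rfl
  map_smul' _ _ := rfl

theorem par_apply (f : (Fin n → F) → ℂ) (x : Fin n → F) : (par f) x = f (-x) := rfl

/-- the cocycle of the Weyl operators: `W ψ u * W ψ v = coc ψ u v • W ψ (u + v)` -/
def coc (ψ : AddChar F ℂ) (u v : Fin n ⊕ Fin n → F) : ℂ := ψ (2⁻¹ * sform v u)

/-- the action of a symplectic matrix on vectors, as an additive equivalence -/
def act (g : symplecticGroup (Fin n) F) : (Fin n ⊕ Fin n → F) ≃+ (Fin n ⊕ Fin n → F) where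
  toFun v := (g : Matrix (Fin n ⊕ Fin n) (Fin n ⊕ Fin n) F) *ᵥ v
  invFun v := ((g⁻¹ : symplecticGroup (Fin n) F) : Matrix (Fin n ⊕ Fin n) (Fin n ⊕ Fin n) F) *ᵥ v
  left_inv v := by
    show ((g⁻¹ : symplecticGroup (Fin n) F) : Matrix (Fin n ⊕ Fin n) (Fin n ⊕ Fin n) F) *ᵥ
      ((g : Matrix (Fin n ⊕ Fin n) (Fin n ⊕ Fin n) F) *ᵥ v) = v
    rw [mulVec_mulVec, ← Submonoid.coe_mul, inv_mul_cancel, Submonoid.coe_one, one_mulVec]
  right_inv v := by
    show (g : Matrix (Fin n ⊕ Fin n) (Fin n ⊕ Fin n) F) *ᵥ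
      (((g⁻¹ : symplecticGroup (Fin n) F) : Matrix (Fin n ⊕ Fin n) (Fin n ⊕ Fin n) F) *ᵥ v) = v
    rw [mulVec_mulVec, ← Submonoid.coe_mul, mul_inv_cancel, Submonoid.coe_one, one_mulVec]
  map_add' v w := mulVec_add _ v w

theorem act_apply (g : symplecticGroup (Fin n) F) (v : Fin n ⊕ Fin n → F) :
    act g v = (g : Matrix (Fin n ⊕ Fin n) (Fin n ⊕ Fin n) F) *ᵥ v := rfl

theorem act_mul (g h : symplecticGroup (Fin n) F) (v : Fin n ⊕ Fin n → F) :
    act (g * h) v = act g (act h v) := by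
  rw [act_apply, act_apply, act_apply, mulVec_mulVec, Submonoid.coe_mul]

theorem act_one (v : Fin n ⊕ Fin n → F) : act (1 : symplecticGroup (Fin n) F) v = v := by
  rw [act_apply, Submonoid.coe_one, one_mulVec]

end Cfsg.Agent.Lib.Helper18.WR
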