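import Mathlib
import Cfsg.Agent.Lib.Helper32.Uniq8

set_option autoImplicit false

open Cfsg Cfsg.Agent.Lib.Helper34 Cfsg.Agent.Lib.Helper32
open scoped commutatorElement

universe u

namespace Cfsg.Agent.Lib.Helper18.U95

variable {G : Type u} [Group G] [Finite G]

omit [Finite G] in
theorem le_fittingOf_of_nilp {Y K : Subgroup G} (hYK : Y ≤ K)
    (hK : K ≤ Subgroup.normalizer (Y : Set G)) (hY : Group.IsNilpotent ↥Y) :
    Y ≤ fittingOf K := by
  have h1 : (Y.subgroupOf K).Normal := Subgroup.normal_subgroupOf_of_le_normalizer hK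
  have h2 : Group.IsNilpotent ↥(Y.subgroupOf K) :=
    (Group.isNilpotent_congr (Subgroup.subgroupOfEquivOfLe hYK)).mpr hY
  have h3 : Y.subgroupOf K ≤ fittingSubgroup ↥K := le_sSup ⟨h1, h2⟩
  have h4 := Subgroup.map_mono (f := K.subtype) h3
  rw [Subgroup.map_subgroupOf_eq_of_le hYK] at h4
  exact h4

omit [Finite G] in
theorem le_normalizer_cj' {A B : Subgroup G} (g : G)
    (h : A ≤ Subgroup.normalizer (B : Set G)) :
    cj g A ≤ Subgroup.normalizer (cj g B : Set G) := by
  intro a ha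
  rw [mem_cj] at ha
  rw [← cj_eq_self_iff]
  have e : a * g = g * (g⁻¹ * a * g) := by group
  rw [← cj_mul, e, cj_mul, cj_eq_self_of_le_normalizer h ha]

theorem fittingOf_cj_le (g : G) (L : Subgroup G) :
    fittingOf (cj g L) ≤ cj g (fittingOf L) := by
  have h1 : cj g⁻¹ (fittingOf (cj g L)) ≤ fittingOf L := by
    apply le_fittingOf_of_nilp
    · have := cj_mono g⁻¹ (fittingOf_le (cj g L))
      rwa [cj_inv_cj] at this
    · have := le_normalizer_cj' g⁻¹ (le_normalizer_fittingOf (cj g L))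
      rwa [cj_inv_cj] at this
    · exact (Group.isNilpotent_congr ((fittingOf (cj g L)).equivMapOfInjective
        (MulAut.conj g⁻¹).toMonoidHom (MulAut.conj g⁻¹).injective)).mp (isNilpotent_fittingOf _)
  have := cj_mono g h1
  rwa [cj_cj_inv] at this

theorem not_prankLE_fittingOf_cj {s : ℕ} (g : G) {L : Subgroup G}
    (h : ¬ PRankLE s 2 ↥(fittingOf (cj g L))) : ¬ PRankLE s 2 ↥(fittingOf L) := by
  obtain ⟨E, hE, hEc, hEp, hcard⟩ := exists_of_not_prankLE h
  have hE' : cj g⁻¹ E ≤ fittingOf L := by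
    have := cj_mono g⁻¹ (hE.trans (fittingOf_cj_le g L))
    rwa [cj_inv_cj] at this
  exact not_prankLE_of_le hE' (cj_comm g⁻¹ hEc) (cj_exp g⁻¹ hEp) (by rw [card_cj]; exact hcard)

end Cfsg.Agent.Lib.Helper18.U95
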