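import Mathlib
import Cfsg.Agent.Lib.Helper13.FumDefs
import Cfsg.Agent.Lib.Helper32.FumEXTD

/-!
# S4330, piece EXT: a regular vector for exponent-`p` class-2 groups with fixed-point-free centre
-/

set_option autoImplicit false

namespace Cfsg.Agent.Lib.Helper18.Fum

open Cfsg.Agent.Lib.Helper13.Fum Cfsg.Agent.Lib.Helper32.Fum
open scoped Pointwise

universe u

section Gen

variable {V : Type*} [AddCommGroup V]

theorem ext_pow_smul_fix {g : AAut V} {v : V} (h : g • v = v) (n : ℕ) : g ^ n • v = v := by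
  have h1 : g ∈ MulAction.stabilizer (AAut V) v := h
  exact (MulAction.stabilizer (AAut V) v).pow_mem h1 n

theorem ext_semiconj_fix {a g g' : AAut V} (h : SemiconjBy a g g') {v : V} (hv : g • v = v) :
    g' • (a • v) = a • v := by
  rw [← mul_smul, ← h.eq, mul_smul, hv]

theorem ext_eq_one_of_forall_smul {g : AAut V} (h : ∀ v : V, g • v = v) : g = 1 := by
  apply FaithfulSMul.eq_of_smul_eq_smul (α := V)
  intro v
  rw [h v, one_smul]

theorem ext_exists_pow {z c : AAut V} {p : ℕ} (hp : 0 < p) (hz : z ^ p = 1)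
    (hc : c ∈ Subgroup.zpowers z) : ∃ n : ℕ, c = z ^ n := by
  have hfin : IsOfFinOrder z := isOfFinOrder_iff_pow_eq_one.2 ⟨p, hp, hz⟩
  rw [← hfin.mem_powers_iff_mem_zpowers] at hc
  obtain ⟨n, hn⟩ := (Submonoid.mem_powers_iff _ _).1 hc
  exact ⟨n, hn.symm⟩

/-- an element of `⟨z⟩` fixing a nonzero vector is trivial (`z` fixed-point-free of order `p`) -/
theorem ext_eq_one_of_fix {p : ℕ} [Fact p.Prime] {z c : AAut V} (hz : z ^ p = 1)
    (hfpf : ∀ v : V, z • v = v → v = 0) (hc : c ∈ Subgroup.zpowers z) {w : V} (hw : w ≠ 0)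
    (hcw : c • w = w) : c = 1 := by
  obtain ⟨n, rfl⟩ := ext_exists_pow (Fact.out : p.Prime).pos hz hc
  by_contra hne
  have hz1 : z ≠ 1 := by
    rintro rfl
    simp at hne
  have hord : orderOf z = p := orderOf_eq_prime hz hz1
  have hnd : ¬ p ∣ n := by
    rintro ⟨k, rfl⟩
    exact hne (by rw [pow_mul, hz, one_pow])
  have hcop : n.Coprime (orderOf z) := by
    rw [hord]
    exact Nat.Coprime.symm ((Nat.Prime.coprime_iff_not_dvd Fact.out).2 hnd)
  obtain ⟨m, hm⟩ := exists_pow_eq_self_of_coprime hcop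
  have := ext_pow_smul_fix hcw m
  rw [hm] at this
  exact hw (hfpf w this)

/-- the fixed points of one element -/
def fixOne (d : AAut V) : AddSubgroup V where
  carrier := {v | d • v = v}
  add_mem' := by
    intro a b ha hb
    show d • (a + b) = a + b
    rw [smul_add, show d • a = a from ha, show d • b = b from hb]
  zero_mem' := smul_zero d
  neg_mem' := by
    intro a ha
    show d • (-a) = -a
    rw [smul_neg, show d • a = a from ha]

theorem mem_fixOne {d : AAut V} {v : V} : v ∈ fixOne d ↔ d • v = v := Iff.rfl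

theorem smul_fixOne {d x : AAut V} (h : Commute x d) : x • fixOne d = fixOne d := by
  ext w
  have e : w ∈ x • fixOne d ↔ x⁻¹ • w ∈ fixOne d :=
    AddSubgroup.mem_pointwise_smul_iff_inv_smul_mem
  rw [e, mem_fixOne, mem_fixOne]
  constructor
  · intro hw
    have := ext_semiconj_fix (show SemiconjBy x d d from h) hw
    rwa [smul_inv_smul] at this
  · intro hw
    exact ext_semiconj_fix (show SemiconjBy x⁻¹ d d from h.inv_left) hw

/-- the centralizer of `d` in `X` -/
def centOne (X : Subgroup (AAut V)) (d : AAut V) : Subgroup (AAut V) where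
  carrier := {x | x ∈ X ∧ Commute x d}
  mul_mem' := fun ha hb => ⟨X.mul_mem ha.1 hb.1, ha.2.mul_left hb.2⟩
  one_mem' := ⟨X.one_mem, Commute.one_left d⟩
  inv_mem' := fun ha => ⟨X.inv_mem ha.1, ha.2.inv_left⟩

theorem mem_centOne {X : Subgroup (AAut V)} {d x : AAut V} :
    x ∈ centOne X d ↔ x ∈ X ∧ Commute x d := Iff.rfl

/-- the statement to be proved, for a fixed module -/
def RegStmt (p : ℕ) (V : Type*) [AddCommGroup V] : Prop :=
  ∀ (X : Subgroup (AAut V)), (∀ x ∈ X, x ^ p = 1) →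
    (∀ x ∈ X, ∀ y ∈ X, ∀ t ∈ X, (x * y * x⁻¹ * y⁻¹) * t = t * (x * y * x⁻¹ * y⁻¹)) →
    ∀ (z : AAut V), z ∈ X → (∀ x ∈ X, z * x = x * z) →
    (∀ x ∈ X, (∀ y ∈ X, x * y = y * x) → x ∈ Subgroup.zpowers z) →
    (∀ v : V, z • v = v → v = 0) → ∃ v : V, ∀ x ∈ X, x • v = v → x = 1

/-- the normalised situation: `z = [d, u⁻¹]` -/
structure Ctx (p : ℕ) (X : Subgroup (AAut V)) (z d u : AAut V) : Prop where
  hexp : ∀ x ∈ X, x ^ p = 1
  hcl : ∀ x ∈ X, ∀ y ∈ X, ∀ t ∈ X, (x * y * x⁻¹ * y⁻¹) * t = t * (x * y * x⁻¹ * y⁻¹)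
  hz : z ∈ X
  hzc : ∀ x ∈ X, z * x = x * z
  hcen : ∀ x ∈ X, (∀ y ∈ X, x * y = y * x) → x ∈ Subgroup.zpowers z
  hfpf : ∀ v : V, z • v = v → v = 0
  hd : d ∈ X
  hu : u ∈ X
  hud : u * d * u⁻¹ = d * z

namespace Ctx

variable {p : ℕ} [Fact p.Prime] {X : Subgroup (AAut V)} {z d u : AAut V}

theorem zp (C : Ctx p X z d u) : z ^ p = 1 := C.hexp z C.hz

theorem cz (C : Ctx p X z d u) {x : AAut V} (hx : x ∈ X) : Commute z x := C.hzc x hx

theorem semU (C : Ctx p X z d u) : SemiconjBy u d (d * z) := by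
  show u * d = d * z * u
  rw [← C.hud]
  group

theorem semUi (C : Ctx p X z d u) (i : ℕ) : SemiconjBy u (d * z ^ i) (d * z ^ (i + 1)) := by
  have h1 : SemiconjBy u (z ^ i) (z ^ i) := ((C.cz C.hu).pow_left i).symm
  have := C.semU.mul_right h1
  rwa [mul_assoc, ← pow_succ'] at this

theorem semUk (C : Ctx p X z d u) (k : ℕ) :
    ∀ i : ℕ, SemiconjBy (u ^ k) (d * z ^ i) (d * z ^ (i + k)) := by
  induction k with
  | zero =>
    intro i
    rw [pow_zero, add_zero]
    exact SemiconjBy.one_left _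
  | succ k ih =>
    intro i
    rw [pow_succ]
    have := (ih (i + 1)).mul_left (C.semUi i)
    rwa [show i + 1 + k = i + (k + 1) by ring] at this

theorem comm_eq (C : Ctx p X z d u) {x y : AAut V} (hx : x ∈ X) (hy : y ∈ X) :
    ∃ m : ℕ, x * y * x⁻¹ * y⁻¹ = z ^ m := by
  have hmem : x * y * x⁻¹ * y⁻¹ ∈ X :=
    X.mul_mem (X.mul_mem (X.mul_mem hx hy) (X.inv_mem hx)) (X.inv_mem hy)
  have := C.hcen _ hmem (fun t ht => C.hcl x hx y hy t ht)
  exact ext_exists_pow (Fact.out : p.Prime).pos C.zp this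

theorem sem_of_comm (C : Ctx p X z d u) {x y : AAut V} (hy : y ∈ X) {m : ℕ}
    (h : x * y * x⁻¹ * y⁻¹ = z ^ m) : SemiconjBy x y (y * z ^ m) := by
  show x * y = y * z ^ m * x
  have e : x * y = z ^ m * y * x := by
    rw [← h]
    group
  rw [e, ((C.cz hy).pow_left m).eq]

theorem shiftU (C : Ctx p X z d u) {i : ℕ} {v : V} (hv : (d * z ^ i) • v = v) :
    (d * z ^ (i + 1)) • (u • v) = u • v :=
  ext_semiconj_fix (C.semUi i) hv

theorem shiftUinv (C : Ctx p X z d u) {i : ℕ} {v : V} (hv : (d * z ^ (i + 1)) • v = v) :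
    (d * z ^ i) • (u⁻¹ • v) = u⁻¹ • v :=
  ext_semiconj_fix (C.semUi i).inv_symm_left hv

theorem shiftX (C : Ctx p X z d u) {x : AAut V} (hx : x ∈ X) {m : ℕ}
    (h : SemiconjBy x d (d * z ^ m)) {i : ℕ} {v : V} (hv : (d * z ^ i) • v = v) :
    (d * z ^ (m + i)) • (x • v) = x • v := by
  have h1 : SemiconjBy x (z ^ i) (z ^ i) := ((C.cz hx).pow_left i).symm
  have := h.mul_right h1
  rw [mul_assoc, ← pow_add] at this
  exact ext_semiconj_fix this hv

theorem exists_fix (C : Ctx p X z d u) [Finite V] [Nontrivial V]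
    (hV : (Nat.card V).Coprime p) : ∃ w : V, w ≠ 0 ∧ d • w = w := by
  obtain ⟨π, h1, -, -, h4⟩ :=
    cyclic_decomp p hV d z (C.hexp d C.hd) C.zp ((C.cz C.hd).symm.eq) C.hfpf
  obtain ⟨v, hv⟩ := exists_ne (0 : V)
  have hex : ∃ i ∈ Finset.range p, π i v ≠ 0 := by
    by_contra hno
    push Not at hno
    exact hv (by rw [← h4 v]; exact Finset.sum_eq_zero hno)
  obtain ⟨i, -, hi⟩ := hex
  have key : ∀ i : ℕ, ∀ y : V, (d * z ^ i) • y = y → y ≠ 0 → ∃ w : V, w ≠ 0 ∧ d • w = w := by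
    intro i
    induction i with
    | zero =>
      intro y hy hy0
      exact ⟨y, hy0, by simpa using hy⟩
    | succ i ih =>
      intro y hy hy0
      exact ih (u⁻¹ • y) (C.shiftUinv hy) ((smul_ne_zero_iff_ne _).2 hy0)
  exact key i (π i v) (h1 i v) hi

/-- an element of `C_X(d)` which is central modulo the kernel of the action on `Fix(d)` is of the
form `z ^ i * d ^ (-j)` -/
theorem lemC (C : Ctx p X z d u) [Finite V] [Nontrivial V] (hV : (Nat.card V).Coprime p)
    {x : AAut V} (hx : x ∈ X) (hxd : Commute x d)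
    (hxc : ∀ y ∈ X, Commute y d → ∀ w : V, d • w = w → (x * y) • w = (y * x) • w) :
    ∃ i j : ℕ, x * d ^ j = z ^ i := by
  have hp : p.Prime := Fact.out
  obtain ⟨w1, hw1, hdw1⟩ := C.exists_fix hV
  have hi : ∀ y ∈ X, Commute y d → Commute x y := by
    intro y hy hyd
    obtain ⟨n, hn⟩ := C.comm_eq hx hy
    have hfix : (x * y * x⁻¹ * y⁻¹) • w1 = w1 := by
      have hw' : d • ((x⁻¹ * y⁻¹) • w1) = (x⁻¹ * y⁻¹) • w1 :=
        ext_semiconj_fix (show SemiconjBy (x⁻¹ * y⁻¹) d d from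
          (hxd.inv_left.mul_left hyd.inv_left)) hdw1
      have h2 := hxc y hy hyd _ hw'
      rw [← mul_smul, ← mul_smul] at h2
      rw [show x * y * x⁻¹ * y⁻¹ = x * y * (x⁻¹ * y⁻¹) by group, h2,
        show y * x * (x⁻¹ * y⁻¹) = 1 by group, one_smul]
    have h1 : x * y * x⁻¹ * y⁻¹ = 1 :=
      ext_eq_one_of_fix C.zp C.hfpf (hn ▸ Subgroup.pow_mem _ (Subgroup.mem_zpowers z) n) hw1 hfix
    show x * y = y * x
    have e : x * y = (x * y * x⁻¹ * y⁻¹) * (y * x) := by group
    rw [e, h1, one_mul]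
  obtain ⟨m, hm⟩ := C.comm_eq C.hu hx
  have hux : SemiconjBy u x (x * z ^ m) := C.sem_of_comm hx hm
  have hpm : m + (p - 1) * m = p * m := by
    have : p - 1 + 1 = p := Nat.sub_add_cancel hp.pos
    nlinarith
  -- `t0 = x * d ^ j` commutes with `u`
  have hut0 : Commute u (x * d ^ ((p - 1) * m)) := by
    have h1 := hux.mul_right (C.semU.pow_right ((p - 1) * m))
    have e : x * z ^ m * (d * z) ^ ((p - 1) * m) = x * d ^ ((p - 1) * m) := by
      rw [(C.cz C.hd).symm.mul_pow, mul_assoc x, ← mul_assoc (z ^ m),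
        ((C.cz (X.pow_mem C.hd _)).pow_left m).eq, mul_assoc (d ^ _), ← pow_add, hpm, pow_mul z,
        C.zp, one_pow, mul_one]
    rw [e] at h1
    exact h1
  have ht0X : x * d ^ ((p - 1) * m) ∈ X := X.mul_mem hx (X.pow_mem C.hd _)
  have hcent : ∀ t ∈ X, x * d ^ ((p - 1) * m) * t = t * (x * d ^ ((p - 1) * m)) := by
    intro t ht
    obtain ⟨n, hn⟩ := C.comm_eq ht C.hd
    have htd : SemiconjBy t d (d * z ^ n) := C.sem_of_comm C.hd hn
    have hyd : Commute (u ^ ((p - 1) * n) * t) d := by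
      have h1 := (C.semUk ((p - 1) * n) n).mul_left htd
      have hpn : n + (p - 1) * n = p * n := by
        have : p - 1 + 1 = p := Nat.sub_add_cancel hp.pos
        nlinarith
      rw [hpn, pow_mul z, C.zp, one_pow, mul_one] at h1
      exact h1
    have hyX : u ^ ((p - 1) * n) * t ∈ X := X.mul_mem (X.pow_mem C.hu _) ht
    have c1 : Commute (x * d ^ ((p - 1) * m)) (u ^ ((p - 1) * n) * t) :=
      (hi _ hyX hyd).mul_left ((hyd.pow_right _).symm)
    have c2 : Commute (x * d ^ ((p - 1) * m)) (u ^ ((p - 1) * n)) :=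
      (hut0.pow_left _).symm
    have c3 := c2.inv_right.mul_right c1
    rw [inv_mul_cancel_left] at c3
    exact c3
  have := C.hcen _ ht0X hcent
  obtain ⟨i, hi'⟩ := ext_exists_pow hp.pos C.zp this
  exact ⟨i, (p - 1) * m, hi'⟩

/-- the induction step in the normalised situation -/
theorem regular (C : Ctx p X z d u) (hp3 : 3 ≤ p) [Finite V] [Nontrivial V]
    (hV : (Nat.card V).Coprime p) (IH : RegStmt p ↥(fixOne d)) :
    ∃ v : V, ∀ x ∈ X, x • v = v → x = 1 := by
  have hp : p.Prime := Fact.out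
  obtain ⟨w1, hw1, hdw1⟩ := C.exists_fix hV
  have hzd : Commute z d := C.cz C.hd
  have hst : ∀ x : AAut V, Commute x d → x • fixOne d = fixOne d := fun x h => smul_fixOne h
  -- the induction hypothesis for `Fix(d)`
  have key := IH (resMap (fixOne d) (centOne X d))
    (by
      intro x' hx'
      obtain ⟨k, hk, hkX, rfl⟩ := mem_resMap.1 hx'
      rw [← map_pow]
      have : (⟨k, hk⟩ : MulAction.stabilizer (AAut V) (fixOne d)) ^ p = 1 :=
        Subtype.ext (C.hexp k hkX.1)
      rw [this, map_one])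
    (by
      intro x' hx' y' hy' t' ht'
      obtain ⟨k1, hk1, hk1X, rfl⟩ := mem_resMap.1 hx'
      obtain ⟨k2, hk2, hk2X, rfl⟩ := mem_resMap.1 hy'
      obtain ⟨k3, hk3, hk3X, rfl⟩ := mem_resMap.1 ht'
      simp only [← map_mul, ← map_inv]
      congr 1
      exact Subtype.ext (C.hcl k1 hk1X.1 k2 hk2X.1 k3 hk3X.1))
    (res (fixOne d) ⟨z, hst z hzd⟩)
    (res_mem_resMap (hst z hzd) ⟨C.hz, hzd⟩)
    (by
      intro x' hx'
      obtain ⟨k, hk, hkX, rfl⟩ := mem_resMap.1 hx'
      rw [← map_mul, ← map_mul]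
      congr 1
      exact Subtype.ext (C.hzc k hkX.1))
    (by
      intro x' hx' hcomm
      obtain ⟨x, hxs, hxX0, rfl⟩ := mem_resMap.1 hx'
      have hxc : ∀ y ∈ X, Commute y d → ∀ w : V, d • w = w → (x * y) • w = (y * x) • w := by
        intro y hy hyd w hw
        have h1 := hcomm (res (fixOne d) ⟨y, hst y hyd⟩) (res_mem_resMap (hst y hyd) ⟨hy, hyd⟩)
        have h2 := congrArg
          (fun f : AAut (fixOne d) => ((f • (⟨w, hw⟩ : fixOne d) : fixOne d) : V)) h1
        simpa [mul_smul] using h2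
      obtain ⟨i, j, hij⟩ := C.lemC hV hxX0.1 hxX0.2 hxc
      have e : res (fixOne d) ⟨x, hxs⟩ = res (fixOne d) ⟨z, hst z hzd⟩ ^ i := by
        apply FaithfulSMul.eq_of_smul_eq_smul (α := fixOne d)
        intro w
        apply Subtype.ext
        rw [res_smul, ← map_pow, res_smul]
        show x • (w : V) = z ^ i • (w : V)
        rw [← hij, mul_smul, ext_pow_smul_fix (show d • (w : V) = w from w.2) j]
      rw [e]
      exact Subgroup.pow_mem _ (Subgroup.mem_zpowers _) i)
    (by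
      intro w hw
      have h1 : z • (w : V) = w := by
        have := congrArg Subtype.val hw
        simpa using this
      exact Subtype.ext (C.hfpf _ h1))
  obtain ⟨w0', hw0'⟩ := key
  have hdw0 : d • (w0' : V) = w0' := w0'.2
  have hR : ∀ x ∈ X, Commute x d → x • (w0' : V) = w0' → ∀ w : V, d • w = w → x • w = w := by
    intro x hx hxd hfix w hw
    have h1 := hw0' _ (res_mem_resMap (hst x hxd) ⟨hx, hxd⟩) (Subtype.ext (by rw [res_smul]; exact hfix))
    rw [res_eq_one_iff] at h1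
    exact h1 w hw
  have hw0ne : (w0' : V) ≠ 0 := by
    intro h0
    have h1 := hw0' _ (res_mem_resMap (hst z hzd) ⟨C.hz, hzd⟩)
      (Subtype.ext (by rw [res_smul, h0]; exact smul_zero _))
    rw [res_eq_one_iff] at h1
    exact hw1 (C.hfpf w1 (h1 w1 hdw1))
  obtain ⟨w0, hw0⟩ : ∃ w0 : V, w0 = (w0' : V) := ⟨_, rfl⟩
  rw [← hw0] at hdw0 hR hw0ne
  obtain ⟨π, h1, h2, h3, h4⟩ :=
    cyclic_decomp p hV d z (C.hexp d C.hd) C.zp ((C.cz C.hd).symm.eq) C.hfpf
  have hp0 : 0 < p := hp.pos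
  have hp1 : 1 < p := hp.one_lt
  have hp2 : 2 < p := by omega
  have f0 : (d * z ^ 0) • w0 = w0 := by simpa using hdw0
  have f1 : (d * z ^ 1) • (u • w0) = u • w0 := C.shiftU f0
  have huw0 : u • w0 ≠ 0 := (smul_ne_zero_iff_ne _).2 hw0ne
  refine ⟨w0 + u • w0, ?_⟩
  intro x hx hxv
  rw [smul_add] at hxv
  obtain ⟨m0, hm0⟩ := C.comm_eq hx C.hd
  have hm : SemiconjBy x d (d * z ^ (m0 % p)) := by
    rw [← pow_eq_pow_mod m0 C.zp]
    exact C.sem_of_comm C.hd hm0
  have hmlt : m0 % p < p := Nat.mod_lt _ hp0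
  obtain ⟨m, hmdef⟩ : ∃ m, m = m0 % p := ⟨_, rfl⟩
  rw [← hmdef] at hm hmlt
  have g0 : (d * z ^ (m + 0)) • (x • w0) = x • w0 := C.shiftX hx hm f0
  have g1 : (d * z ^ (m + 1)) • (x • u • w0) = x • u • w0 := C.shiftX hx hm f1
  have hxw0 : x • w0 ≠ 0 := (smul_ne_zero_iff_ne _).2 hw0ne
  have hxuw0 : x • u • w0 ≠ 0 := (smul_ne_zero_iff_ne _).2 huw0
  have hm0' : m = 0 := by
    by_contra hmne
    have e1 : π m (x • w0 + x • u • w0) = x • w0 := by
      rw [map_add, h2 m _ (by simpa using g0)]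
      have g1' : (d * z ^ ((m + 1) % p)) • (x • u • w0) = x • u • w0 := by
        rw [← pow_eq_pow_mod (m + 1) C.zp]
        exact g1
      have hne : m ≠ (m + 1) % p := by
        by_cases h : m + 1 < p
        · rw [Nat.mod_eq_of_lt h]
          omega
        · have : m + 1 = p := by omega
          rw [this, Nat.mod_self]
          exact hmne
      rw [h3 m ((m + 1) % p) hmlt (Nat.mod_lt _ hp0) hne _ g1', add_zero]
    rw [hxv, map_add] at e1
    by_cases hm1 : m = 1
    · subst hm1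
      have e2 : π 2 (x • w0 + x • u • w0) = x • u • w0 := by
        rw [map_add, h3 2 1 hp2 hp1 (by norm_num) _ (by simpa using g0), h2 2 _ g1, zero_add]
      rw [hxv, map_add, h3 2 0 hp2 hp0 (by norm_num) _ f0, h3 2 1 hp2 hp1 (by norm_num) _ f1,
        add_zero] at e2
      exact hxuw0 e2.symm
    · rw [h3 m 0 hmlt hp0 hmne _ f0, h3 m 1 hmlt hp1 hm1 _ f1, add_zero] at e1
      exact hxw0 e1.symm
  subst hm0'
  have hxd : Commute x d := by
    have := hm
    rw [pow_zero, mul_one] at this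
    exact this
  have hx0 : x • w0 = w0 := by
    have e1 : π 0 (x • w0 + x • u • w0) = x • w0 := by
      rw [map_add, h2 0 _ (by simpa using g0), h3 0 1 hp0 hp1 (by norm_num) _ g1, add_zero]
    rw [hxv, map_add, h2 0 _ f0, h3 0 1 hp0 hp1 (by norm_num) _ f1, add_zero] at e1
    exact e1.symm
  have hx1 : x • u • w0 = u • w0 := by
    have e1 : π 1 (x • w0 + x • u • w0) = x • u • w0 := by
      rw [map_add, h3 1 0 hp1 hp0 (by norm_num) _ (by simpa using g0), h2 1 _ g1, zero_add]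
    rw [hxv, map_add, h3 1 0 hp1 hp0 (by norm_num) _ f0, h2 1 _ f1, zero_add] at e1
    exact e1.symm
  have hxV0 : ∀ w : V, d • w = w → x • w = w := hR x hx hxd hx0
  -- `x` is trivial on `Fix(d z)` as well (not needed below in this generality, only at `u • w0`)
  have hxc : ∀ y ∈ X, Commute y d → ∀ w : V, d • w = w → (x * y) • w = (y * x) • w := by
    intro y hy hyd w hw
    rw [mul_smul, mul_smul, hxV0 w hw,
      hxV0 (y • w) (ext_semiconj_fix (show SemiconjBy y d d from hyd) hw)]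
  obtain ⟨i, j, hij⟩ := C.lemC hV hx hxd hxc
  have hzi : z ^ i = 1 :=
    ext_eq_one_of_fix C.zp C.hfpf (Subgroup.pow_mem _ (Subgroup.mem_zpowers z) i) hw0ne
      (by rw [← hij, mul_smul, ext_pow_smul_fix hdw0 j, hx0])
  rw [hzi] at hij
  have hdj : d ^ j • (u • w0) = u • w0 := by
    have h5 : (x * d ^ j) • (u • w0) = u • w0 := by rw [hij, one_smul]
    rw [mul_smul] at h5
    have hx1' : x⁻¹ • (u • w0) = u • w0 := by rw [inv_smul_eq_iff, hx1]
    calc d ^ j • (u • w0) = x⁻¹ • (x • (d ^ j • (u • w0))) := (inv_smul_smul _ _).symm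
      _ = x⁻¹ • (u • w0) := by rw [h5]
      _ = u • w0 := hx1'
  have hzj : z ^ j • (u • w0) = u • w0 := by
    have h5 := ext_pow_smul_fix f1 j
    rw [pow_one, (C.cz C.hd).symm.mul_pow, mul_smul] at h5
    have hc : Commute (d ^ j) (z ^ j) := (C.cz C.hd).symm.pow_pow j j
    rw [← mul_smul, hc.eq, mul_smul, hdj] at h5
    exact h5
  have hzj1 : z ^ j = 1 :=
    ext_eq_one_of_fix C.zp C.hfpf (Subgroup.pow_mem _ (Subgroup.mem_zpowers z) j) huw0 hzj
  have hz1 : z ≠ 1 := by
    rintro rfl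
    exact hw1 (C.hfpf w1 (one_smul _ _))
  have hord : orderOf z = p := orderOf_eq_prime C.zp hz1
  have hpj : p ∣ j := hord ▸ orderOf_dvd_of_pow_eq_one hzj1
  obtain ⟨q, rfl⟩ := hpj
  rw [pow_mul, C.hexp d C.hd, one_pow, mul_one] at hij
  exact hij

end Ctx

end Gen

/-- Piece EXT of S4330: a regular vector for an exponent-`p` class-2 group with cyclic
fixed-point-free centre (`p` odd). -/
theorem exists_regular_vector (p : ℕ) [Fact p.Prime] (hp : p ≠ 2) {V : Type u} [AddCommGroup V]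
    [Finite V] [Nontrivial V] (hV : (Nat.card V).Coprime p) (X : Subgroup (AAut V))
    (hexp : ∀ x ∈ X, x ^ p = 1)
    (hcl : ∀ x ∈ X, ∀ y ∈ X, ∀ t ∈ X, (x * y * x⁻¹ * y⁻¹) * t = t * (x * y * x⁻¹ * y⁻¹))
    (z : AAut V) (hz : z ∈ X) (hzc : ∀ x ∈ X, z * x = x * z)
    (hcen : ∀ x ∈ X, (∀ y ∈ X, x * y = y * x) → x ∈ Subgroup.zpowers z)
    (hfpf : ∀ v : V, z • v = v → v = 0) :
    ∃ v : V, ∀ x ∈ X, x • v = v → x = 1 := by
  have hpp : p.Prime := Fact.out
  have hp3 : 3 ≤ p := by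
    have := hpp.two_le
    omega
  have main : ∀ n : ℕ, ∀ (V : Type u) [AddCommGroup V] [Finite V] [Nontrivial V],
      Nat.card V = n → (Nat.card V).Coprime p → RegStmt p V := by
    intro n
    induction n using Nat.strong_induction_on with
    | _ n ih =>
      intro V _ _ _ hn hV X hexp hcl z hz hzc hcen hfpf
      have hzp : z ^ p = 1 := hexp z hz
      obtain ⟨v0, hv0⟩ := exists_ne (0 : V)
      by_cases hX : X ≤ Subgroup.zpowers z
      · exact ⟨v0, fun x hx hxv => ext_eq_one_of_fix hzp hfpf (hX hx) hv0 hxv⟩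
      obtain ⟨d, hdX, hdz⟩ := SetLike.not_le_iff_exists.1 hX
      have hnc : ¬ ∀ y ∈ X, d * y = y * d := fun h => hdz (hcen d hdX h)
      push Not at hnc
      obtain ⟨g, hgX, hg⟩ := hnc
      obtain ⟨c, hc⟩ : ∃ c, c = d * g * d⁻¹ * g⁻¹ := ⟨_, rfl⟩
      have hcX : c ∈ X := by
        rw [hc]
        exact X.mul_mem (X.mul_mem (X.mul_mem hdX hgX) (X.inv_mem hdX)) (X.inv_mem hgX)
      have hc1 : c ≠ 1 := by
        intro h
        apply hg
        have e : d * g = c * (g * d) := by rw [hc]; group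
        rw [e, h, one_mul]
      have hccen : ∀ t ∈ X, c * t = t * c := by
        intro t ht
        rw [hc]
        exact hcl d hdX g hgX t ht
      have hcz : c ∈ Subgroup.zpowers z := hcen c hcX hccen
      obtain ⟨n', hn'⟩ := ext_exists_pow hpp.pos hzp hcz
      have hz1 : z ≠ 1 := by
        rintro rfl
        rw [one_pow] at hn'
        exact hc1 hn'
      have hord : orderOf z = p := orderOf_eq_prime hzp hz1
      have hnd : ¬ p ∣ n' := by
        rintro ⟨k, rfl⟩
        rw [pow_mul, hzp, one_pow] at hn'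
        exact hc1 hn'
      have hcop : n'.Coprime (orderOf z) := by
        rw [hord]
        exact Nat.Coprime.symm ((Nat.Prime.coprime_iff_not_dvd hpp).2 hnd)
      obtain ⟨k, hk⟩ := exists_pow_eq_self_of_coprime hcop
      rw [← hn'] at hk
      have C : Ctx p X c d g⁻¹ :=
        { hexp := hexp
          hcl := hcl
          hz := hcX
          hzc := hccen
          hcen := by
            intro x hx h
            obtain ⟨i, rfl⟩ := ext_exists_pow hpp.pos hzp (hcen x hx h)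
            rw [← hk, ← pow_mul]
            exact Subgroup.pow_mem _ (Subgroup.mem_zpowers c) _
          hfpf := by
            intro v hv
            apply hfpf v
            rw [← hk]
            exact ext_pow_smul_fix hv k
          hd := hdX
          hu := X.inv_mem hgX
          hud := by
            calc g⁻¹ * d * g⁻¹⁻¹ = g⁻¹ * (c * (g * d)) := by rw [hc]; group
              _ = (g⁻¹ * c) * (g * d) := by rw [mul_assoc]
              _ = (c * g⁻¹) * (g * d) := by rw [hccen g⁻¹ (X.inv_mem hgX)]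
              _ = c * d := by group
              _ = d * c := hccen d hdX }
      have hd1 : d ≠ 1 := fun h => hdz (h ▸ Subgroup.one_mem _)
      obtain ⟨w1, hw1, hdw1⟩ := C.exists_fix hV
      have : Nontrivial ↥(fixOne d) :=
        ⟨⟨⟨w1, hdw1⟩, 0, fun h => hw1 (congrArg Subtype.val h)⟩⟩
      have hlt : Nat.card ↥(fixOne d) < Nat.card V := by
        have hne : fixOne d ≠ ⊤ := by
          intro h
          exact hd1 (ext_eq_one_of_forall_smul
            (fun v => (h ▸ AddSubgroup.mem_top v : v ∈ fixOne d)))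
        have h1 := AddSubgroup.card_le_card_addGroup (fixOne d)
        have h2 : Nat.card ↥(fixOne d) ≠ Nat.card V :=
          fun h => hne ((AddSubgroup.card_eq_iff_eq_top _).1 h)
        omega
      have hcop' : (Nat.card ↥(fixOne d)).Coprime p :=
        Nat.Coprime.coprime_dvd_left (AddSubgroup.card_addSubgroup_dvd_card _) hV
      exact C.regular hp3 hV (ih _ (hn ▸ hlt) ↥(fixOne d) rfl hcop')
  exact main _ V rfl hV X hexp hcl z hz hzc hcen hfpf

end Cfsg.Agent.Lib.Helper18.Fum
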