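import Mathlib
import Cfsg.Prelude.Def_ClassicalGeometry
import Cfsg.Prelude.Def_LieClassical
import Cfsg.Agent.Lib.Helper7.GUOrder
import Cfsg.Agent.Lib.Helper7.SUOrder
import Cfsg.Agent.Lib.Helper7.SUCenter
import Cfsg.Agent.Lib.Helper18.Unitary
import Cfsg.Agent.Lib.Helper18.UnitaryWitt

/-!
# Unitary transvections as group elements (helper18)

`F` a field with `q^2` elements, `h = Cfsg.hermForm n F q`.

* `qrefl`: quasi-reflections `x ↦ x + (lam - 1) h(x,w) w` (determinant `lam`).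
* `exists_SU_map_iso`: `SU_n(q)`, `n ≥ 3`, is transitive on nonzero isotropic vectors.
* `conj_transvection`: conjugating a transvection by an isometry.
* `su_rank_one`: an isometry `M` of determinant one with `M - 1` of rank one is a
  unitary transvection `t_{v,c}` with `v ≠ 0` isotropic, `c ≠ 0`, `c + c^q = 0`.
* `transvection_sub_one_rank`: the converse rank computation.
-/

set_option autoImplicit false
set_option linter.unusedSectionVars false
set_option linter.unusedVariables false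

namespace Cfsg.Agent.Lib.Helper18

open Matrix Cfsg.Agent.Lib.Helper7

section
variable {F : Type*} [Field F] [Fintype F] {q : ℕ}

theorem det_one_add_vecMulVec' (n : ℕ) (u φ : Fin n → F) :
    (1 + Matrix.vecMulVec u φ).det = 1 + φ ⬝ᵥ u := by
  rw [Matrix.vecMulVec_eq Unit, Matrix.det_one_add_replicateCol_mul_replicateRow]

theorem vecMulVec_mulVec' (n : ℕ) (u φ x : Fin n → F) :
    Matrix.vecMulVec u φ *ᵥ x = (φ ⬝ᵥ x) • u := by
  ext i
  simp only [Matrix.mulVec, dotProduct, Matrix.vecMulVec_apply, Pi.smul_apply, smul_eq_mul,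
    Finset.sum_mul]
  refine Finset.sum_congr rfl fun j _ => ?_
  ring

/-- quasi-reflection `x ↦ x + (lam - 1) h(x,w) w` -/
def qrefl (q n : ℕ) (w : Fin n → F) (lam : F) : Matrix (Fin n) (Fin n) F :=
  1 + (lam - 1) • hrk q n w w

theorem qrefl_mulVec (n : ℕ) (w : Fin n → F) (lam : F) (x : Fin n → F) :
    qrefl q n w lam *ᵥ x = x + ((lam - 1) * Cfsg.hermForm n F q x w) • w := by
  unfold qrefl
  rw [Matrix.add_mulVec, Matrix.one_mulVec, Matrix.smul_mulVec, hrk_mulVec, smul_smul]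

theorem qrefl_preserves (hF : Fintype.card F = q ^ 2) (n : ℕ) (w : Fin n → F) (lam : F)
    (hww : Cfsg.hermForm n F q w w = 1) (hlam : lam ^ (q + 1) = 1) (x y : Fin n → F) :
    Cfsg.hermForm n F q (qrefl q n w lam *ᵥ x) (qrefl q n w lam *ᵥ y) =
      Cfsg.hermForm n F q x y := by
  rw [qrefl_mulVec, qrefl_mulVec]
  simp only [hf_add_left, hf_add_right hF, hf_smul_left, hf_smul_right, hww, mul_one]
  rw [hf_conj hF n y w, mul_pow, herm_sub_pow hF, one_pow]
  linear_combination (Cfsg.hermForm n F q x w * Cfsg.hermForm n F q y w ^ q) * hlam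

theorem qrefl_det (n : ℕ) (w : Fin n → F) (lam : F)
    (hww : Cfsg.hermForm n F q w w = 1) : (qrefl q n w lam).det = lam := by
  have h1 : qrefl q n w lam = 1 + Matrix.vecMulVec ((lam - 1) • w) (fun j => w j ^ q) := by
    unfold qrefl hrk
    rw [Matrix.smul_vecMulVec]
  rw [h1, det_one_add_vecMulVec']
  have h2 : (fun j => w j ^ q) ⬝ᵥ ((lam - 1) • w) = (lam - 1) * Cfsg.hermForm n F q w w := by
    simp only [dotProduct, Cfsg.hermForm, Pi.smul_apply, smul_eq_mul, Finset.mul_sum]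
    refine Finset.sum_congr rfl fun j _ => ?_
    ring
  rw [h2, hww]
  ring

/-- conjugating a unitary transvection by an isometry -/
theorem conj_transvection {n : ℕ} (M : Matrix (Fin n) (Fin n) F)
    (hpres : ∀ x y, Cfsg.hermForm n F q (M *ᵥ x) (M *ᵥ y) = Cfsg.hermForm n F q x y)
    (v : Fin n → F) (c : F) :
    M * Cfsg.unitaryTransvection n q v c = Cfsg.unitaryTransvection n q (M *ᵥ v) c * M := by
  apply Matrix.mulVec_injective
  funext x
  rw [← Matrix.mulVec_mulVec, ← Matrix.mulVec_mulVec, unitaryTransvection_mulVec,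
    unitaryTransvection_mulVec, hpres, Matrix.mulVec_add, Matrix.mulVec_smul]

theorem herm_nondeg (hF : Fintype.card F = q ^ 2) {n : ℕ} (u : Fin n → F)
    (h : ∀ x, Cfsg.hermForm n F q x u = 0) : u = 0 := by
  classical
  funext i
  have h1 := h (Pi.single i 1)
  rw [hf_single_left] at h1
  exact pow_eq_zero_iff (herm_q_ne_zero hF) |>.mp h1

theorem exists_herm_ne_zero (hF : Fintype.card F = q ^ 2) {n : ℕ} (u : Fin n → F) (hu : u ≠ 0) :
    ∃ x, Cfsg.hermForm n F q x u ≠ 0 := by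
  by_contra hcon
  push Not at hcon
  exact hu (herm_nondeg hF u hcon)

theorem exists_vecMulVec_of_rank_one {n : ℕ} (M : Matrix (Fin n) (Fin n) F) (h : M.rank = 1) :
    ∃ u φ : Fin n → F, M = Matrix.vecMulVec u φ := by
  classical
  have h1 : Module.finrank F (LinearMap.range M.mulVecLin) = 1 := h
  obtain ⟨⟨u, hu⟩, hu0, hspan⟩ := finrank_eq_one_iff'.mp h1
  choose φ hφ using fun j : Fin n =>
    hspan ⟨M *ᵥ Pi.single j 1, ⟨Pi.single j 1, rfl⟩⟩
  refine ⟨u, φ, ?_⟩
  ext i j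
  have h2 := congrFun (congrArg Subtype.val (hφ j)) i
  simp only [Matrix.mulVec_single_one] at h2
  rw [Matrix.vecMulVec_apply]
  have h3 : φ j * u i = M i j := h2
  rw [← h3]
  ring

theorem rank_pos_of_ne_zero {n : ℕ} (M : Matrix (Fin n) (Fin n) F) (hM : M ≠ 0) :
    0 < M.rank := by
  by_contra h0
  have h1 : Module.finrank F (LinearMap.range M.mulVecLin) = 0 := by
    have : M.rank = 0 := by omega
    exact this
  have h2 : LinearMap.range M.mulVecLin = ⊥ := Submodule.finrank_eq_zero.mp h1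
  apply hM
  apply Matrix.mulVec_injective
  funext x
  have h3 : M *ᵥ x ∈ LinearMap.range M.mulVecLin := ⟨x, rfl⟩
  rw [h2, Submodule.mem_bot] at h3
  rw [h3, Matrix.zero_mulVec]

theorem transvection_sub_one_rank (hF : Fintype.card F = q ^ 2) {n : ℕ} (v : Fin n → F) (c : F)
    (hv : v ≠ 0) (hc : c ≠ 0) : (Cfsg.unitaryTransvection n q v c - 1).rank = 1 := by
  have h1 : Cfsg.unitaryTransvection n q v c - 1 =
      Matrix.vecMulVec (c • v) (fun j => v j ^ q) := by
    unfold Cfsg.unitaryTransvection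
    rw [Matrix.smul_vecMulVec]
    abel
  rw [h1]
  have hle := Matrix.rank_vecMulVec_le (c • v) (fun j => v j ^ q)
  have hne : Matrix.vecMulVec (c • v) (fun j => v j ^ q) ≠ 0 := by
    obtain ⟨i, hi⟩ : ∃ i, v i ≠ 0 := by
      by_contra hcon
      push Not at hcon
      exact hv (funext hcon)
    intro h0
    have h2 := congrFun (congrFun h0 i) i
    rw [Matrix.vecMulVec_apply] at h2
    simp only [Pi.smul_apply, smul_eq_mul, Matrix.zero_apply] at h2
    have h3 : c * v i * v i ^ q ≠ 0 := mul_ne_zero (mul_ne_zero hc hi) (pow_ne_zero _ hi)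
    exact h3 h2
  have hpos := rank_pos_of_ne_zero _ hne
  omega

/-- an isometry of determinant one differing from the identity by a rank one matrix is a
unitary transvection -/
theorem su_rank_one (hF : Fintype.card F = q ^ 2) {n : ℕ} (M : Matrix (Fin n) (Fin n) F)
    (hdet : M.det = 1)
    (hpres : ∀ x y, Cfsg.hermForm n F q (M *ᵥ x) (M *ᵥ y) = Cfsg.hermForm n F q x y)
    (hrk1 : (M - 1).rank = 1) :
    ∃ (v : Fin n → F) (c : F), v ≠ 0 ∧ c ≠ 0 ∧ Cfsg.hermForm n F q v v = 0 ∧ c + c ^ q = 0 ∧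
      M = Cfsg.unitaryTransvection n q v c := by
  classical
  have hq0 := herm_q_ne_zero hF
  obtain ⟨u, φ, hM⟩ := exists_vecMulVec_of_rank_one (M - 1) hrk1
  have hM' : M = 1 + Matrix.vecMulVec u φ := by rw [← hM]; abel
  have hne : Matrix.vecMulVec u φ ≠ 0 := by
    intro h0
    rw [hM, h0, Matrix.rank_zero] at hrk1
    exact zero_ne_one hrk1
  have hu : u ≠ 0 := by
    rintro rfl
    exact hne (Matrix.zero_vecMulVec _)
  have hφ : φ ≠ 0 := by
    rintro rfl
    exact hne (Matrix.vecMulVec_zero _)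
  have hmv : ∀ x, M *ᵥ x = x + (φ ⬝ᵥ x) • u := by
    intro x
    rw [hM', Matrix.add_mulVec, Matrix.one_mulVec, vecMulVec_mulVec']
  -- the basic identity
  have key : ∀ x y, (φ ⬝ᵥ x) * Cfsg.hermForm n F q u y +
      (φ ⬝ᵥ y) ^ q * Cfsg.hermForm n F q x u +
      (φ ⬝ᵥ x) * (φ ⬝ᵥ y) ^ q * Cfsg.hermForm n F q u u = 0 := by
    intro x y
    have h1 := hpres x y
    rw [hmv, hmv] at h1
    simp only [hf_add_left, hf_add_right hF, hf_smul_left, hf_smul_right] at h1
    linear_combination h1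
  obtain ⟨j, hj⟩ : ∃ j, φ j ≠ 0 := by
    by_contra hcon
    push Not at hcon
    exact hφ (funext hcon)
  obtain ⟨p0, hp0⟩ : ∃ p0 : F, p0 = φ ⬝ᵥ Pi.single j 1 := ⟨_, rfl⟩
  have hp0ne : p0 ≠ 0 := by
    rw [hp0, dotProduct_single_one]
    exact hj
  obtain ⟨β, hβ⟩ : ∃ β : F, β = Cfsg.hermForm n F q u (Pi.single j 1) +
      p0 ^ q * Cfsg.hermForm n F q u u := ⟨_, rfl⟩
  have key0 : ∀ x, (φ ⬝ᵥ x) * β = -(p0 ^ q) * Cfsg.hermForm n F q x u := by
    intro x
    have h1 := key x (Pi.single j 1)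
    rw [← hp0] at h1
    rw [hβ]
    linear_combination h1
  have hβne : β ≠ 0 := by
    intro h0
    apply hu
    apply herm_nondeg hF
    intro x
    have h1 := key0 x
    rw [h0, mul_zero] at h1
    have h2 : p0 ^ q ≠ 0 := pow_ne_zero _ hp0ne
    have h3 : -(p0 ^ q) ≠ 0 := neg_ne_zero.mpr h2
    exact (mul_eq_zero.mp h1.symm).resolve_left h3
  obtain ⟨c, hc⟩ : ∃ c : F, c = -(p0 ^ q) / β := ⟨_, rfl⟩
  have hc0 : c ≠ 0 := by
    rw [hc]
    exact div_ne_zero (neg_ne_zero.mpr (pow_ne_zero _ hp0ne)) hβne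
  have hP : ∀ x, φ ⬝ᵥ x = c * Cfsg.hermForm n F q x u := by
    intro x
    rw [hc, div_mul_eq_mul_div, ← key0 x, mul_div_assoc, div_self hβne, mul_one]
  have huu : Cfsg.hermForm n F q u u = 0 := by
    have h1 := hdet
    rw [hM', det_one_add_vecMulVec', hP] at h1
    have h2 : c * Cfsg.hermForm n F q u u = 0 := by linear_combination h1
    exact (mul_eq_zero.mp h2).resolve_left hc0
  have hcc : c + c ^ q = 0 := by
    obtain ⟨x, hx⟩ := exists_herm_ne_zero hF u hu
    have h1 := key x x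
    rw [huu, mul_zero, add_zero, hP, mul_pow, ← hf_conj hF n x u] at h1
    have hx' : Cfsg.hermForm n F q u x ≠ 0 := fun h0 => hx (hf_eq_zero_symm hF n _ _ h0)
    have h2 : (c + c ^ q) * (Cfsg.hermForm n F q x u * Cfsg.hermForm n F q u x) = 0 := by
      linear_combination h1
    exact (mul_eq_zero.mp h2).resolve_right (mul_ne_zero hx hx')
  refine ⟨u, c, hu, hc0, huu, hcc, ?_⟩
  apply Matrix.mulVec_injective
  funext x
  rw [hmv, unitaryTransvection_mulVec, hP]

theorem transvection_preserves (hF : Fintype.card F = q ^ 2) (n : ℕ) (v : Fin n → F) (c : F)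
    (hvv : Cfsg.hermForm n F q v v = 0) (hc : c + c ^ q = 0) (x y : Fin n → F) :
    Cfsg.hermForm n F q (Cfsg.unitaryTransvection n q v c *ᵥ x)
      (Cfsg.unitaryTransvection n q v c *ᵥ y) = Cfsg.hermForm n F q x y := by
  rw [unitaryTransvection_mulVec, unitaryTransvection_mulVec]
  simp only [hf_add_left, hf_add_right hF, hf_smul_left, hf_smul_right, hvv, mul_zero, add_zero]
  rw [hf_conj hF n y v, mul_pow]
  linear_combination (Cfsg.hermForm n F q x v * Cfsg.hermForm n F q y v ^ q) * hc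

theorem transvection_eq_vecMulVec (n : ℕ) (v : Fin n → F) (c : F) :
    Cfsg.unitaryTransvection n q v c = 1 + Matrix.vecMulVec (c • v) (fun j => v j ^ q) := by
  unfold Cfsg.unitaryTransvection
  rw [Matrix.smul_vecMulVec]

theorem transvection_det (n : ℕ) (v : Fin n → F) (c : F)
    (hvv : Cfsg.hermForm n F q v v = 0) : (Cfsg.unitaryTransvection n q v c).det = 1 := by
  rw [transvection_eq_vecMulVec, det_one_add_vecMulVec']
  have h2 : (fun j => v j ^ q) ⬝ᵥ (c • v) = c * Cfsg.hermForm n F q v v := by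
    simp only [dotProduct, Cfsg.hermForm, Pi.smul_apply, smul_eq_mul, Finset.mul_sum]
    refine Finset.sum_congr rfl fun j _ => ?_
    ring
  rw [h2, hvv]
  ring

theorem transvection_sub_one_rank_le (n : ℕ) (v : Fin n → F) (c : F) :
    (Cfsg.unitaryTransvection n q v c - 1).rank ≤ 1 := by
  have h1 : Cfsg.unitaryTransvection n q v c - 1 =
      Matrix.vecMulVec (c • v) (fun j => v j ^ q) := by
    rw [transvection_eq_vecMulVec]
    abel
  rw [h1]
  exact Matrix.rank_vecMulVec_le _ _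

/-- a unit vector orthogonal to a nonzero isotropic vector, in dimension at least three -/
theorem exists_unit_perp_iso (hF : Fintype.card F = q ^ 2) {n : ℕ} (hn : 3 ≤ n) (u : Fin n → F)
    (hu : u ≠ 0) (huu : Cfsg.hermForm n F q u u = 0) :
    ∃ w : Fin n → F, Cfsg.hermForm n F q w w = 1 ∧ Cfsg.hermForm n F q u w = 0 := by
  classical
  have hli : LinearIndependent F (fun _ : Fin 1 => u) := linearIndependent_unique_iff.mpr hu
  obtain ⟨f, hxf, hff⟩ :=
    exists_herm_partner_family hF (fun _ : Fin 1 => u) hli (fun _ _ => huu)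
  have hfr : IsHypFr q n 1 (fun _ : Fin 1 => u) f := ⟨fun _ _ => huu, hff, hxf⟩
  obtain ⟨l, hl⟩ := exists_trace_one hF
  obtain ⟨ω, hω0, hω⟩ := exists_omega hF
  have hc := isFr_hyp hF l ω hl hω hfr
  obtain ⟨w, hw, hww⟩ := exists_unit_perp hF (show 1 + 1 < n by omega) _ hc
  refine ⟨w, hww, ?_⟩
  apply hf_eq_zero_symm hF
  have h1 := hyp_x l ω hω0 (fun _ : Fin 1 => u) f 0
  have e1 := hw (Fin.castAdd 1 0)
  have e2 := hw (Fin.natAdd 1 0)
  rw [Fin.append_left] at e1
  rw [Fin.append_right] at e2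
  have h2 : u = hypC1 l (fun _ : Fin 1 => u) f 0 + ω • hypC2 l ω (fun _ : Fin 1 => u) f 0 := h1
  rw [h2, hf_add_right hF, hf_smul_right, e1, e2]
  ring

/-- `SU_n(q)`, `n ≥ 3`, is transitive on nonzero isotropic vectors -/
theorem exists_SU_map_iso (hF : Fintype.card F = q ^ 2) {n : ℕ} (hn : 3 ≤ n) (u u' : Fin n → F)
    (hu : u ≠ 0) (hu' : u' ≠ 0) (huu : Cfsg.hermForm n F q u u = 0)
    (huu' : Cfsg.hermForm n F q u' u' = 0) :
    ∃ g : Cfsg.SU n F q,
      ((g : Matrix.SpecialLinearGroup (Fin n) F) : Matrix (Fin n) (Fin n) F) *ᵥ u = u' := by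
  classical
  obtain ⟨g, hg⟩ := witt_iso_GU hF (fun _ : Fin 1 => u) (fun _ : Fin 1 => u')
    (linearIndependent_unique_iff.mpr hu) (linearIndependent_unique_iff.mpr hu') (fun _ _ => huu)
    (fun _ _ => huu')
  have hg0 := hg 0
  obtain ⟨w, hww, huw⟩ := exists_unit_perp_iso hF hn u' hu' huu'
  obtain ⟨G, hG⟩ : ∃ G : Matrix (Fin n) (Fin n) F,
      G = ((g : GL (Fin n) F) : Matrix (Fin n) (Fin n) F) := ⟨_, rfl⟩
  have hGpres : ∀ x y, Cfsg.hermForm n F q (G *ᵥ x) (G *ᵥ y) = Cfsg.hermForm n F q x y := by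
    rw [hG]; exact GU_preserves g
  have hGdet : G.det ^ (q + 1) = 1 := det_pow_of_isFr hF G (isFr_of_preserves hF G hGpres)
  have hd0 : G.det ≠ 0 := by
    intro h0
    rw [h0, zero_pow (by omega)] at hGdet
    exact zero_ne_one hGdet
  obtain ⟨M, hM⟩ : ∃ M : Matrix (Fin n) (Fin n) F, M = qrefl q n w (G.det)⁻¹ * G := ⟨_, rfl⟩
  have hMdet : M.det = 1 := by
    rw [hM, Matrix.det_mul, qrefl_det n w _ hww, inv_mul_cancel₀ hd0]
  have hMpres : ∀ x y, Cfsg.hermForm n F q (M *ᵥ x) (M *ᵥ y) = Cfsg.hermForm n F q x y := by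
    intro x y
    rw [hM, ← Matrix.mulVec_mulVec, ← Matrix.mulVec_mulVec,
      qrefl_preserves hF n w _ hww (by rw [inv_pow, hGdet, inv_one]), hGpres]
  refine ⟨suMk hF M hMdet (isFr_of_preserves hF M hMpres), ?_⟩
  show M *ᵥ u = u'
  rw [hM, ← Matrix.mulVec_mulVec, hG, hg0, qrefl_mulVec, huw, mul_zero, zero_smul, add_zero]

end

/-! ### The field with four elements -/

section F4
variable {F : Type*} [Field F] [Fintype F]

theorem two_eq_zero_of_card (hF : Fintype.card F = 2 ^ 2) : (2 : F) = 0 := by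
  have : Fact (ringChar F).Prime := ⟨CharP.char_is_prime F (ringChar F)⟩
  obtain ⟨k, hp, hk⟩ := FiniteField.card F (ringChar F)
  rw [hF] at hk
  have hdvd : ringChar F ∣ 2 ^ 2 := by rw [hk]; exact dvd_pow_self _ k.ne_zero
  have h2 : ringChar F ∣ 2 := hp.dvd_of_dvd_pow hdvd
  have h3 : ringChar F = 2 := (Nat.prime_dvd_prime_iff_eq hp Nat.prime_two).mp h2
  have h4 : ((ringChar F : ℕ) : F) = 0 := CharP.cast_eq_zero F (ringChar F)
  rw [h3] at h4
  exact_mod_cast h4

theorem cube_eq_one_of_card (hF : Fintype.card F = 2 ^ 2) (k : F) (hk : k ≠ 0) : k ^ 3 = 1 := by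
  have h := FiniteField.pow_card_sub_one_eq_one k hk
  rw [hF] at h
  exact h

theorem transv_mul_mulVec (n : ℕ) (u v x : Fin n → F) :
    (Cfsg.unitaryTransvection n 2 u 1 * Cfsg.unitaryTransvection n 2 v 1) *ᵥ x =
      x + Cfsg.hermForm n F 2 x v • v +
        (Cfsg.hermForm n F 2 x u + Cfsg.hermForm n F 2 x v * Cfsg.hermForm n F 2 v u) • u := by
  rw [← Matrix.mulVec_mulVec, unitaryTransvection_mulVec, unitaryTransvection_mulVec]
  simp only [hf_add_left, hf_smul_left, one_mul]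

theorem transv_sq (hF : Fintype.card F = 2 ^ 2) (n : ℕ) (u : Fin n → F)
    (huu : Cfsg.hermForm n F 2 u u = 0) :
    Cfsg.unitaryTransvection n 2 u 1 * Cfsg.unitaryTransvection n 2 u 1 = 1 := by
  have h2 := two_eq_zero_of_card hF
  apply Matrix.mulVec_injective
  funext x
  rw [transv_mul_mulVec, huu, mul_zero, add_zero, Matrix.one_mulVec, add_assoc, ← add_smul,
    ← two_mul, h2, zero_mul, zero_smul, add_zero]

theorem transv_comm_sq (hF : Fintype.card F = 2 ^ 2) (n : ℕ) (u v : Fin n → F)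
    (huu : Cfsg.hermForm n F 2 u u = 0) (hvv : Cfsg.hermForm n F 2 v v = 0)
    (huv : Cfsg.hermForm n F 2 u v = 0) :
    (Cfsg.unitaryTransvection n 2 u 1 * Cfsg.unitaryTransvection n 2 v 1) ^ 2 = 1 := by
  have h2 := two_eq_zero_of_card hF
  have hvu : Cfsg.hermForm n F 2 v u = 0 := hf_eq_zero_symm hF n _ _ huv
  have hP : ∀ x : Fin n → F,
      (Cfsg.unitaryTransvection n 2 u 1 * Cfsg.unitaryTransvection n 2 v 1) *ᵥ x =
      x + Cfsg.hermForm n F 2 x v • v + Cfsg.hermForm n F 2 x u • u := by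
    intro x
    rw [transv_mul_mulVec, hvu, mul_zero, add_zero]
  rw [pow_two]
  apply Matrix.mulVec_injective
  funext x
  rw [← Matrix.mulVec_mulVec, hP, hP, Matrix.one_mulVec]
  simp only [hf_add_left, hf_smul_left, huu, hvv, huv, hvu, mul_zero, add_zero]
  have e : x + Cfsg.hermForm n F 2 x v • v + Cfsg.hermForm n F 2 x u • u +
      Cfsg.hermForm n F 2 x v • v + Cfsg.hermForm n F 2 x u • u =
      x + (2 * Cfsg.hermForm n F 2 x v) • v + (2 * Cfsg.hermForm n F 2 x u) • u := by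
    module
  rw [e, h2, zero_mul, zero_mul, zero_smul, zero_smul, add_zero, add_zero]

theorem transv_cube (hF : Fintype.card F = 2 ^ 2) (n : ℕ) (u v : Fin n → F)
    (huu : Cfsg.hermForm n F 2 u u = 0) (hvv : Cfsg.hermForm n F 2 v v = 0)
    (huv : Cfsg.hermForm n F 2 u v ≠ 0) :
    (Cfsg.unitaryTransvection n 2 u 1 * Cfsg.unitaryTransvection n 2 v 1) ^ 3 = 1 := by
  have h2 := two_eq_zero_of_card hF
  obtain ⟨κ, hκ⟩ : ∃ κ : F, κ = Cfsg.hermForm n F 2 v u := ⟨_, rfl⟩
  obtain ⟨κ', hκ'⟩ : ∃ κ' : F, κ' = Cfsg.hermForm n F 2 u v := ⟨_, rfl⟩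
  have hN : κ * κ' = 1 := by
    have h1 : κ = κ' ^ 2 := by rw [hκ, hκ']; exact hf_conj hF n u v
    have h3 := cube_eq_one_of_card hF κ' (by rw [hκ']; exact huv)
    rw [h1]
    linear_combination h3
  obtain ⟨P, hPdef⟩ : ∃ P : Matrix (Fin n) (Fin n) F,
      P = Cfsg.unitaryTransvection n 2 u 1 * Cfsg.unitaryTransvection n 2 v 1 := ⟨_, rfl⟩
  have hP : ∀ x : Fin n → F, P *ᵥ x = x + Cfsg.hermForm n F 2 x v • v +
      (Cfsg.hermForm n F 2 x u + Cfsg.hermForm n F 2 x v * κ) • u := by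
    intro x
    rw [hPdef, transv_mul_mulVec, hκ]
  have hA : ∀ x : Fin n → F, Cfsg.hermForm n F 2 (P *ᵥ x) u =
      Cfsg.hermForm n F 2 x u + Cfsg.hermForm n F 2 x v * κ := by
    intro x
    rw [hP]
    simp only [hf_add_left, hf_smul_left, huu, mul_zero, add_zero, ← hκ]
  have hB : ∀ x : Fin n → F, Cfsg.hermForm n F 2 (P *ᵥ x) v =
      Cfsg.hermForm n F 2 x v +
        (Cfsg.hermForm n F 2 x u + Cfsg.hermForm n F 2 x v * κ) * κ' := by
    intro x
    rw [hP]
    simp only [hf_add_left, hf_smul_left, hvv, mul_zero, add_zero, ← hκ']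
  rw [← hPdef, pow_succ, pow_two]
  apply Matrix.mulVec_injective
  funext x
  rw [← Matrix.mulVec_mulVec, ← Matrix.mulVec_mulVec, Matrix.one_mulVec]
  rw [hP (P *ᵥ (P *ᵥ x))]
  simp only [hA, hB]
  rw [hP (P *ᵥ x)]
  simp only [hA, hB]
  rw [hP x]
  obtain ⟨a, ha⟩ : ∃ a : F, a = Cfsg.hermForm n F 2 x u := ⟨_, rfl⟩
  obtain ⟨b, hb⟩ : ∃ b : F, b = Cfsg.hermForm n F 2 x v := ⟨_, rfl⟩
  rw [← ha, ← hb]
  have e1 : b + (b + (a + b * κ) * κ') +
      (b + (a + b * κ) * κ' + (a + b * κ + (b + (a + b * κ) * κ') * κ) * κ') = 0 := by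
    linear_combination (b * (κ * κ' + 5) + a * κ') * hN + (4 * b + 2 * a * κ') * h2
  have e2 : (a + b * κ) + (a + b * κ + (b + (a + b * κ) * κ') * κ) +
      (a + b * κ + (b + (a + b * κ) * κ') * κ +
        (b + (a + b * κ) * κ' + (a + b * κ + (b + (a + b * κ) * κ') * κ) * κ') * κ) = 0 := by
    linear_combination (a * (κ * κ' + 5) + b * κ * (κ * κ' + 6)) * hN + (4 * a + 6 * b * κ) * h2
  have e : x + b • v + (a + b * κ) • u + (b + (a + b * κ) * κ') • v +
      (a + b * κ + (b + (a + b * κ) * κ') * κ) • u +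
      (b + (a + b * κ) * κ' + (a + b * κ + (b + (a + b * κ) * κ') * κ) * κ') • v +
      (a + b * κ + (b + (a + b * κ) * κ') * κ +
        (b + (a + b * κ) * κ' + (a + b * κ + (b + (a + b * κ) * κ') * κ) * κ') * κ) • u =
      x + (b + (b + (a + b * κ) * κ') +
      (b + (a + b * κ) * κ' + (a + b * κ + (b + (a + b * κ) * κ') * κ) * κ')) • v +
      ((a + b * κ) + (a + b * κ + (b + (a + b * κ) * κ') * κ) +
      (a + b * κ + (b + (a + b * κ) * κ') * κ +
        (b + (a + b * κ) * κ' + (a + b * κ + (b + (a + b * κ) * κ') * κ) * κ') * κ)) • u := by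
    module
  rw [e, e1, e2, zero_smul, zero_smul, add_zero, add_zero]

end F4

end Cfsg.Agent.Lib.Helper18
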