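import Mathlib
import Cfsg.Prelude.Def_Classical

/-!
# Minimal degree of `SU_n(q)`, `n` even: definitions (helper18, S2335)

`σ : F →+* F` is the involution `x ↦ x^q` of the field `F` with `q²` elements.
`hconj σ A = σ(A)ᵀ`, `IsHerm σ H : hconj σ H = H`, `hq σ K x = xᴴ K x`, `hB σ K x y = xᴴ K y`,
`horb σ K` the `SL_m`-orbit of the function `hq σ K`.

Model group `GJ σ m β`: the matrices `B` over `Fin m ⊕ Fin m` of determinant one with
`Bᵀ * Jb m β * σ(B) = Jb m β`, where `Jb m β = [[0, β], [-β, 0]]` (`σ β = -β`); it contains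
`uB H = [[1, H], [0, 1]]`, `lB H = [[1, 0], [H, 1]]` (`H` Hermitian) and
`dB σ g = [[g, 0], [0, (g⁻¹)ᴴ]]` (`g ∈ SL_m`).
-/

set_option autoImplicit false

namespace Cfsg.Agent.Lib.Helper18.UE

open Matrix

universe u

variable {F : Type u} [Field F] {m : ℕ}

/-- conjugate transpose with respect to the ring endomorphism `σ` -/
def hconj (σ : F →+* F) (A : Matrix (Fin m) (Fin m) F) : Matrix (Fin m) (Fin m) F :=
  (A.map σ)ᵀ

/-- `σ`-Hermitian matrices -/
def IsHerm (σ : F →+* F) (H : Matrix (Fin m) (Fin m) F) : Prop := hconj σ H = H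

theorem hconj_apply (σ : F →+* F) (A : Matrix (Fin m) (Fin m) F) (i j : Fin m) :
    hconj σ A i j = σ (A j i) := rfl

theorem hconj_add (σ : F →+* F) (A B : Matrix (Fin m) (Fin m) F) :
    hconj σ (A + B) = hconj σ A + hconj σ B := by
  ext i j
  simp [hconj_apply]

theorem hconj_zero (σ : F →+* F) : hconj σ (0 : Matrix (Fin m) (Fin m) F) = 0 := by
  ext i j
  simp [hconj_apply]

theorem hconj_neg (σ : F →+* F) (A : Matrix (Fin m) (Fin m) F) :
    hconj σ (-A) = -hconj σ A := by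
  ext i j
  simp [hconj_apply]

theorem hconj_mul (σ : F →+* F) (A B : Matrix (Fin m) (Fin m) F) :
    hconj σ (A * B) = hconj σ B * hconj σ A := by
  unfold hconj
  rw [Matrix.map_mul, transpose_mul]

theorem hconj_one (σ : F →+* F) : hconj σ (1 : Matrix (Fin m) (Fin m) F) = 1 := by
  unfold hconj
  rw [Matrix.map_one σ (map_zero σ) (map_one σ), transpose_one]

theorem hconj_hconj (σ : F →+* F) (hσ : ∀ x, σ (σ x) = x) (A : Matrix (Fin m) (Fin m) F) :
    hconj σ (hconj σ A) = A := by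
  ext i j
  simp [hconj_apply, hσ]

/-- the additive group of Hermitian matrices -/
def hermG (σ : F →+* F) (m : ℕ) : AddSubgroup (Matrix (Fin m) (Fin m) F) where
  carrier := {H | IsHerm σ H}
  add_mem' := fun {A B} hA hB => by
    show hconj σ (A + B) = A + B
    rw [hconj_add, show hconj σ A = A from hA, show hconj σ B = B from hB]
  zero_mem' := hconj_zero σ
  neg_mem' := fun {A} hA => by
    show hconj σ (-A) = -A
    rw [hconj_neg, show hconj σ A = A from hA]

theorem mem_hermG {σ : F →+* F} {H : Matrix (Fin m) (Fin m) F} :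
    H ∈ hermG σ m ↔ IsHerm σ H := Iff.rfl

theorem IsHerm.add {σ : F →+* F} {A B : Matrix (Fin m) (Fin m) F} (hA : IsHerm σ A)
    (hB : IsHerm σ B) : IsHerm σ (A + B) := (hermG σ m).add_mem hA hB

theorem isHerm_zero (σ : F →+* F) : IsHerm σ (0 : Matrix (Fin m) (Fin m) F) := hconj_zero σ

/-- the sesquilinear form `(x, y) ↦ xᴴ K y` -/
def hB (σ : F →+* F) (K : Matrix (Fin m) (Fin m) F) (x y : Fin m → F) : F :=
  (fun i => σ (x i)) ⬝ᵥ (K *ᵥ y)

/-- the Hermitian function `x ↦ xᴴ K x` -/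
def hq (σ : F →+* F) (K : Matrix (Fin m) (Fin m) F) (x : Fin m → F) : F := hB σ K x x

/-- the `SL_m`-orbit of the function `hq σ K` -/
def horb (σ : F →+* F) (K : Matrix (Fin m) (Fin m) F) : Set ((Fin m → F) → F) :=
  Set.range (fun (g : SpecialLinearGroup (Fin m) F) (x : Fin m → F) =>
    hq σ K ((g : Matrix (Fin m) (Fin m) F) *ᵥ x))

theorem hB_add_left (σ : F →+* F) (K : Matrix (Fin m) (Fin m) F) (x y z : Fin m → F) :
    hB σ K (x + y) z = hB σ K x z + hB σ K y z := by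
  unfold hB
  rw [← add_dotProduct]
  congr 1
  ext i
  simp

theorem hB_add_right (σ : F →+* F) (K : Matrix (Fin m) (Fin m) F) (x y z : Fin m → F) :
    hB σ K x (y + z) = hB σ K x y + hB σ K x z := by
  unfold hB
  rw [mulVec_add, dotProduct_add]

theorem hB_smul_left (σ : F →+* F) (K : Matrix (Fin m) (Fin m) F) (c : F) (x y : Fin m → F) :
    hB σ K (c • x) y = σ c * hB σ K x y := by
  unfold hB
  rw [← smul_eq_mul, ← smul_dotProduct]
  congr 1
  ext i
  simp

theorem hB_smul_right (σ : F →+* F) (K : Matrix (Fin m) (Fin m) F) (c : F) (x y : Fin m → F) :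
    hB σ K x (c • y) = c * hB σ K x y := by
  unfold hB
  rw [mulVec_smul, dotProduct_smul, smul_eq_mul]

theorem hB_zero_left (σ : F →+* F) (K : Matrix (Fin m) (Fin m) F) (y : Fin m → F) :
    hB σ K 0 y = 0 := by
  unfold hB
  simp [dotProduct]

theorem hB_zero_right (σ : F →+* F) (K : Matrix (Fin m) (Fin m) F) (x : Fin m → F) :
    hB σ K x 0 = 0 := by
  unfold hB
  simp

theorem hB_eq_sum (σ : F →+* F) (K : Matrix (Fin m) (Fin m) F) (x y : Fin m → F) :
    hB σ K x y = ∑ i, ∑ j, σ (x i) * K i j * y j := by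
  unfold hB
  simp only [dotProduct, mulVec, Finset.mul_sum, mul_assoc]

/-- Hermitian symmetry -/
theorem hB_conj (σ : F →+* F) (hσ : ∀ x, σ (σ x) = x) {K : Matrix (Fin m) (Fin m) F}
    (hK : IsHerm σ K) (x y : Fin m → F) : σ (hB σ K x y) = hB σ K y x := by
  rw [hB_eq_sum, hB_eq_sum, map_sum, Finset.sum_comm]
  refine Finset.sum_congr rfl fun j _ => ?_
  rw [map_sum]
  refine Finset.sum_congr rfl fun i _ => ?_
  have h1 : σ (K j i) = K i j := by
    have := congrFun (congrFun hK i) j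
    rw [hconj_apply] at this
    exact this
  rw [map_mul, map_mul, hσ, h1]
  ring

theorem hq_add (σ : F →+* F) (K : Matrix (Fin m) (Fin m) F) (x y : Fin m → F) :
    hq σ K (x + y) = hq σ K x + hq σ K y + (hB σ K x y + hB σ K y x) := by
  unfold hq
  rw [hB_add_left, hB_add_right, hB_add_right]
  ring

theorem hq_smul (σ : F →+* F) (K : Matrix (Fin m) (Fin m) F) (c : F) (x : Fin m → F) :
    hq σ K (c • x) = c * σ c * hq σ K x := by
  unfold hq
  rw [hB_smul_left, hB_smul_right]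
  ring

/-- the block form `[[0, β], [-β, 0]]` -/
def Jb (m : ℕ) (β : F) : Matrix (Fin m ⊕ Fin m) (Fin m ⊕ Fin m) F :=
  fromBlocks 0 (β • (1 : Matrix (Fin m) (Fin m) F)) ((-β) • (1 : Matrix (Fin m) (Fin m) F)) 0

/-- the model group: matrices of determinant one preserving the form `Jb m β` -/
def GJ (σ : F →+* F) (m : ℕ) (β : F) :
    Submonoid (Matrix (Fin m ⊕ Fin m) (Fin m ⊕ Fin m) F) where
  carrier := {B | Bᵀ * Jb m β * B.map σ = Jb m β ∧ B.det = 1}
  mul_mem' := fun {A B} hA hB => by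
    refine ⟨?_, ?_⟩
    · show (A * B)ᵀ * Jb m β * (A * B).map σ = Jb m β
      have h1 : (A * B)ᵀ * Jb m β * (A * B).map σ =
          Bᵀ * (Aᵀ * Jb m β * A.map σ) * B.map σ := by
        rw [transpose_mul, Matrix.map_mul]
        simp only [Matrix.mul_assoc]
      rw [h1, hA.1]
      exact hB.1
    · show (A * B).det = 1
      rw [det_mul, hA.2, hB.2, one_mul]
  one_mem' := by
    refine ⟨?_, det_one⟩
    show (1 : Matrix (Fin m ⊕ Fin m) (Fin m ⊕ Fin m) F)ᵀ * Jb m β *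
      (1 : Matrix (Fin m ⊕ Fin m) (Fin m ⊕ Fin m) F).map σ = Jb m β
    rw [transpose_one, Matrix.map_one σ (map_zero σ) (map_one σ), Matrix.one_mul, Matrix.mul_one]

theorem mem_GJ {σ : F →+* F} {β : F} {B : Matrix (Fin m ⊕ Fin m) (Fin m ⊕ Fin m) F} :
    B ∈ GJ σ m β ↔ Bᵀ * Jb m β * B.map σ = Jb m β ∧ B.det = 1 := Iff.rfl

/-- `[[1, H], [0, 1]]` -/
def uB (H : Matrix (Fin m) (Fin m) F) : Matrix (Fin m ⊕ Fin m) (Fin m ⊕ Fin m) F :=
  fromBlocks 1 H 0 1

/-- `[[1, 0], [H, 1]]` -/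
def lB (H : Matrix (Fin m) (Fin m) F) : Matrix (Fin m ⊕ Fin m) (Fin m ⊕ Fin m) F :=
  fromBlocks 1 0 H 1

/-- `[[g, 0], [0, (g⁻¹)ᴴ]]` -/
def dB (σ : F →+* F) (g : SpecialLinearGroup (Fin m) F) :
    Matrix (Fin m ⊕ Fin m) (Fin m ⊕ Fin m) F :=
  fromBlocks (g : Matrix (Fin m) (Fin m) F) 0 0
    (hconj σ ((g⁻¹ : SpecialLinearGroup (Fin m) F) : Matrix (Fin m) (Fin m) F))

/-- the Hermitian matrix unit `E₀₀` -/
def E0 (m : ℕ) (F : Type u) [Field F] : Matrix (Fin m) (Fin m) F :=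
  fun i j => if i.val = 0 ∧ j.val = 0 then 1 else 0

theorem E0_isHerm (σ : F →+* F) : IsHerm σ (E0 m F) := by
  ext i j
  rw [hconj_apply]
  unfold E0
  by_cases h : j.val = 0 ∧ i.val = 0
  · rw [if_pos h, if_pos ⟨h.2, h.1⟩, map_one]
  · rw [if_neg h, if_neg (fun h' => h ⟨h'.2, h'.1⟩), map_zero]

end Cfsg.Agent.Lib.Helper18.UE
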