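import Mathlib
import Cfsg.Agent.Lib.Helper18.Symp
import Cfsg.Agent.Lib.Helper18.Darboux

set_option autoImplicit false

/-!
Adapted symplectic bases of `F^(2m)`: completion of a Darboux family of a subspace to a full
symplectic basis (as a pair of mutually inverse matrices), hyperbolic partners of isotropic
frames, and Witt's theorem for isotropic frames in the symplectic group.
-/

namespace Cfsg.Agent.Lib.Helper18

open Module Matrix

section abstract

variable {F : Type*} [Field F] {V : Type*} [AddCommGroup V] [Module F V]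

theorem IsDarboux.nondeg {B : LinearMap.BilinForm F V} (hB : B.IsAlt) {W : Submodule F V} {k : ℕ}
    {e f : Fin k → V} (h : IsDarboux B W k e f) :
    ∀ u ∈ W, (∀ v ∈ W, B u v = 0) → u = 0 := by
  classical
  intro u hu h0
  obtain ⟨a, b, rfl⟩ := h.span u hu
  have ha : ∀ j, a j = 0 := by
    intro j
    have h1 := h0 (f j) (h.f_mem j)
    simp only [map_sum, map_add, map_smul, LinearMap.sum_apply, LinearMap.add_apply,
      LinearMap.smul_apply, smul_eq_mul, h.ef, h.ff, mul_zero, add_zero] at h1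
    simpa using h1
  have hb : ∀ j, b j = 0 := by
    intro j
    have h1 := h0 (e j) (h.e_mem j)
    simp only [map_sum, map_add, map_smul, LinearMap.sum_apply, LinearMap.add_apply,
      LinearMap.smul_apply, smul_eq_mul, h.ee, h.fe hB, mul_zero, zero_add] at h1
    simpa using h1
  simp [ha, hb]

theorem isDarboux_span (B : LinearMap.BilinForm F V) {k : ℕ} (e f : Fin k → V)
    (hee : ∀ i j, B (e i) (e j) = 0) (hff : ∀ i j, B (f i) (f j) = 0)
    (hef : ∀ i j, B (e i) (f j) = if i = j then -1 else 0) :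
    IsDarboux B (Submodule.span F (Set.range (Sum.elim e f))) k e f where
  e_mem := fun i => Submodule.subset_span ⟨Sum.inl i, rfl⟩
  f_mem := fun i => Submodule.subset_span ⟨Sum.inr i, rfl⟩
  ee := hee
  ff := hff
  ef := hef
  span := by
    intro w hw
    obtain ⟨c, rfl⟩ := (Submodule.mem_span_range_iff_exists_fun F).mp hw
    refine ⟨fun i => c (Sum.inl i), fun i => c (Sum.inr i), ?_⟩
    rw [Fintype.sum_sum_type, Finset.sum_add_distrib]
    rfl

theorem exists_partner_family [FiniteDimensional F V] (B : LinearMap.BilinForm F V)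
    (hB : B.IsAlt) (hnd : B.Nondegenerate) {k : ℕ} (x : Fin k → V) (hli : LinearIndependent F x)
    (hiso : ∀ i j, B (x i) (x j) = 0) :
    ∃ f : Fin k → V, (∀ i j, B (x i) (f j) = if i = j then -1 else 0) ∧
      ∀ i j, B (f i) (f j) = 0 := by
  classical
  let φ : V →ₗ[F] (Fin k → F) := LinearMap.pi (fun i => B (x i))
  have hφ : ∀ v i, φ v i = B (x i) v := fun v i => rfl
  have hker : LinearMap.ker φ = B.orthogonal (Submodule.span F (Set.range x)) := by
    ext v
    rw [LinearMap.mem_ker, LinearMap.BilinForm.mem_orthogonal_iff]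
    constructor
    · intro h n hn
      induction hn using Submodule.span_induction with
      | mem y hy =>
        obtain ⟨i, rfl⟩ := hy
        exact congrFun h i
      | zero => simp
      | add a b _ _ ha hb => rw [map_add, LinearMap.add_apply, ha, hb, add_zero]
      | smul c a _ ha => rw [map_smul, LinearMap.smul_apply, ha, smul_zero]
    · intro h
      funext i
      exact h (x i) (Submodule.subset_span ⟨i, rfl⟩)
  have hsurj : Function.Surjective φ := by
    rw [← LinearMap.range_eq_top]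
    apply Submodule.eq_top_of_finrank_eq
    have h1 := LinearMap.finrank_range_add_finrank_ker φ
    rw [hker, LinearMap.BilinForm.finrank_orthogonal hnd, finrank_span_eq_card hli,
      Fintype.card_fin] at h1
    rw [Module.finrank_fintype_fun_eq_card, Fintype.card_fin]
    have h2 : k ≤ finrank F V := by
      have := hli.fintype_card_le_finrank
      simpa using this
    omega
  choose f0 hf0 using fun j : Fin k => hsurj (fun i => if i = j then -1 else 0)
  have hxf0 : ∀ i j, B (x i) (f0 j) = if i = j then -1 else 0 := fun i j => by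
    rw [← hφ, hf0]
  have hf0x : ∀ i j, B (f0 i) (x j) = if i = j then 1 else 0 := by
    intro i j
    rw [← hB.neg_eq, hxf0]
    by_cases h : i = j
    · subst h; simp
    · have h' : ¬ j = i := fun h' => h h'.symm
      simp [h, h']
  let c : Fin k → Fin k → F := fun i j => if i < j then B (f0 i) (f0 j) else 0
  refine ⟨fun j => f0 j + ∑ l, c j l • x l, ?_, ?_⟩
  · intro i j
    simp only [map_add, map_sum, map_smul, hiso, smul_eq_mul, mul_zero, Finset.sum_const_zero,
      add_zero]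
    exact hxf0 i j
  · intro i j
    simp only [map_add, map_sum, map_smul, LinearMap.add_apply, LinearMap.sum_apply,
      LinearMap.smul_apply, smul_eq_mul, hiso, hxf0, hf0x, mul_zero, Finset.sum_const_zero,
      add_zero]
    simp only [mul_ite, mul_one, mul_zero, mul_neg, Finset.sum_ite_eq, Finset.sum_ite_eq',
      Finset.mem_univ, if_true]
    simp only [c]
    rcases lt_trichotomy i j with h | h | h
    · simp [h, not_lt.mpr h.le]
    · subst h; simp [hB.self_eq_zero]
    · simp only [h, not_lt.mpr h.le, if_true, if_false]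
      rw [← hB.neg_eq (f0 j) (f0 i)]
      ring

end abstract

section matrix

variable {F : Type*} [Field F]

theorem darboux_gram_J {V : Type*} [AddCommGroup V] [Module F V]
    {B : LinearMap.BilinForm F V} (hB : B.IsAlt) {W : Submodule F V} {k : ℕ} {e f : Fin k → V}
    (h : IsDarboux B W k e f) (a a' : Fin k ⊕ Fin k) :
    B (Sum.elim e f a) (Sum.elim e f a') = Matrix.J (Fin k) F a a' := by
  rcases a with i | i <;> rcases a' with j | j
  · simp [Matrix.J, h.ee]
  · simp only [Sum.elim_inl, Sum.elim_inr, h.ef, Matrix.J, Matrix.fromBlocks_apply₁₂,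
      Matrix.neg_apply, Matrix.one_apply]
    split_ifs <;> simp
  · simp only [Sum.elim_inl, Sum.elim_inr, h.fe hB, Matrix.J, Matrix.fromBlocks_apply₂₁,
      Matrix.one_apply]
  · simp [Matrix.J, h.ff]

/-- Completion of a Darboux family of a subspace of `F^(2m)` to a symplectic basis, given as a
matrix `P` (columns: the basis) with inverse `Q`. -/
theorem exists_adapted (m : ℕ) (W : Submodule F (Fin m ⊕ Fin m → F)) (k : ℕ)
    (e f : Fin k → (Fin m ⊕ Fin m → F)) (hD : IsDarboux (sympB (F := F) m) W k e f) :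
    ∃ (P : Matrix (Fin m ⊕ Fin m) ((Fin k ⊕ Fin k) ⊕ (Fin (m - k) ⊕ Fin (m - k))) F)
      (Q : Matrix ((Fin k ⊕ Fin k) ⊕ (Fin (m - k) ⊕ Fin (m - k))) (Fin m ⊕ Fin m) F),
      Q * P = 1 ∧ P * Q = 1 ∧
      Pᵀ * Matrix.J (Fin m) F * P =
        Matrix.fromBlocks (Matrix.J (Fin k) F) 0 0 (Matrix.J (Fin (m - k)) F) ∧
      Qᵀ * Matrix.fromBlocks (Matrix.J (Fin k) F) 0 0 (Matrix.J (Fin (m - k)) F) * Q =
        Matrix.J (Fin m) F ∧
      (∀ i, P *ᵥ Pi.single (Sum.inl (Sum.inl i)) 1 = e i) ∧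
      (∀ i, P *ᵥ Pi.single (Sum.inl (Sum.inr i)) 1 = f i) := by
  classical
  obtain ⟨B, hBdef⟩ : ∃ B : LinearMap.BilinForm F (Fin m ⊕ Fin m → F), B = sympB (F := F) m :=
    ⟨_, rfl⟩
  rw [← hBdef] at hD
  have hBalt : B.IsAlt := by rw [hBdef]; exact sympB_isAlt m
  have hBnd : B.Nondegenerate := by rw [hBdef]; exact sympB_nondegenerate m
  have hBapply : ∀ x y, B x y = x ⬝ᵥ (Matrix.J (Fin m) F *ᵥ y) := by
    intro x y; rw [hBdef]; exact sympB_apply m x y
  have hBanti : ∀ x y, B x y = 0 → B y x = 0 := by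
    intro x y h; rw [← hBalt.neg_eq, h, neg_zero]
  have hWnd := hD.nondeg hBalt
  have hWk : finrank F W = 2 * k := hD.finrank_eq hBalt
  have hk : k ≤ m := by
    have h1 := Submodule.finrank_le W
    rw [hWk, Module.finrank_fintype_fun_eq_card, Fintype.card_sum, Fintype.card_fin] at h1
    omega
  obtain ⟨Wp, hWp⟩ : ∃ Wp : Submodule F (Fin m ⊕ Fin m → F), Wp = B.orthogonal W := ⟨_, rfl⟩
  have hWpmem : ∀ u, u ∈ Wp ↔ ∀ w ∈ W, B w u = 0 := by
    intro u; rw [hWp]; exact LinearMap.BilinForm.mem_orthogonal_iff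
  have hWpnd : ∀ u ∈ Wp, (∀ v ∈ Wp, B u v = 0) → u = 0 := by
    intro u hu h
    have h1 : u ∈ B.orthogonal Wp := by
      rw [LinearMap.BilinForm.mem_orthogonal_iff]
      intro v hv
      exact hBanti _ _ (h v hv)
    rw [hWp, LinearMap.BilinForm.orthogonal_orthogonal hBnd hBalt.isRefl] at h1
    exact hWnd u h1 (fun v hv => hBanti _ _ ((hWpmem u).mp hu v hv))
  obtain ⟨k2, e', f', hD2⟩ := exists_darboux B hBalt _ Wp rfl hWpnd
  have hk2 : k2 = m - k := by
    have h1 := hD2.finrank_eq hBalt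
    have h2 := LinearMap.BilinForm.finrank_orthogonal hBnd W
    rw [← hWp, hWk, Module.finrank_fintype_fun_eq_card, Fintype.card_sum, Fintype.card_fin] at h2
    omega
  subst hk2
  obtain ⟨col, hcol⟩ : ∃ col : (Fin k ⊕ Fin k) ⊕ (Fin (m - k) ⊕ Fin (m - k)) →
      (Fin m ⊕ Fin m → F), col = Sum.elim (Sum.elim e f) (Sum.elim e' f') := ⟨_, rfl⟩
  have hcolW : ∀ a, col (Sum.inl a) ∈ W := by
    intro a; rw [hcol]
    rcases a with i | i
    · exact hD.e_mem i
    · exact hD.f_mem i
  have hcolWp : ∀ a, col (Sum.inr a) ∈ Wp := by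
    intro a; rw [hcol]
    rcases a with i | i
    · exact hD2.e_mem i
    · exact hD2.f_mem i
  obtain ⟨J', hJ'⟩ : ∃ J' : Matrix ((Fin k ⊕ Fin k) ⊕ (Fin (m - k) ⊕ Fin (m - k)))
      ((Fin k ⊕ Fin k) ⊕ (Fin (m - k) ⊕ Fin (m - k))) F,
      J' = Matrix.fromBlocks (Matrix.J (Fin k) F) 0 0 (Matrix.J (Fin (m - k)) F) := ⟨_, rfl⟩
  have hGram : ∀ c c', B (col c) (col c') = J' c c' := by
    intro c c'
    rcases c with a | a <;> rcases c' with a' | a'
    · rw [hJ', hcol]; exact darboux_gram_J hBalt hD a a'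
    · rw [hJ', Matrix.fromBlocks_apply₁₂, Matrix.zero_apply]
      exact (hWpmem _).mp (hcolWp a') _ (hcolW a)
    · rw [hJ', Matrix.fromBlocks_apply₂₁, Matrix.zero_apply]
      exact hBanti _ _ ((hWpmem _).mp (hcolWp a) _ (hcolW a'))
    · rw [hJ', hcol]; exact darboux_gram_J hBalt hD2 a a'
  obtain ⟨P, hP⟩ : ∃ P : Matrix (Fin m ⊕ Fin m) ((Fin k ⊕ Fin k) ⊕ (Fin (m - k) ⊕ Fin (m - k))) F,
      P = Matrix.of (fun a c => col c a) := ⟨_, rfl⟩
  have hPmv : ∀ y, P *ᵥ y = ∑ c, y c • col c := by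
    intro y
    funext a
    rw [hP]
    simp [Matrix.mulVec, dotProduct, mul_comm]
  have hPsingle : ∀ c, P *ᵥ (Pi.single c 1) = col c := by
    intro c
    rw [hPmv]
    simp [Pi.single_apply]
  have hPtJ : ∀ v c, (Pᵀ *ᵥ (Matrix.J (Fin m) F *ᵥ v)) c = B (col c) v := by
    intro v c
    rw [hBapply, hP]
    rfl
  have hGramM : Pᵀ * Matrix.J (Fin m) F * P = J' := by
    ext c c'
    have h1 : (Pᵀ * Matrix.J (Fin m) F * P) c c' =
        (Pᵀ *ᵥ (Matrix.J (Fin m) F *ᵥ (P *ᵥ Pi.single c' 1))) c := by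
      rw [Matrix.mulVec_mulVec, Matrix.mulVec_mulVec, Matrix.mulVec_single_one]
      rfl
    rw [h1, hPsingle, hPtJ, hGram]
  have hJ'sq : J' * J' = -1 := by
    rw [hJ', Matrix.fromBlocks_multiply]
    simp only [Matrix.J_squared, Matrix.mul_zero, Matrix.zero_mul, add_zero, zero_add]
    conv_rhs => rw [← Matrix.fromBlocks_one, Matrix.fromBlocks_neg]
    simp
  obtain ⟨Q, hQ⟩ : ∃ Q : Matrix ((Fin k ⊕ Fin k) ⊕ (Fin (m - k) ⊕ Fin (m - k))) (Fin m ⊕ Fin m) F,
      Q = -J' * Pᵀ * Matrix.J (Fin m) F := ⟨_, rfl⟩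
  have hQP : Q * P = 1 := by
    rw [hQ, Matrix.mul_assoc, Matrix.mul_assoc, ← Matrix.mul_assoc Pᵀ, hGramM, Matrix.neg_mul,
      hJ'sq, neg_neg]
  have hPQ : P * Q = 1 := by
    have eqv : (Fin m ⊕ Fin m) ≃ ((Fin k ⊕ Fin k) ⊕ (Fin (m - k) ⊕ Fin (m - k))) :=
      Fintype.equivOfCardEq (by simp only [Fintype.card_sum, Fintype.card_fin]; omega)
    exact (Matrix.mul_eq_one_comm_of_equiv eqv).mpr hQP
  have hQJQ : Qᵀ * J' * Q = Matrix.J (Fin m) F := by
    calc Qᵀ * J' * Q = Qᵀ * (Pᵀ * Matrix.J (Fin m) F * P) * Q := by rw [hGramM]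
      _ = (P * Q)ᵀ * Matrix.J (Fin m) F * (P * Q) := by
          rw [Matrix.transpose_mul]; simp only [Matrix.mul_assoc]
      _ = Matrix.J (Fin m) F := by rw [hPQ]; simp
  refine ⟨P, Q, hQP, hPQ, ?_, ?_, ?_, ?_⟩
  · rw [hGramM, hJ']
  · rw [← hJ', hQJQ]
  · intro i; rw [hPsingle, hcol]; rfl
  · intro i; rw [hPsingle, hcol]; rfl

/-- Witt's theorem for isotropic frames: the symplectic group is transitive on linearly
independent families of pairwise orthogonal vectors. -/
theorem witt_frames (m k : ℕ) (x x' : Fin k → (Fin m ⊕ Fin m → F))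
    (hli : LinearIndependent F x) (hli' : LinearIndependent F x')
    (hiso : ∀ i j, sympB (F := F) m (x i) (x j) = 0)
    (hiso' : ∀ i j, sympB (F := F) m (x' i) (x' j) = 0) :
    ∃ g : Matrix.symplecticGroup (Fin m) F, ∀ i, g.1 *ᵥ x i = x' i := by
  classical
  obtain ⟨f, hxf, hff⟩ := exists_partner_family (sympB (F := F) m) (sympB_isAlt m)
    (sympB_nondegenerate m) x hli hiso
  obtain ⟨f', hxf', hff'⟩ := exists_partner_family (sympB (F := F) m) (sympB_isAlt m)
    (sympB_nondegenerate m) x' hli' hiso'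
  obtain ⟨P, Q, hQP, hPQ, hG, hQJ, hPe, -⟩ := exists_adapted m _ k x f
    (isDarboux_span (sympB (F := F) m) x f hiso hff hxf)
  obtain ⟨P', Q', hQP', hPQ', hG', hQJ', hPe', -⟩ := exists_adapted m _ k x' f'
    (isDarboux_span (sympB (F := F) m) x' f' hiso' hff' hxf')
  refine ⟨⟨P' * Q, ?_⟩, ?_⟩
  · rw [SymplecticGroup.mem_iff']
    calc (P' * Q)ᵀ * Matrix.J (Fin m) F * (P' * Q)
        = Qᵀ * (P'ᵀ * Matrix.J (Fin m) F * P') * Q := by
          rw [Matrix.transpose_mul]; simp only [Matrix.mul_assoc]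
      _ = Matrix.J (Fin m) F := by rw [hG', hQJ]
  · intro i
    show (P' * Q) *ᵥ x i = x' i
    rw [← hPe i, Matrix.mulVec_mulVec, Matrix.mul_assoc, hQP, Matrix.mul_one, hPe']

end matrix

end Cfsg.Agent.Lib.Helper18
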