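import Mathlib
import Cfsg.Agent.Lib.Helper46.BSW0
import Cfsg.Agent.Lib.Helper35.Virt
import Cfsg.Agent.Lib.Helper23.ExcComb3

/-!
# S3282 (Brauer–Suzuki–Wall) piece SHAPE: combinatorics of the matrix

Pure integer combinatorics: a matrix `a : L → I → ℤ` with Gram matrix
`2 + [l' = l] + [l' = bar l]`, first column `1` and the degree equations has the generic "star"
shape or the exceptional shape.  (Compared to the posted statement there is the extra hypothesis
`hd1 : d one = 1`, without which the statement is false.)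
-/

set_option autoImplicit false

namespace Cfsg.Agent.Lib.Helper18.BSW

open Cfsg.Agent.Lib.Helper46.BSW Cfsg.Agent.Lib.Helper35 Cfsg.Agent.Lib.Helper23
open scoped Classical

section Rows

variable {I : Type*}

/-- `r = e_one + x e_X + y e_Y`. -/
structure Row2 (one : I) (r : I → ℤ) (X Y : I) (x y : ℤ) : Prop where
  hX : X ≠ one
  hY : Y ≠ one
  hXY : X ≠ Y
  hx : x = 1 ∨ x = -1
  hy : y = 1 ∨ y = -1
  row : ∀ i, r i = (if i = one then 1 else 0) + x * (if i = X then 1 else 0)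
    + y * (if i = Y then 1 else 0)

/-- `r = e_one + α e_A + β e_B + γ e_C`. -/
structure Row3 (one : I) (r : I → ℤ) (A B C : I) (α β γ : ℤ) : Prop where
  hA : A ≠ one
  hB : B ≠ one
  hC : C ≠ one
  hAB : A ≠ B
  hAC : A ≠ C
  hBC : B ≠ C
  hα : α = 1 ∨ α = -1
  hβ : β = 1 ∨ β = -1
  hγ : γ = 1 ∨ γ = -1
  row : ∀ i, r i = (if i = one then 1 else 0) + α * (if i = A then 1 else 0)
    + β * (if i = B then 1 else 0) + γ * (if i = C then 1 else 0)

variable {one : I} {r : I → ℤ}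

namespace Row2

variable {X Y : I} {x y : ℤ}

theorem at_X (h : Row2 one r X Y x y) : r X = x := by
  rw [h.row]; simp [h.hX, h.hXY]

theorem at_Y (h : Row2 one r X Y x y) : r Y = y := by
  rw [h.row]; simp [h.hY, h.hXY.symm]

theorem at_other (h : Row2 one r X Y x y) (i : I) (h1 : i ≠ one) (h2 : i ≠ X) (h3 : i ≠ Y) :
    r i = 0 := by
  rw [h.row]; simp [h1, h2, h3]

theorem swap (h : Row2 one r X Y x y) : Row2 one r Y X y x :=
  ⟨h.hY, h.hX, h.hXY.symm, h.hy, h.hx, fun i => by rw [h.row]; ring⟩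

theorem x_ne (h : Row2 one r X Y x y) : x ≠ 0 := by
  rcases h.hx with rfl | rfl <;> norm_num

theorem y_ne (h : Row2 one r X Y x y) : y ≠ 0 := by
  rcases h.hy with rfl | rfl <;> norm_num

theorem sum [Fintype I] (h : Row2 one r X Y x y) (f : I → ℤ) :
    ∑ i, r i * f i = f one + x * f X + y * f Y := by
  simp only [h.row, add_mul, Finset.sum_add_distrib, mul_assoc, ← Finset.mul_sum, ite_mul,
    one_mul, zero_mul, Finset.sum_ite_eq', Finset.mem_univ, if_true]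

theorem norm {A B : I} {α β : ℤ} (h : Row2 one r A B α β) {X : I} {x : ℤ} (hX : X ≠ one)
    (hx : r X = x) (hx0 : x ≠ 0) : ∃ P p, Row2 one r X P x p := by
  by_cases h1 : X = A
  · subst h1
    have : x = α := by rw [← hx, h.at_X]
    subst this
    exact ⟨B, β, h⟩
  · by_cases h2 : X = B
    · subst h2
      have : x = β := by rw [← hx, h.at_Y]
      subst this
      exact ⟨A, α, h.swap⟩
    · have := h.at_other X hX h1 h2
      rw [hx] at this
      exact absurd this hx0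

theorem tip_unique {Δ T T' : I} {δ τ δ' τ' : ℤ} (h : Row2 one r Δ T δ τ)
    (h' : Row2 one r Δ T' δ' τ') : T = T' ∧ τ = τ' := by
  have h1 := h.at_Y
  by_cases hTT : T = T'
  · subst hTT
    exact ⟨rfl, by rw [← h1, h'.at_Y]⟩
  · have := h'.at_other T h.hY h.hXY.symm hTT
    rw [h1] at this
    exact absurd this h.y_ne

end Row2

namespace Row3

variable {A B C : I} {α β γ : ℤ}

theorem at_A (h : Row3 one r A B C α β γ) : r A = α := by
  rw [h.row]; simp [h.hA, h.hAB, h.hAC]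

theorem at_B (h : Row3 one r A B C α β γ) : r B = β := by
  rw [h.row]; simp [h.hB, h.hAB.symm, h.hBC]

theorem at_C (h : Row3 one r A B C α β γ) : r C = γ := by
  rw [h.row]; simp [h.hC, h.hAC.symm, h.hBC.symm]

theorem at_other (h : Row3 one r A B C α β γ) (i : I) (h1 : i ≠ one) (h2 : i ≠ A) (h3 : i ≠ B)
    (h4 : i ≠ C) : r i = 0 := by
  rw [h.row]; simp [h1, h2, h3, h4]

theorem swap12 (h : Row3 one r A B C α β γ) : Row3 one r B A C β α γ :=
  ⟨h.hB, h.hA, h.hC, h.hAB.symm, h.hBC, h.hAC, h.hβ, h.hα, h.hγ, fun i => by rw [h.row]; ring⟩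

theorem swap23 (h : Row3 one r A B C α β γ) : Row3 one r A C B α γ β :=
  ⟨h.hA, h.hC, h.hB, h.hAC, h.hAB, h.hBC.symm, h.hα, h.hγ, h.hβ, fun i => by rw [h.row]; ring⟩

theorem b_ne (h : Row3 one r A B C α β γ) : β ≠ 0 := by
  rcases h.hβ with rfl | rfl <;> norm_num

theorem c_ne (h : Row3 one r A B C α β γ) : γ ≠ 0 := by
  rcases h.hγ with rfl | rfl <;> norm_num

theorem sum [Fintype I] (h : Row3 one r A B C α β γ) (f : I → ℤ) :
    ∑ i, r i * f i = f one + α * f A + β * f B + γ * f C := by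
  simp only [h.row, add_mul, Finset.sum_add_distrib, mul_assoc, ← Finset.mul_sum, ite_mul,
    one_mul, zero_mul, Finset.sum_ite_eq', Finset.mem_univ, if_true]

theorem norm (h : Row3 one r A B C α β γ) {X : I} {x : ℤ} (hX : X ≠ one)
    (hx : r X = x) (hx0 : x ≠ 0) : ∃ Z₁ Z₂ e₁ e₂, Row3 one r X Z₁ Z₂ x e₁ e₂ := by
  by_cases h1 : X = A
  · subst h1
    have : x = α := by rw [← hx, h.at_A]
    subst this
    exact ⟨B, C, β, γ, h⟩
  · by_cases h2 : X = B
    · subst h2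
      have : x = β := by rw [← hx, h.at_B]
      subst this
      exact ⟨A, C, α, γ, h.swap12⟩
    · by_cases h3 : X = C
      · subst h3
        have : x = γ := by rw [← hx, h.at_C]
        subst this
        exact ⟨A, B, α, β, h.swap23.swap12⟩
      · have := h.at_other X hX h1 h2 h3
        rw [hx] at this
        exact absurd this hx0

theorem norm2 (h : Row3 one r A B C α β γ) {Y : I} {y : ℤ} (hY : Y ≠ one) (hYA : Y ≠ A)
    (hy : r Y = y) (hy0 : y ≠ 0) : ∃ W c, Row3 one r A Y W α y c := by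
  by_cases h2 : Y = B
  · subst h2
    have : y = β := by rw [← hy, h.at_B]
    subst this
    exact ⟨C, γ, h⟩
  · by_cases h3 : Y = C
    · subst h3
      have : y = γ := by rw [← hy, h.at_C]
      subst this
      exact ⟨B, β, h.swap23⟩
    · have := h.at_other Y hY hYA h2 h3
      rw [hy] at this
      exact absurd this hy0

end Row3

end Rows

section Main

variable {I L : Type*} [Fintype I] [Fintype L]

/-- The hypotheses of `shape_comb`. -/
structure Hyp (a : L → I → ℤ) (d : I → ℤ) (one : I) (triv l₀ : L) (bar : L → L) : Prop where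
  hd : ∀ i, 0 < d i
  hd1 : d one = 1
  hbar : ∀ l, bar (bar l) = l
  hl₀ : l₀ ≠ triv
  hfix : ∀ l, bar l = l ↔ (l = triv ∨ l = l₀)
  ha1 : ∀ l, l ≠ triv → a l one = 1
  hgram : ∀ l l', l ≠ triv → l' ≠ triv →
      ∑ i, a l i * a l' i = 2 + (if l' = l then 1 else 0) + (if l' = bar l then 1 else 0)
  hbar_a : ∀ l, a (bar l) = a l
  hdeg : ∀ l, l ≠ triv → ∑ i, a l i * d i = 0

variable {a : L → I → ℤ} {d : I → ℤ} {one : I} {triv l₀ : L} {bar : L → L}

namespace Hyp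

theorem bar_nr (H : Hyp a d one triv l₀ bar) {l : L} (h1 : l ≠ triv) (h2 : l ≠ l₀) :
    bar l ≠ triv ∧ bar l ≠ l₀ ∧ bar l ≠ l := by
  refine ⟨?_, ?_, ?_⟩
  · intro e
    have h3 : bar triv = triv := (H.hfix triv).2 (Or.inl rfl)
    have := H.hbar l
    rw [e, h3] at this
    exact h1 this.symm
  · intro e
    have h3 : bar l₀ = l₀ := (H.hfix l₀).2 (Or.inr rfl)
    have := H.hbar l
    rw [e, h3] at this
    exact h2 this.symm
  · intro e
    rcases (H.hfix l).1 e with h | h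
    · exact h1 h
    · exact h2 h

theorem norm_nr (H : Hyp a d one triv l₀ bar) {l : L} (h1 : l ≠ triv) (h2 : l ≠ l₀) :
    ∑ i, a l i * a l i = 3 := by
  have := H.hgram l l h1 h1
  rw [this, if_pos rfl, if_neg (Ne.symm (H.bar_nr h1 h2).2.2)]
  norm_num

theorem norm_l0 (H : Hyp a d one triv l₀ bar) : ∑ i, a l₀ i * a l₀ i = 4 := by
  have := H.hgram l₀ l₀ H.hl₀ H.hl₀
  rw [this, if_pos rfl, if_pos ((H.hfix l₀).2 (Or.inr rfl)).symm]
  norm_num

theorem ip (H : Hyp a d one triv l₀ bar) {l l' : L} (hl : l ≠ triv) (hl' : l' ≠ triv)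
    (h1 : l' ≠ l) (h2 : l' ≠ bar l) : ∑ i, a l i * a l' i = 2 := by
  have := H.hgram l l' hl hl'
  rw [this, if_neg h1, if_neg h2]
  norm_num

theorem entry (H : Hyp a d one triv l₀ bar) {l : L} (hl : l ≠ triv) {i : I} (hi : i ≠ one) :
    a l i = 0 ∨ a l i = 1 ∨ a l i = -1 := by
  have h4 : ∑ j, a l j * a l j ≤ 4 := by
    have := H.hgram l l hl hl
    rw [this, if_pos rfl]
    split_ifs <;> norm_num
  have h5 : a l i * a l i + a l one * a l one ≤ ∑ j, a l j * a l j := by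
    rw [← Finset.sum_pair (f := fun j => a l j * a l j) hi]
    exact Finset.sum_le_sum_of_subset_of_nonneg (Finset.subset_univ _)
      (fun j _ _ => mul_self_nonneg _)
  rw [H.ha1 l hl] at h5
  have h6 : -2 < a l i := by nlinarith
  have h7 : a l i < 2 := by nlinarith
  omega

/-- the sum of squares of the row without its `one` coordinate -/
theorem sum_sq_erase (H : Hyp a d one triv l₀ bar) {l : L} (hl : l ≠ triv) :
    ∑ i, (if i = one then 0 else a l i) ^ 2 = ∑ i, a l i * a l i - 1 := by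
  have e1 : ∑ i, a l i * a l i
      = a l one * a l one + ∑ i ∈ Finset.univ.erase one, a l i * a l i :=
    (Finset.add_sum_erase _ _ (Finset.mem_univ one)).symm
  have e2 : ∑ i, (if i = one then 0 else a l i) ^ 2
      = (if one = one then 0 else a l one) ^ 2
        + ∑ i ∈ Finset.univ.erase one, (if i = one then 0 else a l i) ^ 2 :=
    (Finset.add_sum_erase _ (fun i => (if i = one then 0 else a l i) ^ 2)
      (Finset.mem_univ one)).symm
  have e3 : ∑ i ∈ Finset.univ.erase one, (if i = one then 0 else a l i) ^ 2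
      = ∑ i ∈ Finset.univ.erase one, a l i * a l i := by
    refine Finset.sum_congr rfl fun i hi => ?_
    have : i ≠ one := Finset.ne_of_mem_erase hi
    rw [if_neg this, sq]
  rw [e2, e3, e1, H.ha1 l hl, if_pos rfl]
  ring

theorem exists_row2 (H : Hyp a d one triv l₀ bar) {l : L} (h1 : l ≠ triv) (h2 : l ≠ l₀) :
    ∃ X Y x y, Row2 one (a l) X Y x y := by
  have hsum : ∑ i, (if i = one then 0 else a l i) ^ 2 = 2 := by
    rw [H.sum_sq_erase h1, H.norm_nr h1 h2]; norm_num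
  obtain ⟨i, j, hij, hi, hj, hrest⟩ := two_square _ hsum
  have hi1 : i ≠ one := by
    rintro rfl
    simp at hi
  have hj1 : j ≠ one := by
    rintro rfl
    simp at hj
  rw [if_neg hi1] at hi
  rw [if_neg hj1] at hj
  refine ⟨i, j, a l i, a l j, hi1, hj1, hij, hi, hj, ?_⟩
  intro k
  by_cases hk1 : k = one
  · rw [hk1]
    simp [H.ha1 l h1, hi1.symm, hj1.symm]
  · by_cases hki : k = i
    · subst hki
      simp [hk1, hij]
    · by_cases hkj : k = j
      · subst hkj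
        simp [hk1, hki]
      · have := hrest k hki hkj
        rw [if_neg hk1] at this
        simp [hk1, hki, hkj, this]

theorem exists_row3 (H : Hyp a d one triv l₀ bar) :
    ∃ A B C α β γ, Row3 one (a l₀) A B C α β γ := by
  have hsum : ∑ i, (if i = one then 0 else a l₀ i) ^ 2 = 3 := by
    rw [H.sum_sq_erase H.hl₀, H.norm_l0]; norm_num
  obtain ⟨i, j, k, hij, hik, hjk, hi, hj, hk, hrest⟩ := three_square _ hsum
  have hi1 : i ≠ one := by
    rintro rfl
    simp at hi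
  have hj1 : j ≠ one := by
    rintro rfl
    simp at hj
  have hk1 : k ≠ one := by
    rintro rfl
    simp at hk
  rw [if_neg hi1] at hi
  rw [if_neg hj1] at hj
  rw [if_neg hk1] at hk
  refine ⟨i, j, k, a l₀ i, a l₀ j, a l₀ k, hi1, hj1, hk1, hij, hik, hjk, hi, hj, hk, ?_⟩
  intro m
  by_cases hm1 : m = one
  · rw [hm1]
    simp [H.ha1 l₀ H.hl₀, hi1.symm, hj1.symm, hk1.symm]
  · by_cases hmi : m = i
    · subst hmi
      simp [hm1, hij, hik]
    · by_cases hmj : m = j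
      · subst hmj
        simp [hm1, hmi, hjk]
      · by_cases hmk : m = k
        · subst hmk
          simp [hm1, hmi, hmj]
        · have := hrest m hmi hmj hmk
          rw [if_neg hm1] at this
          simp [hm1, hmi, hmj, hmk, this]

/-- every other row contains exactly one of the two coordinates of a non-real row, with the
same sign -/
theorem key (H : Hyp a d one triv l₀ bar) {l : L} (hl : l ≠ triv) {X Y : I} {x y : ℤ}
    (hr : Row2 one (a l) X Y x y) {l' : L} (hl' : l' ≠ triv) (h1 : l' ≠ l) (h2 : l' ≠ bar l) :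
    (a l' X = x ∧ a l' Y = 0) ∨ (a l' X = 0 ∧ a l' Y = y) := by
  have e := H.ip hl hl' h1 h2
  rw [hr.sum (a l'), H.ha1 l' hl'] at e
  have hA := H.entry hl' hr.hX
  have hB := H.entry hl' hr.hY
  rcases hr.hx with rfl | rfl <;> rcases hr.hy with rfl | rfl <;> omega

theorem deg2 (H : Hyp a d one triv l₀ bar) {l : L} (hl : l ≠ triv) {X Y : I} {x y : ℤ}
    (hr : Row2 one (a l) X Y x y) : 1 + x * d X + y * d Y = 0 := by
  have := H.hdeg l hl
  rw [hr.sum d, H.hd1] at this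
  exact this

theorem no_mix (H : Hyp a d one triv l₀ bar) {l₁ : L} (h1 : l₁ ≠ triv) {X Y : I} {x y : ℤ}
    (hr : Row2 one (a l₁) X Y x y)
    {l : L} (hl1 : l ≠ triv) (hl2 : l ≠ l₀) (hlX : a l X = x) (hlY : a l Y = 0)
    {l' : L} (hl'1 : l' ≠ triv) (hl'2 : l' ≠ l₀) (hl'X : a l' X = 0) (hl'Y : a l' Y = y) :
    False := by
  obtain ⟨A, B, α, β, hrl0⟩ := H.exists_row2 hl1 hl2
  obtain ⟨P, p, hrl⟩ := hrl0.norm hr.hX hlX hr.x_ne
  obtain ⟨A', B', α', β', hrl0'⟩ := H.exists_row2 hl'1 hl'2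
  obtain ⟨P', p', hrl'⟩ := hrl0'.norm hr.hY hl'Y hr.y_ne
  have hPY : P ≠ Y := by
    rintro rfl
    have := hrl.at_Y
    rw [hlY] at this
    exact hrl.y_ne this.symm
  have hne1 : l' ≠ l := by
    rintro rfl
    rw [hl'X] at hlX
    exact hr.x_ne hlX.symm
  have hne2 : l' ≠ bar l := by
    rintro rfl
    rw [H.hbar_a, hlX] at hl'X
    exact hr.x_ne hl'X
  have hP : a l' P = p := by
    rcases H.key hl1 hrl hl'1 hne1 hne2 with ⟨h, -⟩ | ⟨-, h⟩
    · rw [hl'X] at h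
      exact absurd h.symm hr.x_ne
    · exact h
  have hPP : P = P' := by
    by_contra hne
    have := hrl'.at_other P hrl.hY hPY hne
    rw [hP] at this
    exact hrl.y_ne this
  subst hPP
  have hpp : p = p' := by rw [← hP, hrl'.at_Y]
  subst hpp
  have e1 := H.deg2 h1 hr
  have e2 := H.deg2 hl1 hrl
  have e3 := H.deg2 hl'1 hrl'
  generalize x * d X = s1 at e1 e2 e3
  generalize y * d Y = s2 at e1 e2 e3
  generalize p * d P = s3 at e1 e2 e3
  omega

end Hyp

/-- all non-real rows contain the coordinate `Δ` with sign `δ` -/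
def Star (a : L → I → ℤ) (one : I) (triv l₀ : L) (Δ : I) (δ : ℤ) : Prop :=
  ∀ l, l ≠ triv → l ≠ l₀ → ∃ T τ, Row2 one (a l) Δ T δ τ

namespace Hyp

theorem exists_star (H : Hyp a d one triv l₀ bar) {l₁ : L} (h1 : l₁ ≠ triv) (h2 : l₁ ≠ l₀) :
    ∃ Δ δ, Star a one triv l₀ Δ δ := by
  obtain ⟨X, Y, x, y, hr⟩ := H.exists_row2 h1 h2
  by_cases hY : ∃ l, l ≠ triv ∧ l ≠ l₀ ∧ a l X = 0 ∧ a l Y = y
  · obtain ⟨l', hl'1, hl'2, hl'X, hl'Y⟩ := hY
    refine ⟨Y, y, ?_⟩
    intro l hl1 hl2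
    by_cases e1 : l = l₁
    · subst e1
      exact ⟨X, x, hr.swap⟩
    by_cases e2 : l = bar l₁
    · subst e2
      rw [H.hbar_a]
      exact ⟨X, x, hr.swap⟩
    rcases H.key h1 hr hl1 e1 e2 with ⟨hlX, hlY⟩ | ⟨hlX, hlY⟩
    · exact (H.no_mix h1 hr hl1 hl2 hlX hlY hl'1 hl'2 hl'X hl'Y).elim
    · obtain ⟨A, B, α, β, hrl0⟩ := H.exists_row2 hl1 hl2
      exact hrl0.norm hr.hY hlY hr.y_ne
  · refine ⟨X, x, ?_⟩
    intro l hl1 hl2
    by_cases e1 : l = l₁
    · subst e1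
      exact ⟨Y, y, hr⟩
    by_cases e2 : l = bar l₁
    · subst e2
      rw [H.hbar_a]
      exact ⟨Y, y, hr⟩
    rcases H.key h1 hr hl1 e1 e2 with ⟨hlX, hlY⟩ | ⟨hlX, hlY⟩
    · obtain ⟨A, B, α, β, hrl0⟩ := H.exists_row2 hl1 hl2
      exact hrl0.norm hr.hX hlX hr.x_ne
    · exact (hY ⟨l, hl1, hl2, hlX, hlY⟩).elim

theorem generic (H : Hyp a d one triv l₀ bar) {l₁ : L} (h11 : l₁ ≠ triv) (h12 : l₁ ≠ l₀)
    {Δ : I} {δ : ℤ} (hS : Star a one triv l₀ Δ δ) (hA : a l₀ Δ = δ) :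
    ∃ (δ ε e₁ e₂ : ℤ) (Δ Z₁ Z₂ : I) (Θ : L → I),
      Shape a one triv l₀ bar δ ε e₁ e₂ Δ Z₁ Z₂ Θ := by
  have : Nonempty I := ⟨one⟩
  choose! T τ hT using hS
  have hΔ1 : Δ ≠ one := (hT l₁ h11 h12).hX
  have hδ : δ = 1 ∨ δ = -1 := (hT l₁ h11 h12).hx
  have hδ0 : δ ≠ 0 := (hT l₁ h11 h12).x_ne
  have hτ : ∀ l, l ≠ triv → l ≠ l₀ → τ l = τ l₁ := by
    intro l hl1 hl2
    have e1 := H.deg2 hl1 (hT l hl1 hl2)
    have e2 := H.deg2 h11 (hT l₁ h11 h12)
    have p1 := H.hd (T l)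
    have p2 := H.hd (T l₁)
    rcases (hT l hl1 hl2).hy with h | h <;> rcases (hT l₁ h11 h12).hy with h' | h'
    · rw [h, h']
    · rw [h] at e1; rw [h'] at e2; exfalso; linarith
    · rw [h] at e1; rw [h'] at e2; exfalso; linarith
    · rw [h, h']
  obtain ⟨P1, P2, P3, p1, p2, p3, hr0'⟩ := H.exists_row3
  obtain ⟨Z₁, Z₂, e₁, e₂, hr0⟩ := hr0'.norm hΔ1 hA hδ0
  have h0T : ∀ l, l ≠ triv → l ≠ l₀ → a l₀ (T l) = 0 := by
    intro l hl1 hl2
    have hb := H.bar_nr hl1 hl2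
    rcases H.key hl1 (hT l hl1 hl2) H.hl₀ (Ne.symm hl2) (Ne.symm hb.2.1) with ⟨-, h⟩ | ⟨h, -⟩
    · exact h
    · rw [hA] at h
      exact absurd h hδ0
  refine ⟨δ, -τ l₁, e₁, e₂, Δ, Z₁, Z₂, T, ?_⟩
  refine
    { hδ := hδ
      hε := ?_
      he₁ := hr0.hβ
      he₂ := hr0.hγ
      hΔ := hΔ1
      hZ₁ := ⟨hr0.hB, hr0.hAB.symm⟩
      hZ₂ := ⟨hr0.hC, hr0.hAC.symm, hr0.hBC.symm⟩
      hΘ := ?_
      hΘeq := ?_
      row := ?_
      row₀ := hr0.row }
  · rcases (hT l₁ h11 h12).hy with h | h <;> simp [h]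
  · intro l hl1 hl2
    refine ⟨(hT l hl1 hl2).hY, (hT l hl1 hl2).hXY.symm, ?_, ?_⟩
    · intro e
      have := h0T l hl1 hl2
      rw [e, hr0.at_B] at this
      exact hr0.b_ne this
    · intro e
      have := h0T l hl1 hl2
      rw [e, hr0.at_C] at this
      exact hr0.c_ne this
  · intro l l' hl1 hl2 hl'1 hl'2
    constructor
    · intro e
      by_contra hne
      push Not at hne
      rcases H.key hl1 (hT l hl1 hl2) hl'1 hne.1 hne.2 with ⟨-, h⟩ | ⟨h, -⟩
      · rw [e, (hT l' hl'1 hl'2).at_Y] at h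
        exact (hT l' hl'1 hl'2).y_ne h
      · rw [(hT l' hl'1 hl'2).at_X] at h
        exact hδ0 h
    · rintro (rfl | rfl)
      · rfl
      · have h1 := hT (bar l) hl'1 hl'2
        rw [H.hbar_a] at h1
        exact ((hT l hl1 hl2).tip_unique h1).1
  · intro l hl1 hl2 i
    rw [(hT l hl1 hl2).row i, hτ l hl1 hl2]
    ring

end Hyp

theorem exists_nr (triv l₀ : L) (hcard : 4 ≤ Fintype.card L) : ∃ l, l ≠ triv ∧ l ≠ l₀ := by
  by_contra hno
  push Not at hno
  have hsub : (Finset.univ : Finset L) ⊆ {triv, l₀} := by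
    intro l _
    by_cases h : l = triv
    · simp [h]
    · simp [hno l h]
  have h1 := Finset.card_le_card hsub
  have h2 : ({triv, l₀} : Finset L).card ≤ 2 := Finset.card_le_two
  rw [Finset.card_univ] at h1
  omega

end Main

end Cfsg.Agent.Lib.Helper18.BSW

namespace Cfsg.Agent.Lib.Helper46.BSW

open Cfsg.Agent.Lib.Helper18.BSW

open scoped Classical in
/-- Piece SHAPE of S3282: combinatorics of the matrix (with the necessary extra hypothesis
`hd1 : d one = 1`). -/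
theorem shape_comb {I L : Type*} [Fintype I] [Fintype L]
    (a : L → I → ℤ) (d : I → ℤ) (one : I) (triv l₀ : L) (bar : L → L)
    (hd : ∀ i, 0 < d i) (hd1 : d one = 1)
    (hbar : ∀ l, bar (bar l) = l) (hl₀ : l₀ ≠ triv)
    (hfix : ∀ l, bar l = l ↔ (l = triv ∨ l = l₀))
    (ha1 : ∀ l, l ≠ triv → a l one = 1)
    (hgram : ∀ l l', l ≠ triv → l' ≠ triv →
      ∑ i, a l i * a l' i = 2 + (if l' = l then 1 else 0) + (if l' = bar l then 1 else 0))
    (hbar_a : ∀ l, a (bar l) = a l)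
    (hdeg : ∀ l, l ≠ triv → ∑ i, a l i * d i = 0)
    (hcard : 4 ≤ Fintype.card L) :
    (∃ (δ ε e₁ e₂ : ℤ) (Δ Z₁ Z₂ : I) (Θ : L → I),
        Shape a one triv l₀ bar δ ε e₁ e₂ Δ Z₁ Z₂ Θ) ∨
    (∃ (l₁ l₂ : L) (Y W₁ W₂ W₃ : I) (b c₁ c₂ c₃ : ℤ),
        Exc a one triv l₀ bar l₁ l₂ Y W₁ W₂ W₃ b c₁ c₂ c₃) := by
  have H : Hyp a d one triv l₀ bar := ⟨hd, hd1, hbar, hl₀, hfix, ha1, hgram, hbar_a, hdeg⟩
  obtain ⟨l₁, h11, h12⟩ := exists_nr triv l₀ hcard
  obtain ⟨Δ, δ, hS⟩ := H.exists_star h11 h12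
  obtain ⟨T1, τ1, hr1⟩ := hS l₁ h11 h12
  obtain ⟨hb1, hb2, hb3⟩ := H.bar_nr h11 h12
  rcases H.key h11 hr1 H.hl₀ (Ne.symm h12) (Ne.symm hb2) with ⟨hA, -⟩ | ⟨hB0, hB1⟩
  · exact Or.inl (H.generic h11 h12 hS hA)
  by_cases hm : ∀ l, l ≠ triv → l ≠ l₀ → l = l₁ ∨ l = bar l₁
  · left
    refine H.generic h11 h12 (Δ := T1) (δ := τ1) ?_ hB1
    intro l hl1 hl2
    rcases hm l hl1 hl2 with rfl | rfl
    · exact ⟨Δ, δ, hr1.swap⟩
    · rw [H.hbar_a]
      exact ⟨Δ, δ, hr1.swap⟩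
  push Not at hm
  obtain ⟨l₂, h21, h22, h23, h24⟩ := hm
  obtain ⟨T2, τ2, hr2⟩ := hS l₂ h21 h22
  have hb' := H.bar_nr h21 h22
  have hB2 : a l₀ T2 = τ2 := by
    rcases H.key h21 hr2 H.hl₀ (Ne.symm h22) (Ne.symm hb'.2.1) with ⟨h, -⟩ | ⟨-, h⟩
    · rw [hB0] at h
      exact absurd h.symm hr2.x_ne
    · exact h
  have hT12 : T1 ≠ T2 := by
    intro e
    rcases H.key h11 hr1 h21 h23 h24 with ⟨-, h⟩ | ⟨h, -⟩
    · rw [e, hr2.at_Y] at h
      exact hr2.y_ne h
    · rw [hr2.at_X] at h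
      exact hr2.x_ne h
  obtain ⟨P1, P2, P3, p1, p2, p3, hr0'⟩ := H.exists_row3
  obtain ⟨Z₁, Z₂, e₁, e₂, hr0''⟩ := hr0'.norm hr1.hY hB1 hr1.y_ne
  obtain ⟨W₃, c₃, hr0⟩ := hr0''.norm2 hr2.hY hT12.symm hB2 hr2.y_ne
  have hW3Δ : W₃ ≠ Δ := by
    rintro rfl
    have := hr0.at_C
    rw [hB0] at this
    exact hr0.c_ne this.symm
  by_cases hm2 : ∀ l, l ≠ triv → l ≠ l₀ → l = l₁ ∨ l = bar l₁ ∨ l = l₂ ∨ l = bar l₂
  · right
    refine ⟨l₁, l₂, Δ, T1, T2, W₃, δ, τ1, τ2, c₃, ?_⟩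
    refine
      { hl₁ := ⟨h11, h12⟩
        hl₂ := ⟨h21, h22, h23, h24⟩
        all := ?_
        hb := hr1.hx
        hc₁ := hr1.hy
        hc₂ := hr2.hy
        hc₃ := hr0.hγ
        hY := hr1.hX
        hW₁ := ⟨hr1.hY, hr1.hXY.symm⟩
        hW₂ := ⟨hr2.hY, hr2.hXY.symm, hT12.symm⟩
        hW₃ := ⟨hr0.hC, hW3Δ, hr0.hAC.symm, hr0.hBC.symm⟩
        row₁ := fun i => by rw [hr1.row i]; ring
        row₂ := fun i => by rw [hr2.row i]; ring
        row₀ := hr0.row }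
    intro l
    by_cases e1 : l = triv
    · exact Or.inl e1
    by_cases e2 : l = l₀
    · exact Or.inr (Or.inl e2)
    exact Or.inr (Or.inr (hm2 l e1 e2))
  · exfalso
    push Not at hm2
    obtain ⟨l₃, h31, h32, h33, h34, h35, h36⟩ := hm2
    obtain ⟨T3, τ3, hr3⟩ := hS l₃ h31 h32
    have hb'' := H.bar_nr h31 h32
    have hB3 : a l₀ T3 = τ3 := by
      rcases H.key h31 hr3 H.hl₀ (Ne.symm h32) (Ne.symm hb''.2.1) with ⟨h, -⟩ | ⟨-, h⟩
      · rw [hB0] at h
        exact absurd h.symm hr3.x_ne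
      · exact h
    have hT13 : T3 ≠ T1 := by
      intro e
      rcases H.key h11 hr1 h31 h33 h34 with ⟨-, h⟩ | ⟨h, -⟩
      · rw [← e, hr3.at_Y] at h
        exact hr3.y_ne h
      · rw [hr3.at_X] at h
        exact hr3.x_ne h
    have hT23 : T3 ≠ T2 := by
      intro e
      rcases H.key h21 hr2 h31 h35 h36 with ⟨-, h⟩ | ⟨h, -⟩
      · rw [← e, hr3.at_Y] at h
        exact hr3.y_ne h
      · rw [hr3.at_X] at h
        exact hr3.x_ne h
    have hTW : T3 = W₃ := by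
      by_contra hne
      have := hr0.at_other T3 hr3.hY hT13 hT23 hne
      rw [hB3] at this
      exact hr3.y_ne this
    subst hTW
    have hc3 : c₃ = τ3 := by rw [← hB3, hr0.at_C]
    subst hc3
    have e0 := H.hdeg l₀ H.hl₀
    rw [hr0.sum d, H.hd1] at e0
    have e1 := H.deg2 h11 hr1
    have e2 := H.deg2 h21 hr2
    have e3 := H.deg2 h31 hr3
    generalize δ * d Δ = s0 at e1 e2 e3
    generalize τ1 * d T1 = s1 at e0 e1
    generalize τ2 * d T2 = s2 at e0 e2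
    generalize c₃ * d T3 = s3 at e0 e3
    omega

end Cfsg.Agent.Lib.Helper46.BSW
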