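import Mathlib
import Cfsg.Agent.Lib.Helper18.LSDefs
import Cfsg.Agent.S0269
import Cfsg.Agent.S0270
import Cfsg.Agent.Lib.Helper17.LSNANISO3
import Cfsg.Agent.Lib.Helper2.LSNHYP
import Cfsg.Agent.Lib.Helper2.LSPAIRB
import Cfsg.Agent.Lib.Helper21.LSSHEARINJ
import Cfsg.Agent.Lib.Helper28.LSCOMEIG
import Cfsg.Agent.Lib.Helper30.LSTINJ
import Cfsg.Agent.Lib.Helper30.LSTRANS
import Cfsg.Agent.Lib.Helper39.LSUADD
import Cfsg.Agent.Lib.Helper4.LSINDEP
import Cfsg.Agent.Lib.Helper46.LSCHAR2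
import Cfsg.Agent.Lib.Helper49.LSCONJ
import Cfsg.Agent.Lib.Helper49.LSEXPAND
import Cfsg.Agent.Lib.Helper50.LSNANISO2
import Cfsg.Agent.Lib.Helper54.LSFIELD2
import Cfsg.Agent.Lib.Helper54.LSPAIRA
import Cfsg.Agent.Lib.Helper54.LSSHEARGL
import Cfsg.Agent.Lib.Helper57.LSNANISO1
import Cfsg.Agent.Lib.Helper60.LSCHARFORM
import Cfsg.Agent.Lib.Helper60.LSNPAIRS
import Cfsg.Agent.Lib.Helper61.LSDUALCARD
import Cfsg.Agent.Lib.Helper61.LSFAITH1
import Cfsg.Agent.Lib.Helper63.LSS0NZ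
import Cfsg.Agent.Lib.Helper69.LSOMEGA0
import Cfsg.Agent.Lib.Helper79.LSSEP
import Cfsg.Agent.Lib.Helper79.LSWTMOVE
import Cfsg.Agent.Lib.Helper87.LSFAITH2
import Cfsg.Agent.Lib.Helper88.LSPSI

/-!
# Minimal degree of `Sp_{2n}(q)`, `q` even: assembly (helper18, S2333)

`main_bound`: for `q` even, `n ≥ 2`, `(n, q) ≠ (2, 2)`, every irreducible complex representation
of `Sp_{2n}(q)` of degree `k ≥ 2` satisfies `(q^n - 1)(q^n - q) / (2 (q + 1)) ≤ k`.

The subgroup `Q = {u(S)}` of symmetric matrices has a weight vector whose character is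
`S ↦ ψ(tr(S M))` with `M + Mᵀ ≠ 0`; its translates under `d(g)`, `g ∈ GL_n`, are weight vectors
for the quadratic forms in the orbit of `qf M`, and that orbit has at least
`(q^n - 1)(q^n - q) / (2 (q + 1))` elements.  The pieces were proved by helpers 2, 4, 17, 21, 28,
30, 39, 46, 49, 50, 54, 57, 60, 61, 63, 69, 79, 87, 88.
-/

set_option autoImplicit false

namespace Cfsg.Agent.Lib.Helper18.LS

open Matrix

universe u

variable {F : Type u} [Field F] {n : ℕ}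

/-! ## glue (helper18) -/

/-- a representation with trivial action on a space of dimension at least two is reducible -/
theorem not_irr_of_trivial {G : Type*} [Group G] {k : ℕ} (hk : 2 ≤ k)
    (ρ : Representation ℂ G (Fin k → ℂ)) (htriv : ∀ g, ρ g = 1) : ¬ ρ.IsIrreducible := by
  intro hirr
  let i0 : Fin k := ⟨0, by omega⟩
  let i1 : Fin k := ⟨1, by omega⟩
  have h01 : i1 ≠ i0 := by
    intro h
    have := congrArg Fin.val h
    simp [i0, i1] at this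
  let σ : Subrepresentation ρ :=
    ⟨Submodule.span ℂ {(Pi.single i0 1 : Fin k → ℂ)}, fun g v hv => by
      rw [htriv g]
      exact hv⟩
  rcases eq_bot_or_eq_top σ with h | h
  · have h1 : σ.toSubmodule = ⊥ := congrArg Subrepresentation.toSubmodule h
    have h2 : (Pi.single i0 1 : Fin k → ℂ) ∈ σ.toSubmodule :=
      Submodule.subset_span (Set.mem_singleton _)
    rw [h1, Submodule.mem_bot] at h2
    have := congrFun h2 i0
    simp at this
  · have h1 : σ.toSubmodule = ⊤ := congrArg Subrepresentation.toSubmodule h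
    have h2 : (Pi.single i1 1 : Fin k → ℂ) ∈ σ.toSubmodule := by
      rw [h1]
      trivial
    obtain ⟨c, hc⟩ := Submodule.mem_span_singleton.mp h2
    have := congrFun hc i1
    simp [h01] at this

/-- FAITH: a nontrivial irreducible representation is nontrivial on `u(S0)` -/
theorem faithful_S0 [Fintype F] (hn : 2 ≤ n) (hq : n = 2 → 3 ≤ Fintype.card F) {k : ℕ}
    (hk : 2 ≤ k) (ρ : Representation ℂ (symplecticGroup (Fin n) F) (Fin k → ℂ))
    (hirr : ρ.IsIrreducible) : ρ (uS (S0 n F)) ≠ 1 := by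
  intro h1
  have hperf : commutator (symplecticGroup (Fin n) F) = ⊤ := by
    apply Cfsg.Agent.S0269.result
    by_cases h2 : n = 2
    · exact Or.inr (Or.inl ⟨h2, hq h2⟩)
    · left; omega
  have hsimple : IsSimpleGroup
      (symplecticGroup (Fin n) F ⧸ Subgroup.center (symplecticGroup (Fin n) F)) :=
    Cfsg.Agent.S0270.result n hn hq
  have hmem : uS (S0 n F) ∈ MonoidHom.ker ρ := h1
  have htop := normal_eq_top_of_not_central hperf hsimple (MonoidHom.ker ρ) _ hmem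
    (uS_S0_not_central hn)
  apply not_irr_of_trivial hk ρ _ hirr
  intro g
  have : g ∈ MonoidHom.ker ρ := by rw [htop]; trivial
  exact this

/-- WT: a weight vector for the group of symmetric matrices -/
theorem exists_weight [CharP F 2] {k : ℕ}
    (ρ : Representation ℂ (symplecticGroup (Fin n) F) (Fin k → ℂ))
    (hne : ρ (uS (S0 n F)) ≠ 1) :
    ∃ (v : Fin k → ℂ) (χ : Matrix (Fin n) (Fin n) F → ℂ), v ≠ 0 ∧ χ (S0 n F) ≠ 1 ∧ χ 0 = 1 ∧
      (∀ S T : Matrix (Fin n) (Fin n) F, S.IsSymm → T.IsSymm → χ (S + T) = χ S * χ T) ∧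
      (∀ S : Matrix (Fin n) (Fin n) F, S.IsSymm → ρ (uS S) v = χ S • v) := by
  classical
  let T : ↥(symG n F) → (Fin k → ℂ) →ₗ[ℂ] (Fin k → ℂ) := fun a => ρ (uS a.1)
  have hT0 : T 0 = 1 := by
    show ρ (uS (0 : Matrix (Fin n) (Fin n) F)) = 1
    rw [uS_zero, map_one]
  have hTadd : ∀ a b, T (a + b) = T a * T b := by
    intro a b
    show ρ (uS (a.1 + b.1)) = ρ (uS a.1) * ρ (uS b.1)
    rw [uS_add a.2 b.2, map_mul]
  have h2 : ∀ a : ↥(symG n F), a + a = 0 := by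
    intro a
    apply Subtype.ext
    show a.1 + a.1 = 0
    ext i j
    simp [CharTwo.add_self_eq_zero]
  obtain ⟨v, χ', hv, hχ0, hχ1, hχm, hχ⟩ :=
    common_eigenvector T hT0 hTadd h2 ⟨S0 n F, S0_isSymm⟩ hne
  refine ⟨v, fun S => if h : S.IsSymm then χ' ⟨S, mem_symG.2 h⟩ else 1, hv, ?_, ?_, ?_, ?_⟩
  · beta_reduce
    rw [dif_pos S0_isSymm]; exact hχ0
  · beta_reduce
    rw [dif_pos isSymm_zero]; exact hχ1
  · intro S T hS hT
    beta_reduce
    rw [dif_pos hS, dif_pos hT, dif_pos (hS.add hT)]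
    exact hχm ⟨S, hS⟩ ⟨T, hT⟩
  · intro S hS
    beta_reduce
    rw [dif_pos hS]
    exact hχ ⟨S, hS⟩

/-- REP: the degree is at least the size of the orbit of a quadratic form with nonzero polar
form -/
theorem rep_bound [Fintype F] [CharP F 2] (hn : 2 ≤ n) {k : ℕ}
    (ρ : Representation ℂ (symplecticGroup (Fin n) F) (Fin k → ℂ))
    (hne : ρ (uS (S0 n F)) ≠ 1) :
    ∃ M : Matrix (Fin n) (Fin n) F, M + Mᵀ ≠ 0 ∧ Nat.card (orb M) ≤ k := by
  classical
  obtain ⟨ψ, hψ1, hψ2⟩ := exists_psi (F := F)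
  obtain ⟨v, χ, hv, hχS0, hχ0, hχadd, hχ⟩ := exists_weight ρ hne
  obtain ⟨M, hM⟩ := char_form ψ hψ1 χ hχ0 hχadd
  have hw : ∀ S : Matrix (Fin n) (Fin n) F, S.IsSymm →
      ρ (uS S) v = ψ (trace (S * M)) • v := by
    intro S hS
    rw [hχ S hS, hM S hS]
  have hMne : M + Mᵀ ≠ 0 := by
    apply S0_trace_ne hn
    intro h0
    apply hχS0
    rw [hM _ S0_isSymm, h0]
    exact AddChar.map_zero_eq_one ψ
  refine ⟨M, hMne, ?_⟩
  have hex : ∀ φ : ↥(orb M), ∃ (w : Fin k → ℂ) (M' : Matrix (Fin n) (Fin n) F), w ≠ 0 ∧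
      (∀ S : Matrix (Fin n) (Fin n) F, S.IsSymm → ρ (uS S) w = ψ (trace (S * M')) • w) ∧
      (∀ x : Fin n → F, qf M' x = φ.1 x) := by
    rintro ⟨φ, g, rfl⟩
    obtain ⟨w, M', hw0, hw1, hw2⟩ :=
      weight_move ρ ψ (fun g S hS => dG_mul_uS g hS) M v hv hw g
    exact ⟨w, M', hw0, hw1, hw2⟩
  choose w M' hw0 hw1 hw2 using hex
  have hfin : Finite ↥(orb M) := Subtype.finite
  have key := card_le_finrank_of_eigen (V := Fin k → ℂ) (ι := ↥(orb M)) (A := ↥(symG n F))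
    (fun a => ρ (uS a.1)) (fun φ a => ψ (trace (a.1 * M' φ))) ?_ w hw0
    (fun φ a => hw1 φ a.1 a.2)
  · rwa [Module.finrank_fin_fun] at key
  · intro φ φ' hEq
    apply Subtype.ext
    funext x
    rw [← hw2 φ x, ← hw2 φ' x]
    exact char_sep ψ hψ2 (M' φ) (M' φ') (fun S hS => congrFun hEq ⟨S, hS⟩) x

/-- PAIR: a good pair `(u₀, v₀)` -/
theorem exists_good_pair [Fintype F] [CharP F 2] (M : Matrix (Fin n) (Fin n) F)
    (hM : M + Mᵀ ≠ 0) :
    ∃ u₀ v₀ : Fin n → F, bl M u₀ v₀ = 1 ∧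
      ((∀ a c : F, qf M (a • u₀ + c • v₀) = 0 → a = 0 ∧ c = 0) ∨
       (qf M u₀ = 0 ∧ qf M v₀ = 0 ∧ ∀ w, w ∈ Wperp M u₀ v₀ → qf M w = 0)) := by
  obtain ⟨u, v, huv, h | ⟨hu, hv⟩⟩ := exists_pair M hM
  · exact ⟨u, v, huv, Or.inl h⟩
  · by_cases hW : ∀ w, w ∈ Wperp M u v → qf M w = 0
    · exact ⟨u, v, huv, Or.inr ⟨hu, hv, hW⟩⟩
    · rw [not_forall] at hW
      obtain ⟨w, hW⟩ := hW
      rw [Classical.not_imp] at hW
      obtain ⟨hw, hqw⟩ := hW
      obtain ⟨⟨c, hc⟩, hsq⟩ := field_two (F := F)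
      obtain ⟨μ, hμ⟩ := hsq (qf M w)⁻¹
      have hμ' : μ ^ 2 * qf M w = 1 := by rw [hμ]; exact inv_mul_cancel₀ hqw
      obtain ⟨hb, ha⟩ := aniso_of_hyp M u v w huv hu hv hw.1 hw.2 c μ hc hμ'
      exact ⟨u + c • v, v + μ • w, hb, Or.inl ha⟩

/-- OMEGA: the number of pairs `(u, v)` with `qf u = qf u₀`, `qf v = qf v₀`, `bl u v = 1` -/
theorem card_omega [Fintype F] [CharP F 2] (M : Matrix (Fin n) (Fin n) F) (u₀ v₀ : Fin n → F)
    (h : bl M u₀ v₀ = 1)
    (hc : (∀ a c : F, qf M (a • u₀ + c • v₀) = 0 → a = 0 ∧ c = 0) ∨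
       (qf M u₀ = 0 ∧ qf M v₀ = 0 ∧ ∀ w, w ∈ Wperp M u₀ v₀ → qf M w = 0)) :
    Nat.card (Omega M (qf M u₀) (qf M v₀)) ≤
      2 * (Fintype.card F + 1) * Nat.card (Wperp M u₀ v₀) ^ 2 := by
  apply omega_fiber M u₀ v₀ h
  intro w w' hw hw'
  have h0 : (0 : Fin n → F) ∈ Wperp M u₀ v₀ := ⟨bl_zero_left M u₀, bl_zero_left M v₀⟩
  have hset : {P : (F × F) × (F × F) |
        qf M (P.1.1 • u₀ + P.1.2 • v₀ + w) = qf M u₀ ∧
        qf M (P.2.1 • u₀ + P.2.2 • v₀ + w') = qf M v₀ ∧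
        bl M (P.1.1 • u₀ + P.1.2 • v₀ + w) (P.2.1 • u₀ + P.2.2 • v₀ + w') = 1} =
      {P : (F × F) × (F × F) | f2 (qf M u₀) (qf M v₀) P.1 = qf M u₀ - qf M w ∧
        f2 (qf M u₀) (qf M v₀) P.2 = qf M v₀ - qf M w' ∧
        P.1.1 * P.2.2 + P.2.1 * P.1.2 = 1 - bl M w w'} := by
    ext P
    obtain ⟨⟨a, c⟩, ⟨a', c'⟩⟩ := P
    have e1 := (expand M u₀ v₀ h w w' hw hw' a c a' c').1
    have e2 := (expand M u₀ v₀ h w w' hw hw' a c a' c').2
    have e3 := (expand M u₀ v₀ h w' w hw' hw a' c' a c).1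
    simp only [Set.mem_ofPred_eq]
    rw [e1, e2, e3, eq_sub_iff_add_eq, eq_sub_iff_add_eq, eq_sub_iff_add_eq]
  rw [hset]
  rcases hc with haniso | ⟨hu, hv, hW⟩
  · have han : ∀ p : F × F, f2 (qf M u₀) (qf M v₀) p = 0 → p = 0 := by
      rintro ⟨a, c⟩ hp
      have e1 := (expand M u₀ v₀ h 0 0 h0 h0 a c a c).1
      rw [qf_zero, add_zero, add_zero] at e1
      obtain ⟨ha, hc⟩ := haniso a c (by rw [e1]; exact hp)
      rw [ha, hc]
      rfl
    exact naniso_three _ _ han (naniso_one _ _ han) (naniso_two _ _ han) _ _ _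
  · have hww : bl M w w' = 0 := by
      have hadd : w + w' ∈ Wperp M u₀ v₀ :=
        ⟨by rw [bl_add_left, hw.1, hw'.1, add_zero], by rw [bl_add_left, hw.2, hw'.2, add_zero]⟩
      have h3 := hW _ hadd
      rw [qf_add, hW w hw, hW w' hw', zero_add, zero_add] at h3
      exact h3
    rw [hu, hv, hW w hw, hW w' hw', hww, sub_zero, sub_zero]
    have hs : {P : (F × F) × (F × F) | f2 (0 : F) 0 P.1 = 0 ∧ f2 (0 : F) 0 P.2 = 0 ∧
          P.1.1 * P.2.2 + P.2.1 * P.1.2 = 1} =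
        {P : (F × F) × (F × F) | P.1.1 * P.1.2 = 0 ∧ P.2.1 * P.2.2 = 0 ∧
          P.1.1 * P.2.2 + P.2.1 * P.1.2 = 1} := by
      ext P
      simp [f2]
    rw [hs]
    exact nhyp

/-- QF: the orbit of a quadratic form with nonzero polar form is large -/
theorem qf_count [Fintype F] [CharP F 2] (M : Matrix (Fin n) (Fin n) F) (hM : M + Mᵀ ≠ 0) :
    (Fintype.card F ^ n - 1) * (Fintype.card F ^ n - Fintype.card F) ≤
      2 * (Fintype.card F + 1) * Nat.card (orb M) := by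
  obtain ⟨u₀, v₀, h, hc⟩ := exists_good_pair M hM
  have h' : bl M v₀ u₀ = 1 := by rw [bl_comm]; exact h
  have hind : Indep u₀ v₀ := by
    intro a c hac
    have h1 : bl M (a • u₀ + c • v₀) v₀ = a := by
      rw [bl_add_left, bl_smul_left, bl_smul_left, h, bl_self, mul_one, mul_zero, add_zero]
    have h2 : bl M (a • u₀ + c • v₀) u₀ = c := by
      rw [bl_add_left, bl_smul_left, bl_smul_left, h', bl_self, mul_one, mul_zero, zero_add]
    rw [hac, bl_zero_left] at h1 h2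
    exact ⟨h1.symm, h2.symm⟩
  have hL := card_ann u₀ v₀ ((M + Mᵀ) *ᵥ v₀) ((M + Mᵀ) *ᵥ u₀)
    (by rw [dotProduct_comm]; exact h) (by rw [dotProduct_comm]; exact bl_self M v₀)
    (by rw [dotProduct_comm]; exact bl_self M u₀) (by rw [dotProduct_comm]; exact h')
  have hW := card_ann ((M + Mᵀ) *ᵥ u₀) ((M + Mᵀ) *ᵥ v₀) v₀ u₀ h' (bl_self M v₀)
    (bl_self M u₀) h
  rw [← Wperp_eq_ann] at hW
  have hq : 0 < Fintype.card F := Fintype.card_pos
  have hLW : Nat.card (ann u₀ v₀) = Nat.card (Wperp M u₀ v₀) :=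
    Nat.eq_of_mul_eq_mul_right (pow_pos hq 2) (hL.trans hW.symm)
  have hLpos : 0 < Nat.card (ann u₀ v₀) := by
    rcases Nat.eq_zero_or_pos (Nat.card (ann u₀ v₀)) with h0 | h0
    · rw [h0, zero_mul] at hL
      exact absurd hL.symm (pow_pos hq n).ne'
    · exact h0
  have hNP := card_indep (F := F) (n := n)
  have hTI := card_inj M u₀ v₀ h (fun u v huv => gl_trans u v u₀ v₀ huv hind)
    (fun ℓ m hℓ hm => shear_gl u₀ v₀ ℓ m hℓ hm)
    (fun ℓ m ℓ' m' hℓ hm hℓ' hm' heq => shear_inj M u₀ v₀ h ℓ m ℓ' m' hℓ hm hℓ' hm' heq)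
  have hOm := card_omega M u₀ v₀ h hc
  rw [← hLW] at hOm
  have h5 : Nat.card {p : (Fin n → F) × (Fin n → F) | Indep p.1 p.2} *
      Nat.card (ann u₀ v₀) ^ 2 ≤
      (2 * (Fintype.card F + 1) * Nat.card (orb M)) * Nat.card (ann u₀ v₀) ^ 2 := by
    calc _ ≤ Nat.card (orb M) * Nat.card (Omega M (qf M u₀) (qf M v₀)) := hTI
      _ ≤ Nat.card (orb M) * (2 * (Fintype.card F + 1) * Nat.card (ann u₀ v₀) ^ 2) :=
          Nat.mul_le_mul_left _ hOm
      _ = _ := by ring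
  exact hNP.trans (Nat.le_of_mul_le_mul_right h5 (pow_pos hLpos 2))

/-- the Landazuri–Seitz bound for `Sp_{2n}(q)`, `q` even -/
theorem main_bound [Fintype F] (hn : 2 ≤ n) (heven : Even (Fintype.card F))
    (hex : (n, Fintype.card F) ≠ (2, 2)) (k : ℕ)
    (ρ : Representation ℂ (symplecticGroup (Fin n) F) (Fin k → ℂ)) (hirr : ρ.IsIrreducible)
    (hk : 2 ≤ k) :
    (Fintype.card F ^ n - 1) * (Fintype.card F ^ n - Fintype.card F) /
      (2 * (Fintype.card F + 1)) ≤ k := by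
  have hchar : CharP F 2 := charTwo_of_even heven
  have hq : n = 2 → 3 ≤ Fintype.card F := by
    intro h2
    have h1 : Fintype.card F ≠ 2 := fun h => hex (by rw [h2, h])
    have h3 : 1 < Fintype.card F := Fintype.one_lt_card
    omega
  have hne := faithful_S0 hn hq hk ρ hirr
  obtain ⟨M, hM, hcard⟩ := rep_bound hn ρ hne
  exact (Nat.div_le_of_le_mul (qf_count M hM)).trans hcard


end Cfsg.Agent.Lib.Helper18.LS
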