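import Cfsg.Agent.Lib.Helper18.McGrp4
import Cfsg.Agent.Lib.Helper22.SpGen
import Cfsg.Agent.Lib.Helper50.SlGen

/-!
# Assembly of the decomposition in McLaughlin's theorem
-/

namespace Cfsg.Agent.Lib.Helper18.Mc

open Module

section General

variable {K : Type*} [Field K] {V : Type*} [AddCommGroup V] [Module K V]

theorem mem_of_prL_eq_zero {W C : Submodule K V} (h : IsCompl W C) {x : V}
    (hx : prL h x = 0) : x ∈ C := by
  have := prL_add_prR h x
  rw [hx, zero_add] at this
  rw [← this]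
  exact prR_mem h x

/-- A family of complemented subspaces, each contained in the complements of the others,
together with the intersection of the complements, is an internal direct sum. -/
theorem internal_of_compl {n : ℕ} (U A : Fin n → Submodule K V)
    (hc : ∀ j, IsCompl (U j) (A j)) (hUA : ∀ j k, j ≠ k → U k ≤ A j) :
    DirectSum.IsInternal (Fin.cons (⨅ j, A j) U : Fin (n + 1) → Submodule K V) := by
  classical
  have hP1 : ∀ j, ∀ x ∈ U j, prL (hc j) x = x := fun j x hx => prL_of_mem (hc j) hx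
  have hP0 : ∀ j, ∀ x ∈ A j, prL (hc j) x = 0 := fun j x hx => prL_of_mem_right (hc j) hx
  have hsum : ∀ k, ∀ x ∈ U k, ∑ j, prL (hc j) x = x := by
    intro k x hx
    rw [Finset.sum_eq_single k]
    · exact hP1 k x hx
    · intro j _ hjk
      exact hP0 j x (hUA j k hjk hx)
    · intro h
      exact absurd (Finset.mem_univ k) h
  have hQ0mem : ∀ x, x - ∑ j, prL (hc j) x ∈ ⨅ j, A j := by
    intro x
    rw [Submodule.mem_iInf]
    intro j
    apply mem_of_prL_eq_zero (hc j)
    rw [map_sub, map_sum, Finset.sum_eq_single j]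
    · rw [hP1 j _ (prL_mem (hc j) x), sub_self]
    · intro k _ hkj
      exact hP0 j _ (hUA j k hkj.symm (prL_mem (hc k) x))
    · intro h
      exact absurd (Finset.mem_univ j) h
  rw [DirectSum.isInternal_submodule_iff_iSupIndep_and_iSup_eq_top]
  constructor
  · intro i
    rw [Submodule.disjoint_def]
    refine Fin.cases ?_ (fun j => ?_) i
    · intro x hx hx'
      rw [Fin.cons_zero] at hx
      have hle : (⨆ (j : Fin (n + 1)) (_ : j ≠ 0),
          (Fin.cons (⨅ j, A j) U : Fin (n + 1) → Submodule K V) j) ≤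
          LinearMap.ker (LinearMap.id - ∑ j, prL (hc j)) := by
        apply iSup₂_le
        intro j
        refine Fin.cases ?_ (fun k => ?_) j
        · intro h
          exact absurd rfl h
        · intro _ y hy
          rw [Fin.cons_succ] at hy
          rw [LinearMap.mem_ker, LinearMap.sub_apply, LinearMap.id_apply, LinearMap.sum_apply,
            hsum k y hy, sub_self]
      have h1 := LinearMap.mem_ker.mp (hle hx')
      rw [LinearMap.sub_apply, LinearMap.id_apply, LinearMap.sum_apply] at h1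
      have h2 : ∑ j, prL (hc j) x = 0 :=
        Finset.sum_eq_zero (fun j _ => hP0 j x ((Submodule.mem_iInf _).mp hx j))
      rw [h2, sub_zero] at h1
      exact h1
    · intro x hx hx'
      rw [Fin.cons_succ] at hx
      have hle : (⨆ (k : Fin (n + 1)) (_ : k ≠ j.succ),
          (Fin.cons (⨅ j, A j) U : Fin (n + 1) → Submodule K V) k) ≤
          LinearMap.ker (prL (hc j)) := by
        apply iSup₂_le
        intro k
        refine Fin.cases ?_ (fun k' => ?_) k
        · intro _ y hy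
          rw [Fin.cons_zero] at hy
          exact LinearMap.mem_ker.mpr (hP0 j y ((Submodule.mem_iInf _).mp hy j))
        · intro hne y hy
          rw [Fin.cons_succ] at hy
          have hjk : j ≠ k' := fun h => hne (by rw [h])
          exact LinearMap.mem_ker.mpr (hP0 j y (hUA j k' hjk hy))
      have h1 := LinearMap.mem_ker.mp (hle hx')
      rw [hP1 j x hx] at h1
      exact h1
  · rw [eq_top_iff]
    intro x _
    have hx : x = (x - ∑ j, prL (hc j) x) + ∑ j, prL (hc j) x := by abel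
    rw [hx]
    apply Submodule.add_mem
    · exact (le_iSup (Fin.cons (⨅ j, A j) U : Fin (n + 1) → Submodule K V) 0)
        (by rw [Fin.cons_zero]; exact hQ0mem x)
    · apply Submodule.sum_mem
      intro j _
      exact (le_iSup (Fin.cons (⨅ j, A j) U : Fin (n + 1) → Submodule K V) j.succ)
        (by rw [Fin.cons_succ]; exact prL_mem (hc j) x)

theorem commute_closure {G : Type*} [Group G] {S S' : Set G}
    (h : ∀ a ∈ S, ∀ b ∈ S', a * b = b * a) :
    ∀ a ∈ Subgroup.closure S, ∀ b ∈ Subgroup.closure S', a * b = b * a := by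
  intro a ha b hb
  have h1 : Subgroup.closure S ≤ Subgroup.centralizer (Subgroup.closure S' : Set G) := by
    rw [Subgroup.closure_le]
    intro a ha
    rw [SetLike.mem_coe, Subgroup.mem_centralizer_iff]
    intro b hb
    have h2 : Subgroup.closure S' ≤ Subgroup.centralizer {a} := by
      rw [Subgroup.closure_le]
      intro b hb
      rw [SetLike.mem_coe, Subgroup.mem_centralizer_iff]
      intro c hc
      rw [Set.mem_singleton_iff.mp hc]
      exact h a ha b hb
    exact (Subgroup.mem_centralizer_iff.mp (h2 hb) a (Set.mem_singleton a)).symm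
  exact (Subgroup.mem_centralizer_iff.mp (h1 ha) b hb).symm

/-- The pointwise fixer of a submodule. -/
def fixer (S : Submodule K V) : Subgroup (V ≃ₗ[K] V) where
  carrier := {h | ∀ x ∈ S, h x = x}
  mul_mem' := fun {a b} ha hb x hx => by rw [LinearEquiv.mul_apply, hb x hx, ha x hx]
  one_mem' := fun x _ => rfl
  inv_mem' := fun {a} ha x hx => by
    rw [LinearEquiv.coe_inv, LinearEquiv.symm_apply_eq, ha x hx]

theorem mem_fixer {S : Submodule K V} {h : V ≃ₗ[K] V} : h ∈ fixer S ↔ ∀ x ∈ S, h x = x :=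
  Iff.rfl

theorem fixer_anti {S S' : Submodule K V} (h : S ≤ S') : fixer S' ≤ fixer S :=
  fun _ hg x hx => hg x (h hx)

theorem eq_one_of_fixer {U A : Submodule K V} (hc : IsCompl U A) {h : V ≃ₗ[K] V}
    (h1 : h ∈ fixer U) (h2 : h ∈ fixer A) : h = 1 := by
  ext x
  have h3 := prL_add_prR hc x
  have h4 : h (prL hc x + prR hc x) = prL hc x + prR hc x := by
    rw [map_add, h1 _ (prL_mem hc x), h2 _ (prR_mem hc x)]
  rw [h3] at h4
  exact h4

end General

variable {p : ℕ} [Fact p.Prime] {V : Type*} [AddCommGroup V] [Module (ZMod p) V]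
variable {H : Subgroup (V ≃ₗ[ZMod p] V)}

/-- The generating transvections of a class. -/
def genSet (H : Subgroup (V ≃ₗ[ZMod p] V)) (q : Cls H) : Set (V ≃ₗ[ZMod p] V) :=
  {g | ∃ u φ, LC H q u φ ∧ IsTv g u φ}

/-- The subgroup generated by the transvections of a class. -/
def KC (H : Subgroup (V ≃ₗ[ZMod p] V)) (q : Cls H) : Subgroup (V ≃ₗ[ZMod p] V) :=
  Subgroup.closure (genSet H q)

theorem genSet_le (q : Cls H) : ∀ g ∈ genSet H q, g ∈ H := by
  rintro g ⟨u, φ, h1, ht⟩
  obtain ⟨-, -, -, g', hg', ht'⟩ := h1.lam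
  rw [ht.ext' ht']
  exact hg'

theorem KC_le (q : Cls H) : KC H q ≤ H := (Subgroup.closure_le H).mpr (genSet_le q)

theorem KC_fix (q : Cls H) : KC H q ≤ fixer (axes (LC H q)) := by
  rw [KC, Subgroup.closure_le]
  rintro g ⟨u, φ, h1, ht⟩ x hx
  rw [ht x, hx u φ h1, zero_smul, add_zero]

theorem cspan_le_axes {q q' : Cls H} (hne : q ≠ q') : cspan (LC H q') ≤ axes (LC H q) := by
  apply Submodule.span_le.mpr
  rintro u' ⟨φ', h'⟩ u φ h
  exact (h.disj h' hne).1

theorem map_cspan (hyp : Hyp p H) (q : Cls H) :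
    ∀ h ∈ H, ∀ x ∈ cspan (LC H q), h x ∈ cspan (LC H q) := by
  apply hyp.ind (fun h => ∀ x ∈ cspan (LC H q), h x ∈ cspan (LC H q))
  · intro g u φ hl ht x hx
    rw [ht x]
    by_cases hq : Quotient.mk (adjSetoid H) ⟨(u, φ), hl⟩ = q
    · exact Submodule.add_mem _ hx (Submodule.smul_mem _ _ (mem_cspan (L := LC H q) ⟨hl, hq⟩))
    · have h1 : φ x = 0 := cspan_le_axes hq hx u φ (LC.of_lam hl)
      rw [h1, zero_smul, add_zero]
      exact hx
  · intro x hx
    exact hx
  · intro a b ha hb x hx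
    rw [LinearEquiv.mul_apply]
    exact ha _ (hb x hx)

theorem conj_genSet (hyp : Hyp p H) (q : Cls H) {g' : V ≃ₗ[ZMod p] V} {u' : V}
    {φ' : Dual (ZMod p) V} (hl' : Lam H u' φ') (ht' : IsTv g' u' φ') :
    ∀ s ∈ genSet H q, g' * s * g'⁻¹ ∈ genSet H q := by
  rintro s ⟨u₁, φ₁, h1, ht₁⟩
  have hc := ht₁.conj ht' hl'.2.2.1
  by_cases hadj : Adj (u₁, φ₁) (u', φ')
  · exact ⟨_, _, LC.conj hyp h1 (h1.of_adj hl' hadj), hc⟩
  · obtain ⟨h3, h4⟩ := not_adj hadj
    rw [h3, h4, zero_smul, add_zero, zero_smul, sub_zero] at hc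
    exact ⟨u₁, φ₁, h1, hc⟩

theorem KC_conj (hyp : Hyp p H) (q : Cls H) :
    ∀ h ∈ H, ∀ k ∈ KC H q, h * k * h⁻¹ ∈ KC H q := by
  apply hyp.ind (fun h => ∀ k ∈ KC H q, h * k * h⁻¹ ∈ KC H q)
  · intro g' u' φ' hl' ht'
    exact conj_mem_closure (fun s hs => Subgroup.subset_closure (conj_genSet hyp q hl' ht' s hs))
  · intro n hn
    rw [one_mul, inv_one, mul_one]
    exact hn
  · intro x y hx hy n hn
    have : x * y * n * (x * y)⁻¹ = x * (y * n * y⁻¹) * x⁻¹ := by group
    rw [this]
    exact hx _ (hy _ hn)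

theorem KC_normal (hyp : Hyp p H) (q : Cls H) : ((KC H q).subgroupOf H).Normal := by
  constructor
  intro n hn g
  rw [Subgroup.mem_subgroupOf] at hn ⊢
  rw [Subgroup.coe_mul, Subgroup.coe_mul, Subgroup.coe_inv]
  exact KC_conj hyp q g g.2 n hn

theorem KC_commute {q q' : Cls H} (hne : q ≠ q') :
    ∀ a ∈ KC H q, ∀ b ∈ KC H q', a * b = b * a := by
  apply commute_closure
  rintro a ⟨u, φ, h, ht⟩ b ⟨u', φ', h', ht'⟩
  obtain ⟨h1, h2⟩ := h.disj h' hne
  exact ht.commute ht' h1 h2

theorem le_iSup_KC (hyp : Hyp p H) : H ≤ ⨆ q, KC H q := by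
  intro h hh
  revert h
  apply hyp.ind (fun h => h ∈ ⨆ q, KC H q)
  · intro g u φ hl ht
    exact Subgroup.mem_iSup_of_mem _ (Subgroup.subset_closure ⟨u, φ, LC.of_lam hl, ht⟩)
  · exact Subgroup.one_mem _
  · intro x y hx hy
    exact Subgroup.mul_mem _ hx hy

theorem fix_iInf (hyp : Hyp p H) : ∀ h ∈ H, ∀ x ∈ ⨅ q, axes (LC H q), h x = x := by
  apply hyp.ind (fun h => ∀ x ∈ ⨅ q, axes (LC H q), h x = x)
  · intro g u φ hl ht x hx
    have h1 : φ x = 0 := (Submodule.mem_iInf _).mp hx _ u φ (LC.of_lam hl)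
    rw [ht x, h1, zero_smul, add_zero]
  · intro x _
    rfl
  · intro a b ha hb x hx
    rw [LinearEquiv.mul_apply, hb x hx, ha x hx]

theorem map_eq_of_mem (hyp : Hyp p H) (q : Cls H) {h : V ≃ₗ[ZMod p] V} (hh : h ∈ H) :
    (cspan (LC H q)).map (h : V →ₗ[ZMod p] V) = cspan (LC H q) := by
  apply le_antisymm
  · rintro _ ⟨x, hx, rfl⟩
    exact map_cspan hyp q h hh x hx
  · intro x hx
    refine ⟨h⁻¹ x, map_cspan hyp q h⁻¹ (H.inv_mem hh) x hx, ?_⟩
    simp

end Cfsg.Agent.Lib.Helper18.Mc
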