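import Mathlib

/-!
# Abstract transvection systems (towards McLaughlin's theorem over a prime field)

`L u φ` stands for "the transvection `x ↦ x + φ x • u` belongs to the group".  The structure
`TSys` records the closure properties of the set of such pairs for one connected component of
the non-commuting graph of the transvections of a group with trivial `p`-core.
-/

namespace Cfsg.Agent.Lib.Helper18.Mc

open Module

variable {K : Type*} [Field K] {V : Type*} [AddCommGroup V] [Module K V]

/-- The span of the centres. -/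
def cspan (L : V → Dual K V → Prop) : Submodule K V := Submodule.span K {u | ∃ φ, L u φ}

/-- The intersection of the axes. -/
def axes (L : V → Dual K V → Prop) : Submodule K V where
  carrier := {x | ∀ u φ, L u φ → φ x = 0}
  add_mem' := fun {a b} ha hb u φ h => by rw [map_add, ha u φ h, hb u φ h, add_zero]
  zero_mem' := fun u φ _ => map_zero φ
  smul_mem' := fun c _ hx u φ h => by rw [map_smul, hx u φ h, smul_zero]

theorem mem_axes {L : V → Dual K V → Prop} {x : V} :
    x ∈ axes L ↔ ∀ u φ, L u φ → φ x = 0 := Iff.rfl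

theorem mem_cspan {L : V → Dual K V → Prop} {u : V} {φ : Dual K V} (h : L u φ) :
    u ∈ cspan L := Submodule.subset_span ⟨φ, h⟩

theorem axes_le_ker {L : V → Dual K V → Prop} {u : V} {φ : Dual K V} (h : L u φ) :
    axes L ≤ LinearMap.ker φ := fun x hx => LinearMap.mem_ker.mpr (hx u φ h)

/-- An abstract transvection system. -/
structure TSys (L : V → Dual K V → Prop) : Prop where
  ne_left : ∀ {u φ}, L u φ → u ≠ 0
  ne_right : ∀ {u φ}, L u φ → φ ≠ 0
  app : ∀ {u φ}, L u φ → φ u = 0
  smul_left : ∀ {u φ} (c : K), c ≠ 0 → L u φ → L (c • u) φ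
  smul_right : ∀ {u φ} (c : K), c ≠ 0 → L u φ → L u (c • φ)
  add_left : ∀ {u u' φ}, L u φ → L u' φ → u + u' ≠ 0 → L (u + u') φ
  add_right : ∀ {u φ φ'}, L u φ → L u φ' → φ + φ' ≠ 0 → L u (φ + φ')
  conj : ∀ {u φ u' φ'}, L u φ → L u' φ' → L (u + φ' u • u') (φ - φ u' • φ')
  inv : ∀ Y : Submodule K V, (∀ u φ, L u φ → u ∈ Y ∨ Y ≤ LinearMap.ker φ) →
    (∀ u φ, L u φ → u ∈ Y ∧ ¬ Y ≤ LinearMap.ker φ) ∨
      (∀ u φ, L u φ → u ∉ Y ∧ Y ≤ LinearMap.ker φ)
  dbl : ∀ {w c φ χ}, L (w + c) (φ + χ) → L (-w + c) (-φ + χ) → L w φ → φ c = 0 → χ w = 0 →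
    χ c = 0 → c ≠ 0 → χ ≠ 0 → L c χ

namespace TSys

variable {L : V → Dual K V → Prop}

theorem neg_left (hL : TSys L) {u : V} {φ : Dual K V} (h : L u φ) : L (-u) φ := by
  have := hL.smul_left (-1 : K) (by simp) h
  rwa [neg_one_smul K u] at this

theorem neg_right (hL : TSys L) {u : V} {φ : Dual K V} (h : L u φ) : L u (-φ) := by
  have := hL.smul_right (-1 : K) (by simp) h
  rwa [neg_one_smul K φ] at this

theorem sub_left (hL : TSys L) {u u' : V} {φ : Dual K V} (h : L u φ) (h' : L u' φ)
    (hne : u - u' ≠ 0) : L (u - u') φ := by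
  rw [sub_eq_add_neg] at hne ⊢
  exact hL.add_left h (hL.neg_left h') hne

theorem sub_right (hL : TSys L) {u : V} {φ φ' : Dual K V} (h : L u φ) (h' : L u φ')
    (hne : φ - φ' ≠ 0) : L u (φ - φ') := by
  rw [sub_eq_add_neg] at hne ⊢
  exact hL.add_right h (hL.neg_right h') hne

/-- Moving a centre by a transvection fixing the functional. -/
theorem conj_left (hL : TSys L) {u u' : V} {φ φ' : Dual K V} (h : L u φ) (h' : L u' φ')
    (h0 : φ u' = 0) : L (u + φ' u • u') φ := by
  have := hL.conj h h'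
  rwa [h0, zero_smul, sub_zero] at this

/-- Moving a functional by a transvection fixing the centre. -/
theorem conj_right (hL : TSys L) {u u' : V} {φ φ' : Dual K V} (h : L u φ) (h' : L u' φ')
    (h0 : φ' u = 0) : L u (φ - φ u' • φ') := by
  have := hL.conj h h'
  rwa [h0, zero_smul, add_zero] at this

/-- Rule (R): the commutator of two transvections in "Heisenberg position". -/
theorem ruleR (hL : TSys L) {u u' : V} {φ φ' : Dual K V} (h : L u φ) (h' : L u' φ')
    (h0 : φ' u = 0) (h1 : φ u' ≠ 0) : L u φ' := by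
  have h2 : L (u' + φ u' • u) φ' := hL.conj_left h' h h0
  have h3 : L (u' + φ u' • u - u') φ' := by
    apply hL.sub_left h2 h'
    rw [add_sub_cancel_left]
    exact smul_ne_zero h1 (hL.ne_left h)
  rw [add_sub_cancel_left] at h3
  have h4 := hL.smul_left (φ u')⁻¹ (inv_ne_zero h1) h3
  rwa [smul_smul, inv_mul_cancel₀ h1, one_smul] at h4

/-- Rule (R), dual form. -/
theorem ruleR' (hL : TSys L) {u u' : V} {φ φ' : Dual K V} (h : L u φ) (h' : L u' φ')
    (h0 : φ' u = 0) (h1 : φ u' ≠ 0) : L u φ' := hL.ruleR h h' h0 h1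

/-- Additivity in the centre from a conjugate. -/
theorem of_add_smul_left (hL : TSys L) {u w : V} {φ : Dual K V} {a : K} (h : L u φ)
    (h2 : L (u + a • w) φ) (ha : a ≠ 0) (hw : w ≠ 0) : L w φ := by
  have h3 : L (u + a • w - u) φ := by
    apply hL.sub_left h2 h
    rw [add_sub_cancel_left]
    exact smul_ne_zero ha hw
  rw [add_sub_cancel_left] at h3
  have h4 := hL.smul_left a⁻¹ (inv_ne_zero ha) h3
  rwa [smul_smul, inv_mul_cancel₀ ha, one_smul] at h4

/-- Additivity in the functional from a conjugate. -/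
theorem of_sub_smul_right (hL : TSys L) {u : V} {φ ψ : Dual K V} {a : K} (h : L u φ)
    (h2 : L u (φ - a • ψ)) (ha : a ≠ 0) (hψ : ψ ≠ 0) : L u ψ := by
  have h3 : L u (φ - (φ - a • ψ)) := by
    apply hL.sub_right h h2
    rw [sub_sub_cancel]
    exact smul_ne_zero ha hψ
  rw [sub_sub_cancel] at h3
  have h4 := hL.smul_right a⁻¹ (inv_ne_zero ha) h3
  rwa [smul_smul, inv_mul_cancel₀ ha, one_smul] at h4

/-- (F1): some centre lies outside a given axis. -/
theorem f1 (hL : TSys L) {u : V} {φ : Dual K V} (h : L u φ) :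
    ∃ u' φ', L u' φ' ∧ φ u' ≠ 0 := by
  rcases hL.inv (cspan L) (fun u φ h => Or.inl (mem_cspan h)) with h1 | h1
  · have h2 := (h1 u φ h).2
    by_contra hcon
    push Not at hcon
    apply h2
    apply Submodule.span_le.mpr
    rintro x ⟨ψ, hx⟩
    exact LinearMap.mem_ker.mpr (hcon x ψ hx)
  · exact absurd (mem_cspan h) (h1 u φ h).1

/-- (F2): some axis does not contain a given centre. -/
theorem f2 (hL : TSys L) {u : V} {φ : Dual K V} (h : L u φ) :
    ∃ u' φ', L u' φ' ∧ φ' u ≠ 0 := by
  rcases hL.inv (axes L) (fun u φ h => Or.inr (axes_le_ker h)) with h1 | h1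
  · exact absurd (axes_le_ker h) (h1 u φ h).2
  · have h2 := (h1 u φ h).1
    by_contra hcon
    push Not at hcon
    exact h2 (fun u' φ' h' => hcon u' φ' h')

end TSys

/-- A functional separating a vector from a subspace. -/
theorem exists_dual_one {p : Submodule K V} {x : V} (hx : x ∉ p) :
    ∃ f : Dual K V, f x = 1 ∧ p ≤ LinearMap.ker f := by
  obtain ⟨f, hf, hp⟩ := Submodule.exists_dual_map_eq_bot_of_notMem hx inferInstance
  refine ⟨(f x)⁻¹ • f, ?_, ?_⟩
  · rw [LinearMap.smul_apply, smul_eq_mul, inv_mul_cancel₀ hf]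
  · intro y hy
    have : f y = 0 := by
      have : f y ∈ p.map f := Submodule.mem_map_of_mem hy
      rw [hp] at this
      exact (Submodule.mem_bot K).mp this
    rw [LinearMap.mem_ker, LinearMap.smul_apply, this, smul_zero]

end Cfsg.Agent.Lib.Helper18.Mc
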