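import Cfsg.Agent.Lib.Helper18.McRho

/-!
# McLaughlin's theorem over a prime field: the final assembly
-/

namespace Cfsg.Agent.Lib.Helper18.Mc

open Module

variable {p : ℕ} [Fact p.Prime] {V : Type*} [AddCommGroup V] [Module (ZMod p) V]
variable {H : Subgroup (V ≃ₗ[ZMod p] V)}

/-- The decomposition, indexed by an enumeration of the classes. -/
theorem mc_main [Finite V] (hyp : Hyp p H) (n : ℕ) (e : Fin n ≃ Cls H) :
    ∃ (W : Fin (n + 1) → Submodule (ZMod p) V) (K : Fin n → Subgroup (V ≃ₗ[ZMod p] V)),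
      DirectSum.IsInternal W ∧
      (∀ h ∈ H, ∀ i, (W i).map (h : V →ₗ[ZMod p] V) = W i) ∧
      (∀ j, K j ≤ H ∧ ((K j).subgroupOf H).Normal) ∧ ⨆ j, K j = H ∧
      (∀ j, K j ⊓ (⨆ j' ∈ {j' : Fin n | j' ≠ j}, K j') = ⊥) ∧
      (∀ j j', j ≠ j' → ∀ a ∈ K j, ∀ b ∈ K j', a * b = b * a) ∧
      (∀ j, ∀ h ∈ K j, ∀ i : Fin (n + 1), i ≠ j.succ → ∀ v ∈ W i, h v = v) ∧
      (∀ j, ∃ ρ : ↥(K j) →* (↥(W j.succ) ≃ₗ[ZMod p] ↥(W j.succ)),
        (∀ (h : ↥(K j)) (v : ↥(W j.succ)),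
          ((ρ h v : ↥(W j.succ)) : V) = (h : V ≃ₗ[ZMod p] V) (v : V)) ∧
        ((ρ.range : Set (↥(W j.succ) ≃ₗ[ZMod p] ↥(W j.succ))) =
            {f : ↥(W j.succ) ≃ₗ[ZMod p] ↥(W j.succ) |
              LinearMap.det (f : ↥(W j.succ) →ₗ[ZMod p] ↥(W j.succ)) = 1} ∨
          ∃ B : LinearMap.BilinForm (ZMod p) ↥(W j.succ), B.IsAlt ∧ B.Nondegenerate ∧
            (ρ.range : Set (↥(W j.succ) ≃ₗ[ZMod p] ↥(W j.succ))) =
              {f : ↥(W j.succ) ≃ₗ[ZMod p] ↥(W j.succ) | ∀ x y, B (f x) (f y) = B x y})) := by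
  have hc : ∀ j, IsCompl (cspan (LC H (e j))) (axes (LC H (e j))) :=
    fun j => (cls_main hyp (e j)).1
  have hUA : ∀ j k, j ≠ k → cspan (LC H (e k)) ≤ axes (LC H (e j)) :=
    fun j k hjk => cspan_le_axes (fun h => hjk (e.injective h))
  have hW0 : (⨅ j, axes (LC H (e j))) = ⨅ q, axes (LC H q) :=
    e.surjective.iInf_comp (fun q => axes (LC H q))
  refine ⟨Fin.cons (⨅ j, axes (LC H (e j))) (fun j => cspan (LC H (e j))),
    fun j => KC H (e j), internal_of_compl _ _ hc hUA, ?_, ?_, ?_, ?_, ?_, ?_, ?_⟩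
  · intro h hh i
    refine Fin.cases ?_ (fun j => ?_) i
    · rw [Fin.cons_zero]
      ext y
      constructor
      · rintro ⟨x, hx, rfl⟩
        have h1 : h x = x := fix_iInf hyp h hh x (hW0 ▸ hx)
        rw [LinearEquiv.coe_coe, h1]
        exact hx
      · intro hy
        exact ⟨y, hy, fix_iInf hyp h hh y (hW0 ▸ hy)⟩
    · rw [Fin.cons_succ]
      exact map_eq_of_mem hyp (e j) hh
  · intro j
    exact ⟨KC_le (e j), KC_normal hyp (e j)⟩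
  · apply le_antisymm
    · exact iSup_le (fun j => KC_le (e j))
    · have h1 : (⨆ j, KC H (e j)) = ⨆ q, KC H q := e.surjective.iSup_comp (fun q => KC H q)
      rw [h1]
      exact le_iSup_KC hyp
  · intro j
    rw [eq_bot_iff]
    intro h hh
    obtain ⟨h1, h2⟩ := Subgroup.mem_inf.mp hh
    have h3 : h ∈ fixer (axes (LC H (e j))) := KC_fix (e j) h1
    have h4 : (⨆ j' ∈ {j' : Fin n | j' ≠ j}, KC H (e j')) ≤ fixer (cspan (LC H (e j))) := by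
      apply iSup₂_le
      intro j' hj'
      exact (KC_fix (e j')).trans (fixer_anti (hUA j' j hj'))
    exact Subgroup.mem_bot.mpr (eq_one_of_fixer (hc j) (h4 h2) h3)
  · intro j j' hjj'
    exact KC_commute (fun h => hjj' (e.injective h))
  · intro j h hh i
    refine Fin.cases ?_ (fun k => ?_) i
    · intro _ v hv
      rw [Fin.cons_zero] at hv
      exact KC_fix (e j) hh v ((Submodule.mem_iInf _).mp hv j)
    · intro hne v hv
      rw [Fin.cons_succ] at hv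
      have hjk : j ≠ k := fun h => hne (by rw [h])
      exact KC_fix (e j) hh v (hUA j k hjk hv)
  · intro j
    exact exists_rho hyp (e j) _ (Fin.cons_succ _ _ j)

theorem trivial_rho (X : Submodule (ZMod p) V) (hX : X = ⊥) :
    ∃ ρ : ↥(⊥ : Subgroup (V ≃ₗ[ZMod p] V)) →* (↥X ≃ₗ[ZMod p] ↥X),
      (∀ (h : ↥(⊥ : Subgroup (V ≃ₗ[ZMod p] V))) (v : ↥X),
        ((ρ h v : ↥X) : V) = (h : V ≃ₗ[ZMod p] V) (v : V)) ∧
      ((ρ.range : Set (↥X ≃ₗ[ZMod p] ↥X)) =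
          {f : ↥X ≃ₗ[ZMod p] ↥X | LinearMap.det (f : ↥X →ₗ[ZMod p] ↥X) = 1} ∨
        ∃ B : LinearMap.BilinForm (ZMod p) ↥X, B.IsAlt ∧ B.Nondegenerate ∧
          (ρ.range : Set (↥X ≃ₗ[ZMod p] ↥X)) =
            {f : ↥X ≃ₗ[ZMod p] ↥X | ∀ x y, B (f x) (f y) = B x y}) := by
  subst hX
  refine ⟨1, ?_, Or.inl ?_⟩
  · intro h v
    have h1 : (h : V ≃ₗ[ZMod p] V) = 1 := Subgroup.mem_bot.mp h.2
    rw [h1]
    rfl
  · ext f
    have hf : f = 1 := LinearEquiv.ext fun x => Subsingleton.elim _ _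
    constructor
    · intro _
      show LinearMap.det (f : ↥(⊥ : Submodule (ZMod p) V) →ₗ[ZMod p] _) = 1
      rw [hf, LinearEquiv.coe_toLinearMap_one, LinearMap.det_id]
    · intro _
      rw [hf]
      exact Subgroup.one_mem _

/-- The decomposition for the trivial group. -/
theorem mc_trivial (H : Subgroup (V ≃ₗ[ZMod p] V)) (hH : H = ⊥) :
    ∃ (W : Fin (1 + 1) → Submodule (ZMod p) V) (K : Fin 1 → Subgroup (V ≃ₗ[ZMod p] V)),
      DirectSum.IsInternal W ∧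
      (∀ h ∈ H, ∀ i, (W i).map (h : V →ₗ[ZMod p] V) = W i) ∧
      (∀ j, K j ≤ H ∧ ((K j).subgroupOf H).Normal) ∧ ⨆ j, K j = H ∧
      (∀ j, K j ⊓ (⨆ j' ∈ {j' : Fin 1 | j' ≠ j}, K j') = ⊥) ∧
      (∀ j j', j ≠ j' → ∀ a ∈ K j, ∀ b ∈ K j', a * b = b * a) ∧
      (∀ j, ∀ h ∈ K j, ∀ i : Fin (1 + 1), i ≠ j.succ → ∀ v ∈ W i, h v = v) ∧
      (∀ j, ∃ ρ : ↥(K j) →* (↥(W j.succ) ≃ₗ[ZMod p] ↥(W j.succ)),
        (∀ (h : ↥(K j)) (v : ↥(W j.succ)),
          ((ρ h v : ↥(W j.succ)) : V) = (h : V ≃ₗ[ZMod p] V) (v : V)) ∧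
        ((ρ.range : Set (↥(W j.succ) ≃ₗ[ZMod p] ↥(W j.succ))) =
            {f : ↥(W j.succ) ≃ₗ[ZMod p] ↥(W j.succ) |
              LinearMap.det (f : ↥(W j.succ) →ₗ[ZMod p] ↥(W j.succ)) = 1} ∨
          ∃ B : LinearMap.BilinForm (ZMod p) ↥(W j.succ), B.IsAlt ∧ B.Nondegenerate ∧
            (ρ.range : Set (↥(W j.succ) ≃ₗ[ZMod p] ↥(W j.succ))) =
              {f : ↥(W j.succ) ≃ₗ[ZMod p] ↥(W j.succ) | ∀ x y, B (f x) (f y) = B x y})) := by
  subst hH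
  refine ⟨Fin.cons (⨅ _ : Fin 1, (⊤ : Submodule (ZMod p) V)) (fun _ => ⊥), fun _ => ⊥,
    internal_of_compl (fun _ : Fin 1 => (⊥ : Submodule (ZMod p) V)) (fun _ => ⊤)
      (fun _ => isCompl_bot_top) (fun _ _ _ => bot_le), ?_, ?_, ?_, ?_, ?_, ?_, ?_⟩
  · intro h hh i
    rw [Subgroup.mem_bot.mp hh, LinearEquiv.coe_toLinearMap_one, Submodule.map_id]
  · intro j
    refine ⟨bot_le, ?_⟩
    rw [Subgroup.bot_subgroupOf]
    infer_instance
  · exact iSup_bot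
  · intro j
    exact bot_inf_eq _
  · intro j j' hjj'
    exact absurd (Subsingleton.elim j j') hjj'
  · intro j h hh i _ v _
    rw [Subgroup.mem_bot.mp hh]
    rfl
  · intro j
    exact trivial_rho _ (Fin.cons_succ _ _ j)

end Cfsg.Agent.Lib.Helper18.Mc
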