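import Cfsg.Agent.Lib.Helper18.McSp

/-!
# Transvections as group elements
-/

namespace Cfsg.Agent.Lib.Helper18.Mc

open Module

variable {K : Type*} [Field K] {V : Type*} [AddCommGroup V] [Module K V]

/-- `g` is the transvection `x ↦ x + φ x • u`. -/
def IsTv (g : V ≃ₗ[K] V) (u : V) (φ : Dual K V) : Prop := ∀ x, g x = x + φ x • u

namespace IsTv

variable {g g' : V ≃ₗ[K] V} {u u' : V} {φ φ' : Dual K V}

theorem ext' (h : IsTv g u φ) (h' : IsTv g' u φ) : g = g' :=
  LinearEquiv.ext fun x => by rw [h x, h' x]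

theorem exists_of (h : φ u = 0) : ∃ g : V ≃ₗ[K] V, IsTv g u φ :=
  ⟨LinearEquiv.transvection h, fun x => LinearEquiv.transvection.apply h x⟩

theorem ne_one (h : IsTv g u φ) (hu : u ≠ 0) (hφ : φ ≠ 0) : g ≠ 1 := by
  rintro rfl
  obtain ⟨x, hx⟩ : ∃ x, φ x ≠ 0 := by
    by_contra hc
    push Not at hc
    exact hφ (LinearMap.ext fun x => by rw [hc x, LinearMap.zero_apply])
  have h1 := h x
  rw [LinearEquiv.coe_one, id_eq, left_eq_add] at h1
  exact smul_ne_zero hx hu h1

theorem mul_left (h : IsTv g u φ) (h' : IsTv g' u' φ) (h0 : φ u' = 0) :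
    IsTv (g * g') (u + u') φ := by
  intro x
  rw [LinearEquiv.mul_apply, h' x, h, map_add, map_smul, h0, smul_zero, add_zero, smul_add]
  abel

theorem mul_right (h : IsTv g u φ) (h' : IsTv g' u φ') (h0 : φ u = 0) :
    IsTv (g * g') u (φ + φ') := by
  intro x
  rw [LinearEquiv.mul_apply, h' x, h, map_add, map_smul, h0, smul_zero, add_zero,
    LinearMap.add_apply, add_smul]
  abel

theorem inv (h : IsTv g u φ) (h0 : φ u = 0) : IsTv g⁻¹ (-u) φ := by
  intro x
  rw [LinearEquiv.coe_inv, LinearEquiv.symm_apply_eq, h, map_add, map_smul, map_neg, h0]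
  simp

theorem pow (h : IsTv g u φ) (h0 : φ u = 0) (k : ℕ) : IsTv (g ^ k) u ((k : K) • φ) := by
  induction k with
  | zero =>
    intro x
    simp
  | succ k ih =>
    intro x
    rw [pow_succ, LinearEquiv.mul_apply, h x, ih, map_add, map_smul, LinearMap.smul_apply,
      LinearMap.smul_apply, LinearMap.smul_apply, h0, smul_zero, smul_zero, add_zero,
      smul_eq_mul, smul_eq_mul, Nat.cast_succ]
    module

theorem smul_swap {c : K} (h : IsTv g u (c • φ)) : IsTv g (c • u) φ := by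
  intro x
  rw [h x, LinearMap.smul_apply, smul_eq_mul, mul_comm, mul_smul]

theorem smul_swap' {c : K} (h : IsTv g (c • u) φ) : IsTv g u (c • φ) := by
  intro x
  rw [h x, LinearMap.smul_apply, smul_eq_mul, mul_comm, mul_smul]

theorem conj (h : IsTv g u φ) (h' : IsTv g' u' φ') (h0 : φ' u' = 0) :
    IsTv (g' * g * g'⁻¹) (u + φ' u • u') (φ - φ u' • φ') := by
  intro x
  have hinv := h'.inv h0
  rw [LinearEquiv.mul_apply, LinearEquiv.mul_apply, hinv x, h, h']
  simp only [map_add, map_smul, map_neg, smul_eq_mul, h0, LinearMap.sub_apply,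
    LinearMap.smul_apply]
  module

theorem commute (h : IsTv g u φ) (h' : IsTv g' u' φ') (h1 : φ u' = 0) (h2 : φ' u = 0) :
    g * g' = g' * g := by
  ext x
  rw [LinearEquiv.mul_apply, LinearEquiv.mul_apply, h' x, h, h x, h', map_add, map_add, map_smul,
    map_smul, h1, h2]
  simp only [smul_zero, add_zero]
  abel

theorem dbl {g₁ g₂ g₃ : V ≃ₗ[K] V} {w c : V} {χ : Dual K V} (h1 : IsTv g₁ (w + c) (φ + χ))
    (h2 : IsTv g₂ (-w + c) (-φ + χ)) (h3 : IsTv g₃ w φ) (hφw : φ w = 0) (hφc : φ c = 0)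
    (hχw : χ w = 0) (hχc : χ c = 0) : IsTv (g₁ * g₂ * g₃⁻¹ * g₃⁻¹) c ((2 : K) • χ) := by
  intro x
  have hi := h3.inv hφw
  simp only [LinearEquiv.mul_apply, hi _, h2 _, h1 _, map_add, map_smul, map_neg,
    LinearMap.add_apply, LinearMap.neg_apply, LinearMap.smul_apply, hφw, hφc, hχw, hχc,
    smul_eq_mul]
  module

end IsTv

section ZModP

variable {p : ℕ} [Fact p.Prime] {W : Type*} [AddCommGroup W] [Module (ZMod p) W]

theorem IsTv.pow_p {g : W ≃ₗ[ZMod p] W} {u : W} {φ : Dual (ZMod p) W} (h : IsTv g u φ)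
    (h0 : φ u = 0) : g ^ p = 1 := by
  have h1 := h.pow h0 p
  rw [ZMod.natCast_self, zero_smul] at h1
  ext x
  rw [h1 x]
  simp

theorem IsTv.pow_val {g : W ≃ₗ[ZMod p] W} {u : W} {φ : Dual (ZMod p) W} (h : IsTv g u φ)
    (h0 : φ u = 0) (c : ZMod p) : IsTv (g ^ c.val) u (c • φ) := by
  have : NeZero p := ⟨(Fact.out : p.Prime).ne_zero⟩
  have h1 := h.pow h0 c.val
  rwa [ZMod.natCast_zmod_val] at h1

end ZModP

end Cfsg.Agent.Lib.Helper18.Mc
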