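import Cfsg.Agent.Lib.Helper18.McGrp1

/-!
# The transvection pairs of a group and their classes
-/

namespace Cfsg.Agent.Lib.Helper18.Mc

open Module

theorem conj_mem_closure {G : Type*} [Group G] {S : Set G} {g : G}
    (h : ∀ s ∈ S, g * s * g⁻¹ ∈ Subgroup.closure S) :
    ∀ n ∈ Subgroup.closure S, g * n * g⁻¹ ∈ Subgroup.closure S := by
  intro n hn
  induction hn using Subgroup.closure_induction with
  | mem x hx => exact h x hx
  | one =>
    rw [mul_one, mul_inv_cancel]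
    exact Subgroup.one_mem _
  | mul x y _ _ hx hy =>
    have : g * (x * y) * g⁻¹ = (g * x * g⁻¹) * (g * y * g⁻¹) := by group
    rw [this]
    exact Subgroup.mul_mem _ hx hy
  | inv x _ hx =>
    have : g * x⁻¹ * g⁻¹ = (g * x * g⁻¹)⁻¹ := by group
    rw [this]
    exact Subgroup.inv_mem _ hx

variable {p : ℕ} [Fact p.Prime] {V : Type*} [AddCommGroup V] [Module (ZMod p) V]

/-- The transvection pairs of a group. -/
def Lam (H : Subgroup (V ≃ₗ[ZMod p] V)) (u : V) (φ : Dual (ZMod p) V) : Prop :=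
  u ≠ 0 ∧ φ ≠ 0 ∧ φ u = 0 ∧ ∃ g ∈ H, IsTv g u φ

/-- Non-commuting pairs. -/
def Adj (a b : V × Dual (ZMod p) V) : Prop := a.2 b.1 ≠ 0 ∨ b.2 a.1 ≠ 0

theorem adj_iff {u u' : V} {φ φ' : Dual (ZMod p) V} :
    Adj (u, φ) (u', φ') ↔ φ u' ≠ 0 ∨ φ' u ≠ 0 := Iff.rfl

theorem Adj.symm {a b : V × Dual (ZMod p) V} (h : Adj a b) : Adj b a := Or.symm h

theorem not_adj {u u' : V} {φ φ' : Dual (ZMod p) V} (h : ¬ Adj (u, φ) (u', φ')) :
    φ u' = 0 ∧ φ' u = 0 := by
  rw [adj_iff] at h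
  push Not at h
  exact h

namespace Lam

variable {H : Subgroup (V ≃ₗ[ZMod p] V)} {u u' : V} {φ φ' : Dual (ZMod p) V}

theorem smul_right (h : Lam H u φ) {c : ZMod p} (hc : c ≠ 0) : Lam H u (c • φ) := by
  obtain ⟨hu, hφ, h0, g, hg, hgt⟩ := h
  exact ⟨hu, smul_ne_zero hc hφ, by rw [LinearMap.smul_apply, h0, smul_zero], g ^ c.val,
    H.pow_mem hg _, hgt.pow_val h0 c⟩

theorem smul_left (h : Lam H u φ) {c : ZMod p} (hc : c ≠ 0) : Lam H (c • u) φ := by
  obtain ⟨hu, hφ, h0, g, hg, hgt⟩ := h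
  exact ⟨smul_ne_zero hc hu, hφ, by rw [map_smul, h0, smul_zero], g ^ c.val,
    H.pow_mem hg _, (hgt.pow_val h0 c).smul_swap⟩

theorem add_left (h : Lam H u φ) (h' : Lam H u' φ) (hne : u + u' ≠ 0) : Lam H (u + u') φ := by
  obtain ⟨hu, hφ, h0, g, hg, hgt⟩ := h
  obtain ⟨hu', -, h0', g', hg', hgt'⟩ := h'
  exact ⟨hne, hφ, by rw [map_add, h0, h0', add_zero], g * g', H.mul_mem hg hg',
    hgt.mul_left hgt' h0'⟩

theorem add_right (h : Lam H u φ) (h' : Lam H u φ') (hne : φ + φ' ≠ 0) :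
    Lam H u (φ + φ') := by
  obtain ⟨hu, hφ, h0, g, hg, hgt⟩ := h
  obtain ⟨-, hφ', h0', g', hg', hgt'⟩ := h'
  exact ⟨hu, hne, by rw [LinearMap.add_apply, h0, h0', add_zero], g * g', H.mul_mem hg hg',
    hgt.mul_right hgt' h0⟩

theorem conj (h : Lam H u φ) (h' : Lam H u' φ') :
    Lam H (u + φ' u • u') (φ - φ u' • φ') := by
  obtain ⟨hu, hφ, h0, g, hg, hgt⟩ := h
  obtain ⟨hu', hφ', h0', g', hg', hgt'⟩ := h'
  refine ⟨?_, ?_, ?_, g' * g * g'⁻¹, H.mul_mem (H.mul_mem hg' hg) (H.inv_mem hg'),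
    hgt.conj hgt' h0'⟩
  · have : g' u = u + φ' u • u' := hgt' u
    rw [← this]
    exact (LinearEquiv.map_ne_zero_iff g').mpr hu
  · intro hz
    have h1 : (φ - φ u' • φ') u' = 0 := by rw [hz, LinearMap.zero_apply]
    rw [LinearMap.sub_apply, LinearMap.smul_apply, h0', smul_zero, sub_zero] at h1
    rw [h1, zero_smul, sub_zero] at hz
    exact hφ hz
  · rw [LinearMap.sub_apply, LinearMap.smul_apply, map_add, map_add, map_smul, map_smul, h0, h0']
    simp only [smul_eq_mul]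
    ring

theorem dbl (h2ne : (2 : ZMod p) ≠ 0) {w c : V} {χ : Dual (ZMod p) V}
    (h1 : Lam H (w + c) (φ + χ)) (h2 : Lam H (-w + c) (-φ + χ)) (h3 : Lam H w φ)
    (hφc : φ c = 0) (hχw : χ w = 0) (hχc : χ c = 0) (hc : c ≠ 0) (hχ : χ ≠ 0) : Lam H c χ := by
  obtain ⟨-, -, -, g₁, hg₁, ht₁⟩ := h1
  obtain ⟨-, -, -, g₂, hg₂, ht₂⟩ := h2
  obtain ⟨-, -, hφw, g₃, hg₃, ht₃⟩ := h3
  have h4 := IsTv.dbl ht₁ ht₂ ht₃ hφw hφc hχw hχc
  have h5 : ((2 : ZMod p) • χ) c = 0 := by rw [LinearMap.smul_apply, hχc, smul_zero]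
  have h6 := h4.pow_val h5 (2 : ZMod p)⁻¹
  rw [smul_smul, inv_mul_cancel₀ h2ne, one_smul] at h6
  exact ⟨hc, hχ, hχc, _, H.pow_mem (H.mul_mem (H.mul_mem (H.mul_mem hg₁ hg₂) (H.inv_mem hg₃))
    (H.inv_mem hg₃)) _, h6⟩

end Lam

/-- The hypotheses on the group, in the form in which they are used. -/
structure Hyp (p : ℕ) [Fact p.Prime] {V : Type*} [AddCommGroup V] [Module (ZMod p) V]
    (H : Subgroup (V ≃ₗ[ZMod p] V)) : Prop where
  two : (2 : ZMod p) ≠ 0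
  ind : ∀ C : (V ≃ₗ[ZMod p] V) → Prop, (∀ g u φ, Lam H u φ → IsTv g u φ → C g) → C 1 →
    (∀ x y, C x → C y → C (x * y)) → ∀ h ∈ H, C h
  core : ∀ N : Subgroup (V ≃ₗ[ZMod p] V), N ≤ H → (∀ h ∈ H, ∀ n ∈ N, h * n * h⁻¹ ∈ N) →
    (∀ n ∈ N, n ^ p = 1) → N = ⊥

variable {H : Subgroup (V ≃ₗ[ZMod p] V)}

/-- No transvection of the group commutes with all the others. -/
theorem exists_adj (hyp : Hyp p H) {u : V} {φ : Dual (ZMod p) V} (hl : Lam H u φ) :
    ∃ u' φ', Lam H u' φ' ∧ Adj (u, φ) (u', φ') := by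
  by_contra hcon
  push Not at hcon
  obtain ⟨hu, hφ, h0, g, hg, hgt⟩ := hl
  have hcomm : ∀ h ∈ H, h * g = g * h := by
    apply hyp.ind (fun h => h * g = g * h)
    · intro g' u' φ' hl' ht'
      have hna := not_adj (hcon u' φ' hl')
      exact ht'.commute hgt hna.2 hna.1
    · rw [one_mul, mul_one]
    · intro x y hx hy
      rw [mul_assoc, hy, ← mul_assoc, hx, mul_assoc]
  have hN : Subgroup.zpowers g = ⊥ := by
    apply hyp.core
    · exact Subgroup.zpowers_le.mpr hg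
    · intro h hh n hn
      obtain ⟨k, rfl⟩ := Subgroup.mem_zpowers_iff.mp hn
      have hc : Commute h (g ^ k) := (show Commute h g from hcomm h hh).zpow_right k
      rw [hc.eq, mul_assoc, mul_inv_cancel, mul_one]
      exact hn
    · intro n hn
      obtain ⟨k, rfl⟩ := Subgroup.mem_zpowers_iff.mp hn
      rw [← zpow_natCast, ← zpow_mul, mul_comm, zpow_mul, zpow_natCast, hgt.pow_p h0, one_zpow]
  exact hgt.ne_one hu hφ (Subgroup.zpowers_eq_bot.mp hN)

/-- The type of transvection pairs of a group. -/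
abbrev Pt (H : Subgroup (V ≃ₗ[ZMod p] V)) := {x : V × Dual (ZMod p) V // Lam H x.1 x.2}

/-- The equivalence relation generated by non-commutation. -/
def adjSetoid (H : Subgroup (V ≃ₗ[ZMod p] V)) : Setoid (Pt H) :=
  Relation.EqvGen.setoid (fun a b : Pt H => Adj a.1 b.1)

/-- The classes of transvection pairs. -/
abbrev Cls (H : Subgroup (V ≃ₗ[ZMod p] V)) := Quotient (adjSetoid H)

/-- The transvection pairs of a class. -/
def LC (H : Subgroup (V ≃ₗ[ZMod p] V)) (q : Cls H) (u : V) (φ : Dual (ZMod p) V) : Prop :=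
  ∃ h : Lam H u φ, (Quotient.mk (adjSetoid H) ⟨(u, φ), h⟩ : Cls H) = q

theorem mk_eq_of_adj {a b : Pt H} (h : Adj a.1 b.1) :
    (Quotient.mk (adjSetoid H) a : Cls H) = Quotient.mk (adjSetoid H) b :=
  Quotient.sound (Relation.EqvGen.rel _ _ h)

namespace LC

variable {q : Cls H} {u u' : V} {φ φ' : Dual (ZMod p) V}

theorem lam (h : LC H q u φ) : Lam H u φ := h.1

theorem of_adj (h : LC H q u φ) (h' : Lam H u' φ') (hadj : Adj (u, φ) (u', φ')) :
    LC H q u' φ' := by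
  obtain ⟨hl, hq⟩ := h
  refine ⟨h', ?_⟩
  rw [← hq]
  exact (mk_eq_of_adj (a := ⟨(u, φ), hl⟩) (b := ⟨(u', φ'), h'⟩) hadj).symm

theorem of_nbr (hyp : Hyp p H) (hl : Lam H u φ)
    (himp : ∀ u' φ', Lam H u' φ' → Adj (u, φ) (u', φ') →
      ∃ u₁ φ₁, LC H q u₁ φ₁ ∧ Adj (u₁, φ₁) (u', φ')) : LC H q u φ := by
  obtain ⟨u', φ', hl', hadj⟩ := exists_adj hyp hl
  obtain ⟨u₁, φ₁, h1, hadj1⟩ := himp u' φ' hl' hadj
  exact (h1.of_adj hl' hadj1).of_adj hl hadj.symm

theorem disj {q' : Cls H} (h : LC H q u φ) (h' : LC H q' u' φ') (hne : q ≠ q') :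
    φ u' = 0 ∧ φ' u = 0 := by
  by_contra hcon
  have hadj : Adj (u, φ) (u', φ') := by
    by_contra h2
    exact hcon (not_adj h2)
  obtain ⟨hl, hq⟩ := h.of_adj h'.lam hadj
  obtain ⟨hl', hq'⟩ := h'
  exact hne (hq.symm.trans hq')

theorem smul_left (hyp : Hyp p H) (h : LC H q u φ) {c : ZMod p} (hc : c ≠ 0) :
    LC H q (c • u) φ := by
  apply of_nbr hyp (h.lam.smul_left hc)
  intro u' φ' _ hadj
  refine ⟨u, φ, h, ?_⟩
  rw [adj_iff] at hadj ⊢
  rcases hadj with h1 | h1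
  · exact Or.inl h1
  · right
    intro h0
    apply h1
    rw [map_smul, h0, smul_zero]

theorem smul_right (hyp : Hyp p H) (h : LC H q u φ) {c : ZMod p} (hc : c ≠ 0) :
    LC H q u (c • φ) := by
  apply of_nbr hyp (h.lam.smul_right hc)
  intro u' φ' _ hadj
  refine ⟨u, φ, h, ?_⟩
  rw [adj_iff] at hadj ⊢
  rcases hadj with h1 | h1
  · left
    intro h0
    apply h1
    rw [LinearMap.smul_apply, h0, smul_zero]
  · exact Or.inr h1

theorem add_left (hyp : Hyp p H) (h : LC H q u φ) (h' : LC H q u' φ) (hne : u + u' ≠ 0) :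
    LC H q (u + u') φ := by
  apply of_nbr hyp (h.lam.add_left h'.lam hne)
  intro u₂ φ₂ _ hadj
  rw [adj_iff] at hadj
  rcases hadj with h1 | h1
  · exact ⟨u, φ, h, Or.inl h1⟩
  · by_cases h2 : φ₂ u = 0
    · refine ⟨u', φ, h', Or.inr ?_⟩
      intro h3
      apply h1
      rw [map_add, h2, h3, add_zero]
    · exact ⟨u, φ, h, Or.inr h2⟩

theorem add_right (hyp : Hyp p H) (h : LC H q u φ) (h' : LC H q u φ') (hne : φ + φ' ≠ 0) :
    LC H q u (φ + φ') := by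
  apply of_nbr hyp (h.lam.add_right h'.lam hne)
  intro u₂ φ₂ _ hadj
  rw [adj_iff] at hadj
  rcases hadj with h1 | h1
  · by_cases h2 : φ u₂ = 0
    · refine ⟨u, φ', h', Or.inl ?_⟩
      intro h3
      apply h1
      rw [LinearMap.add_apply, h2, h3, add_zero]
    · exact ⟨u, φ, h, Or.inl h2⟩
  · exact ⟨u, φ, h, Or.inr h1⟩

theorem conj (hyp : Hyp p H) (h : LC H q u φ) (h' : LC H q u' φ') :
    LC H q (u + φ' u • u') (φ - φ u' • φ') := by
  apply of_nbr hyp (h.lam.conj h'.lam)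
  intro u₂ φ₂ _ hadj
  rw [adj_iff] at hadj
  by_cases h2 : Adj (u, φ) (u₂, φ₂)
  · exact ⟨u, φ, h, h2⟩
  · refine ⟨u', φ', h', ?_⟩
    obtain ⟨h3, h4⟩ := not_adj h2
    rw [adj_iff]
    rcases hadj with h1 | h1
    · left
      intro h0
      apply h1
      rw [LinearMap.sub_apply, LinearMap.smul_apply, h3, h0, smul_zero, sub_zero]
    · right
      intro h0
      apply h1
      rw [map_add, map_smul, h4, h0, smul_zero, add_zero]

theorem dbl (hyp : Hyp p H) {w c : V} {χ : Dual (ZMod p) V} (h1 : LC H q (w + c) (φ + χ))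
    (h2 : LC H q (-w + c) (-φ + χ)) (h3 : LC H q w φ) (hφc : φ c = 0) (hχw : χ w = 0)
    (hχc : χ c = 0) (hc : c ≠ 0) (hχ : χ ≠ 0) : LC H q c χ := by
  apply of_nbr hyp (Lam.dbl hyp.two h1.lam h2.lam h3.lam hφc hχw hχc hc hχ)
  intro u₂ φ₂ _ hadj
  by_cases h4 : Adj (w + c, φ + χ) (u₂, φ₂)
  · exact ⟨_, _, h1, h4⟩
  · refine ⟨_, _, h2, ?_⟩
    obtain ⟨h5, h6⟩ := not_adj h4
    rw [adj_iff] at hadj ⊢
    rcases hadj with h7 | h7
    · left
      intro h0
      apply h7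
      rw [LinearMap.add_apply] at h5 h0
      rw [LinearMap.neg_apply] at h0
      have h8 : (2 : ZMod p) * χ u₂ = 0 := by linear_combination h5 + h0
      exact (mul_eq_zero.mp h8).resolve_left hyp.two
    · right
      intro h0
      apply h7
      rw [map_add] at h6 h0
      rw [map_neg] at h0
      have h8 : (2 : ZMod p) * φ₂ c = 0 := by linear_combination h6 + h0
      exact (mul_eq_zero.mp h8).resolve_left hyp.two

theorem ruleR (hyp : Hyp p H) (h : LC H q u φ) (h' : LC H q u' φ') (h0 : φ' u = 0)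
    (h1 : φ u' ≠ 0) : LC H q u φ' := by
  have h2 := conj hyp h' h
  rw [h0, zero_smul, sub_zero] at h2
  have h3 : LC H q (-u') φ' := by
    have := smul_left hyp h' (c := -1) (by simp)
    rwa [neg_one_smul] at this
  have h4 : LC H q (u' + φ u' • u + -u') φ' := by
    apply add_left hyp h2 h3
    rw [add_comm, neg_add_cancel_left]
    exact smul_ne_zero h1 h.lam.1
  rw [add_comm, neg_add_cancel_left] at h4
  have h5 := smul_left hyp h4 (inv_ne_zero h1)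
  rwa [smul_smul, inv_mul_cancel₀ h1, one_smul] at h5

end LC

end Cfsg.Agent.Lib.Helper18.Mc
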