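import Cfsg.Agent.Lib.Helper18.McGrp2

/-!
# Each class of transvection pairs is a transvection system
-/

namespace Cfsg.Agent.Lib.Helper18.Mc

open Module

variable {p : ℕ} [Fact p.Prime] {V : Type*} [AddCommGroup V] [Module (ZMod p) V]
variable {H : Subgroup (V ≃ₗ[ZMod p] V)}

/-- An automorphism acting trivially on `Y` and on `V / Y` has order dividing `p`. -/
theorem pow_p_of_fix {Y : Submodule (ZMod p) V} {n : V ≃ₗ[ZMod p] V}
    (h1 : ∀ x, n x - x ∈ Y) (h2 : ∀ y ∈ Y, n y = y) : n ^ p = 1 := by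
  have h3 : ∀ (k : ℕ) (x : V), (n ^ k) x = x + k • (n x - x) := by
    intro k
    induction k with
    | zero =>
      intro x
      simp
    | succ k ih =>
      intro x
      rw [pow_succ, LinearEquiv.mul_apply, ih (n x)]
      have h4 : n (n x) - n x = n x - x := by rw [← map_sub, h2 _ (h1 x)]
      rw [h4, succ_nsmul]
      abel
  ext x
  rw [h3 p x, ZModModule.char_nsmul_eq_zero, add_zero]
  rfl

/-- Transvections of a class acting trivially on `Y` and on `V / Y`. -/
def bothSet (H : Subgroup (V ≃ₗ[ZMod p] V)) (q : Cls H) (Y : Submodule (ZMod p) V) :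
    Set (V ≃ₗ[ZMod p] V) :=
  {g | ∃ u φ, LC H q u φ ∧ u ∈ Y ∧ Y ≤ LinearMap.ker φ ∧ IsTv g u φ}

theorem bothSet_conj (hyp : Hyp p H) {q : Cls H} {Y : Submodule (ZMod p) V}
    (hY : ∀ u φ, LC H q u φ → u ∈ Y ∨ Y ≤ LinearMap.ker φ) {g' : V ≃ₗ[ZMod p] V} {u' : V}
    {φ' : Dual (ZMod p) V} (hl' : Lam H u' φ') (ht' : IsTv g' u' φ') :
    ∀ s ∈ bothSet H q Y, g' * s * g'⁻¹ ∈ bothSet H q Y := by
  rintro s ⟨u₁, φ₁, h1, hu₁, hker₁, ht₁⟩
  have hc := ht₁.conj ht' hl'.2.2.1
  by_cases hadj : Adj (u₁, φ₁) (u', φ')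
  · have h' : LC H q u' φ' := h1.of_adj hl' hadj
    refine ⟨_, _, LC.conj hyp h1 h', ?_, ?_, hc⟩
    · rcases hY u' φ' h' with hy | hy
      · exact Y.add_mem hu₁ (Y.smul_mem _ hy)
      · rw [LinearMap.mem_ker.mp (hy hu₁), zero_smul, add_zero]
        exact hu₁
    · intro y hy'
      rw [LinearMap.mem_ker, LinearMap.sub_apply, LinearMap.smul_apply,
        LinearMap.mem_ker.mp (hker₁ hy')]
      rcases hY u' φ' h' with hy | hy
      · rw [LinearMap.mem_ker.mp (hker₁ hy), zero_smul, sub_zero]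
      · rw [LinearMap.mem_ker.mp (hy hy'), smul_zero, sub_zero]
  · obtain ⟨h3, h4⟩ := not_adj hadj
    rw [h3, h4, zero_smul, add_zero, zero_smul, sub_zero] at hc
    exact ⟨u₁, φ₁, h1, hu₁, hker₁, hc⟩

/-- The invariance axiom for a class. -/
theorem LC.inv (hyp : Hyp p H) (q : Cls H) (Y : Submodule (ZMod p) V)
    (hY : ∀ u φ, LC H q u φ → u ∈ Y ∨ Y ≤ LinearMap.ker φ) :
    (∀ u φ, LC H q u φ → u ∈ Y ∧ ¬ Y ≤ LinearMap.ker φ) ∨
      (∀ u φ, LC H q u φ → u ∉ Y ∧ Y ≤ LinearMap.ker φ) := by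
  have ha : ∀ u φ, LC H q u φ → u ∈ Y → ¬ Y ≤ LinearMap.ker φ := by
    intro u φ h hu hker
    have hSH : ∀ g ∈ bothSet H q Y, g ∈ H := by
      rintro g ⟨u₁, φ₁, h1, -, -, ht⟩
      obtain ⟨-, -, -, g', hg', ht'⟩ := h1.lam
      rw [ht.ext' ht']
      exact hg'
    have hN : Subgroup.closure (bothSet H q Y) = ⊥ := by
      apply hyp.core
      · exact (Subgroup.closure_le H).mpr hSH
      · apply hyp.ind (fun h => ∀ n ∈ Subgroup.closure (bothSet H q Y),
          h * n * h⁻¹ ∈ Subgroup.closure (bothSet H q Y))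
        · intro g' u' φ' hl' ht'
          exact conj_mem_closure
            (fun s hs => Subgroup.subset_closure (bothSet_conj hyp hY hl' ht' s hs))
        · intro n hn
          rw [one_mul, inv_one, mul_one]
          exact hn
        · intro x y hx hy n hn
          have : x * y * n * (x * y)⁻¹ = x * (y * n * y⁻¹) * x⁻¹ := by group
          rw [this]
          exact hx _ (hy _ hn)
      · intro n hn
        have hP : (∀ x, n x - x ∈ Y) ∧ ∀ y ∈ Y, n y = y := by
          induction hn using Subgroup.closure_induction with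
          | mem g hg =>
            obtain ⟨u₁, φ₁, -, hu₁, hker₁, ht⟩ := hg
            constructor
            · intro x
              rw [ht x, add_sub_cancel_left]
              exact Y.smul_mem _ hu₁
            · intro y hy
              rw [ht y, LinearMap.mem_ker.mp (hker₁ hy), zero_smul, add_zero]
          | one => exact ⟨fun x => by simp, fun y _ => rfl⟩
          | mul a b _ _ ha hb =>
            constructor
            · intro x
              have : (a * b) x - x = (a (b x) - b x) + (b x - x) := by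
                rw [LinearEquiv.mul_apply]
                abel
              rw [this]
              exact Y.add_mem (ha.1 _) (hb.1 _)
            · intro y hy
              rw [LinearEquiv.mul_apply, hb.2 y hy, ha.2 y hy]
          | inv a _ ha =>
            constructor
            · intro x
              have h1 := ha.1 (a.symm x)
              rw [LinearEquiv.apply_symm_apply] at h1
              have : a⁻¹ x - x = -(x - a.symm x) := by
                rw [LinearEquiv.coe_inv]
                abel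
              rw [this]
              exact Y.neg_mem h1
            · intro y hy
              rw [LinearEquiv.coe_inv, LinearEquiv.symm_apply_eq, ha.2 y hy]
        exact pow_p_of_fix hP.1 hP.2
    obtain ⟨-, -, -, g, hg, hgt⟩ := h.lam
    have hmem : g ∈ Subgroup.closure (bothSet H q Y) :=
      Subgroup.subset_closure ⟨u, φ, h, hu, hker, hgt⟩
    rw [hN, Subgroup.mem_bot] at hmem
    exact hgt.ne_one h.lam.1 h.lam.2.1 hmem
  have hb : ∀ u φ u' φ', LC H q u φ → LC H q u' φ' → Adj (u, φ) (u', φ') → u ∈ Y → u' ∈ Y := by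
    intro u φ u' φ' h h' hadj hu
    by_contra hu'
    have hker' : Y ≤ LinearMap.ker φ' := (hY u' φ' h').resolve_left hu'
    have h0 : φ' u = 0 := LinearMap.mem_ker.mp (hker' hu)
    rw [adj_iff] at hadj
    have h1 : φ u' ≠ 0 := hadj.resolve_right (fun h2 => h2 h0)
    exact ha u φ' (LC.ruleR hyp h h' h0 h1) hu hker'
  have hc : ∀ a b : Pt H, Relation.EqvGen (fun a b : Pt H => Adj a.1 b.1) a b →
      Quotient.mk (adjSetoid H) a = q → (a.1.1 ∈ Y ↔ b.1.1 ∈ Y) := by
    intro a b hab
    induction hab with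
    | rel a b hab =>
      intro haq
      have hbq : Quotient.mk (adjSetoid H) b = q := (mk_eq_of_adj hab).symm.trans haq
      exact ⟨hb _ _ _ _ ⟨a.2, haq⟩ ⟨b.2, hbq⟩ hab, hb _ _ _ _ ⟨b.2, hbq⟩ ⟨a.2, haq⟩ hab.symm⟩
    | refl a => exact fun _ => Iff.rfl
    | symm a b hab ih =>
      intro hbq
      have haq : Quotient.mk (adjSetoid H) a = q :=
        (Quotient.sound (s := adjSetoid H) hab).trans hbq
      exact (ih haq).symm
    | trans a b c hab hbc ih1 ih2 =>
      intro haq
      have hbq : Quotient.mk (adjSetoid H) b = q :=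
        (Quotient.sound (s := adjSetoid H) hab).symm.trans haq
      exact (ih1 haq).trans (ih2 hbq)
  by_cases hex : ∃ u φ, LC H q u φ ∧ u ∈ Y
  · left
    obtain ⟨u₀, φ₀, h0, hu₀⟩ := hex
    intro u φ h
    have hu : u ∈ Y := by
      obtain ⟨hl0, hq0⟩ := h0
      obtain ⟨hl, hq⟩ := h
      have := hc ⟨(u₀, φ₀), hl0⟩ ⟨(u, φ), hl⟩ (Quotient.exact (hq0.trans hq.symm)) hq0
      exact this.mp hu₀
    exact ⟨hu, ha u φ h hu⟩
  · right
    push Not at hex
    intro u φ h
    exact ⟨hex u φ h, (hY u φ h).resolve_left (hex u φ h)⟩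

/-- Each class is a transvection system. -/
theorem tsys_LC (hyp : Hyp p H) (q : Cls H) : TSys (LC H q) where
  ne_left := fun h => h.lam.1
  ne_right := fun h => h.lam.2.1
  app := fun h => h.lam.2.2.1
  smul_left := fun _ hc h => LC.smul_left hyp h hc
  smul_right := fun _ hc h => LC.smul_right hyp h hc
  add_left := fun h h' hne => LC.add_left hyp h h' hne
  add_right := fun h h' hne => LC.add_right hyp h h' hne
  conj := fun h h' => LC.conj hyp h h'
  inv := LC.inv hyp q
  dbl := fun h1 h2 h3 hφc hχw hχc hc hχ => LC.dbl hyp h1 h2 h3 hφc hχw hχc hc hχ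

theorem exists_LC (q : Cls H) : ∃ u φ, LC H q u φ := by
  obtain ⟨a, ha⟩ := Quotient.exists_rep q
  exact ⟨a.1.1, a.1.2, a.2, ha⟩

theorem LC.of_lam {u : V} {φ : Dual (ZMod p) V} (hl : Lam H u φ) :
    LC H (Quotient.mk (adjSetoid H) ⟨(u, φ), hl⟩) u φ := ⟨hl, rfl⟩

/-- The structure theorem for one class. -/
theorem cls_main [Finite V] (hyp : Hyp p H) (q : Cls H) :
    IsCompl (cspan (LC H q)) (axes (LC H q)) ∧
      ((∀ u φ, u ∈ cspan (LC H q) → u ≠ 0 → φ ≠ 0 → axes (LC H q) ≤ LinearMap.ker φ →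
          φ u = 0 → LC H q u φ) ∨
        ∃ B : V →ₗ[ZMod p] Dual (ZMod p) V, (∀ x, B x x = 0) ∧ (∀ a ∈ axes (LC H q), B a = 0) ∧
          (∀ u ∈ cspan (LC H q), u ≠ 0 → B u ≠ 0) ∧
          (∀ u ∈ cspan (LC H q), u ≠ 0 → LC H q u (B u)) ∧
          ∀ u φ, LC H q u φ → ∃ a : ZMod p, φ = a • B u) :=
  (tsys_LC hyp q).main (exists_LC q)

end Cfsg.Agent.Lib.Helper18.Mc
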