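import Cfsg.Agent.Lib.Helper18.McGrp3

/-!
# The hypotheses of McLaughlin's theorem in the form `Hyp`
-/

namespace Cfsg.Agent.Lib.Helper18.Mc

open Module

variable {p : ℕ} [Fact p.Prime] {V : Type*} [AddCommGroup V] [Module (ZMod p) V]

/-- An automorphism of order dividing `p` fixing a hyperplane pointwise is a transvection. -/
theorem exists_tv [Finite V] (t : V ≃ₗ[ZMod p] V) (hord : t ^ p = 1)
    (hrk : finrank (ZMod p) ↥(LinearMap.ker ((t : V →ₗ[ZMod p] V) - LinearMap.id)) + 1 =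
      finrank (ZMod p) V) :
    ∃ u φ, u ≠ 0 ∧ φ ≠ 0 ∧ φ u = 0 ∧ IsTv t u φ := by
  obtain ⟨N, hNdef⟩ : ∃ N : V →ₗ[ZMod p] V, N = (t : V →ₗ[ZMod p] V) - LinearMap.id := ⟨_, rfl⟩
  rw [← hNdef] at hrk
  have hNx : ∀ x, N x = t x - x := by
    intro x
    rw [hNdef]
    rfl
  have h1 : finrank (ZMod p) (LinearMap.range N) = 1 := by
    have := LinearMap.finrank_range_add_finrank_ker N
    omega
  obtain ⟨v, hv0, hv⟩ := finrank_eq_one_iff'.mp h1
  have hu0 : (v : V) ≠ 0 := fun h => hv0 (Subtype.ext h)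
  obtain ⟨ψ, hψ1, -⟩ := exists_dual_one (p := (⊥ : Submodule (ZMod p) V)) (x := (v : V))
    (by simpa using hu0)
  have hN : ∀ x, N x = ψ (N x) • (v : V) := by
    intro x
    obtain ⟨c, hc⟩ := hv ⟨N x, LinearMap.mem_range_self N x⟩
    have hc' : c • (v : V) = N x := congrArg Subtype.val hc
    rw [← hc', map_smul, hψ1, smul_eq_mul, mul_one]
  refine ⟨(v : V), ψ ∘ₗ N, hu0, ?_, ?_, ?_⟩
  · intro hz
    obtain ⟨x₀, hx₀⟩ := LinearMap.mem_range.mp v.2
    have h2 := hN x₀
    have h3 : ψ (N x₀) = 0 := by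
      rw [← LinearMap.comp_apply, hz, LinearMap.zero_apply]
    rw [h3, zero_smul, hx₀] at h2
    exact hu0 h2
  · rw [LinearMap.comp_apply]
    obtain ⟨c, hc⟩ : ∃ c : ZMod p, c = ψ (N (v : V)) := ⟨_, rfl⟩
    rw [← hc]
    have hl : t (v : V) = (1 + c) • (v : V) := by
      have h2 := hN (v : V)
      rw [← hc, hNx] at h2
      rw [add_smul, one_smul, ← h2]
      abel
    have hpow : ∀ k : ℕ, (t ^ k) (v : V) = (1 + c) ^ k • (v : V) := by
      intro k
      induction k with
      | zero => simp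
      | succ k ih =>
        rw [pow_succ, LinearEquiv.mul_apply, hl, map_smul, ih, smul_smul, pow_succ, mul_comm]
    have h3 := hpow p
    rw [hord, ZMod.pow_card, LinearEquiv.coe_one, id_eq, add_smul, one_smul, left_eq_add] at h3
    exact (smul_eq_zero.mp h3).resolve_right hu0
  · intro x
    rw [LinearMap.comp_apply, ← hN, hNx]
    abel

/-- The hypotheses of the theorem give `Hyp`. -/
theorem hyp_of (hp : Odd p) [Finite V] (H : Subgroup (V ≃ₗ[ZMod p] V))
    (T : Set (V ≃ₗ[ZMod p] V)) (hHT : H = Subgroup.closure T)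
    (hT : ∀ t ∈ T, orderOf t = p ∧
      finrank (ZMod p) ↥(LinearMap.ker ((t : V →ₗ[ZMod p] V) - LinearMap.id)) + 1 =
        finrank (ZMod p) V)
    (hOp : ∀ N : Subgroup ↥H, N.Normal → IsPGroup p ↥N → N = ⊥) : Hyp p H where
  two := by
    intro h
    have h2 : ((2 : ℕ) : ZMod p) = 0 := by exact_mod_cast h
    rw [ZMod.natCast_eq_zero_iff] at h2
    have hp2 : p = 2 := (Nat.prime_dvd_prime_iff_eq Fact.out Nat.prime_two).mp h2
    rw [hp2] at hp
    exact absurd hp (by decide)
  ind := by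
    intro C hgen hone hmul h hh
    rw [hHT] at hh
    induction hh using Subgroup.closure_induction'' with
    | mem t ht =>
      obtain ⟨u, φ, hu, hφ, h0, htv⟩ := exists_tv t
        (by have h := pow_orderOf_eq_one t; rwa [(hT t ht).1] at h) (hT t ht).2
      exact hgen t u φ ⟨hu, hφ, h0, t, hHT ▸ Subgroup.subset_closure ht, htv⟩ htv
    | inv_mem t ht =>
      obtain ⟨u, φ, hu, hφ, h0, htv⟩ := exists_tv t
        (by have h := pow_orderOf_eq_one t; rwa [(hT t ht).1] at h) (hT t ht).2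
      have hi := htv.inv h0
      exact hgen t⁻¹ (-u) φ ⟨neg_ne_zero.mpr hu, hφ, by rw [map_neg, h0, neg_zero], t⁻¹,
        H.inv_mem (hHT ▸ Subgroup.subset_closure ht), hi⟩ hi
    | one => exact hone
    | mul x y _ _ hx hy => exact hmul x y hx hy
  core := by
    intro N hNH hnorm hpow
    have h1 : N.subgroupOf H = ⊥ := by
      apply hOp
      · constructor
        intro n hn g
        rw [Subgroup.mem_subgroupOf] at hn ⊢
        rw [Subgroup.coe_mul, Subgroup.coe_mul, Subgroup.coe_inv]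
        exact hnorm g g.2 n hn
      · intro n
        refine ⟨1, ?_⟩
        have h2 : ((n : ↥H) : V ≃ₗ[ZMod p] V) ^ p = 1 := hpow _ (Subgroup.mem_subgroupOf.mp n.2)
        rw [pow_one]
        apply Subtype.ext
        apply Subtype.ext
        rw [Subgroup.coe_pow, Subgroup.coe_pow, h2]
        rfl
    rw [Subgroup.subgroupOf_eq_bot] at h1
    exact h1.eq_bot_of_le hNH

end Cfsg.Agent.Lib.Helper18.Mc
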