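import Cfsg.Agent.Lib.Helper18.McAsm

/-!
# The action of the group of a class on the span of its centres
-/

namespace Cfsg.Agent.Lib.Helper18.Mc

open Module

variable {p : ℕ} [Fact p.Prime] {V : Type*} [AddCommGroup V] [Module (ZMod p) V]
variable {H : Subgroup (V ≃ₗ[ZMod p] V)}

/-- The restriction homomorphism. -/
noncomputable def rho (hyp : Hyp p H) (q : Cls H) :
    ↥(KC H q) →* (↥(cspan (LC H q)) ≃ₗ[ZMod p] ↥(cspan (LC H q))) :=
  MonoidHom.mk' (fun h => (h : V ≃ₗ[ZMod p] V).ofSubmodules _ _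
    (map_eq_of_mem hyp q (KC_le q h.2)))
    (by
      intro a b
      ext x
      simp)

theorem rho_apply (hyp : Hyp p H) (q : Cls H) (h : ↥(KC H q)) (v : ↥(cspan (LC H q))) :
    ((rho hyp q h v : ↥(cspan (LC H q))) : V) = (h : V ≃ₗ[ZMod p] V) (v : V) := rfl

theorem rho_range (hyp : Hyp p H) (q : Cls H) :
    (rho hyp q).range = Subgroup.closure (rho hyp q '' ((↑) ⁻¹' genSet H q)) := by
  have h1 : Subgroup.closure (((↑) : ↥(KC H q) → V ≃ₗ[ZMod p] V) ⁻¹' genSet H q) = ⊤ :=
    Subgroup.closure_closure_coe_preimage (k := genSet H q)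
  rw [MonoidHom.range_eq_map, ← h1, MonoidHom.map_closure]

theorem mem_image_iff (hyp : Hyp p H) (q : Cls H)
    (f : ↥(cspan (LC H q)) ≃ₗ[ZMod p] ↥(cspan (LC H q))) :
    f ∈ rho hyp q '' ((↑) ⁻¹' genSet H q) ↔
      ∃ u φ, LC H q u φ ∧
        ∀ x : ↥(cspan (LC H q)), ((f x : ↥(cspan (LC H q))) : V) = (x : V) + φ (x : V) • u := by
  constructor
  · rintro ⟨h, ⟨u, φ, h1, ht⟩, rfl⟩
    exact ⟨u, φ, h1, fun x => ht (x : V)⟩
  · rintro ⟨u, φ, h1, hf⟩
    obtain ⟨-, -, -, g, hg, ht⟩ := h1.lam
    have hgS : g ∈ genSet H q := ⟨u, φ, h1, ht⟩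
    refine ⟨⟨g, Subgroup.subset_closure hgS⟩, hgS, ?_⟩
    ext x
    rw [rho_apply, hf x]
    exact ht x

/-- The SL-case: the image is the special linear group. -/
theorem rho_range_sl [Finite V] (hyp : Hyp p H) (q : Cls H)
    (hc : IsCompl (cspan (LC H q)) (axes (LC H q)))
    (hsl : ∀ u φ, u ∈ cspan (LC H q) → u ≠ 0 → φ ≠ 0 → axes (LC H q) ≤ LinearMap.ker φ →
      φ u = 0 → LC H q u φ) :
    ((rho hyp q).range : Set (↥(cspan (LC H q)) ≃ₗ[ZMod p] ↥(cspan (LC H q)))) =
      {f : ↥(cspan (LC H q)) ≃ₗ[ZMod p] ↥(cspan (LC H q)) |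
        LinearMap.det (f : ↥(cspan (LC H q)) →ₗ[ZMod p] ↥(cspan (LC H q))) = 1} := by
  rw [rho_range]
  ext f
  constructor
  · intro hf
    have h1 : Subgroup.closure (rho hyp q '' ((↑) ⁻¹' genSet H q)) ≤
        Subgroup.closure (LinearEquiv.transvections (ZMod p) ↥(cspan (LC H q))) := by
      apply Subgroup.closure_mono
      intro f hf
      obtain ⟨u, φ, h1, hfx⟩ := (mem_image_iff hyp q f).mp hf
      have hu : u ∈ cspan (LC H q) := mem_cspan h1
      have h0 : (φ ∘ₗ (cspan (LC H q)).subtype) ⟨u, hu⟩ = 0 := h1.lam.2.2.1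
      refine ⟨φ ∘ₗ (cspan (LC H q)).subtype, ⟨u, hu⟩, h0, ?_⟩
      ext x
      rw [hfx x]
      rfl
    have h2 := Cfsg.Agent.Lib.Helper50.SlGen.det_eq_one_of_mem_closure (h1 hf)
    show LinearMap.det (f : ↥(cspan (LC H q)) →ₗ[ZMod p] ↥(cspan (LC H q))) = 1
    rw [← LinearEquiv.coe_det, h2, Units.val_one]
  · intro hf
    have h1 := Cfsg.Agent.Lib.Helper50.SlGen.sl_gen f hf
    have h2 : Subgroup.closure (LinearEquiv.transvections (ZMod p) ↥(cspan (LC H q))) ≤
        Subgroup.closure (rho hyp q '' ((↑) ⁻¹' genSet H q)) := by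
      rw [Subgroup.closure_le]
      rintro e ⟨φ', u', h0, rfl⟩
      by_cases hz : u' = 0 ∨ φ' = 0
      · have : LinearEquiv.transvection h0 = 1 := by
          ext x
          rw [LinearEquiv.transvection.apply]
          rcases hz with rfl | rfl <;> simp
        rw [this]
        exact Subgroup.one_mem _
      · push Not at hz
        apply Subgroup.subset_closure
        rw [mem_image_iff]
        refine ⟨(u' : V), φ' ∘ₗ (cspan (LC H q)).projectionOnto (axes (LC H q)) hc, ?_, ?_⟩
        · apply hsl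
          · exact u'.2
          · intro h
            exact hz.1 (Subtype.ext h)
          · intro hzero
            apply hz.2
            ext x
            have h3 : (φ' ∘ₗ (cspan (LC H q)).projectionOnto (axes (LC H q)) hc) (x : V) = 0 := by
              rw [hzero, LinearMap.zero_apply]
            rw [LinearMap.comp_apply, Submodule.projectionOnto_apply_left] at h3
            rw [h3, LinearMap.zero_apply]
          · intro a ha
            rw [LinearMap.mem_ker, LinearMap.comp_apply,
              Submodule.projectionOnto_apply_of_mem_right hc ha, map_zero]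
          · rw [LinearMap.comp_apply, Submodule.projectionOnto_apply_left, h0]
        · intro x
          rw [LinearEquiv.transvection.apply, LinearMap.comp_apply,
            Submodule.projectionOnto_apply_left]
          rfl
    exact h2 h1

/-- The Sp-case: the image is the isometry group of a non-degenerate alternating form. -/
theorem rho_range_sp [Finite V] (hyp : Hyp p H) (q : Cls H)
    (hc : IsCompl (cspan (LC H q)) (axes (LC H q))) (B : V →ₗ[ZMod p] Dual (ZMod p) V)
    (hB1 : ∀ x, B x x = 0) (hB2 : ∀ a ∈ axes (LC H q), B a = 0)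
    (hB3 : ∀ u ∈ cspan (LC H q), u ≠ 0 → B u ≠ 0)
    (hB4 : ∀ u ∈ cspan (LC H q), u ≠ 0 → LC H q u (B u))
    (hB5 : ∀ u φ, LC H q u φ → ∃ a : ZMod p, φ = a • B u) :
    ∃ B' : LinearMap.BilinForm (ZMod p) ↥(cspan (LC H q)), B'.IsAlt ∧ B'.Nondegenerate ∧
      ((rho hyp q).range : Set (↥(cspan (LC H q)) ≃ₗ[ZMod p] ↥(cspan (LC H q)))) =
        {f : ↥(cspan (LC H q)) ≃ₗ[ZMod p] ↥(cspan (LC H q)) |
          ∀ x y, B' (f x) (f y) = B' x y} := by
  have hskew : ∀ x y, B x y = - B y x := by
    intro x y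
    have h := hB1 (x + y)
    rw [map_add, map_add, LinearMap.add_apply, LinearMap.add_apply, hB1 x, hB1 y, zero_add,
      add_zero] at h
    exact eq_neg_of_add_eq_zero_right h
  have hB' : ∀ x y : ↥(cspan (LC H q)),
      (B.compl₁₂ (cspan (LC H q)).subtype (cspan (LC H q)).subtype) x y = B (x : V) (y : V) :=
    fun x y => rfl
  have hsepL : ∀ x : ↥(cspan (LC H q)), (∀ y : ↥(cspan (LC H q)), B (x : V) (y : V) = 0) →
      x = 0 := by
    intro x hx
    by_contra hx0
    have hx0' : (x : V) ≠ 0 := fun h => hx0 (Subtype.ext h)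
    have h1 := hB3 (x : V) x.2 hx0'
    apply h1
    ext z
    have h2 : B (x : V) (prL hc z + prR hc z) = 0 := by
      rw [map_add, hx ⟨prL hc z, prL_mem hc z⟩, zero_add, hskew, hB2 _ (prR_mem hc z),
        LinearMap.zero_apply, neg_zero]
    rw [prL_add_prR] at h2
    rw [h2, LinearMap.zero_apply]
  refine ⟨B.compl₁₂ (cspan (LC H q)).subtype (cspan (LC H q)).subtype, ?_, ⟨?_, ?_⟩, ?_⟩
  · intro x
    rw [hB']
    exact hB1 _
  · intro x hx
    exact hsepL x (fun y => by rw [← hB']; exact hx y)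
  · intro y hy
    apply hsepL y
    intro x
    rw [hskew, ← hB', hy x, neg_zero]
  · rw [rho_range]
    have hiso : ∀ g ∈ Subgroup.closure (rho hyp q '' ((↑) ⁻¹' genSet H q)),
        ∀ x y, (B.compl₁₂ (cspan (LC H q)).subtype (cspan (LC H q)).subtype) (g x) (g y) =
          (B.compl₁₂ (cspan (LC H q)).subtype (cspan (LC H q)).subtype) x y := by
      intro g hg
      induction hg using Subgroup.closure_induction with
      | mem g hg =>
        obtain ⟨u, φ, h1, hgx⟩ := (mem_image_iff hyp q g).mp hg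
        obtain ⟨a, ha⟩ := hB5 u φ h1
        intro x y
        rw [hB', hB', hgx x, hgx y, ha]
        simp only [map_add, map_smul, LinearMap.add_apply, LinearMap.smul_apply, smul_eq_mul,
          hB1 u]
        rw [hskew (x : V) u]
        ring
      | one =>
        intro x y
        rfl
      | mul a b _ _ ha hb =>
        intro x y
        rw [LinearEquiv.mul_apply, LinearEquiv.mul_apply, ha, hb]
      | inv a _ ha =>
        intro x y
        have h3 := ha (a.symm x) (a.symm y)
        rw [LinearEquiv.apply_symm_apply, LinearEquiv.apply_symm_apply] at h3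
        rw [LinearEquiv.coe_inv]
        exact h3.symm
    ext f
    constructor
    · intro hf
      exact hiso f hf
    · intro hf
      have hf' : ∀ x y, (B.compl₁₂ (cspan (LC H q)).subtype (cspan (LC H q)).subtype) (f x)
          (f y) = (B.compl₁₂ (cspan (LC H q)).subtype (cspan (LC H q)).subtype) x y := hf
      have h1 := Cfsg.Agent.Lib.Helper22.SpGen.sp_gen
        (B.compl₁₂ (cspan (LC H q)).subtype (cspan (LC H q)).subtype)
        (fun x => by rw [hB']; exact hB1 _)
        ⟨fun x hx => hsepL x (fun y => by rw [← hB']; exact hx y),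
          fun y hy => hsepL y (fun x => by rw [hskew, ← hB', hy x, neg_zero])⟩ f hf'
      have h2 : Subgroup.closure {t : ↥(cspan (LC H q)) ≃ₗ[ZMod p] ↥(cspan (LC H q)) |
          ∃ (u : ↥(cspan (LC H q))) (a : ZMod p), ∀ x, t x = x +
            (a * (B.compl₁₂ (cspan (LC H q)).subtype (cspan (LC H q)).subtype) u x) • u} ≤
          Subgroup.closure (rho hyp q '' ((↑) ⁻¹' genSet H q)) := by
        rw [Subgroup.closure_le]
        rintro t ⟨u, a, ht⟩
        by_cases hz : u = 0 ∨ a = 0
        · have : t = 1 := by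
            ext x
            rw [ht x]
            rcases hz with rfl | rfl <;> simp
          rw [this]
          exact Subgroup.one_mem _
        · push Not at hz
          apply Subgroup.subset_closure
          rw [mem_image_iff]
          have hu0 : (u : V) ≠ 0 := fun h => hz.1 (Subtype.ext h)
          refine ⟨(u : V), a • B (u : V), LC.smul_right hyp (hB4 _ u.2 hu0) hz.2, ?_⟩
          intro x
          rw [ht x, hB']
          rfl
      exact h2 h1

/-- The representation of the group of a class on the span of its centres. -/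
theorem exists_rho [Finite V] (hyp : Hyp p H) (q : Cls H) (X : Submodule (ZMod p) V)
    (hX : X = cspan (LC H q)) :
    ∃ ρ : ↥(KC H q) →* (↥X ≃ₗ[ZMod p] ↥X),
      (∀ (h : ↥(KC H q)) (v : ↥X), ((ρ h v : ↥X) : V) = (h : V ≃ₗ[ZMod p] V) (v : V)) ∧
      ((ρ.range : Set (↥X ≃ₗ[ZMod p] ↥X)) =
          {f : ↥X ≃ₗ[ZMod p] ↥X | LinearMap.det (f : ↥X →ₗ[ZMod p] ↥X) = 1} ∨
        ∃ B : LinearMap.BilinForm (ZMod p) ↥X, B.IsAlt ∧ B.Nondegenerate ∧
          (ρ.range : Set (↥X ≃ₗ[ZMod p] ↥X)) =
            {f : ↥X ≃ₗ[ZMod p] ↥X | ∀ x y, B (f x) (f y) = B x y}) := by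
  subst hX
  obtain ⟨hc, hcase⟩ := cls_main hyp q
  refine ⟨rho hyp q, rho_apply hyp q, ?_⟩
  rcases hcase with hsl | ⟨B, hB1, hB2, hB3, hB4, hB5⟩
  · exact Or.inl (rho_range_sl hyp q hc hsl)
  · exact Or.inr (rho_range_sp hyp q hc B hB1 hB2 hB3 hB4 hB5)

end Cfsg.Agent.Lib.Helper18.Mc
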