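import Cfsg.Agent.Lib.Helper18.McCore

/-!
# SL-blocks in an abstract transvection system
-/

namespace Cfsg.Agent.Lib.Helper18.Mc

open Module

variable {K : Type*} [Field K] {V : Type*} [AddCommGroup V] [Module K V]
variable {L : V → Dual K V → Prop}

/-- If `ker φ₁ ⊆ ker φ` then `φ` is a multiple of `φ₁`. -/
theorem eq_smul_of_ker {φ φ₁ : Dual K V} (h : ∀ x, φ₁ x = 0 → φ x = 0) :
    ∃ a : K, φ = a • φ₁ := by
  by_cases h0 : ∃ x₀, φ₁ x₀ ≠ 0
  · obtain ⟨x₀, hx₀⟩ := h0
    refine ⟨φ x₀ / φ₁ x₀, LinearMap.ext fun x => ?_⟩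
    have h1 : φ₁ (x - (φ₁ x / φ₁ x₀) • x₀) = 0 := by
      rw [map_sub, map_smul, smul_eq_mul, div_mul_cancel₀ _ hx₀, sub_self]
    have h2 := h _ h1
    rw [map_sub, map_smul, smul_eq_mul, sub_eq_zero] at h2
    rw [LinearMap.smul_apply, smul_eq_mul, h2]
    field_simp
  · push Not at h0
    refine ⟨0, LinearMap.ext fun x => ?_⟩
    rw [h x (h0 x), zero_smul, LinearMap.zero_apply]

section Proj

variable {W C : Submodule K V}

/-- The projection onto `W` along `C`. -/
noncomputable def prL (h : IsCompl W C) : V →ₗ[K] V := W.projection C h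

/-- The projection onto `C` along `W`. -/
noncomputable def prR (h : IsCompl W C) : V →ₗ[K] V := C.projection W h.symm

theorem prL_mem (h : IsCompl W C) (x : V) : prL h x ∈ W := Submodule.projection_apply_mem h x

theorem prR_mem (h : IsCompl W C) (x : V) : prR h x ∈ C :=
  Submodule.projection_apply_mem h.symm x

theorem prL_add_prR (h : IsCompl W C) (x : V) : prL h x + prR h x = x :=
  Submodule.projection_add_projection_eq_self h x

theorem prL_of_mem (h : IsCompl W C) {x : V} (hx : x ∈ W) : prL h x = x :=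
  Submodule.projection_apply_of_mem_left h hx

theorem prR_of_mem (h : IsCompl W C) {x : V} (hx : x ∈ C) : prR h x = x :=
  Submodule.projection_apply_of_mem_left h.symm hx

theorem prL_of_mem_right (h : IsCompl W C) {x : V} (hx : x ∈ C) : prL h x = 0 := by
  have := prL_add_prR h x
  rw [prR_of_mem h hx] at this
  exact add_eq_right.mp this

theorem prR_of_mem_left (h : IsCompl W C) {x : V} (hx : x ∈ W) : prR h x = 0 := by
  have := prL_add_prR h x
  rw [prL_of_mem h hx] at this
  exact add_eq_left.mp this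

theorem eq_zero_of_mem_mem (h : IsCompl W C) {x : V} (hx : x ∈ W) (hx' : x ∈ C) : x = 0 := by
  have : x ∈ W ⊓ C := ⟨hx, hx'⟩
  rw [h.inf_eq_bot] at this
  exact (Submodule.mem_bot K).mp this

/-- A functional vanishing on `C` and on a subspace `S ≤ W`, with value one at a vector of `W`
outside `S`. -/
theorem dual_of_notMem (h : IsCompl W C) {S : Submodule K V} (hS : S ≤ W) {w : V} (hw : w ∈ W)
    (hwS : w ∉ S) : ∃ φ : Dual K V, φ w = 1 ∧ C ≤ LinearMap.ker φ ∧ S ≤ LinearMap.ker φ := by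
  have h1 : w ∉ C ⊔ S := by
    intro hmem
    obtain ⟨c, hc, s, hs, hcs⟩ := Submodule.mem_sup.mp hmem
    have h2 : c = w - s := by rw [← hcs, add_sub_cancel_right]
    have h3 : c ∈ W := by rw [h2]; exact W.sub_mem hw (hS hs)
    have h4 := eq_zero_of_mem_mem h h3 hc
    rw [h4, zero_add] at hcs
    exact hwS (hcs ▸ hs)
  obtain ⟨φ, h2, h3⟩ := exists_dual_one h1
  exact ⟨φ, h2, le_sup_left.trans h3, le_sup_right.trans h3⟩

theorem apply_prL {φ : Dual K V} (h : IsCompl W C) (hφ : C ≤ LinearMap.ker φ) (x : V) :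
    φ (prL h x) = φ x := by
  conv_rhs => rw [← prL_add_prR h x]
  rw [map_add, LinearMap.mem_ker.mp (hφ (prR_mem h x)), add_zero]

theorem apply_prR {φ : Dual K V} (h : IsCompl W C) (hφ : W ≤ LinearMap.ker φ) (x : V) :
    φ (prR h x) = φ x := by
  conv_rhs => rw [← prL_add_prR h x]
  rw [map_add, LinearMap.mem_ker.mp (hφ (prL_mem h x)), zero_add]

theorem le_ker_comp_prR (h : IsCompl W C) (ψ : Dual K V) :
    W ≤ LinearMap.ker (ψ ∘ₗ prR h) := by
  intro x hx
  rw [LinearMap.mem_ker, LinearMap.comp_apply, prR_of_mem_left h hx, map_zero]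

theorem le_ker_comp_prL (h : IsCompl W C) (ψ : Dual K V) :
    C ≤ LinearMap.ker (ψ ∘ₗ prL h) := by
  intro x hx
  rw [LinearMap.mem_ker, LinearMap.comp_apply, prL_of_mem_right h hx, map_zero]

theorem comp_prL_add_comp_prR (h : IsCompl W C) (ψ : Dual K V) :
    ψ ∘ₗ prL h + ψ ∘ₗ prR h = ψ := by
  ext x
  rw [LinearMap.add_apply, LinearMap.comp_apply, LinearMap.comp_apply, ← map_add, prL_add_prR]

end Proj

/-- An SL-block: all transvections of `W ⊕ C` with centre in `W` and axis containing `C` are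
present, and `dim W ≥ 2`. -/
structure SLB (L : V → Dual K V → Prop) (W C : Submodule K V) : Prop where
  compl : IsCompl W C
  mem : ∀ w ∈ W, w ≠ 0 → ∀ φ : Dual K V, φ ≠ 0 → C ≤ LinearMap.ker φ → φ w = 0 → L w φ
  two : ∀ a : V, ∃ w ∈ W, w ∉ K ∙ a

/-- Functionals vanishing on `W` that are axes for every centre of `W`. -/
def InPsi (L : V → Dual K V → Prop) (W : Submodule K V) (ψ : Dual K V) : Prop :=
  W ≤ LinearMap.ker ψ ∧ (ψ ≠ 0 → ∀ u ∈ W, u ≠ 0 → L u ψ)

/-- Vectors of `C` that are centres for every axis containing `C`. -/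
def InX (L : V → Dual K V → Prop) (C : Submodule K V) (c : V) : Prop :=
  c ∈ C ∧ (c ≠ 0 → ∀ φ : Dual K V, φ ≠ 0 → C ≤ LinearMap.ker φ → L c φ)

theorem notMem_span_singleton_symm {a b : V} (hb : b ≠ 0) (h : a ∉ K ∙ b) : b ∉ K ∙ a := by
  intro hb'
  obtain ⟨c, rfl⟩ := Submodule.mem_span_singleton.mp hb'
  have hc : c ≠ 0 := by
    rintro rfl
    rw [zero_smul] at hb
    exact hb rfl
  apply h
  rw [Submodule.mem_span_singleton]
  exact ⟨c⁻¹, by rw [smul_smul, inv_mul_cancel₀ hc, one_smul]⟩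

namespace SLB

variable {W C : Submodule K V}

/-- A block functional vanishing at `w₁` with value one at `w`. -/
theorem dual (hB : SLB L W C) {w w₁ : V} (hw : w ∈ W) (hw₁ : w₁ ∈ W) (h : w ∉ K ∙ w₁) :
    ∃ φ : Dual K V, φ w = 1 ∧ C ≤ LinearMap.ker φ ∧ φ w₁ = 0 := by
  obtain ⟨φ, h1, h2, h3⟩ := dual_of_notMem hB.compl
    ((Submodule.span_singleton_le_iff_mem w₁ W).mpr hw₁) hw h
  exact ⟨φ, h1, h2, LinearMap.mem_ker.mp (h3 (Submodule.mem_span_singleton_self w₁))⟩

/-- Every non-zero vector of `W` is a centre. -/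
theorem exists_fun (hB : SLB L W C) {w : V} (hw : w ∈ W) (hw0 : w ≠ 0) :
    ∃ φ : Dual K V, L w φ ∧ C ≤ LinearMap.ker φ := by
  obtain ⟨w', hw', hne⟩ := hB.two w
  obtain ⟨φ, h1, h2, h3⟩ := hB.dual hw' hw hne
  have hφ : φ ≠ 0 := by
    rintro rfl
    simp at h1
  exact ⟨φ, hB.mem w hw hw0 φ hφ h2 h3, h2⟩

theorem exists_ne (hB : SLB L W C) : ∃ w ∈ W, w ≠ 0 := by
  obtain ⟨w, hw, hne⟩ := hB.two 0
  refine ⟨w, hw, ?_⟩
  rintro rfl
  exact hne (Submodule.zero_mem _)

/-- (i) The `C`-part of an axis of a centre in `W` is in `Ψ`. -/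
theorem psi_of_mem (hL : TSys L) (hB : SLB L W C) {w : V} {ψ : Dual K V} (h : L w ψ)
    (hw : w ∈ W) : InPsi L W (ψ ∘ₗ prR hB.compl) := by
  refine ⟨le_ker_comp_prR hB.compl ψ, fun hne u hu hu0 => ?_⟩
  have hw0 := hL.ne_left h
  -- first: `L w ψC`
  have h1 : L w (ψ ∘ₗ prR hB.compl) := by
    by_cases hW : ψ ∘ₗ prL hB.compl = 0
    · have := comp_prL_add_comp_prR hB.compl ψ
      rw [hW, zero_add] at this
      rw [this]; exact h
    · have h2 : L w (ψ ∘ₗ prL hB.compl) := by
        apply hB.mem w hw hw0 _ hW (le_ker_comp_prL hB.compl ψ)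
        rw [LinearMap.comp_apply, prL_of_mem hB.compl hw, hL.app h]
      have h3 : ψ - ψ ∘ₗ prL hB.compl = ψ ∘ₗ prR hB.compl := by
        rw [sub_eq_iff_eq_add, add_comm]
        exact (comp_prL_add_comp_prR hB.compl ψ).symm
      rw [← h3]
      apply hL.sub_right h h2
      rw [h3]; exact hne
  by_cases hmem : u ∈ K ∙ w
  · obtain ⟨a, rfl⟩ := Submodule.mem_span_singleton.mp hmem
    have ha : a ≠ 0 := by
      rintro rfl
      simp at hu0
    exact hL.smul_left a ha h1
  · obtain ⟨φ₁, h2, h3, h4⟩ := hB.dual hw hu (notMem_span_singleton_symm hw0 hmem)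
    have hφ₁ : φ₁ ≠ 0 := by
      rintro rfl
      simp at h2
    have h5 : L u φ₁ := hB.mem u hu hu0 φ₁ hφ₁ h3 h4
    have h6 : L (w + φ₁ w • u) (ψ ∘ₗ prR hB.compl) := by
      apply hL.conj_left h1 h5
      rw [LinearMap.comp_apply, prR_of_mem_left hB.compl hu, map_zero]
    rw [h2] at h6
    exact hL.of_add_smul_left h1 h6 one_ne_zero hu0

/-- (iii) The `C`-part of a centre with axis containing `C` is in `X`. -/
theorem x_of_ann (hL : TSys L) (hB : SLB L W C) {v : V} {φ : Dual K V} (h : L v φ)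
    (hφ : C ≤ LinearMap.ker φ) : InX L C (prR hB.compl v) := by
  refine ⟨prR_mem hB.compl v, fun hc φ₁ hφ₁ hC₁ => ?_⟩
  have hφ0 := hL.ne_right h
  -- first `L c φ`
  have h1 : L (prR hB.compl v) φ := by
    by_cases hw : prL hB.compl v = 0
    · have := prL_add_prR hB.compl v
      rw [hw, zero_add] at this
      rw [this]; exact h
    · have h2 : L (prL hB.compl v) φ := by
        apply hB.mem _ (prL_mem hB.compl v) hw φ hφ0 hφ
        rw [apply_prL hB.compl hφ, hL.app h]
      have h3 : v - prL hB.compl v = prR hB.compl v := by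
        rw [sub_eq_iff_eq_add, add_comm]
        exact (prL_add_prR hB.compl v).symm
      rw [← h3]
      apply hL.sub_left h h2
      rw [h3]; exact hc
  by_cases hcase : ∃ w₁ ∈ W, φ₁ w₁ = 0 ∧ φ w₁ ≠ 0
  · obtain ⟨w₁, hw₁, h2, h3⟩ := hcase
    have hw₁0 : w₁ ≠ 0 := by
      rintro rfl
      simp at h3
    have h4 : L w₁ φ₁ := hB.mem w₁ hw₁ hw₁0 φ₁ hφ₁ hC₁ h2
    have h5 : L (prR hB.compl v) (φ - φ w₁ • φ₁) := by
      apply hL.conj_right h1 h4
      exact LinearMap.mem_ker.mp (hC₁ (prR_mem hB.compl v))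
    exact hL.of_sub_smul_right h1 h5 h3 hφ₁
  · push Not at hcase
    have h2 : ∀ x, φ₁ x = 0 → φ x = 0 := by
      intro x hx
      rw [← apply_prL hB.compl hφ]
      apply hcase _ (prL_mem hB.compl x)
      rw [apply_prL hB.compl hC₁, hx]
    obtain ⟨a, ha⟩ := eq_smul_of_ker h2
    have ha0 : a ≠ 0 := by
      rintro rfl
      rw [zero_smul] at ha
      exact hφ0 ha
    have h3 : φ₁ = a⁻¹ • φ := by
      rw [ha, smul_smul, inv_mul_cancel₀ ha0, one_smul]
    rw [h3]
    exact hL.smul_right _ (inv_ne_zero ha0) h1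

/-- (ii) -/
theorem psi_of_ann (hL : TSys L) {v' : V} {ψ' ψ₁ : Dual K V} (h : L v' ψ')
    (hW : W ≤ LinearMap.ker ψ') (h1 : InPsi L W ψ₁) (hne : ψ₁ v' ≠ 0) : InPsi L W ψ' := by
  refine ⟨hW, fun _ u hu hu0 => ?_⟩
  have hψ₁ : ψ₁ ≠ 0 := by
    rintro rfl
    simp at hne
  exact hL.ruleR (h1.2 hψ₁ u hu hu0) h (LinearMap.mem_ker.mp (hW hu)) hne

/-- (iv) -/
theorem x_of_mem (hL : TSys L) {v' c₁ : V} {ψ' : Dual K V} (h : L v' ψ') (hv : v' ∈ C)
    (hc : InX L C c₁) (hne : ψ' c₁ ≠ 0) : InX L C v' := by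
  refine ⟨hv, fun _ φ hφ hC => ?_⟩
  have hc₁ : c₁ ≠ 0 := by
    rintro rfl
    simp at hne
  exact hL.ruleR h (hc.2 hc₁ φ hφ hC) (LinearMap.mem_ker.mp (hC hv)) hne

/-- Enlargement of an SL-block by one dimension. -/
theorem enlarge (hL : TSys L) (hB : SLB L W C) {c : V} {ψ : Dual K V} (hc : InX L C c)
    (hψ : InPsi L W ψ) (hne : ψ c ≠ 0) : SLB L (W ⊔ K ∙ c) (C ⊓ LinearMap.ker ψ) := by
  have hc0 : c ≠ 0 := by
    rintro rfl
    simp at hne
  have hψ0 : ψ ≠ 0 := by
    rintro rfl
    simp at hne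
  have hcC := hc.1
  have hdec : ∀ c' ∈ C, c' - (ψ c' / ψ c) • c ∈ C ⊓ LinearMap.ker ψ := by
    intro c' hc'
    refine ⟨C.sub_mem hc' (C.smul_mem _ hcC), ?_⟩
    rw [SetLike.mem_coe, LinearMap.mem_ker, map_sub, map_smul, smul_eq_mul,
      div_mul_cancel₀ _ hne, sub_self]
  have hcompl : IsCompl (W ⊔ K ∙ c) (C ⊓ LinearMap.ker ψ) := by
    constructor
    · rw [Submodule.disjoint_def]
      rintro x hx ⟨hxC, hxψ⟩
      obtain ⟨w, hw, y, hy, rfl⟩ := Submodule.mem_sup.mp hx
      obtain ⟨b, rfl⟩ := Submodule.mem_span_singleton.mp hy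
      have h1 : ψ (w + b • c) = b * ψ c := by
        rw [map_add, LinearMap.mem_ker.mp (hψ.1 hw), zero_add, map_smul, smul_eq_mul]
      rw [SetLike.mem_coe, LinearMap.mem_ker, h1] at hxψ
      have hb : b = 0 := by
        rcases mul_eq_zero.mp hxψ with h | h
        · exact h
        · exact absurd h hne
      subst hb
      rw [zero_smul, add_zero] at hxC ⊢
      exact eq_zero_of_mem_mem hB.compl hw hxC
    · rw [codisjoint_iff, eq_top_iff]
      intro v _
      have h1 := prL_add_prR hB.compl v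
      have h2 := hdec _ (prR_mem hB.compl v)
      have h3 : v = (prL hB.compl v + (ψ (prR hB.compl v) / ψ c) • c) +
          (prR hB.compl v - (ψ (prR hB.compl v) / ψ c) • c) := by
        rw [add_add_sub_cancel, h1]
      rw [h3]
      exact Submodule.add_mem_sup (Submodule.add_mem_sup (prL_mem hB.compl v)
        (Submodule.smul_mem _ _ (Submodule.mem_span_singleton_self c))) h2
  refine ⟨hcompl, ?_, ?_⟩
  · intro x hx hx0 φ hφ0 hφ hφx
    obtain ⟨w, hw, y, hy, rfl⟩ := Submodule.mem_sup.mp hx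
    obtain ⟨b, rfl⟩ := Submodule.mem_span_singleton.mp hy
    obtain ⟨a, ha⟩ : ∃ a : K, a = φ c / ψ c := ⟨_, rfl⟩
    have hφ₀C : C ≤ LinearMap.ker (φ - a • ψ) := by
      intro c' hc'
      have h1 := LinearMap.mem_ker.mp (hφ (hdec c' hc'))
      rw [map_sub, map_smul, smul_eq_mul, sub_eq_zero] at h1
      rw [LinearMap.mem_ker, LinearMap.sub_apply, LinearMap.smul_apply, smul_eq_mul, h1, ha]
      ring
    have hφeq : φ = (φ - a • ψ) + a • ψ := by rw [sub_add_cancel]
    have hψw : ψ w = 0 := LinearMap.mem_ker.mp (hψ.1 hw)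
    have hrel : (φ - a • ψ) w + b * (a * ψ c) = 0 := by
      have : φ (w + b • c) = (φ - a • ψ) w + b * (a * ψ c) := by
        rw [LinearMap.sub_apply, LinearMap.smul_apply, smul_eq_mul, hψw, mul_zero, sub_zero,
          map_add, map_smul, smul_eq_mul, ha, div_mul_cancel₀ _ hne]
      rw [← this]; exact hφx
    by_cases hb : b = 0
    · subst hb
      rw [zero_smul, add_zero] at hx0 ⊢
      rw [zero_mul, add_zero] at hrel
      by_cases hφ₀ : φ - a • ψ = 0
      · have h1 : φ = a • ψ := sub_eq_zero.mp hφ₀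
        have ha0 : a ≠ 0 := by
          intro h
          rw [h, zero_smul] at h1
          exact hφ0 h1
        rw [h1]
        exact hL.smul_right a ha0 (hψ.2 hψ0 w hw hx0)
      · have h1 : L w (φ - a • ψ) := hB.mem w hw hx0 _ hφ₀ hφ₀C hrel
        by_cases ha0 : a = 0
        · rw [ha0, zero_smul, sub_zero] at h1; exact h1
        · have h2 : L w (a • ψ) := hL.smul_right a ha0 (hψ.2 hψ0 w hw hx0)
          rw [hφeq]
          apply hL.add_right h1 h2
          rw [← hφeq]; exact hφ0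
    · have hba : ∀ {t : K}, t + b * (a * ψ c) = 0 → t = 0 → a = 0 := by
        intro t ht ht0
        rw [ht0, zero_add] at ht
        rcases mul_eq_zero.mp ht with h | h
        · exact absurd h hb
        · rcases mul_eq_zero.mp h with h | h
          · exact h
          · exact absurd h hne
      have hφ₀ : φ - a • ψ ≠ 0 := by
        intro h0
        have ha0 : a = 0 := hba hrel (by rw [h0, LinearMap.zero_apply])
        apply hφ0
        rw [hφeq, h0, ha0, zero_smul, add_zero]
      have h1 : L c (φ - a • ψ) := hc.2 hc0 _ hφ₀ hφ₀C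
      suffices hs : L (b⁻¹ • w + c) φ by
        have := hL.smul_left b hb hs
        rwa [smul_add, smul_smul, mul_inv_cancel₀ hb, one_smul] at this
      by_cases hw0 : w = 0
      · subst hw0
        rw [smul_zero, zero_add]
        have ha0 : a = 0 := hba hrel (map_zero _)
        rw [ha0, zero_smul, sub_zero] at h1
        exact h1
      · have hw' : b⁻¹ • w ∈ W := W.smul_mem _ hw
        have hw'0 : b⁻¹ • w ≠ 0 := smul_ne_zero (inv_ne_zero hb) hw0
        have h2 : L (b⁻¹ • w) ((ψ c)⁻¹ • ψ) :=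
          hL.smul_right _ (inv_ne_zero hne) (hψ.2 hψ0 _ hw' hw'0)
        have h3 := hL.conj h1 h2
        have e1 : c + ((ψ c)⁻¹ • ψ) c • b⁻¹ • w = b⁻¹ • w + c := by
          rw [LinearMap.smul_apply, smul_eq_mul, inv_mul_cancel₀ hne, one_smul, add_comm]
        have e2 : (φ - a • ψ) - (φ - a • ψ) (b⁻¹ • w) • (ψ c)⁻¹ • ψ = φ := by
          ext y
          have hrel' : φ w - a * ψ w = - (b * (a * ψ c)) := by
            have := hrel
            rw [LinearMap.sub_apply, LinearMap.smul_apply, smul_eq_mul] at this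
            linear_combination this
          simp only [LinearMap.sub_apply, LinearMap.smul_apply, smul_eq_mul, map_smul]
          rw [hrel']
          field_simp
          ring
        rw [e1, e2] at h3
        exact h3
  · intro a
    obtain ⟨w, hw, hne⟩ := hB.two a
    exact ⟨w, Submodule.mem_sup_left hw, hne⟩

/-- A centre in `C` whose axis does not contain `W` lies in `X`. -/
theorem x_of_mem_C (hL : TSys L) (hB : SLB L W C) {v : V} {ψ : Dual K V} (h : L v ψ)
    (hv : v ∈ C) (hW : ¬ W ≤ LinearMap.ker ψ) : InX L C v := by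
  obtain ⟨w, hw, hψw⟩ : ∃ w ∈ W, ψ w ≠ 0 := by
    by_contra hcon
    push Not at hcon
    exact hW (fun x hx => LinearMap.mem_ker.mpr (hcon x hx))
  have hw0 : w ≠ 0 := by
    rintro rfl
    simp at hψw
  obtain ⟨φ, h1, h2⟩ := hB.exists_fun hw hw0
  have h3 : L v (ψ - ψ w • φ) := hL.conj_right h h1 (LinearMap.mem_ker.mp (h2 hv))
  have h4 : L v φ := hL.of_sub_smul_right h h3 hψw (hL.ne_right h1)
  have := hB.x_of_ann hL h4 h2
  rwa [prR_of_mem hB.compl hv] at this

/-- (A) for blocks of dimension at least three. -/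
theorem x_of_big (hL : TSys L) (hB : SLB L W C)
    (h3 : ∀ a b : V, ∃ w ∈ W, w ∉ Submodule.span K {a, b}) {v : V} {ψ : Dual K V}
    (h : L v ψ) (hW : ¬ W ≤ LinearMap.ker ψ) : InX L C (prR hB.compl v) := by
  obtain ⟨w, hw, hψw⟩ : ∃ w ∈ W, ψ w ≠ 0 := by
    by_contra hcon
    push Not at hcon
    exact hW (fun x hx => LinearMap.mem_ker.mpr (hcon x hx))
  have hw0 : w ≠ 0 := by
    rintro rfl
    simp at hψw
  obtain ⟨w₃, hw₃, hne⟩ := h3 w (prL hB.compl v)
  obtain ⟨φ, h1, h2, h4⟩ := dual_of_notMem hB.compl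
    (S := Submodule.span K {w, prL hB.compl v})
    (Submodule.span_le.mpr (by
      rintro x (rfl | rfl)
      · exact hw
      · exact prL_mem hB.compl v)) hw₃ hne
  have hφ0 : φ ≠ 0 := by
    rintro rfl
    simp at h1
  have hφw : φ w = 0 := LinearMap.mem_ker.mp (h4 (Submodule.subset_span (by simp)))
  have hφv : φ (prL hB.compl v) = 0 :=
    LinearMap.mem_ker.mp (h4 (Submodule.subset_span (by simp)))
  have h5 : L w φ := hB.mem w hw hw0 φ hφ0 h2 hφw
  have h6 : φ v = 0 := by rw [← apply_prL hB.compl h2, hφv]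
  have h7 : L v (ψ - ψ w • φ) := hL.conj_right h h5 h6
  have h8 : L v φ := hL.of_sub_smul_right h h7 hψw hφ0
  exact hB.x_of_ann hL h8 h2

/-- (B) for blocks of dimension at least three. -/
theorem psi_of_big (hL : TSys L) (hB : SLB L W C)
    (h3 : ∀ a b : V, ∃ w ∈ W, w ∉ Submodule.span K {a, b}) {v : V} {ψ : Dual K V}
    (h : L v ψ) (hv : prL hB.compl v ≠ 0) : InPsi L W (ψ ∘ₗ prR hB.compl) := by
  have hvW : prL hB.compl v ∈ W := prL_mem hB.compl v
  obtain ⟨w, hw, hwne, hψw⟩ : ∃ w ∈ W, w ∉ K ∙ prL hB.compl v ∧ ψ w = 0 := by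
    by_cases hW : W ≤ LinearMap.ker ψ
    · obtain ⟨w, hw, hne⟩ := hB.two (prL hB.compl v)
      exact ⟨w, hw, hne, LinearMap.mem_ker.mp (hW hw)⟩
    · obtain ⟨a, ha, hψa⟩ : ∃ a ∈ W, ψ a ≠ 0 := by
        by_contra hcon
        push Not at hcon
        exact hW (fun x hx => LinearMap.mem_ker.mpr (hcon x hx))
      obtain ⟨w₃, hw₃, hne⟩ := h3 a (prL hB.compl v)
      refine ⟨w₃ - (ψ w₃ / ψ a) • a, W.sub_mem hw₃ (W.smul_mem _ ha), ?_, ?_⟩
      · intro hmem
        apply hne
        have : w₃ = (w₃ - (ψ w₃ / ψ a) • a) + (ψ w₃ / ψ a) • a := by rw [sub_add_cancel]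
        rw [this]
        exact Submodule.add_mem _ (Submodule.span_mono (by simp) hmem)
          (Submodule.smul_mem _ _ (Submodule.subset_span (by simp)))
      · rw [map_sub, map_smul, smul_eq_mul, div_mul_cancel₀ _ hψa, sub_self]
  have hw0 : w ≠ 0 := by
    rintro rfl
    exact hwne (Submodule.zero_mem _)
  obtain ⟨φ, h1, h2, h4⟩ := hB.dual hvW hw (notMem_span_singleton_symm hv hwne)
  have hφ0 : φ ≠ 0 := by
    rintro rfl
    simp at h1
  have h5 : L w φ := hB.mem w hw hw0 φ hφ0 h2 h4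
  have h6 : L (v + φ v • w) ψ := hL.conj_left h h5 hψw
  have h7 : φ v = 1 := by rw [← apply_prL hB.compl h2, h1]
  rw [h7] at h6
  have h8 : L w ψ := hL.of_add_smul_left h h6 one_ne_zero hw0
  exact hB.psi_of_mem hL h8 hw

end SLB

/-- `X` as a submodule. -/
def xSub (hL : TSys L) (C : Submodule K V) : Submodule K V where
  carrier := {c | InX L C c}
  add_mem' := by
    rintro a b ⟨ha, ha'⟩ ⟨hb, hb'⟩
    refine ⟨C.add_mem ha hb, fun hne φ hφ hC => ?_⟩
    by_cases ha0 : a = 0
    · subst ha0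
      rw [zero_add] at hne ⊢
      exact hb' hne φ hφ hC
    by_cases hb0 : b = 0
    · subst hb0
      rw [add_zero] at hne ⊢
      exact ha' hne φ hφ hC
    exact hL.add_left (ha' ha0 φ hφ hC) (hb' hb0 φ hφ hC) hne
  zero_mem' := ⟨C.zero_mem, fun h => absurd rfl h⟩
  smul_mem' := by
    rintro t a ⟨ha, ha'⟩
    refine ⟨C.smul_mem t ha, fun hne φ hφ hC => ?_⟩
    have ht : t ≠ 0 := by
      rintro rfl
      simp at hne
    have ha0 : a ≠ 0 := by
      rintro rfl
      simp at hne
    exact hL.smul_left t ht (ha' ha0 φ hφ hC)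

theorem mem_xSub (hL : TSys L) {C : Submodule K V} {c : V} : c ∈ xSub hL C ↔ InX L C c :=
  Iff.rfl

namespace SLB

variable {W C : Submodule K V}

/-- A block of dimension at least three which cannot be enlarged is everything. -/
theorem final (hL : TSys L) (hB : SLB L W C)
    (h3 : ∀ a b : V, ∃ w ∈ W, w ∉ Submodule.span K {a, b})
    (hmax : ∀ c ψ, InX L C c → InPsi L W ψ → ψ c = 0) :
    cspan L = W ∧ axes L = C := by
  obtain ⟨w₁, hw₁, hw₁0⟩ := hB.exists_ne
  obtain ⟨φ₁, hφ₁, hφ₁C⟩ := hB.exists_fun hw₁ hw₁0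
  have hmemC : ∀ v, prL hB.compl v = 0 → v ∈ C := by
    intro v hv
    have := prL_add_prR hB.compl v
    rw [hv, zero_add] at this
    rw [← this]
    exact prR_mem hB.compl v
  -- Step 1: all centres lie in `W ⊔ X`
  have hc1 : ∀ u φ, L u φ → u ∈ W ⊔ xSub hL C := by
    have hinv : ∀ u φ, L u φ → u ∈ W ⊔ xSub hL C ∨ W ⊔ xSub hL C ≤ LinearMap.ker φ := by
      intro v ψ h
      by_cases hW : W ≤ LinearMap.ker ψ
      · by_cases hv : prL hB.compl v = 0
        · have hvC : v ∈ C := hmemC v hv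
          by_cases hx : ∃ c₁ ∈ xSub hL C, ψ c₁ ≠ 0
          · obtain ⟨c₁, hc₁, hne⟩ := hx
            exact Or.inl (Submodule.mem_sup_right (SLB.x_of_mem hL h hvC hc₁ hne))
          · push Not at hx
            right
            exact sup_le hW (fun x hx' => LinearMap.mem_ker.mpr (hx x hx'))
        · right
          have h4 := hB.psi_of_big hL h3 h hv
          refine sup_le hW (fun x hx' => ?_)
          have := hmax x _ hx' h4
          rw [LinearMap.comp_apply, prR_of_mem hB.compl hx'.1] at this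
          exact LinearMap.mem_ker.mpr this
      · left
        have h4 := hB.x_of_big hL h3 h hW
        rw [← prL_add_prR hB.compl v]
        exact Submodule.add_mem_sup (prL_mem hB.compl v) h4
    rcases hL.inv _ hinv with h1 | h1
    · exact fun u φ h => (h1 u φ h).1
    · exact absurd (Submodule.mem_sup_left hw₁) (h1 w₁ φ₁ hφ₁).1
  -- Step 2: `Ψ = 0`
  have hpsi0 : ∀ ψ, InPsi L W ψ → ψ = 0 := by
    intro ψ hψ
    by_contra hne
    obtain ⟨u', φ', h', hne'⟩ := hL.f1 (hψ.2 hne w₁ hw₁ hw₁0)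
    apply hne'
    obtain ⟨w, hw, x, hx, rfl⟩ := Submodule.mem_sup.mp (hc1 u' φ' h')
    rw [map_add, LinearMap.mem_ker.mp (hψ.1 hw), hmax x ψ hx hψ, add_zero]
  -- Step 3
  have hC : ∀ v ψ, L v ψ → prL hB.compl v ≠ 0 → C ≤ LinearMap.ker ψ := by
    intro v ψ h hv c hc
    have h4 := hpsi0 _ (hB.psi_of_big hL h3 h hv)
    have : (ψ ∘ₗ prR hB.compl) c = 0 := by rw [h4, LinearMap.zero_apply]
    rw [LinearMap.comp_apply, prR_of_mem hB.compl hc] at this
    exact LinearMap.mem_ker.mpr this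
  -- Step 4: `X = 0`
  have hx0 : ∀ c, InX L C c → c = 0 := by
    have hinv : ∀ u φ, L u φ → u ∈ xSub hL C ∨ xSub hL C ≤ LinearMap.ker φ := by
      intro v ψ h
      by_cases hv : prL hB.compl v = 0
      · left
        have hvC : v ∈ C := hmemC v hv
        obtain ⟨w, hw, x, hx, hwx⟩ := Submodule.mem_sup.mp (hc1 v ψ h)
        have hw0 : w = 0 := by
          have : w = v - x := by rw [← hwx, add_sub_cancel_right]
          exact eq_zero_of_mem_mem hB.compl hw (this ▸ C.sub_mem hvC hx.1)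
        rw [hw0, zero_add] at hwx
        exact hwx ▸ hx
      · right
        exact fun x hx => hC v ψ h hv hx.1
    rcases hL.inv _ hinv with h1 | h1
    · have := (h1 w₁ φ₁ hφ₁).1
      exact absurd (eq_zero_of_mem_mem hB.compl hw₁ this.1) hw₁0
    · intro c hc
      by_contra hne
      have := hc.2 hne φ₁ (hL.ne_right hφ₁) hφ₁C
      exact (h1 c φ₁ this).1 hc
  -- Step 5
  have hcW : ∀ u φ, L u φ → u ∈ W := by
    intro u φ h
    obtain ⟨w, hw, x, hx, rfl⟩ := Submodule.mem_sup.mp (hc1 u φ h)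
    rw [hx0 x hx, add_zero]
    exact hw
  constructor
  · apply le_antisymm
    · exact Submodule.span_le.mpr (fun u ⟨φ, h⟩ => hcW u φ h)
    · intro w hw
      by_cases hw0 : w = 0
      · rw [hw0]
        exact Submodule.zero_mem _
      · obtain ⟨φ, hφ, _⟩ := hB.exists_fun hw hw0
        exact mem_cspan hφ
  · apply le_antisymm
    · intro x hx
      by_contra hxC
      have hw : prL hB.compl x ≠ 0 := fun h0 => hxC (hmemC x h0)
      obtain ⟨w', hw', hne⟩ := hB.two (prL hB.compl x)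
      obtain ⟨φ, h1, h2, h4⟩ := hB.dual (prL_mem hB.compl x) hw'
        (notMem_span_singleton_symm hw hne)
      have hw'0 : w' ≠ 0 := by
        rintro rfl
        exact hne (Submodule.zero_mem _)
      have hφ0 : φ ≠ 0 := by
        rintro rfl
        simp at h1
      have h5 : L w' φ := hB.mem w' hw' hw'0 φ hφ0 h2 h4
      have := hx w' φ h5
      rw [← apply_prL hB.compl h2, h1] at this
      exact one_ne_zero this
    · intro c hc u φ h
      have hu := hcW u φ h
      have : prL hB.compl u ≠ 0 := by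
        rw [prL_of_mem hB.compl hu]
        exact hL.ne_left h
      exact LinearMap.mem_ker.mp (hC u φ h this hc)

end SLB

theorem big3 [FiniteDimensional K V] {W : Submodule K V} (h : 3 ≤ finrank K W) (a b : V) :
    ∃ w ∈ W, w ∉ Submodule.span K {a, b} := by
  classical
  by_contra hcon
  push Not at hcon
  have h1 : W ≤ Submodule.span K {a, b} := hcon
  have h2 := Submodule.finrank_mono h1
  have h3 : finrank K (Submodule.span K ((({a, b} : Finset V)) : Set V)) ≤ 2 :=
    (finrank_span_finset_le_card _).trans Finset.card_le_two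
  rw [Finset.coe_pair] at h3
  omega

/-- An SL-block of dimension at least three forces the SL-conclusion. -/
theorem SLB.main [FiniteDimensional K V] (hL : TSys L) :
    ∀ (n : ℕ) (W C : Submodule K V), SLB L W C → 3 ≤ finrank K W → finrank K C = n →
      IsCompl (cspan L) (axes L) ∧
        ∀ u φ, u ∈ cspan L → u ≠ 0 → φ ≠ 0 → axes L ≤ LinearMap.ker φ → φ u = 0 → L u φ := by
  intro n
  induction n using Nat.strong_induction_on with
  | _ n ih =>
    intro W C hB h3 hn
    by_cases hmax : ∀ c ψ, InX L C c → InPsi L W ψ → ψ c = 0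
    · obtain ⟨h1, h2⟩ := hB.final hL (big3 h3) hmax
      rw [h1, h2]
      exact ⟨hB.compl, fun u φ hu hu0 hφ hC hφu => hB.mem u hu hu0 φ hφ hC hφu⟩
    · push Not at hmax
      obtain ⟨c, ψ, hc, hψ, hne⟩ := hmax
      have hB' := hB.enlarge hL hc hψ hne
      have hlt : C ⊓ LinearMap.ker ψ < C := by
        refine lt_of_le_of_ne inf_le_left (fun heq => ?_)
        have : c ∈ C ⊓ LinearMap.ker ψ := by rw [heq]; exact hc.1
        exact hne (LinearMap.mem_ker.mp this.2)
      have hlt' := Submodule.finrank_lt_finrank_of_lt hlt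
      exact ih _ (hn ▸ hlt') _ _ hB' (h3.trans (Submodule.finrank_mono le_sup_left)) rfl

/-- A hyperbolic pair of transvections (normalised) spans an SL-block. -/
theorem slb_of_pair_aux (hL : TSys L) {u v : V} {α β : Dual K V} (h1 : L u α) (h2 : L v β)
    (hαv : α v = 1) (hβu : β u = 1) :
    SLB L (Submodule.span K {u, v}) (LinearMap.ker α ⊓ LinearMap.ker β) := by
  have hαu := hL.app h1
  have hβv := hL.app h2
  have hdec : ∀ z : V, z - β z • u - α z • v ∈ LinearMap.ker α ⊓ LinearMap.ker β := by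
    intro z
    rw [Submodule.mem_inf, LinearMap.mem_ker, LinearMap.mem_ker]
    constructor
    · rw [map_sub, map_sub, map_smul, map_smul, hαu, hαv]
      simp
    · rw [map_sub, map_sub, map_smul, map_smul, hβu, hβv]
      simp
  have hcoord : ∀ φ : Dual K V, LinearMap.ker α ⊓ LinearMap.ker β ≤ LinearMap.ker φ →
      φ = φ v • α + φ u • β := by
    intro φ hφ
    ext z
    have := LinearMap.mem_ker.mp (hφ (hdec z))
    rw [map_sub, map_sub, map_smul, map_smul, sub_sub, sub_eq_zero] at this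
    rw [this, LinearMap.add_apply, LinearMap.smul_apply, LinearMap.smul_apply]
    simp only [smul_eq_mul]
    ring
  refine ⟨IsCompl.of_eq ?_ ?_, ?_, ?_⟩
  · rw [eq_bot_iff]
    rintro x ⟨hx1, hx2⟩
    obtain ⟨a, b, rfl⟩ := Submodule.mem_span_pair.mp hx1
    have h3 := LinearMap.mem_ker.mp hx2.1
    have h4 := LinearMap.mem_ker.mp hx2.2
    rw [map_add, map_smul, map_smul, hαu, hαv] at h3
    rw [map_add, map_smul, map_smul, hβu, hβv] at h4
    simp only [smul_eq_mul, mul_zero, mul_one, zero_add, add_zero] at h3 h4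
    rw [h3, h4]
    simp
  · rw [eq_top_iff]
    intro z _
    have : z = (β z • u + α z • v) + (z - β z • u - α z • v) := by abel
    rw [this]
    exact Submodule.add_mem _ (Submodule.mem_sup_left (Submodule.mem_span_pair.mpr ⟨_, _, rfl⟩))
      (Submodule.mem_sup_right (hdec z))
  · intro w hw hw0 φ hφ0 hφ hφw
    obtain ⟨x, y, rfl⟩ := Submodule.mem_span_pair.mp hw
    have hc := hcoord φ hφ
    rw [map_add, map_smul, map_smul, smul_eq_mul, smul_eq_mul] at hφw
    by_cases hy : y = 0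
    · subst hy
      rw [zero_smul, add_zero] at hw0 ⊢
      have hx : x ≠ 0 := by
        rintro rfl
        simp at hw0
      have hb : φ u = 0 := by
        rw [zero_mul, add_zero] at hφw
        exact (mul_eq_zero.mp hφw).resolve_left hx
      rw [hb, zero_smul, add_zero] at hc
      have ha : φ v ≠ 0 := by
        intro h0
        rw [h0, zero_smul] at hc
        exact hφ0 hc
      rw [hc]
      exact hL.smul_left x hx (hL.smul_right _ ha h1)
    by_cases hx : x = 0
    · subst hx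
      rw [zero_smul, zero_add] at hw0 ⊢
      have ha : φ v = 0 := by
        rw [zero_mul, zero_add] at hφw
        exact (mul_eq_zero.mp hφw).resolve_left hy
      rw [ha, zero_smul, zero_add] at hc
      have hb : φ u ≠ 0 := by
        intro h0
        rw [h0, zero_smul] at hc
        exact hφ0 hc
      rw [hc]
      exact hL.smul_left y hy (hL.smul_right _ hb h2)
    · have h3 : L ((y / x) • v) β := hL.smul_left _ (div_ne_zero hy hx) h2
      have h4 := hL.conj h1 h3
      rw [hβu, one_smul, map_smul, hαv, smul_eq_mul, mul_one] at h4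
      have h5 := hL.smul_left x hx h4
      rw [smul_add, smul_smul, mul_div_cancel₀ _ hx] at h5
      have ha : φ v ≠ 0 := by
        intro h0
        rw [h0, mul_zero, add_zero] at hφw
        have hb : φ u = 0 := (mul_eq_zero.mp hφw).resolve_left hx
        rw [h0, hb, zero_smul, zero_smul, add_zero] at hc
        exact hφ0 hc
      have h6 : φ = φ v • (α - (y / x) • β) := by
        conv_lhs => rw [hc]
        rw [smul_sub, smul_smul, sub_eq_add_neg, ← neg_smul]
        congr 2
        field_simp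
        linear_combination hφw
      rw [h6]
      exact hL.smul_right _ ha h5
  · intro a
    by_cases hu : u ∈ K ∙ a
    · refine ⟨v, Submodule.subset_span (by simp), fun hv => ?_⟩
      obtain ⟨c, hc⟩ := Submodule.mem_span_singleton.mp hu
      obtain ⟨d, hd⟩ := Submodule.mem_span_singleton.mp hv
      have hc0 : c ≠ 0 := by
        rintro rfl
        rw [zero_smul] at hc
        exact hL.ne_left h1 hc.symm
      have : v = (d / c) • u := by
        rw [← hc, smul_smul, div_mul_cancel₀ _ hc0, hd]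
      rw [this, map_smul, hαu, smul_zero] at hαv
      exact zero_ne_one hαv
    · exact ⟨u, Submodule.subset_span (by simp), hu⟩

/-- A hyperbolic pair of transvections spans an SL-block. -/
theorem slb_of_pair (hL : TSys L) {u v : V} {α β : Dual K V} (h1 : L u α) (h2 : L v β)
    (hαv : α v ≠ 0) (hβu : β u ≠ 0) :
    SLB L (Submodule.span K {u, v}) (LinearMap.ker α ⊓ LinearMap.ker β) := by
  have h3 := slb_of_pair_aux hL (hL.smul_right (α v)⁻¹ (inv_ne_zero hαv) h1)
    (hL.smul_right (β u)⁻¹ (inv_ne_zero hβu) h2)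
    (by rw [LinearMap.smul_apply, smul_eq_mul, inv_mul_cancel₀ hαv])
    (by rw [LinearMap.smul_apply, smul_eq_mul, inv_mul_cancel₀ hβu])
  rwa [LinearMap.ker_smul _ _ (inv_ne_zero hαv), LinearMap.ker_smul _ _ (inv_ne_zero hβu)] at h3

theorem SLB.two_le_finrank [FiniteDimensional K V] {W C : Submodule K V} (hB : SLB L W C) :
    2 ≤ finrank K W := by
  by_contra hcon
  have h1 : finrank K W ≤ 1 := by omega
  obtain ⟨v, hv⟩ := finrank_le_one_iff.mp h1
  obtain ⟨w, hw, hne⟩ := hB.two (v : V)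
  obtain ⟨c, hc⟩ := hv ⟨w, hw⟩
  apply hne
  rw [Submodule.mem_span_singleton]
  exact ⟨c, by rw [← Submodule.coe_smul, hc]⟩

/-- The common kernel of the functionals of `Ψ`. -/
def psiKer (L : V → Dual K V → Prop) (W : Submodule K V) : Submodule K V where
  carrier := {x | ∀ ψ, InPsi L W ψ → ψ x = 0}
  add_mem' := fun {a b} ha hb ψ h => by rw [map_add, ha ψ h, hb ψ h, add_zero]
  zero_mem' := fun ψ _ => map_zero ψ
  smul_mem' := fun c _ hx ψ h => by rw [map_smul, hx ψ h, smul_zero]

/-- The span of the axes of a centre. -/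
def axSpan (L : V → Dual K V → Prop) (u : V) : Submodule K (Dual K V) :=
  Submodule.span K {φ | L u φ}

/-- The SL-case of the main theorem on transvection systems. -/
theorem TSys.main_sl [FiniteDimensional K V] (hL : TSys L)
    (h : ∃ u φ φ', L u φ ∧ L u φ' ∧ ¬ ∃ a : K, φ' = a • φ) :
    IsCompl (cspan L) (axes L) ∧
      ∀ u φ, u ∈ cspan L → u ≠ 0 → φ ≠ 0 → axes L ≤ LinearMap.ker φ → φ u = 0 → L u φ := by
  classical
  obtain ⟨u₁, ξ, ξ', hξ, hξ', hnp⟩ := h
  -- a centre with the largest span of axes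
  have hex : ∃ n, ∃ u φ, L u φ ∧ finrank K (Dual K V) - finrank K (axSpan L u) = n :=
    ⟨_, u₁, ξ, hξ, rfl⟩
  obtain ⟨u₀, φ₀, h0, hn⟩ := Nat.find_spec hex
  have hmin : ∀ u φ, L u φ → finrank K (axSpan L u) ≤ finrank K (axSpan L u₀) := by
    intro u φ hu
    have h1 := Nat.find_min' hex ⟨u, φ, hu, rfl⟩
    rw [← hn] at h1
    have h2 := Submodule.finrank_le (axSpan L u)
    have h3 := Submodule.finrank_le (axSpan L u₀)
    omega
  obtain ⟨u', φ', h', hφ'u₀⟩ := hL.f2 h0
  -- an axis of `u₀` not containing `u'`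
  obtain ⟨φ₁, hφ₁, hφ₁u'⟩ : ∃ φ₁, L u₀ φ₁ ∧ φ₁ u' ≠ 0 := by
    by_contra hcon
    push Not at hcon
    have h1 : axSpan L u₀ < axSpan L u' := by
      refine lt_of_le_of_ne (Submodule.span_le.mpr fun φ hφ => ?_) (fun heq => ?_)
      · exact Submodule.subset_span (hL.ruleR h' hφ (hcon φ hφ) hφ'u₀)
      · have h2 : φ' ∈ axSpan L u₀ := by rw [heq]; exact Submodule.subset_span h'
        have h3 : axSpan L u₀ ≤ LinearMap.ker (Dual.eval K V u₀) := by
          apply Submodule.span_le.mpr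
          intro φ hφ
          rw [SetLike.mem_coe, LinearMap.mem_ker, Dual.eval_apply]
          exact hL.app hφ
        have h4 := LinearMap.mem_ker.mp (h3 h2)
        rw [Dual.eval_apply] at h4
        exact hφ'u₀ h4
    have h2 := Submodule.finrank_lt_finrank_of_lt h1
    have h3 := hmin u' φ' h'
    omega
  have hB := slb_of_pair hL hφ₁ h' hφ₁u' hφ'u₀
  have hu₀W : u₀ ∈ Submodule.span K {u₀, u'} := Submodule.subset_span (by simp)
  have hu₀0 := hL.ne_left h0
  -- a second axis of `u₀`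
  obtain ⟨φ₂, hφ₂, hφ₂ne⟩ : ∃ φ₂, L u₀ φ₂ ∧ φ₂ ∉ K ∙ φ₁ := by
    by_contra hcon
    push Not at hcon
    have h1 : axSpan L u₀ ≤ K ∙ φ₁ := Submodule.span_le.mpr fun φ hφ => hcon φ hφ
    have h2 := Submodule.finrank_mono h1
    have h3 : finrank K (K ∙ φ₁) ≤ 1 := by
      have := finrank_span_le_card (R := K) ({φ₁} : Set (Dual K V))
      simpa using this
    have h4 : 2 ≤ finrank K (axSpan L u₁) := by
      have h5 : K ∙ ξ < axSpan L u₁ := by
        refine lt_of_le_of_ne ((Submodule.span_singleton_le_iff_mem _ _).mpr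
          (Submodule.subset_span hξ)) (fun heq => ?_)
        have h6 : ξ' ∈ K ∙ ξ := by rw [heq]; exact Submodule.subset_span hξ'
        obtain ⟨a, ha⟩ := Submodule.mem_span_singleton.mp h6
        exact hnp ⟨a, ha.symm⟩
      have h6 := Submodule.finrank_lt_finrank_of_lt h5
      rw [finrank_span_singleton (hL.ne_right hξ)] at h6
      omega
    have h5 := hmin u₁ ξ hξ
    omega
  -- `ψ₁ := φ₂ ∘ prR` is a non-zero element of `Ψ`
  have hψ₁ : InPsi L (Submodule.span K {u₀, u'}) (φ₂ ∘ₗ prR hB.compl) :=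
    hB.psi_of_mem hL hφ₂ hu₀W
  have hψ₁0 : φ₂ ∘ₗ prR hB.compl ≠ 0 := by
    intro hzero
    apply hφ₂ne
    have h1 : ∀ x, φ₁ x = 0 → φ₂ x = 0 := by
      intro x hx
      have h2 := comp_prL_add_comp_prR hB.compl φ₂
      rw [hzero, add_zero] at h2
      rw [← h2, LinearMap.comp_apply]
      obtain ⟨a, b, hab⟩ := Submodule.mem_span_pair.mp (prL_mem hB.compl x)
      have h3 : φ₁ (prL hB.compl x) = 0 := by
        rw [apply_prL hB.compl inf_le_left, hx]
      rw [← hab, map_add, map_smul, map_smul, hL.app hφ₁, smul_zero, zero_add, smul_eq_mul] at h3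
      have hb : b = 0 := (mul_eq_zero.mp h3).resolve_right hφ₁u'
      rw [← hab, hb, zero_smul, add_zero, map_smul, hL.app hφ₂, smul_zero]
    obtain ⟨a, ha⟩ := eq_smul_of_ker h1
    rw [ha]
    exact Submodule.smul_mem _ _ (Submodule.mem_span_singleton_self φ₁)
  -- a transvection moving the block
  obtain ⟨v', ψ', ψ₁, hv', hψ₁', hψ₁v', hW⟩ : ∃ v' ψ' ψ₁, L v' ψ' ∧
      InPsi L (Submodule.span K {u₀, u'}) ψ₁ ∧ ψ₁ v' ≠ 0 ∧
      ¬ Submodule.span K {u₀, u'} ≤ LinearMap.ker ψ' := by
    by_contra hcon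
    push Not at hcon
    have hinv : ∀ u φ, L u φ → u ∈ psiKer L (Submodule.span K {u₀, u'}) ∨
        psiKer L (Submodule.span K {u₀, u'}) ≤ LinearMap.ker φ := by
      intro u φ hu
      by_cases hmem : u ∈ psiKer L (Submodule.span K {u₀, u'})
      · exact Or.inl hmem
      · right
        have : ∃ ψ, InPsi L (Submodule.span K {u₀, u'}) ψ ∧ ψ u ≠ 0 := by
          by_contra hc2
          push Not at hc2
          exact hmem (fun ψ hψ => hc2 ψ hψ)
        obtain ⟨ψ, hψ, hψu⟩ := this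
        have h1 := hcon u φ ψ hu hψ hψu
        have h2 : InPsi L (Submodule.span K {u₀, u'}) φ := SLB.psi_of_ann hL hu h1 hψ hψu
        intro x hx
        exact LinearMap.mem_ker.mpr (hx φ h2)
    have hu₀Z : u₀ ∈ psiKer L (Submodule.span K {u₀, u'}) := by
      intro ψ hψ
      exact LinearMap.mem_ker.mp (hψ.1 hu₀W)
    rcases hL.inv _ hinv with h1 | h1
    · have h2 : L u₀ (φ₂ ∘ₗ prR hB.compl) := hψ₁.2 hψ₁0 u₀ hu₀W hu₀0
      apply (h1 _ _ h2).2
      intro x hx
      exact LinearMap.mem_ker.mpr (hx _ hψ₁)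
    · exact (h1 u₀ φ₀ h0).1 hu₀Z
  have hψ₁'0 : ψ₁ ≠ 0 := by
    rintro rfl
    simp at hψ₁v'
  -- the `C`-part of `v'` lies in `X`
  have hX : InX L (LinearMap.ker φ₁ ⊓ LinearMap.ker φ') (prR hB.compl v') := by
    by_cases hw : prL hB.compl v' = 0
    · have h1 : v' ∈ LinearMap.ker φ₁ ⊓ LinearMap.ker φ' := by
        have := prL_add_prR hB.compl v'
        rw [hw, zero_add] at this
        rw [← this]
        exact prR_mem hB.compl v'
      rw [prR_of_mem hB.compl h1]
      exact hB.x_of_mem_C hL hv' h1 hW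
    · have hwW := prL_mem hB.compl v'
      by_cases hψw : ψ' (prL hB.compl v') = 0
      · have h1 : L (prL hB.compl v') ((-(ψ₁ v')⁻¹) • ψ₁) :=
          hL.smul_right _ (neg_ne_zero.mpr (inv_ne_zero hψ₁v')) (hψ₁'.2 hψ₁'0 _ hwW hw)
        have h2 := hL.conj_left hv' h1 hψw
        have h3 : v' + ((-(ψ₁ v')⁻¹) • ψ₁) v' • prL hB.compl v' = prR hB.compl v' := by
          rw [LinearMap.smul_apply, smul_eq_mul, neg_mul, inv_mul_cancel₀ hψ₁v', neg_one_smul]
          have := prL_add_prR hB.compl v'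
          rw [← sub_eq_add_neg, sub_eq_iff_eq_add, add_comm]
          exact this.symm
        rw [h3] at h2
        exact hB.x_of_mem_C hL h2 (prR_mem hB.compl v') hW
      · obtain ⟨φ, h1, h2⟩ := hB.exists_fun hwW hw
        have h3 : φ v' = 0 := by
          rw [← apply_prL hB.compl h2, hL.app h1]
        have h4 := hL.conj_right hv' h1 h3
        have h5 := hL.of_sub_smul_right hv' h4 hψw (hL.ne_right h1)
        exact hB.x_of_ann hL h5 h2
  have hne : ψ₁ (prR hB.compl v') ≠ 0 := by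
    rw [apply_prR hB.compl hψ₁'.1]
    exact hψ₁v'
  have hB' := hB.enlarge hL hX hψ₁' hne
  have hc0 : prR hB.compl v' ≠ 0 := by
    intro h0
    rw [h0, map_zero] at hne
    exact hne rfl
  have hlt : Submodule.span K {u₀, u'} < Submodule.span K {u₀, u'} ⊔ K ∙ prR hB.compl v' := by
    refine lt_of_le_of_ne le_sup_left (fun heq => ?_)
    have h1 : prR hB.compl v' ∈ Submodule.span K {u₀, u'} :=
      heq.ge (Submodule.mem_sup_right (Submodule.mem_span_singleton_self _))
    exact hc0 (eq_zero_of_mem_mem hB.compl h1 (prR_mem hB.compl v'))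
  have h3 : 3 ≤ finrank K ↥(Submodule.span K {u₀, u'} ⊔ K ∙ prR hB.compl v') := by
    have h1 := Submodule.finrank_lt_finrank_of_lt hlt
    have h2 := hB.two_le_finrank
    omega
  exact SLB.main hL _ _ _ hB' h3 rfl

end Cfsg.Agent.Lib.Helper18.Mc
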