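import Cfsg.Agent.Lib.Helper18.McSL

/-!
# Symplectic blocks in an abstract transvection system
-/

namespace Cfsg.Agent.Lib.Helper18.Mc

open Module

variable {K : Type*} [Field K] {V : Type*} [AddCommGroup V] [Module K V]
variable {L : V → Dual K V → Prop}

theorem smul_sub_neg_div {M : Type*} [AddCommGroup M] [Module K M] (a b : K) (ha : a ≠ 0)
    (x y : M) : a • (x - (-(b / a)) • y) = a • x + b • y := by
  rw [smul_sub, smul_smul, sub_eq_add_neg, ← neg_smul]
  congr 2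
  field_simp

theorem neg_smul_neg' {M : Type*} [AddCommGroup M] [Module K M] (b : K) (x : M) :
    (-b) • (-x) = b • x := by
  rw [neg_smul, smul_neg, neg_neg]

/-- The symmetry of non-commutation when each centre has a unique axis. -/
theorem TSys.sym (hL : TSys L) (hS : ∀ u φ φ', L u φ → L u φ' → ∃ a : K, φ' = a • φ)
    {u u' : V} {φ φ' : Dual K V} (h : L u φ) (h' : L u' φ') (h0 : φ' u = 0) : φ u' = 0 := by
  by_contra h1
  have h2 : L u φ' := hL.ruleR h h' h0 h1
  obtain ⟨a, ha⟩ := hS u φ φ' h h2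
  have h3 := hL.app h'
  rw [ha, LinearMap.smul_apply, smul_eq_mul] at h3
  have ha0 : a = 0 := (mul_eq_zero.mp h3).resolve_right h1
  rw [ha0, zero_smul] at ha
  exact hL.ne_right h' ha

/-- A symplectic block. -/
structure SPB (L : V → Dual K V → Prop) (W C : Submodule K V) (B : V →ₗ[K] Dual K V) :
    Prop where
  compl : IsCompl W C
  alt : ∀ x, B x x = 0
  rad : ∀ c ∈ C, B c = 0
  nondeg : ∀ w ∈ W, w ≠ 0 → B w ≠ 0
  mem : ∀ w ∈ W, w ≠ 0 → L w (B w)

/-- Mixable pairs. -/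
def Mix (L : V → Dual K V → Prop) (W : Submodule K V) (B : V →ₗ[K] Dual K V) (d : V)
    (ξ : Dual K V) : Prop :=
  ∀ w ∈ W, (w ≠ 0 ∨ d ≠ 0) → L (w + d) (B w + ξ)

/-- The wedge of two functionals. -/
def wedge (χ χ' : Dual K V) : V →ₗ[K] Dual K V := χ.smulRight χ' - χ'.smulRight χ

theorem wedge_apply (χ χ' : Dual K V) (x y : V) :
    wedge χ χ' x y = χ x * χ' y - χ' x * χ y := by
  simp [wedge]

namespace SPB

variable {W C : Submodule K V} {B : V →ₗ[K] Dual K V}

theorem skew (hB : SPB L W C B) (x y : V) : B x y = - B y x := by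
  have h := hB.alt (x + y)
  rw [map_add, map_add, LinearMap.add_apply, LinearMap.add_apply, hB.alt x, hB.alt y, zero_add,
    add_zero] at h
  exact eq_neg_of_add_eq_zero_right h

theorem apply_right (hB : SPB L W C B) (x : V) {c : V} (hc : c ∈ C) : B x c = 0 := by
  rw [hB.skew, hB.rad c hc, LinearMap.zero_apply, neg_zero]

theorem apply_prL' (hB : SPB L W C B) (x y : V) : B x (prL hB.compl y) = B x y := by
  have h := prL_add_prR hB.compl y
  have h2 : B x (prL hB.compl y + prR hB.compl y) = B x y := by rw [h]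
  rw [map_add, hB.apply_right x (prR_mem hB.compl y), add_zero] at h2
  exact h2

theorem exists_ne (hB : SPB L W C B) {w : V} (hw : w ∈ W) (hw0 : w ≠ 0) :
    ∃ z ∈ W, B w z ≠ 0 := by
  have h1 := hB.nondeg w hw hw0
  obtain ⟨x, hx⟩ : ∃ x, B w x ≠ 0 := by
    by_contra hcon
    push Not at hcon
    exact h1 (LinearMap.ext fun x => by rw [hcon x, LinearMap.zero_apply])
  exact ⟨prL hB.compl x, prL_mem hB.compl x, by rw [hB.apply_prL']; exact hx⟩

/-- Centres in `C` have axes containing `W`. -/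
theorem ker_of_prL_zero (hL : TSys L) (hS : ∀ u φ φ', L u φ → L u φ' → ∃ a : K, φ' = a • φ)
    (hB : SPB L W C B) {v : V} {ψ : Dual K V} (h : L v ψ) (hv : prL hB.compl v = 0) :
    W ≤ LinearMap.ker ψ := by
  intro x hx
  rw [LinearMap.mem_ker]
  by_cases hx0 : x = 0
  · rw [hx0, map_zero]
  · apply hL.sym hS h (hB.mem x hx hx0)
    rw [← hB.apply_prL', hv, map_zero]

/-- The `W`-part of the axis of a centre with non-zero `W`-part. -/
theorem comp_prL_eq (hL : TSys L) (hS : ∀ u φ φ', L u φ → L u φ' → ∃ a : K, φ' = a • φ)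
    (hB : SPB L W C B) {v : V} {ψ : Dual K V} (h : L v ψ) (hv : prL hB.compl v ≠ 0) :
    ∃ a : K, a ≠ 0 ∧ ψ ∘ₗ prL hB.compl = a • B (prL hB.compl v) := by
  have hker : ∀ x, B (prL hB.compl v) x = 0 → (ψ ∘ₗ prL hB.compl) x = 0 := by
    intro x hx
    rw [LinearMap.comp_apply]
    by_cases hx0 : prL hB.compl x = 0
    · rw [hx0, map_zero]
    · apply hL.sym hS h (hB.mem _ (prL_mem hB.compl x) hx0)
      have h1 : B (prL hB.compl x) v = B (prL hB.compl x) (prL hB.compl v) :=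
        (hB.apply_prL' _ v).symm
      rw [h1, hB.skew, hB.apply_prL', hx, neg_zero]
  obtain ⟨a, ha⟩ := eq_smul_of_ker hker
  refine ⟨a, ?_, ha⟩
  rintro rfl
  rw [zero_smul] at ha
  obtain ⟨z, hz, hne⟩ := hB.exists_ne (prL_mem hB.compl v) hv
  have hz0 : z ≠ 0 := by
    rintro rfl
    simp at hne
  have h1 : ψ z = 0 := by
    have h2 : (ψ ∘ₗ prL hB.compl) z = 0 := by rw [ha, LinearMap.zero_apply]
    rwa [LinearMap.comp_apply, prL_of_mem hB.compl hz] at h2
  have h2 := hL.sym hS (hB.mem z hz hz0) h h1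
  have h3 : B z v = B z (prL hB.compl v) := (hB.apply_prL' _ v).symm
  rw [h3, hB.skew] at h2
  exact hne (neg_eq_zero.mp h2)

/-- Moving the `W`-part of a mixed element by a block transvection. -/
theorem move (hL : TSys L) (hB : SPB L W C B) {c : V} {χ : Dual K V} (hc : c ∈ C)
    (hχ : W ≤ LinearMap.ker χ) {w w' : V} (hw' : w' ∈ W) (hw'0 : w' ≠ 0) {k : K} (hk : k ≠ 0)
    (h : L (w + c) (B w + χ)) :
    L ((w + (k * B w' w) • w') + c) (B (w + (k * B w' w) • w') + χ) := by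
  have h1 : L w' (k • B w') := hL.smul_right k hk (hB.mem w' hw' hw'0)
  have h2 := hL.conj h h1
  have e1 : (k • B w') (w + c) = k * B w' w := by
    rw [LinearMap.smul_apply, map_add, hB.apply_right w' hc, add_zero, smul_eq_mul]
  have e2 : (B w + χ) w' = - B w' w := by
    rw [LinearMap.add_apply, LinearMap.mem_ker.mp (hχ hw'), add_zero, hB.skew]
  rw [e1, e2] at h2
  have e3 : w + c + (k * B w' w) • w' = (w + (k * B w' w) • w') + c := by abel
  have e4 : B w + χ - (-(B w' w)) • k • B w' = B (w + (k * B w' w) • w') + χ := by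
    ext x
    simp only [LinearMap.sub_apply, LinearMap.add_apply, LinearMap.smul_apply, map_add, map_smul,
      smul_eq_mul]
    ring
  rw [e3, e4] at h2
  exact h2

/-- One step of the transitivity argument. -/
theorem step (hL : TSys L) (hB : SPB L W C B) {c : V} {χ : Dual K V} (hc : c ∈ C)
    (hχ : W ≤ LinearMap.ker χ) {w w₂ : V} (hw : w ∈ W) (hw₂ : w₂ ∈ W) (hne : B w w₂ ≠ 0)
    (h : L (w + c) (B w + χ)) : L (w₂ + c) (B w₂ + χ) := by
  have hw' : w₂ - w ∈ W := W.sub_mem hw₂ hw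
  have hw'0 : w₂ - w ≠ 0 := by
    intro h0
    rw [sub_eq_zero] at h0
    rw [h0, hB.alt] at hne
    exact hne rfl
  have hk : B w₂ w ≠ 0 := by
    rw [hB.skew]
    exact neg_ne_zero.mpr hne
  have h1 := hB.move hL hc hχ hw' hw'0 (inv_ne_zero hk) h
  have e : w + ((B w₂ w)⁻¹ * B (w₂ - w) w) • (w₂ - w) = w₂ := by
    rw [map_sub, LinearMap.sub_apply, hB.alt, sub_zero, inv_mul_cancel₀ hk, one_smul]
    abel
  rwa [e] at h1

/-- Transitivity: a mixed element can be moved to any non-zero vector of `W`. -/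
theorem mixing (hL : TSys L) (hB : SPB L W C B) {c : V} {χ : Dual K V} (hc : c ∈ C)
    (hχ : W ≤ LinearMap.ker χ) {w₀ : V} (hw₀ : w₀ ∈ W) (hw₀0 : w₀ ≠ 0)
    (h : L (w₀ + c) (B w₀ + χ)) : ∀ w ∈ W, w ≠ 0 → L (w + c) (B w + χ) := by
  intro w hw hw0
  obtain ⟨z₁, hz₁, h1⟩ := hB.exists_ne hw₀ hw₀0
  obtain ⟨z₂, hz₂, h2⟩ := hB.exists_ne hw hw0
  obtain ⟨z, hz, h3, h4⟩ : ∃ z ∈ W, B w₀ z ≠ 0 ∧ B w z ≠ 0 := by
    by_cases h5 : B w z₁ = 0
    · by_cases h6 : B w₀ z₂ = 0
      · refine ⟨z₁ + z₂, W.add_mem hz₁ hz₂, ?_, ?_⟩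
        · rw [map_add, h6, add_zero]
          exact h1
        · rw [map_add, h5, zero_add]
          exact h2
      · exact ⟨z₂, hz₂, h6, h2⟩
    · exact ⟨z₁, hz₁, h1, h5⟩
  have h5 := hB.step hL hc hχ hw₀ hz h3 h
  have h6 : B z w ≠ 0 := by
    rw [hB.skew]
    exact neg_ne_zero.mpr h4
  exact hB.step hL hc hχ hz hw h6 h5

/-- A mixed element yields an outside element together with all its mixtures. -/
theorem outside_of_mixed (hL : TSys L)
    (hS : ∀ u φ φ', L u φ → L u φ' → ∃ a : K, φ' = a • φ) (hB : SPB L W C B) {v : V}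
    {ψ : Dual K V} (h : L v ψ) (hw : prL hB.compl v ≠ 0) (hc : prR hB.compl v ≠ 0) :
    ∃ a : K, a ≠ 0 ∧ L (prR hB.compl v) (a • ψ ∘ₗ prR hB.compl) ∧
      ∀ w ∈ W, w ≠ 0 → L (w + prR hB.compl v) (B w + a • ψ ∘ₗ prR hB.compl) := by
  obtain ⟨b, hb, hbe⟩ := hB.comp_prL_eq hL hS h hw
  have hwW := prL_mem hB.compl v
  have hcC := prR_mem hB.compl v
  have hχ : W ≤ LinearMap.ker (b⁻¹ • ψ ∘ₗ prR hB.compl) := by
    intro x hx
    rw [LinearMap.mem_ker, LinearMap.smul_apply, LinearMap.comp_apply,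
      prR_of_mem_left hB.compl hx, map_zero, smul_zero]
  have h1 : L (prL hB.compl v + prR hB.compl v)
      (B (prL hB.compl v) + b⁻¹ • ψ ∘ₗ prR hB.compl) := by
    have h2 := hL.smul_right b⁻¹ (inv_ne_zero hb) h
    have e : b⁻¹ • ψ = B (prL hB.compl v) + b⁻¹ • ψ ∘ₗ prR hB.compl := by
      have e1 : b⁻¹ • ψ = b⁻¹ • (ψ ∘ₗ prL hB.compl + ψ ∘ₗ prR hB.compl) := by
        rw [comp_prL_add_comp_prR]
      rw [e1, smul_add, hbe, smul_smul, inv_mul_cancel₀ hb, one_smul]
    rw [prL_add_prR, ← e]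
    exact h2
  have hmix := hB.mixing hL hcC hχ hwW hw h1
  refine ⟨b⁻¹, inv_ne_zero hb, ?_, hmix⟩
  have hχ0 : b⁻¹ • ψ ∘ₗ prR hB.compl ≠ 0 := by
    intro h0
    rw [h0] at hmix
    obtain ⟨z, hz, hne⟩ := hB.exists_ne hwW hw
    have hz0 : z ≠ 0 := by
      rintro rfl
      simp at hne
    have h3 : ∀ w ∈ W, w ≠ 0 → L (prR hB.compl v) (B w) := by
      intro w hw' hw0
      have h4 := hmix w hw' hw0
      rw [add_zero] at h4
      have h5 := hL.sub_left h4 (hB.mem w hw' hw0) (by rw [add_sub_cancel_left]; exact hc)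
      rwa [add_sub_cancel_left] at h5
    obtain ⟨a, ha⟩ := hS _ _ _ (h3 _ hwW hw) (h3 z hz hz0)
    have h4 := hB.alt z
    rw [ha, LinearMap.smul_apply, smul_eq_mul] at h4
    have ha0 : a = 0 := (mul_eq_zero.mp h4).resolve_right hne
    rw [ha0, zero_smul] at ha
    exact hB.nondeg z hz hz0 ha
  have h2 := hmix (-(prL hB.compl v)) (W.neg_mem hwW) (neg_ne_zero.mpr hw)
  rw [map_neg] at h2
  refine hL.dbl h1 h2 (hB.mem _ hwW hw) (hB.apply_right _ hcC) (LinearMap.mem_ker.mp (hχ hwW))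
    ?_ hc hχ0
  have h3 := hL.app h1
  rw [LinearMap.add_apply, map_add, map_add, hB.alt, hB.apply_right _ hcC,
    LinearMap.mem_ker.mp (hχ hwW)] at h3
  simpa using h3

theorem mix_act (hL : TSys L) (hB : SPB L W C B) {d e : V} {ξ ζ : Dual K V}
    (hM : Mix L W B d ξ) (he : L e ζ) (heC : e ∈ C) (hζ : W ≤ LinearMap.ker ζ) :
    Mix L W B (d + ζ d • e) (ξ - ξ e • ζ) := by
  intro w hw hne
  have hne' : w ≠ 0 ∨ d ≠ 0 := by
    rcases hne with h | h
    · exact Or.inl h
    · right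
      rintro rfl
      simp at h
  have h1 := hL.conj (hM w hw hne') he
  have e1 : ζ (w + d) = ζ d := by rw [map_add, LinearMap.mem_ker.mp (hζ hw), zero_add]
  have e2 : (B w + ξ) e = ξ e := by rw [LinearMap.add_apply, hB.apply_right w heC, zero_add]
  rw [e1, e2, add_assoc, add_sub_assoc] at h1
  exact h1

theorem mix_scale (hL : TSys L) {d : V} {ξ : Dual K V} (hM : Mix L W B d ξ) {s : K}
    (hs : s ≠ 0) : Mix L W B (s • d) (s • ξ) := by
  intro w hw hne
  have hne' : s⁻¹ • w ≠ 0 ∨ d ≠ 0 := by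
    rcases hne with h | h
    · exact Or.inl (smul_ne_zero (inv_ne_zero hs) h)
    · right
      rintro rfl
      simp at h
  have h1 := hM (s⁻¹ • w) (W.smul_mem _ hw) hne'
  have h2 := hL.smul_right s hs (hL.smul_left s hs h1)
  have e1 : s • (s⁻¹ • w + d) = w + s • d := by
    rw [smul_add, smul_smul, mul_inv_cancel₀ hs, one_smul]
  have e2 : s • (B (s⁻¹ • w) + ξ) = B w + s • ξ := by
    rw [smul_add, map_smul, smul_smul, mul_inv_cancel₀ hs, one_smul]
  rwa [e1, e2] at h2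

/-- Enlargement of a symplectic block by a hyperbolic pair of outside elements. -/
theorem enlarge (hL : TSys L) (hB : SPB L W C B) {c c' : V} {χ χ' : Dual K V} (hc : c ∈ C)
    (hc' : c' ∈ C) (hχ : W ≤ LinearMap.ker χ) (hχ' : W ≤ LinearMap.ker χ') (h1 : L c χ)
    (h2 : L c' χ') (h3 : χ c' = 1) (h4 : χ' c = -1)
    (hM : ∀ w ∈ W, w ≠ 0 → L (w + c) (B w + χ)) :
    SPB L (W ⊔ Submodule.span K {c, c'}) (C ⊓ LinearMap.ker χ ⊓ LinearMap.ker χ')
      (B + wedge χ χ') := by
  have hχc := hL.app h1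
  have hχ'c' := hL.app h2
  have hM0 : Mix L W B c χ := by
    intro w hw hne
    by_cases hw0 : w = 0
    · subst hw0
      rw [zero_add, map_zero, zero_add]
      exact h1
    · exact hM w hw hw0
  have hM1 : ∀ t : K, t ≠ 0 → Mix L W B (c - t • c') (χ - t • χ') := by
    intro t ht
    have h5 := mix_act hL hB hM0 (hL.smul_right t ht h2) hc'
      (by rw [LinearMap.ker_smul _ _ ht]; exact hχ')
    have e1 : c + (t • χ') c • c' = c - t • c' := by
      rw [LinearMap.smul_apply, h4, smul_eq_mul, mul_neg, mul_one, neg_smul, sub_eq_add_neg]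
    have e2 : χ - χ c' • t • χ' = χ - t • χ' := by rw [h3, one_smul]
    rwa [e1, e2] at h5
  have hM2 : Mix L W B (-c') (-χ') := by
    have h5 := mix_act hL hB (hM1 1 one_ne_zero) h1 hc hχ
    have e1 : c - (1 : K) • c' + χ (c - (1 : K) • c') • c = -c' := by
      rw [map_sub, map_smul, hχc, h3]
      simp
      abel
    have e2 : χ - (1 : K) • χ' - (χ - (1 : K) • χ') c • χ = -χ' := by
      rw [LinearMap.sub_apply, LinearMap.smul_apply, hχc, h4]
      simp
    rwa [e1, e2] at h5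
  have key : ∀ a b : K, Mix L W B (a • c + b • c') (a • χ + b • χ') := by
    intro a b
    by_cases ha : a = 0
    · subst ha
      by_cases hb : b = 0
      · subst hb
        intro w hw hne
        simp only [zero_smul, add_zero] at hne ⊢
        exact hB.mem w hw (hne.resolve_right (fun h => h rfl))
      · have h5 := mix_scale hL hM2 (neg_ne_zero.mpr hb)
        rw [neg_smul_neg', neg_smul_neg'] at h5
        rw [zero_smul, zero_add, zero_smul, zero_add]
        exact h5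
    · by_cases hb : b = 0
      · subst hb
        rw [zero_smul, add_zero, zero_smul, add_zero]
        exact mix_scale hL hM0 ha
      · have h5 := mix_scale hL (hM1 (-(b / a)) (neg_ne_zero.mpr (div_ne_zero hb ha))) ha
        have e2 : a • (χ - (-(b / a)) • χ') = a • χ + b • χ' := by
          ext x
          simp only [LinearMap.smul_apply, LinearMap.sub_apply, LinearMap.add_apply, smul_eq_mul]
          field_simp
          ring
        rwa [smul_sub_neg_div a b ha, e2] at h5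
  have hB'w : ∀ w ∈ W, ∀ a b : K,
      (B + wedge χ χ') (w + (a • c + b • c')) = B w + (a • χ + b • χ') := by
    intro w hw a b
    ext y
    simp only [LinearMap.add_apply, wedge_apply, map_add, map_smul, smul_eq_mul,
      LinearMap.smul_apply, LinearMap.mem_ker.mp (hχ hw), LinearMap.mem_ker.mp (hχ' hw), hχc,
      hχ'c', h3, h4, hB.rad c hc, hB.rad c' hc', LinearMap.zero_apply]
    ring
  have hdecomp : ∀ x ∈ W ⊔ Submodule.span K {c, c'},
      ∃ w ∈ W, ∃ a b : K, x = w + (a • c + b • c') := by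
    intro x hx
    obtain ⟨w, hw, y, hy, rfl⟩ := Submodule.mem_sup.mp hx
    obtain ⟨a, b, rfl⟩ := Submodule.mem_span_pair.mp hy
    exact ⟨w, hw, a, b, rfl⟩
  refine ⟨IsCompl.of_eq ?_ ?_, ?_, ?_, ?_, ?_⟩
  · rw [eq_bot_iff]
    rintro x ⟨hx1, hx2⟩
    obtain ⟨w, hw, a, b, rfl⟩ := hdecomp x hx1
    rw [SetLike.mem_coe, Submodule.mem_inf, Submodule.mem_inf, LinearMap.mem_ker,
      LinearMap.mem_ker] at hx2
    obtain ⟨⟨hxC, hx3⟩, hx4⟩ := hx2
    have hab : a • c + b • c' ∈ C := C.add_mem (C.smul_mem _ hc) (C.smul_mem _ hc')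
    have hwC : w ∈ C := by
      have : w = w + (a • c + b • c') - (a • c + b • c') := by abel
      rw [this]
      exact C.sub_mem hxC hab
    have hw0 := eq_zero_of_mem_mem hB.compl hw hwC
    rw [map_add, map_add, map_smul, map_smul, LinearMap.mem_ker.mp (hχ hw), hχc, h3] at hx3
    rw [map_add, map_add, map_smul, map_smul, LinearMap.mem_ker.mp (hχ' hw), hχ'c', h4] at hx4
    simp only [smul_eq_mul, mul_zero, mul_one, zero_add, add_zero, mul_neg, neg_eq_zero] at hx3 hx4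
    rw [hw0, hx3, hx4]
    simp
  · rw [eq_top_iff]
    intro x _
    have hy := prR_mem hB.compl x
    have hy' : prR hB.compl x + χ' (prR hB.compl x) • c - χ (prR hB.compl x) • c' ∈
        C ⊓ LinearMap.ker χ ⊓ LinearMap.ker χ' := by
      rw [Submodule.mem_inf, Submodule.mem_inf, LinearMap.mem_ker, LinearMap.mem_ker]
      refine ⟨⟨C.sub_mem (C.add_mem hy (C.smul_mem _ hc)) (C.smul_mem _ hc'), ?_⟩, ?_⟩
      · rw [map_sub, map_add, map_smul, map_smul, hχc, h3]
        simp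
      · rw [map_sub, map_add, map_smul, map_smul, hχ'c', h4]
        simp
    have hx : x = (prL hB.compl x + ((-χ' (prR hB.compl x)) • c + χ (prR hB.compl x) • c')) +
        (prR hB.compl x + χ' (prR hB.compl x) • c - χ (prR hB.compl x) • c') := by
      have := prL_add_prR hB.compl x
      conv_lhs => rw [← this]
      rw [neg_smul]
      abel
    rw [hx]
    exact Submodule.add_mem _ (Submodule.mem_sup_left (Submodule.add_mem _
      (Submodule.mem_sup_left (prL_mem hB.compl x))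
      (Submodule.mem_sup_right (Submodule.mem_span_pair.mpr ⟨_, _, rfl⟩))))
      (Submodule.mem_sup_right hy')
  · intro x
    rw [LinearMap.add_apply, LinearMap.add_apply, wedge_apply, hB.alt]
    ring
  · intro c₂ hc₂
    rw [Submodule.mem_inf, Submodule.mem_inf, LinearMap.mem_ker, LinearMap.mem_ker] at hc₂
    ext y
    rw [LinearMap.add_apply, LinearMap.add_apply, wedge_apply, hB.rad c₂ hc₂.1.1, hc₂.1.2, hc₂.2]
    simp
  · intro x hx hx0 hzero
    obtain ⟨w, hw, a, b, rfl⟩ := hdecomp x hx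
    rw [hB'w w hw] at hzero
    have e1 : (B w + (a • χ + b • χ')) c' = 0 := by rw [hzero, LinearMap.zero_apply]
    have e2 : (B w + (a • χ + b • χ')) c = 0 := by rw [hzero, LinearMap.zero_apply]
    rw [LinearMap.add_apply, LinearMap.add_apply, LinearMap.smul_apply, LinearMap.smul_apply,
      hB.apply_right w hc', h3, hχ'c'] at e1
    rw [LinearMap.add_apply, LinearMap.add_apply, LinearMap.smul_apply, LinearMap.smul_apply,
      hB.apply_right w hc, hχc, h4] at e2
    simp only [smul_eq_mul, mul_zero, mul_one, zero_add, add_zero, mul_neg, neg_eq_zero] at e1 e2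
    rw [e1, e2, zero_smul, zero_smul, add_zero, add_zero] at hzero
    apply hx0
    rw [e1, e2, zero_smul, zero_smul, add_zero, add_zero]
    by_contra hw0
    exact hB.nondeg w hw hw0 hzero
  · intro x hx hx0
    obtain ⟨w, hw, a, b, rfl⟩ := hdecomp x hx
    rw [hB'w w hw]
    apply key a b w hw
    by_contra hcon
    push Not at hcon
    apply hx0
    rw [hcon.1, hcon.2, add_zero]

/-- A block that cannot be enlarged is everything. -/
theorem final (hL : TSys L) (hS : ∀ u φ φ', L u φ → L u φ' → ∃ a : K, φ' = a • φ)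
    (hB : SPB L W C B) (hW : ∃ w ∈ W, w ≠ 0)
    (hmax : ∀ v ψ, L v ψ → v ∈ W ∨ W ≤ LinearMap.ker ψ) :
    IsCompl (cspan L) (axes L) ∧ ∃ B : V →ₗ[K] Dual K V, (∀ x, B x x = 0) ∧
      (∀ a ∈ axes L, B a = 0) ∧ (∀ u ∈ cspan L, u ≠ 0 → B u ≠ 0) ∧
      (∀ u ∈ cspan L, u ≠ 0 → L u (B u)) ∧ ∀ u φ, L u φ → ∃ a : K, φ = a • B u := by
  obtain ⟨w₀, hw₀, hw₀0⟩ := hW
  have hall : ∀ u φ, L u φ → u ∈ W := by
    rcases hL.inv W hmax with h1 | h1
    · exact fun u φ h => (h1 u φ h).1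
    · exact absurd hw₀ (h1 _ _ (hB.mem w₀ hw₀ hw₀0)).1
  have h1 : cspan L = W := by
    apply le_antisymm
    · apply Submodule.span_le.mpr
      rintro u ⟨φ, h⟩
      exact hall u φ h
    · intro w hw
      by_cases hw0 : w = 0
      · rw [hw0]
        exact Submodule.zero_mem _
      · exact mem_cspan (hB.mem w hw hw0)
  have hax : ∀ u φ, L u φ → ∃ a : K, φ = a • B u := by
    intro u φ h
    exact hS u (B u) φ (hB.mem u (hall u φ h) (hL.ne_left h)) h
  have h2 : axes L = C := by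
    apply le_antisymm
    · intro x hx
      by_contra hxC
      have hw : prL hB.compl x ≠ 0 := by
        intro h0
        apply hxC
        have := prL_add_prR hB.compl x
        rw [h0, zero_add] at this
        rw [← this]
        exact prR_mem hB.compl x
      obtain ⟨z, hz, hne⟩ := hB.exists_ne (prL_mem hB.compl x) hw
      have hz0 : z ≠ 0 := by
        rintro rfl
        simp at hne
      have h3 := hx z (B z) (hB.mem z hz hz0)
      have h4 : B z x = B z (prL hB.compl x) := (hB.apply_prL' _ x).symm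
      rw [h4, hB.skew] at h3
      exact hne (neg_eq_zero.mp h3)
    · intro c hc u φ h
      obtain ⟨a, ha⟩ := hax u φ h
      rw [ha, LinearMap.smul_apply, hB.apply_right u hc, smul_zero]
  rw [h1, h2]
  exact ⟨hB.compl, B, hB.alt, hB.rad, hB.nondeg, hB.mem, hax⟩

/-- Induction on the codimension: a non-zero symplectic block forces the Sp-conclusion. -/
theorem main [FiniteDimensional K V] (hL : TSys L)
    (hS : ∀ u φ φ', L u φ → L u φ' → ∃ a : K, φ' = a • φ) :
    ∀ (n : ℕ) (W C : Submodule K V) (B : V →ₗ[K] Dual K V), SPB L W C B →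
      (∃ w ∈ W, w ≠ 0) → finrank K C = n →
      IsCompl (cspan L) (axes L) ∧ ∃ B : V →ₗ[K] Dual K V, (∀ x, B x x = 0) ∧
        (∀ a ∈ axes L, B a = 0) ∧ (∀ u ∈ cspan L, u ≠ 0 → B u ≠ 0) ∧
        (∀ u ∈ cspan L, u ≠ 0 → L u (B u)) ∧ ∀ u φ, L u φ → ∃ a : K, φ = a • B u := by
  intro n
  induction n using Nat.strong_induction_on with
  | _ n ih =>
    intro W C B hB hW hn
    by_cases hmax : ∀ v ψ, L v ψ → v ∈ W ∨ W ≤ LinearMap.ker ψ
    · exact hB.final hL hS hW hmax
    · push Not at hmax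
      obtain ⟨v, ψ, h, hvW, hψW⟩ := hmax
      have hw : prL hB.compl v ≠ 0 := fun h0 => hψW (hB.ker_of_prL_zero hL hS h h0)
      have hc : prR hB.compl v ≠ 0 := by
        intro h0
        apply hvW
        have := prL_add_prR hB.compl v
        rw [h0, add_zero] at this
        rw [← this]
        exact prL_mem hB.compl v
      obtain ⟨a, ha, h1, hmix⟩ := hB.outside_of_mixed hL hS h hw hc
      have hc₀C : prR hB.compl v ∈ C := prR_mem hB.compl v
      have hχ₀W : W ≤ LinearMap.ker (a • ψ ∘ₗ prR hB.compl) := by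
        intro x hx
        rw [LinearMap.mem_ker, LinearMap.smul_apply, LinearMap.comp_apply,
          prR_of_mem_left hB.compl hx, map_zero, smul_zero]
      obtain ⟨v₁, ψ₁, h2, hne⟩ := hL.f2 h1
      have hne' : (a • ψ ∘ₗ prR hB.compl) v₁ ≠ 0 := fun h0 => hne (hL.sym hS h2 h1 h0)
      obtain ⟨c₁, χ₁, h3, hc₁C, hχ₁W, h4, h5⟩ : ∃ c₁ χ₁, L c₁ χ₁ ∧ c₁ ∈ C ∧
          W ≤ LinearMap.ker χ₁ ∧ χ₁ (prR hB.compl v) ≠ 0 ∧
          (a • ψ ∘ₗ prR hB.compl) c₁ ≠ 0 := by
        by_cases hw₁ : prL hB.compl v₁ = 0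
        · have hv₁C : v₁ ∈ C := by
            have := prL_add_prR hB.compl v₁
            rw [hw₁, zero_add] at this
            rw [← this]
            exact prR_mem hB.compl v₁
          exact ⟨v₁, ψ₁, h2, hv₁C, hB.ker_of_prL_zero hL hS h2 hw₁, hne, hne'⟩
        · have hc₁ : prR hB.compl v₁ ≠ 0 := by
            intro h0
            apply hne'
            rw [← apply_prR hB.compl hχ₀W, h0, map_zero]
          obtain ⟨a₁, ha₁, h6, -⟩ := hB.outside_of_mixed hL hS h2 hw₁ hc₁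
          refine ⟨_, _, h6, prR_mem hB.compl v₁, ?_, ?_, ?_⟩
          · intro x hx
            rw [LinearMap.mem_ker, LinearMap.smul_apply, LinearMap.comp_apply,
              prR_of_mem_left hB.compl hx, map_zero, smul_zero]
          · rw [LinearMap.smul_apply, LinearMap.comp_apply, prR_of_mem hB.compl hc₀C, smul_eq_mul]
            exact mul_ne_zero ha₁ hne
          · rw [apply_prR hB.compl hχ₀W]
            exact hne'
      have h6 : L (((a • ψ ∘ₗ prR hB.compl) c₁)⁻¹ • c₁) ((-(χ₁ (prR hB.compl v))⁻¹) • χ₁) :=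
        hL.smul_left _ (inv_ne_zero h5)
          (hL.smul_right _ (neg_ne_zero.mpr (inv_ne_zero h4)) h3)
      have e1 : (a • ψ ∘ₗ prR hB.compl) (((a • ψ ∘ₗ prR hB.compl) c₁)⁻¹ • c₁) = 1 := by
        rw [map_smul, smul_eq_mul, inv_mul_cancel₀ h5]
      have e2 : ((-(χ₁ (prR hB.compl v))⁻¹) • χ₁) (prR hB.compl v) = -1 := by
        rw [LinearMap.smul_apply, smul_eq_mul, neg_mul, inv_mul_cancel₀ h4]
      have hc'C : ((a • ψ ∘ₗ prR hB.compl) c₁)⁻¹ • c₁ ∈ C := C.smul_mem _ hc₁C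
      have hB' := hB.enlarge hL hc₀C hc'C hχ₀W
        (by rw [LinearMap.ker_smul _ _ (neg_ne_zero.mpr (inv_ne_zero h4))]; exact hχ₁W)
        h1 h6 e1 e2 hmix
      have hlt : C ⊓ LinearMap.ker (a • ψ ∘ₗ prR hB.compl) ⊓
          LinearMap.ker ((-(χ₁ (prR hB.compl v))⁻¹) • χ₁) < C := by
        refine lt_of_le_of_ne (inf_le_left.trans inf_le_left) (fun heq => ?_)
        have h7 : ((a • ψ ∘ₗ prR hB.compl) c₁)⁻¹ • c₁ ∈ C ⊓
            LinearMap.ker (a • ψ ∘ₗ prR hB.compl) ⊓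
            LinearMap.ker ((-(χ₁ (prR hB.compl v))⁻¹) • χ₁) := heq.ge hc'C
        rw [Submodule.mem_inf, Submodule.mem_inf, LinearMap.mem_ker, e1] at h7
        exact one_ne_zero h7.1.2
      have hlt' := Submodule.finrank_lt_finrank_of_lt hlt
      obtain ⟨w₀, hw₀, hw₀0⟩ := hW
      exact ih _ (hn ▸ hlt') _ _ _ hB' ⟨w₀, Submodule.mem_sup_left hw₀, hw₀0⟩ rfl

end SPB

/-- The Sp-case of the main theorem on transvection systems. -/
theorem TSys.main_sp [FiniteDimensional K V] (hL : TSys L) (hne : ∃ u φ, L u φ)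
    (hS : ∀ u φ φ', L u φ → L u φ' → ∃ a : K, φ' = a • φ) :
    IsCompl (cspan L) (axes L) ∧ ∃ B : V →ₗ[K] Dual K V, (∀ x, B x x = 0) ∧
      (∀ a ∈ axes L, B a = 0) ∧ (∀ u ∈ cspan L, u ≠ 0 → B u ≠ 0) ∧
      (∀ u ∈ cspan L, u ≠ 0 → L u (B u)) ∧ ∀ u φ, L u φ → ∃ a : K, φ = a • B u := by
  obtain ⟨u, φ, h⟩ := hne
  obtain ⟨u', φ', h', hne'⟩ := hL.f2 h
  have hne2 : φ u' ≠ 0 := fun h0 => hne' (hL.sym hS h' h h0)
  have hB0 : SPB L ⊥ ⊤ (0 : V →ₗ[K] Dual K V) :=
    ⟨isCompl_bot_top, fun x => rfl, fun c _ => rfl,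
      fun w hw hw0 => absurd ((Submodule.mem_bot K).mp hw) hw0,
      fun w hw hw0 => absurd ((Submodule.mem_bot K).mp hw) hw0⟩
  have h6 : L ((φ u')⁻¹ • u') ((-(φ' u)⁻¹) • φ') :=
    hL.smul_left _ (inv_ne_zero hne2) (hL.smul_right _ (neg_ne_zero.mpr (inv_ne_zero hne')) h')
  have e1 : φ ((φ u')⁻¹ • u') = 1 := by
    rw [map_smul, smul_eq_mul, inv_mul_cancel₀ hne2]
  have e2 : ((-(φ' u)⁻¹) • φ') u = -1 := by
    rw [LinearMap.smul_apply, smul_eq_mul, neg_mul, inv_mul_cancel₀ hne']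
  have hB' := hB0.enlarge hL Submodule.mem_top Submodule.mem_top bot_le bot_le h h6 e1 e2
    (fun w hw hw0 => absurd ((Submodule.mem_bot K).mp hw) hw0)
  exact SPB.main hL hS _ _ _ _ hB'
    ⟨u, Submodule.mem_sup_right (Submodule.subset_span (by simp)), hL.ne_left h⟩ rfl

/-- The main theorem on transvection systems. -/
theorem TSys.main [FiniteDimensional K V] (hL : TSys L) (hne : ∃ u φ, L u φ) :
    IsCompl (cspan L) (axes L) ∧
      ((∀ u φ, u ∈ cspan L → u ≠ 0 → φ ≠ 0 → axes L ≤ LinearMap.ker φ → φ u = 0 → L u φ) ∨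
        ∃ B : V →ₗ[K] Dual K V, (∀ x, B x x = 0) ∧ (∀ a ∈ axes L, B a = 0) ∧
          (∀ u ∈ cspan L, u ≠ 0 → B u ≠ 0) ∧ (∀ u ∈ cspan L, u ≠ 0 → L u (B u)) ∧
          ∀ u φ, L u φ → ∃ a : K, φ = a • B u) := by
  by_cases hS : ∀ u φ φ', L u φ → L u φ' → ∃ a : K, φ' = a • φ
  · obtain ⟨h1, h2⟩ := hL.main_sp hne hS
    exact ⟨h1, Or.inr h2⟩
  · push Not at hS
    obtain ⟨u, φ, φ', h1, h2, h3⟩ := hS
    obtain ⟨h4, h5⟩ := hL.main_sl ⟨u, φ, φ', h1, h2, fun ⟨a, ha⟩ => h3 a ha⟩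
    exact ⟨h4, Or.inl h5⟩

end Cfsg.Agent.Lib.Helper18.Mc
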