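import Mathlib
import Cfsg.Agent.Lib.Helper52.OutDefs

set_option autoImplicit false

namespace Cfsg.Agent.Lib.Helper18.OUM1

open Cfsg.Agent.Lib.Helper52.OU
open Matrix

variable {F : Type*} [Field F]

/-! ### The Frobenius automorphism of a finite field generates its automorphism group -/

/-- the Frobenius automorphism `x ↦ x ^ p` of a finite field of characteristic `p`. -/
noncomputable def frobF (p : ℕ) [Fact p.Prime] [CharP F p] [Finite F] : F ≃+* F :=
  RingEquiv.ofBijective (frobenius F p)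
    (Finite.injective_iff_bijective.mp (frobenius F p).injective)

theorem frobF_apply (p : ℕ) [Fact p.Prime] [CharP F p] [Finite F] (x : F) :
    frobF p x = x ^ p := rfl

theorem frobF_pow_apply (p : ℕ) [Fact p.Prime] [CharP F p] [Finite F] (n : ℕ) (x : F) :
    (((frobF p : F ≃+* F) : RingAut F) ^ n) x = x ^ p ^ n := by
  induction n generalizing x with
  | zero => simp
  | succ n ih =>
    rw [pow_succ, RingAut.mul_apply, ih, frobF_apply, ← pow_mul, pow_succ, mul_comm]

theorem frobF_gen [Fintype F] (p : ℕ) [Fact p.Prime] [CharP F p] (τ : RingAut F) :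
    τ ∈ Subgroup.zpowers ((frobF p : F ≃+* F) : RingAut F) := by
  let _ : Algebra (ZMod p) F := ZMod.algebra F p
  let τ' : F ≃ₐ[ZMod p] F := AlgEquiv.ofRingEquiv (f := τ) (fun x =>
    RingHom.congr_fun (Subsingleton.elim ((τ : F →+* F).comp (algebraMap (ZMod p) F))
      (algebraMap (ZMod p) F)) x)
  obtain ⟨n, hn⟩ := (FiniteField.bijective_frobeniusAlgEquivOfAlgebraic_pow (ZMod p) F).2 τ'
  rw [Subgroup.mem_zpowers_iff]
  refine ⟨(n.1 : ℤ), ?_⟩
  rw [zpow_natCast]
  ext x
  rw [frobF_pow_apply]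
  have h1 : τ x = τ' x := rfl
  rw [h1, ← hn]
  simp only [AlgEquiv.coe_pow]
  rw [FiniteField.coe_frobeniusAlgEquivOfAlgebraic_iterate]
  simp [ZMod.card]


/-! ### The quadratic extension `F[ω]`, `ω² = aω - b` -/

section Quad

variable (a b : F)

/-- the quadratic algebra `F[ω]` with `ω ^ 2 = - b + a ω`; its norm form is
`z₁² + a z₁ z₂ + b z₂²`. -/
abbrev KK : Type _ := QuadraticAlgebra F (-b) a

theorem fact_of_aniso
    (hab : ∀ z₁ z₂ : F, z₁ ^ 2 + a * z₁ * z₂ + b * z₂ ^ 2 = 0 → z₁ = 0 ∧ z₂ = 0) :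
    Fact (∀ r : F, r ^ 2 ≠ -b + a * r) := by
  refine ⟨fun r hr => ?_⟩
  have h := hab (-r) 1 (by linear_combination hr)
  exact one_ne_zero h.2

theorem norm_mk (z₁ z₂ : F) :
    QuadraticAlgebra.norm (⟨z₁, z₂⟩ : KK a b) = z₁ ^ 2 + a * z₁ * z₂ + b * z₂ ^ 2 := by
  rw [QuadraticAlgebra.norm_def]
  ring

variable {a b}

theorem mk_pow_char (p : ℕ) [Fact p.Prime] [CharP F p] (n : ℕ) (z₁ z₂ : F) :
    (⟨z₁, z₂⟩ : KK a b) ^ p ^ n
      = ⟨z₁ ^ p ^ n + z₂ ^ p ^ n * ((QuadraticAlgebra.omega : KK a b) ^ p ^ n).re,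
          z₂ ^ p ^ n * ((QuadraticAlgebra.omega : KK a b) ^ p ^ n).im⟩ := by
  have : CharP (KK a b) p :=
    charP_of_injective_algebraMap (FaithfulSMul.algebraMap_injective F (KK a b)) p
  have e : (algebraMap F (KK a b) z₁) ^ p ^ n = algebraMap F (KK a b) (z₁ ^ p ^ n) :=
    (map_pow _ _ _).symm
  rw [QuadraticAlgebra.mk_eq_add_smul_omega, add_pow_expChar_pow, smul_pow, e]
  ext <;> simp [-map_pow]

end Quad


/-- the characteristic of a field of order `p ^ f`. -/
theorem charP_of_card' [Fintype F] {p f : ℕ} [Fact p.Prime] (hF : Fintype.card F = p ^ f) :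
    CharP F p := by
  obtain ⟨p', hp', n, hpp, hcard⟩ := FiniteField.card' F
  have h2 : p' ∣ p ^ f := by
    rw [← hF, hcard]
    exact dvd_pow_self p' n.ne_zero
  have h3 : p' ∣ p := hpp.dvd_of_dvd_pow h2
  have h4 : p' = p := (Nat.prime_dvd_prime_iff_eq hpp (Fact.out : p.Prime)).1 h3
  rw [← h4]
  exact hp'

section Quad2

variable {a b : F} [Fact (∀ r : F, r ^ 2 ≠ -b + a * r)]

theorem im_om_pow_ne [Finite F] (p : ℕ) [Fact p.Prime] [CharP F p] :
    ((QuadraticAlgebra.omega : KK a b) ^ p).im ≠ 0 := by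
  have : CharP (KK a b) p :=
    charP_of_injective_algebraMap (FaithfulSMul.algebraMap_injective F (KK a b)) p
  intro h
  have h1 : (QuadraticAlgebra.omega : KK a b) ^ p
      = algebraMap F (KK a b) (((QuadraticAlgebra.omega : KK a b) ^ p).re) := by
    ext
    · rfl
    · rw [h]; rfl
  obtain ⟨c', hc'⟩ : ∃ c' : F, c' ^ p = ((QuadraticAlgebra.omega : KK a b) ^ p).re :=
    (frobF (F := F) p).surjective _
  have h2 : ((QuadraticAlgebra.omega : KK a b) - algebraMap F (KK a b) c') ^ p = 0 := by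
    rw [sub_pow_expChar, h1, ← map_pow, hc', sub_self]
  have h3 : (QuadraticAlgebra.omega : KK a b) - algebraMap F (KK a b) c' = 0 :=
    (pow_eq_zero_iff (Fact.out : p.Prime).ne_zero).mp h2
  have h4 := congrArg QuadraticAlgebra.im h3
  simp at h4

theorem om_pow_card [Fintype F] :
    (QuadraticAlgebra.omega : KK a b) ^ Fintype.card F = ⟨a, -1⟩ := by
  classical
  obtain ⟨p, hp, n, hpp, hcard⟩ := FiniteField.card' F
  have : Fact p.Prime := ⟨hpp⟩
  have : CharP (KK a b) p :=
    charP_of_injective_algebraMap (FaithfulSMul.algebraMap_injective F (KK a b)) p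
  set q := Fintype.card F with hq
  set η : KK a b := (QuadraticAlgebra.omega : KK a b) ^ q with hη
  have hC : ∀ x : F, (algebraMap F (KK a b) x) ^ q = algebraMap F (KK a b) x := by
    intro x
    rw [← map_pow, hq, FiniteField.pow_card]
  -- η is a root of the same quadratic
  have hη2 : η * η = algebraMap F (KK a b) (-b) + algebraMap F (KK a b) a * η := by
    have h0 : (QuadraticAlgebra.omega : KK a b) * QuadraticAlgebra.omega
        = algebraMap F (KK a b) (-b) + algebraMap F (KK a b) a * QuadraticAlgebra.omega :=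
      QuadraticAlgebra.omega_mul_omega_eq_algebraMap
    have h1 : ((QuadraticAlgebra.omega : KK a b) * QuadraticAlgebra.omega) ^ q
        = (algebraMap F (KK a b) (-b) + algebraMap F (KK a b) a * QuadraticAlgebra.omega) ^ q := by
      rw [h0]
    rw [mul_pow, hcard] at h1
    rw [add_pow_expChar_pow, mul_pow] at h1
    rw [← hcard, hC, hC] at h1
    exact h1
  have hprod : (η - QuadraticAlgebra.omega) * (η - (⟨a, -1⟩ : KK a b)) = 0 := by
    have h0 : (QuadraticAlgebra.omega : KK a b) * QuadraticAlgebra.omega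
        = algebraMap F (KK a b) (-b) + algebraMap F (KK a b) a * QuadraticAlgebra.omega :=
      QuadraticAlgebra.omega_mul_omega_eq_algebraMap
    have h5 : (⟨a, -1⟩ : KK a b) = algebraMap F (KK a b) a - QuadraticAlgebra.omega := by
      ext <;> simp
    rw [h5]
    linear_combination hη2 - h0
  rcases mul_eq_zero.mp hprod with h | h
  · exfalso
    have hηω : η = QuadraticAlgebra.omega := sub_eq_zero.mp h
    -- then every element is fixed by the `q`-th power map
    have hall : ∀ z : KK a b, z ^ q = z := by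
      intro z
      obtain ⟨z₁, z₂⟩ := z
      rw [QuadraticAlgebra.mk_eq_add_smul_omega, hcard, add_pow_expChar_pow, smul_pow, ← hcard,
        hC, ← hη, hηω, FiniteField.pow_card]
    have hfin : Fintype (KK a b) := Fintype.ofEquiv _ (QuadraticAlgebra.equivProd (-b) a).symm
    have hcardK : Fintype.card (KK a b) = q * q := by
      rw [Fintype.card_congr (QuadraticAlgebra.equivProd (-b) a), Fintype.card_prod]
    have hq1 : 1 < q := Fintype.one_lt_card
    have hle := Polynomial.card_le_degree_of_subset_roots (R := KK a b)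
      (p := (Polynomial.X ^ q - Polynomial.X : Polynomial (KK a b))) (Z := Finset.univ)
      (fun x _ => by
        rw [Polynomial.mem_roots', Polynomial.IsRoot, Polynomial.eval_sub, Polynomial.eval_pow,
          Polynomial.eval_X, hall x, sub_self]
        exact ⟨FiniteField.X_pow_card_sub_X_ne_zero _ hq1, rfl⟩)
    rw [FiniteField.X_pow_card_sub_X_natDegree_eq _ hq1, Finset.card_univ, hcardK] at hle
    nlinarith
  · exact sub_eq_zero.mp h

end Quad2


/-! ### The block matrices -/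

section Mat

variable (m : ℕ)

/-- the matrix `1 ⊕ [[1, c], [0, d]]`. -/
def gm (c d : F) : Matrix ((Fin m ⊕ Fin m) ⊕ Fin 2) ((Fin m ⊕ Fin m) ⊕ Fin 2) F :=
  Matrix.fromBlocks 1 0 0 !![1, c; 0, d]

theorem gm_mulVec_inl (c d : F) (w : (Fin m ⊕ Fin m) ⊕ Fin 2 → F) (i : Fin m ⊕ Fin m) :
    (gm m c d *ᵥ w) (Sum.inl i) = w (Sum.inl i) := by
  unfold gm
  rw [Matrix.fromBlocks_mulVec]
  simp

theorem gm_mulVec_inr0 (c d : F) (w : (Fin m ⊕ Fin m) ⊕ Fin 2 → F) :
    (gm m c d *ᵥ w) (Sum.inr 0) = w (Sum.inr 0) + c * w (Sum.inr 1) := by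
  unfold gm
  rw [Matrix.fromBlocks_mulVec]
  simp [dotProduct, Fin.sum_univ_two]

theorem gm_mulVec_inr1 (c d : F) (w : (Fin m ⊕ Fin m) ⊕ Fin 2 → F) :
    (gm m c d *ᵥ w) (Sum.inr 1) = d * w (Sum.inr 1) := by
  unfold gm
  rw [Matrix.fromBlocks_mulVec]
  simp [dotProduct, Fin.sum_univ_two]

theorem det_gm (c d : F) : (gm m c d).det = d := by
  unfold gm
  rw [Matrix.det_fromBlocks_one₁₁]
  simp [Matrix.det_fin_two]

theorem gm_mul_map (c d c' d' : F) (σ : F ≃+* F) :
    gm m c d * (gm m c' d').map σ = gm m (σ c' + c * σ d') (d * σ d') := by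
  have e : (!![1, c'; 0, d'] : Matrix (Fin 2) (Fin 2) F).map σ = !![1, σ c'; 0, σ d'] := by
    ext i j
    fin_cases i <;> fin_cases j <;> simp
  unfold gm
  rw [Matrix.fromBlocks_map, Matrix.fromBlocks_multiply, e]
  congr 1
  · simp [Matrix.map_one, Matrix.map_zero]
  · simp [Matrix.map_zero]
  · simp [Matrix.map_zero, Matrix.map_one]
  · rw [Matrix.zero_mul, zero_add, Matrix.mul_fin_two]
    simp

theorem gm_one : gm m (0 : F) 1 = 1 := by
  unfold gm
  rw [← Matrix.one_fin_two, Matrix.fromBlocks_one]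

end Mat


/-! ### The main statement -/

/-- OU-M1: the Frobenius semisimilarity of the minus-type form. -/
theorem minus_frob [Fintype F] {p f : ℕ} [Fact p.Prime] (hf : 1 ≤ f)
    (hF : Fintype.card F = p ^ f) (m : ℕ) (a b : F)
    (hab : ∀ z₁ z₂ : F, z₁ ^ 2 + a * z₁ * z₂ + b * z₂ ^ 2 = 0 → z₁ = 0 ∧ z₂ = 0) :
    ∃ (g : GL ((Fin m ⊕ Fin m) ⊕ Fin 2) F) (σ : F ≃+* F),
      (∀ τ : RingAut F, τ ∈ Subgroup.zpowers (σ : RingAut F)) ∧
      Cfsg.IsSemisimilarityPair (Cfsg.quadFormMinus m F a b) g σ ∧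
      ((tpow g σ f : GL ((Fin m ⊕ Fin m) ⊕ Fin 2) F) :
          Matrix ((Fin m ⊕ Fin m) ⊕ Fin 2) ((Fin m ⊕ Fin m) ⊕ Fin 2) F)
        = Matrix.fromBlocks 1 0 0 !![1, a; 0, -1] := by
  classical
  have hchar : CharP F p := charP_of_card' hF
  have hfact : Fact (∀ r : F, r ^ 2 ≠ -b + a * r) := fact_of_aniso a b hab
  have hd0 : ((QuadraticAlgebra.omega : KK a b) ^ p).im ≠ 0 := im_om_pow_ne p
  let g : GL ((Fin m ⊕ Fin m) ⊕ Fin 2) F :=
    Matrix.GeneralLinearGroup.mkOfDetNeZero
      (gm m ((QuadraticAlgebra.omega : KK a b) ^ p).re ((QuadraticAlgebra.omega : KK a b) ^ p).im)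
      (by rw [det_gm]; exact hd0)
  have hg : (g : Matrix ((Fin m ⊕ Fin m) ⊕ Fin 2) ((Fin m ⊕ Fin m) ⊕ Fin 2) F)
      = gm m ((QuadraticAlgebra.omega : KK a b) ^ p).re
          ((QuadraticAlgebra.omega : KK a b) ^ p).im := rfl
  refine ⟨g, frobF p, frobF_gen p, ?_, ?_⟩
  · refine ⟨1, fun v => ?_⟩
    rw [hg, Units.val_one, one_mul]
    unfold Cfsg.quadFormMinus
    rw [gm_mulVec_inr0, gm_mulVec_inr1]
    simp only [gm_mulVec_inl]
    rw [map_add, map_sum]
    congr 1
    · apply Finset.sum_congr rfl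
      intro i _
      rw [map_mul]
    · have h1 := mk_pow_char (a := a) (b := b) p 1 (v (Sum.inr 0)) (v (Sum.inr 1))
      rw [pow_one] at h1
      have h2 := congrArg QuadraticAlgebra.norm h1
      rw [map_pow, norm_mk, norm_mk] at h2
      simp only [frobF_apply]
      rw [h2]
      ring
  · have key : ∀ k : ℕ, ((tpow g (frobF p) k : GL ((Fin m ⊕ Fin m) ⊕ Fin 2) F) :
          Matrix ((Fin m ⊕ Fin m) ⊕ Fin 2) ((Fin m ⊕ Fin m) ⊕ Fin 2) F)
        = gm m ((QuadraticAlgebra.omega : KK a b) ^ p ^ k).re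
            ((QuadraticAlgebra.omega : KK a b) ^ p ^ k).im := by
      intro k
      induction k with
      | zero =>
        rw [tpow_zero, pow_zero, pow_one]
        simp [gm_one]
      | succ k ih =>
        rw [tpow_succ, Units.val_mul, hg]
        have hmap : ((Matrix.GeneralLinearGroup.map ((frobF p : F ≃+* F) : F →+* F)
            (tpow g (frobF p) k) : GL ((Fin m ⊕ Fin m) ⊕ Fin 2) F) :
              Matrix ((Fin m ⊕ Fin m) ⊕ Fin 2) ((Fin m ⊕ Fin m) ⊕ Fin 2) F)
            = ((tpow g (frobF p) k : GL ((Fin m ⊕ Fin m) ⊕ Fin 2) F) :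
              Matrix ((Fin m ⊕ Fin m) ⊕ Fin 2) ((Fin m ⊕ Fin m) ⊕ Fin 2) F).map (frobF p) := by
          ext i j
          exact Matrix.GeneralLinearGroup.map_apply _ i j _
        rw [hmap, ih, gm_mul_map]
        have h1 := mk_pow_char (a := a) (b := b) p 1
          ((QuadraticAlgebra.omega : KK a b) ^ p ^ k).re
          ((QuadraticAlgebra.omega : KK a b) ^ p ^ k).im
        rw [pow_one] at h1
        have h3 : (⟨((QuadraticAlgebra.omega : KK a b) ^ p ^ k).re,
            ((QuadraticAlgebra.omega : KK a b) ^ p ^ k).im⟩ : KK a b)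
            = (QuadraticAlgebra.omega : KK a b) ^ p ^ k := rfl
        rw [h3] at h1
        have h2 : (QuadraticAlgebra.omega : KK a b) ^ p ^ (k + 1)
            = ((QuadraticAlgebra.omega : KK a b) ^ p ^ k) ^ p := by
          rw [pow_succ, pow_mul]
        rw [h2, h1]
        simp only [frobF_apply]
        congr 1 <;> ring
    rw [key f, ← hF, om_pow_card]
    rfl

end Cfsg.Agent.Lib.Helper18.OUM1
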