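import Mathlib
import Cfsg.Prelude.Def_Classical

set_option autoImplicit false

namespace Cfsg.Agent.Lib.Helper18.OmegaTR

open Cfsg

section TR

variable {ι₁ ι₂ : Type} [Fintype ι₁] [DecidableEq ι₁] [Fintype ι₂] [DecidableEq ι₂]
variable {F : Type*} [Field F]

theorem mem_isometryGroup_iff' {ι : Type} [Fintype ι] [DecidableEq ι] (Q : (ι → F) → F)
    (g : Matrix.GeneralLinearGroup ι F) :
    g ∈ isometryGroup F Q ↔ ∀ x, Q ((g : Matrix ι ι F).mulVec x) = Q x := by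
  constructor
  · intro h x
    exact h x x
  · intro h x _
    exact h x

/-- conjugation of matrices by a linear equivalence of coordinate spaces -/
noncomputable def conjMat (L : (ι₁ → F) ≃ₗ[F] (ι₂ → F)) : Matrix ι₁ ι₁ F ≃* Matrix ι₂ ι₂ F :=
  (Matrix.toLinAlgEquiv' (R := F) (n := ι₁)).toRingEquiv.toMulEquiv.trans
    ((LinearEquiv.conjRingEquiv L).toMulEquiv.trans
      (Matrix.toLinAlgEquiv' (R := F) (n := ι₂)).symm.toRingEquiv.toMulEquiv)

theorem conjMat_mulVec (L : (ι₁ → F) ≃ₗ[F] (ι₂ → F)) (A : Matrix ι₁ ι₁ F) (w : ι₂ → F) :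
    (conjMat L A).mulVec w = L (A.mulVec (L.symm w)) := by
  have h : Matrix.toLinAlgEquiv' (conjMat L A) = LinearEquiv.conjRingEquiv L (Matrix.toLinAlgEquiv' A) := by
    simp [conjMat]
  have h2 := congrArg (fun f => f w) h
  simpa [Matrix.toLinAlgEquiv'_apply] using h2

theorem conjMat_symm_mulVec (L : (ι₁ → F) ≃ₗ[F] (ι₂ → F)) (B : Matrix ι₂ ι₂ F) (v : ι₁ → F) :
    ((conjMat L).symm B).mulVec v = L.symm (B.mulVec (L v)) := by
  have h := conjMat_mulVec L ((conjMat L).symm B) (L v)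
  rw [MulEquiv.apply_symm_apply, LinearEquiv.symm_apply_apply] at h
  rw [h, LinearEquiv.symm_apply_apply]

theorem iso_transport (Q₁ : (ι₁ → F) → F) (Q₂ : (ι₂ → F) → F)
    (L : (ι₁ → F) ≃ₗ[F] (ι₂ → F)) (hL : ∀ v, Q₂ (L v) = Q₁ v) :
    Nonempty (isometryGroup F Q₁ ≃* isometryGroup F Q₂) := by
  obtain ⟨Φ, hΦ⟩ : ∃ Φ : Matrix.GeneralLinearGroup ι₁ F ≃* Matrix.GeneralLinearGroup ι₂ F,
      Φ = Units.mapEquiv (conjMat L) := ⟨_, rfl⟩
  have hΦc : ∀ g : Matrix.GeneralLinearGroup ι₁ F,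
      ((Φ g : Matrix.GeneralLinearGroup ι₂ F) : Matrix ι₂ ι₂ F) = conjMat L (g : Matrix ι₁ ι₁ F) := by
    intro g
    rw [hΦ]
    rfl
  have hΦs : ∀ g : Matrix.GeneralLinearGroup ι₂ F,
      ((Φ.symm g : Matrix.GeneralLinearGroup ι₁ F) : Matrix ι₁ ι₁ F)
        = (conjMat L).symm (g : Matrix ι₂ ι₂ F) := by
    intro g
    rw [hΦ]
    rfl
  have hmap : (isometryGroup F Q₁).map (Φ : Matrix.GeneralLinearGroup ι₁ F →*
      Matrix.GeneralLinearGroup ι₂ F) = isometryGroup F Q₂ := by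
    ext g
    constructor
    · rintro ⟨g₀, hg₀, rfl⟩
      rw [mem_isometryGroup_iff']
      intro w
      have h0 := (mem_isometryGroup_iff' Q₁ g₀).mp hg₀ (L.symm w)
      show Q₂ (((Φ g₀ : Matrix.GeneralLinearGroup ι₂ F) : Matrix ι₂ ι₂ F).mulVec w) = Q₂ w
      rw [hΦc, conjMat_mulVec, hL, h0, ← hL, LinearEquiv.apply_symm_apply]
    · intro hg
      refine ⟨Φ.symm g, ?_, ?_⟩
      · show Φ.symm g ∈ isometryGroup F Q₁
        rw [mem_isometryGroup_iff']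
        intro v
        have h0 := (mem_isometryGroup_iff' Q₂ g).mp hg (L v)
        rw [hΦs, conjMat_symm_mulVec, ← hL, LinearEquiv.apply_symm_apply, h0, hL]
      · show Φ (Φ.symm g) = g
        exact Φ.apply_symm_apply g
  exact ⟨(Φ.subgroupMap (isometryGroup F Q₁)).trans (MulEquiv.subgroupCongr hmap)⟩

end TR

end Cfsg.Agent.Lib.Helper18.OmegaTR
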