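import Mathlib
import Cfsg.Agent.Lib.Helper18.SLMDefs
import Cfsg.Agent.Lib.Helper10.SLME3
import Cfsg.Agent.Lib.Helper11.SLMEXMIN
import Cfsg.Agent.Lib.Helper13.SLMLEVELC
import Cfsg.Agent.Lib.Helper16.SLMHER
import Cfsg.Agent.Lib.Helper19.SLMNUM
import Cfsg.Agent.Lib.Helper2.SLMFOURIER
import Cfsg.Agent.Lib.Helper27.SLMEQMULT
import Cfsg.Agent.Lib.Helper27.SLMTOPARITH
import Cfsg.Agent.Lib.Helper28.SLMARITHW4
import Cfsg.Agent.Lib.Helper30.SLMINTG
import Cfsg.Agent.Lib.Helper31.SLME4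
import Cfsg.Agent.Lib.Helper36.SLMNONTRIV
import Cfsg.Agent.Lib.Helper38.SLMTRDECA
import Cfsg.Agent.Lib.Helper39.SLMX1ADD
import Cfsg.Agent.Lib.Helper40.SLMLEVX1
import Cfsg.Agent.Lib.Helper51.SLMARITHB3
import Cfsg.Agent.Lib.Helper53.SLMNORMCL
import Cfsg.Agent.Lib.Helper57.SLMM1TR
import Cfsg.Agent.Lib.Helper61.SLMWTMAP
import Cfsg.Agent.Lib.Helper64.SLMEXIST
import Cfsg.Agent.Lib.Helper64.SLMIRRSUB
import Cfsg.Agent.Lib.Helper68.SLMSUBWT
import Cfsg.Agent.Lib.Helper75.SLME2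
import Cfsg.Agent.Lib.Helper76.SLMTVBASIC
import Cfsg.Agent.Lib.Helper78.SLMTCOUNT
import Cfsg.Agent.Lib.Helper79.SLMMULT
import Cfsg.Agent.Lib.Helper8.SLMCOMM1
import Cfsg.Agent.Lib.Helper82.SLMTRDECB
import Cfsg.Agent.Lib.Helper83.SLMTVCONJ
import Cfsg.Agent.Lib.Helper86.SLMDIRSUM
import Cfsg.Agent.Lib.Helper89.SLMARITHW3
import Cfsg.Agent.Lib.Helper99.SLMADDCHAR

/-!
# Minimal degree of `SL_n(q)`: assembly (helper18, S2332)

Pieces by the team (files `Cfsg/Agent/Lib/<Seat>/SLM<TAG>.lean`); this file is the induction.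
-/

set_option autoImplicit false

namespace Cfsg.Agent.Lib.Helper18.SLM

open Matrix

universe u v

variable {F : Type u} [Field F] [Fintype F]

/-! ## glue (helper18) -/

theorem wsum_succ (q m : ℕ) : wsum q (m + 1) = wsum q m + q ^ m := by
  unfold wsum
  rw [Finset.sum_range_succ]

omit [Fintype F] in
theorem single_ne_zero_aux {k : ℕ} : (Pi.single 0 1 : Fin (k + 1) → F) ≠ 0 := by
  intro h
  have h1 := congrFun h 0
  rw [Pi.single_eq_same] at h1
  exact one_ne_zero h1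

/-- the fixed space of `{x1 u}` again has multiplicity one, and `d0` drops by `q^k - 1` -/
theorem level {V : Type*} [AddCommGroup V] [Module ℂ V] [FiniteDimensional ℂ V]
    (ψ : AddChar F ℂ) (hψ : ψ ≠ 1) {k : ℕ} (hk : 1 ≤ k)
    (ρ : Representation ℂ (Matrix.SpecialLinearGroup (Fin (k + 2)) F) V) (hM : M1 ψ ρ)
    (hE : EP ψ ρ)
    (h0 : ∀ g : Matrix.SpecialLinearGroup (Fin (k + 1)) F, ∀ v ∈ wt ψ ρ 0,
      ρ (lev g) v ∈ wt ψ ρ 0) :
    M1 ψ (resW ψ ρ h0) ∧ d0 ψ ρ = d0 ψ (resW ψ ρ h0) + (Fintype.card F ^ k - 1) := by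
  classical
  have hT := trace_x1 ψ hψ ρ (mult_formula ψ ρ)
  refine level_calc ψ hψ (resW ψ ρ h0) (d0 ψ ρ) rfl (mult_formula ψ (resW ψ ρ h0)) ?_
  intro u hu
  have hg : IsTv (x1 u : Matrix.SpecialLinearGroup (Fin (k + 1)) F) := isTv_x1 u
  have hg1 : (x1 u : Matrix.SpecialLinearGroup (Fin (k + 1)) F) ≠ 1 := x1_ne_one u hu
  have hdec := trace_dec ψ ρ (wt_isInternal ψ hψ ρ) hM (x1 u) (wt_map ψ ρ (x1 u))
    (fun l hl hfix v hv => hE l hl (x1 u) hg hfix v hv) h0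
  rw [fix_count (x1 u) hg hg1] at hdec
  have hconj : IsConj (lev (x1 u) : Matrix.SpecialLinearGroup (Fin (k + 2)) F)
      (x1 (Pi.single 0 1)) :=
    tv_isConj hk _ _ (isTv_lev _ hg) (isTv_x1 _) (lev_ne_one _ hg1)
      (x1_ne_one _ single_ne_zero_aux)
  have htr : LinearMap.trace ℂ V (ρ (lev (x1 u))) = (d0 ψ ρ : ℂ) - 1 := by
    obtain ⟨c, hc⟩ := isConj_iff.mp hconj
    rw [← m1_trace ψ hψ ρ hT hM (Pi.single 0 1) single_ne_zero_aux, ← hc]
    exact (Representation.char_conj ρ (lev (x1 u)) c).symm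
  have hq1 : 1 ≤ Fintype.card F ^ k := Nat.one_le_pow _ _ Fintype.card_pos
  have hcast : ((Fintype.card F ^ k - 1 : ℕ) : ℂ) = (Fintype.card F : ℂ) ^ k - 1 := by
    rw [Nat.cast_sub hq1]
    push_cast
    ring
  rw [htr, hcast] at hdec
  linear_combination -hdec

/-- an irreducible constituent of a multiplicity-one module carrying the non-zero weights -/
theorem extract {W : Type*} [AddCommGroup W] [Module ℂ W] [FiniteDimensional ℂ W]
    (ψ : AddChar F ℂ) {k : ℕ} (hk : 1 ≤ k)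
    (σ : Representation ℂ (Matrix.SpecialLinearGroup (Fin (k + 2)) F) W) (hM : M1 ψ σ)
    (hE : EP ψ σ) :
    ∃ (C : Submodule ℂ W) (hC : ∀ g, ∀ v ∈ C, σ g v ∈ C),
      (subRep σ C hC).IsIrreducible ∧ M1 ψ (subRep σ C hC) ∧ EP ψ (subRep σ C hC) := by
  have hl0 : (Pi.single 0 1 : Fin (k + 1) → F) ≠ 0 := single_ne_zero_aux
  have hne : wt ψ σ (Pi.single 0 1) ≠ ⊥ := by
    intro h
    have h1 := hM _ hl0
    rw [h, finrank_bot] at h1
    exact absurd h1 (by norm_num)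
  obtain ⟨C, hCne, hC, hmin, v, hvC, hv0, hvw⟩ := exists_min_wt ψ σ _ hne
  refine ⟨C, hC, irr_subRep σ C hC hCne hmin, ?_, subRep_EP ψ σ C hC hE⟩
  have h1 : wt ψ (subRep σ C hC) (Pi.single 0 1) ≠ ⊥ := by
    intro h
    have h2 : (⟨v, hvC⟩ : ↥C) ∈ wt ψ (subRep σ C hC) (Pi.single 0 1) :=
      (subRep_wt_mem ψ σ C hC _ ⟨v, hvC⟩).2 hvw
    rw [h, Submodule.mem_bot] at h2
    exact hv0 (congrArg Subtype.val h2)
  intro l hl
  have heq := wt_finrank_eq ψ (by omega : 2 ≤ k + 1) (subRep σ C hC)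
    (wt_map ψ (subRep σ C hC)) (Pi.single 0 1) l hl0 hl
  have hle := subRep_wt_finrank_le ψ σ C hC l
  rw [hM l hl] at hle
  have hpos : Module.finrank ℂ (wt ψ (subRep σ C hC) (Pi.single 0 1)) ≠ 0 :=
    fun h => h1 (Submodule.finrank_eq_zero.mp h)
  omega

/-- integrality of the central character on the class of transvections -/
theorem int_main {V : Type*} [AddCommGroup V] [Module ℂ V] [FiniteDimensional ℂ V]
    (ψ : AddChar F ℂ) (hψ : ψ ≠ 1) {k : ℕ} (hk : 1 ≤ k)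
    (ρ : Representation ℂ (Matrix.SpecialLinearGroup (Fin (k + 2)) F) V)
    (hirr : ρ.IsIrreducible) (hM : M1 ψ ρ) (hd : 1 ≤ d0 ψ ρ) :
    (d0 ψ ρ + (Fintype.card F ^ (k + 1) - 1)) ∣
      (Fintype.card F ^ (k + 2) - 1) * wsum (Fintype.card F) (k + 1) * (d0 ψ ρ - 1) := by
  have hT := trace_x1 ψ hψ ρ (mult_formula ψ ρ)
  refine int_dvd ψ ρ hirr (fun g g' hg hg' h1 h1' => tv_isConj hk g g' hg hg' h1 h1') tv_count
    (fun u hu => m1_trace ψ hψ ρ hT hM u hu) ?_ hd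
  have h := mm_finrank ψ ρ hT 1 hM
  rw [one_mul] at h
  exact h

/-- availability of the induction -/
def Avail (q k : ℕ) : Prop := (q ≠ 2 ∧ q ≠ 4) ∨ (q = 4 ∧ 2 ≤ k) ∨ (q = 2 ∧ 3 ≤ k)

/-- multiplicity one and `EP` force `d0 ≥ (q^(k+1) - 1)/(q - 1)` -/
theorem P_main (ψ : AddChar F ℂ) (hψ : ψ ≠ 1) : ∀ (k : ℕ), 1 ≤ k → Avail (Fintype.card F) k →
    ∀ (V : Type v) [AddCommGroup V] [Module ℂ V] [FiniteDimensional ℂ V]
      (ρ : Representation ℂ (Matrix.SpecialLinearGroup (Fin (k + 2)) F) V),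
      ρ.IsIrreducible → M1 ψ ρ → EP ψ ρ → wsum (Fintype.card F) (k + 1) ≤ d0 ψ ρ := by
  intro k
  induction k with
  | zero => intro h; omega
  | succ j ih =>
    intro _ hav V _ _ _ ρ hirr hM hE
    have hq : 2 ≤ Fintype.card F := Fintype.one_lt_card
    have h0 := wt0_inv ψ ρ
    obtain ⟨hMσ, hd0⟩ := level ψ hψ (by omega : 1 ≤ j + 1) ρ hM hE h0
    have hEσ := her ψ hψ ρ hE h0
    have hpow : 1 ≤ Fintype.card F ^ (j + 1) := Nat.one_le_pow _ _ (by omega)
    have hpow2 : 2 ≤ Fintype.card F ^ (j + 1) := by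
      calc 2 ≤ Fintype.card F := hq
        _ = Fintype.card F ^ 1 := (pow_one _).symm
        _ ≤ Fintype.card F ^ (j + 1) := Nat.pow_le_pow_right (by omega) (by omega)
    have hd1 : 1 ≤ d0 ψ ρ := by omega
    have hdvd := int_main ψ hψ (by omega : 1 ≤ j + 1) ρ hirr hM hd1
    by_cases hj : j = 0
    · subst hj
      have hq24 : Fintype.card F ≠ 2 ∧ Fintype.card F ≠ 4 := by
        rcases hav with h | h | h
        · exact h
        · omega
        · omega
      have hw : wsum (Fintype.card F) 2 = Fintype.card F + 1 := by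
        simp [wsum, Finset.sum_range_succ, add_comm]
      have hge : Fintype.card F - 1 ≤ d0 ψ ρ := by
        rw [hd0, pow_one]
        omega
      have hdvd' : (d0 ψ ρ + (Fintype.card F ^ 2 - 1)) ∣
          (Fintype.card F ^ 3 - 1) * wsum (Fintype.card F) 2 * (d0 ψ ρ - 1) := hdvd
      by_contra hlt
      have hcases : d0 ψ ρ = Fintype.card F - 1 ∨ d0 ψ ρ = wsum (Fintype.card F) 2 - 1 := by
        have : wsum (Fintype.card F) (0 + 1 + 1) = wsum (Fintype.card F) 2 := rfl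
        omega
      rcases hcases with h | h
      · rw [h] at hdvd'
        exact arith_b3 _ (FiniteField.isPrimePow_card F) hq24.1 hq24.2 hdvd'
      · rw [h] at hdvd'
        exact arith_w3 _ hq hdvd'
    · by_cases hav' : Avail (Fintype.card F) j
      · obtain ⟨C, hC, hCirr, hCM, hCE⟩ :=
          extract ψ (by omega : 1 ≤ j) (resW ψ ρ h0) hMσ hEσ
        have hIH := ih (by omega) hav' ↥C (subRep (resW ψ ρ h0) C hC) hCirr hCM hCE
        have hTτ := trace_x1 ψ hψ (subRep (resW ψ ρ h0) C hC) (mult_formula ψ _)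
        have hfinC := mm_finrank ψ (subRep (resW ψ ρ h0) C hC) hTτ 1 hCM
        rw [one_mul] at hfinC
        have hle : Module.finrank ℂ ↥C ≤ d0 ψ ρ := Submodule.finrank_le C
        have hw := wsum_succ (Fintype.card F) (j + 1)
        by_contra hlt
        have heq : d0 ψ ρ = wsum (Fintype.card F) (j + 1 + 1) - 1 := by omega
        rw [heq] at hdvd
        exact arith_w4 _ hq (j + 1 + 1) (by omega) hdvd
      · have hcase : (Fintype.card F = 4 ∧ j = 1) ∨ (Fintype.card F = 2 ∧ j = 2) := by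
          unfold Avail at hav hav'
          omega
        have h0σ := wt0_inv ψ (resW ψ ρ h0)
        obtain ⟨_, hd0σ⟩ := level ψ hψ (by omega : 1 ≤ j) (resW ψ ρ h0) hMσ hEσ h0σ
        rcases hcase with ⟨hq4, rfl⟩ | ⟨hq2, rfl⟩
        · rw [hq4] at hd0 hd0σ hdvd ⊢
          have h18 : 18 ≤ d0 ψ ρ := by
            norm_num at hd0 hd0σ
            omega
          exact num44 _ h18 hdvd
        · rw [hq2] at hd0 hd0σ hdvd ⊢
          have h10 : 10 ≤ d0 ψ ρ := by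
            norm_num at hd0 hd0σ
            omega
          exact num52 _ h10 hdvd

/-- the lower bound: an irreducible representation of degree at least 2 of `SL_{k+2}(q)` has
degree at least `(q^(k+2) - q)/(q - 1)` -/
theorem lower_main (ψ : AddChar F ℂ) (hψ : ψ ≠ 1) (k : ℕ) (hk : 1 ≤ k)
    (hex : (k = 1 → Fintype.card F ≠ 2 ∧ Fintype.card F ≠ 4) ∧ (k = 2 → 4 ≤ Fintype.card F))
    (d : ℕ) (ρ : Representation ℂ (Matrix.SpecialLinearGroup (Fin (k + 2)) F) (Fin d → ℂ))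
    (hirr : ρ.IsIrreducible) (hd : 2 ≤ d) :
    (Fintype.card F ^ (k + 2) - Fintype.card F) / (Fintype.card F - 1) ≤ d := by
  have hq : 2 ≤ Fintype.card F := Fintype.one_lt_card
  have hfin : Module.finrank ℂ (Fin d → ℂ) = d := by simp
  have hT := trace_x1 ψ hψ ρ (mult_formula ψ ρ)
  obtain ⟨l0, hl0, hne⟩ := exists_wt ψ ρ hirr (by rw [hfin]; exact hd) hT
    (rep_trivial_of_x1 hk ρ)
  have hall : ∀ l : Fin (k + 1) → F, l ≠ 0 →
      Module.finrank ℂ (wt ψ ρ l) = Module.finrank ℂ (wt ψ ρ l0) :=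
    fun l hl => wt_finrank_eq ψ (by omega) ρ (wt_map ψ ρ) l l0 hl hl0
  have hmpos : Module.finrank ℂ (wt ψ ρ l0) ≠ 0 := fun h => hne (Submodule.finrank_eq_zero.mp h)
  have hdim := mm_finrank ψ ρ hT _ hall
  rw [hfin] at hdim
  have hpow : 1 ≤ Fintype.card F ^ (k + 1) := Nat.one_le_pow _ _ (by omega)
  by_cases hm2 : 2 ≤ Module.finrank ℂ (wt ψ ρ l0)
  · have h1 := arith_m2 (Fintype.card F) k hq
    have h2 : 2 * (Fintype.card F ^ (k + 1) - 1) ≤
        Module.finrank ℂ (wt ψ ρ l0) * (Fintype.card F ^ (k + 1) - 1) :=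
      Nat.mul_le_mul_right _ hm2
    omega
  · have hm1 : Module.finrank ℂ (wt ψ ρ l0) = 1 := by omega
    have hM : M1 ψ ρ := fun l hl => by rw [hall l hl, hm1]
    have hE : EP ψ ρ := by
      rcases (by omega : k = 1 ∨ k = 2 ∨ 3 ≤ k) with h | h | h3
      · subst h
        exact ep_of_m1_2 ψ (hex.1 rfl).1 (hex.1 rfl).2 ρ hM
      · subst h
        exact ep_of_m1_3 ψ (hex.2 rfl) ρ hM (wt_map ψ ρ)
      · exact ep_of_m1_ge4 ψ (by omega) ρ hM (wt_map ψ ρ)
    have hav : Avail (Fintype.card F) k := by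
      unfold Avail
      have h1 := hex.1
      have h2 := hex.2
      by_cases hk1 : k = 1
      · have := h1 hk1
        omega
      · by_cases hk2 : k = 2
        · have := h2 hk2
          omega
        · omega
    have hP := P_main ψ hψ k hk hav (Fin d → ℂ) ρ hirr hM hE
    rw [arith_m1 _ k hq, hdim, hm1, one_mul]
    omega


end Cfsg.Agent.Lib.Helper18.SLM
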