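import Cfsg.Agent.Lib.Helper88.SSolDefs

set_option autoImplicit false

namespace Cfsg.Agent.Lib.Helper18.SSolJ6

open Cfsg.Agent.Lib.Helper88.SSol

/-- entries of a square: `M * M` for a `2 × 2` matrix. -/
theorem sq_entries {R : Type*} [CommRing R] (M : Matrix (Fin 2) (Fin 2) R) (z : R)
    (h : M * M = Matrix.diagonal (fun _ => z)) :
    M 0 0 * M 0 0 + M 0 1 * M 1 0 = z ∧ M 0 0 * M 0 1 + M 0 1 * M 1 1 = 0 ∧
    M 1 0 * M 0 0 + M 1 1 * M 1 0 = 0 ∧ M 1 0 * M 0 1 + M 1 1 * M 1 1 = z := by
  have h00 := congrFun (congrFun h 0) 0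
  have h01 := congrFun (congrFun h 0) 1
  have h10 := congrFun (congrFun h 1) 0
  have h11 := congrFun (congrFun h 1) 1
  simp [Matrix.mul_apply, Fin.sum_univ_two] at h00 h01 h10 h11
  exact ⟨h00, h01, h10, h11⟩

/-- the diagonal involution `diag(1, -1)`. -/
def d0 (q : ℕ) : GL2 q :=
  ⟨!![1, 0; 0, -1], !![1, 0; 0, -1],
    by ext i j; fin_cases i <;> fin_cases j <;> simp [Matrix.mul_apply, Fin.sum_univ_two],
    by ext i j; fin_cases i <;> fin_cases j <;> simp [Matrix.mul_apply, Fin.sum_univ_two]⟩

/-- the element `!![0, 1; -1, 0]` of square `-1`. -/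
def w0 (q : ℕ) : GL2 q :=
  ⟨!![0, 1; -1, 0], !![0, -1; 1, 0],
    by ext i j; fin_cases i <;> fin_cases j <;> simp [Matrix.mul_apply, Fin.sum_univ_two],
    by ext i j; fin_cases i <;> fin_cases j <;> simp [Matrix.mul_apply, Fin.sum_univ_two]⟩

theorem conj_d0 {q : ℕ} [Fact q.Prime] (hq2 : q ≠ 2) (g : GL2 q) (hg : g * g = 1) (h1 : g ≠ 1)
    (hm1 : g ≠ -1) : ∃ P : GL2 q, g * P = P * d0 q := by
  have h2 : (2 : ZMod q) ≠ 0 := by
    intro h
    have h' : ((2 : ℕ) : ZMod q) = 0 := by exact_mod_cast h
    rw [ZMod.natCast_eq_zero_iff] at h'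
    have := (Nat.prime_dvd_prime_iff_eq (Fact.out : q.Prime) Nat.prime_two).mp h'
    exact hq2 this
  set M : Matrix (Fin 2) (Fin 2) (ZMod q) := (g : Matrix (Fin 2) (Fin 2) (ZMod q)) with hM
  have hMM : M * M = Matrix.diagonal (fun _ => (1 : ZMod q)) := by
    have := congrArg Units.val hg
    rw [Matrix.diagonal_one]
    simpa using this
  obtain ⟨e1, e2, e3, e4⟩ := sq_entries M 1 hMM
  have hMeta : M = !![M 0 0, M 0 1; M 1 0, M 1 1] := Matrix.eta_fin_two M
  generalize M 0 0 = a at *
  generalize M 0 1 = b at *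
  generalize M 1 0 = c at *
  generalize M 1 1 = d at *
  by_cases had : a + d = 0
  · have hd : d = -a := by linear_combination had
    subst hd
    by_cases hb : b = 0
    · subst hb
      by_cases hc : c = 0
      · subst hc
        have ha : (a - 1) * (a + 1) = 0 := by linear_combination e1
        rcases mul_eq_zero.mp ha with ha | ha
        · have ha1 : a = 1 := by linear_combination ha
          subst ha1
          refine ⟨1, ?_⟩
          rw [mul_one, one_mul]
          apply Units.ext
          show (g : Matrix (Fin 2) (Fin 2) (ZMod q)) = !![1, 0; 0, -1]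
          rw [← hM, hMeta]
        · have ha1 : a = -1 := by linear_combination ha
          subst ha1
          refine ⟨Matrix.GeneralLinearGroup.mkOfDetNeZero !![0, 1; 1, 0]
            (by simp [Matrix.det_fin_two]), ?_⟩
          apply Units.ext
          show (g : Matrix (Fin 2) (Fin 2) (ZMod q)) * !![0, 1; 1, 0]
            = !![0, 1; 1, 0] * !![1, 0; 0, -1]
          rw [← hM, hMeta]
          ext i j
          fin_cases i <;> fin_cases j <;> simp [Matrix.mul_apply, Fin.sum_univ_two]
      · refine ⟨Matrix.GeneralLinearGroup.mkOfDetNeZero !![a + 1, a - 1; c, c] ?_, ?_⟩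
        · rw [Matrix.det_fin_two_of]
          intro h
          apply hc
          have : 2 * c = 0 := by linear_combination h
          exact (mul_eq_zero.mp this).resolve_left h2
        · apply Units.ext
          show (g : Matrix (Fin 2) (Fin 2) (ZMod q)) * !![a + 1, a - 1; c, c]
            = !![a + 1, a - 1; c, c] * !![1, 0; 0, -1]
          rw [← hM, hMeta]
          have e1' : a * a = 1 := by linear_combination e1
          ext i j
          fin_cases i <;> fin_cases j <;> simp [Matrix.mul_apply, Fin.sum_univ_two]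
          · linear_combination e1'
          · linear_combination e1'
          · ring
          · ring
    · refine ⟨Matrix.GeneralLinearGroup.mkOfDetNeZero !![b, b; 1 - a, -1 - a] ?_, ?_⟩
      · rw [Matrix.det_fin_two_of]
        intro h
        apply hb
        have : 2 * b = 0 := by linear_combination -h
        exact (mul_eq_zero.mp this).resolve_left h2
      · apply Units.ext
        show (g : Matrix (Fin 2) (Fin 2) (ZMod q)) * !![b, b; 1 - a, -1 - a]
          = !![b, b; 1 - a, -1 - a] * !![1, 0; 0, -1]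
        rw [← hM, hMeta]
        ext i j
        fin_cases i <;> fin_cases j <;> simp [Matrix.mul_apply, Fin.sum_univ_two]
        · ring
        · ring
        · linear_combination e1
        · linear_combination e1
  · exfalso
    have hb : b = 0 := by
      have : b * (a + d) = 0 := by linear_combination e2
      exact (mul_eq_zero.mp this).resolve_right had
    have hc : c = 0 := by
      have : c * (a + d) = 0 := by linear_combination e3
      exact (mul_eq_zero.mp this).resolve_right had
    subst hb hc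
    have ha : (a - 1) * (a + 1) = 0 := by linear_combination e1
    have hd : (d - 1) * (d + 1) = 0 := by linear_combination e4
    rcases mul_eq_zero.mp ha with ha | ha <;> rcases mul_eq_zero.mp hd with hd | hd
    · apply h1
      apply Units.ext
      show (g : Matrix (Fin 2) (Fin 2) (ZMod q)) = 1
      rw [← hM, hMeta]
      have ha1 : a = 1 := by linear_combination ha
      have hd1 : d = 1 := by linear_combination hd
      rw [ha1, hd1, Matrix.one_fin_two]
    · apply had
      linear_combination ha + hd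
    · apply had
      linear_combination ha + hd
    · apply hm1
      apply Units.ext
      show (g : Matrix (Fin 2) (Fin 2) (ZMod q)) = -1
      rw [← hM, hMeta]
      have ha1 : a = -1 := by linear_combination ha
      have hd1 : d = -1 := by linear_combination hd
      rw [ha1, hd1, Matrix.one_fin_two]
      ext i j
      fin_cases i <;> fin_cases j <;> simp

theorem c1Stmt_of_prime {q : ℕ} (hq : q.Prime) (hq2 : q ≠ 2) : C1Stmt q := by
  have : Fact q.Prime := ⟨hq⟩
  intro g g' hg h1 hm1 hg' h1' hm1'
  obtain ⟨P, hP⟩ := conj_d0 hq2 g hg h1 hm1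
  obtain ⟨P', hP'⟩ := conj_d0 hq2 g' hg' h1' hm1'
  refine ⟨P' * P⁻¹, ?_⟩
  have e1 : g = P * d0 q * P⁻¹ := by rw [← hP]; group
  have e2 : g' = P' * d0 q * P'⁻¹ := by rw [← hP']; group
  rw [e1, e2]
  group


theorem conj_w0 {q : ℕ} [Fact q.Prime] (hq4 : q % 4 = 3) (g : GL2 q) (hg : g * g = -1) :
    ∃ P : GL2 q, Matrix.GeneralLinearGroup.det P = 1 ∧ g * P = P * w0 q := by
  have hns : ∀ x : ZMod q, x * x ≠ -1 := by
    intro x hx
    have h1 : IsSquare (-1 : ZMod q) := ⟨x, hx.symm⟩
    rw [ZMod.exists_sq_eq_neg_one_iff] at h1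
    exact h1 hq4
  set M : Matrix (Fin 2) (Fin 2) (ZMod q) := (g : Matrix (Fin 2) (Fin 2) (ZMod q)) with hM
  have hMM : M * M = Matrix.diagonal (fun _ => (-1 : ZMod q)) := by
    have := congrArg Units.val hg
    have h1 : (Matrix.diagonal (fun _ => (-1 : ZMod q)) : Matrix (Fin 2) (Fin 2) (ZMod q)) = -1 := by
      ext i j
      fin_cases i <;> fin_cases j <;> simp
    rw [h1]
    simpa using this
  obtain ⟨e1, e2, e3, e4⟩ := sq_entries M (-1) hMM
  have hMeta : M = !![M 0 0, M 0 1; M 1 0, M 1 1] := Matrix.eta_fin_two M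
  generalize M 0 0 = a at *
  generalize M 0 1 = b at *
  generalize M 1 0 = c at *
  generalize M 1 1 = d at *
  have had : a + d = 0 := by
    by_contra had
    have hb : b = 0 := by
      have : b * (a + d) = 0 := by linear_combination e2
      exact (mul_eq_zero.mp this).resolve_right had
    subst hb
    exact hns a (by linear_combination e1)
  have hd : d = -a := by linear_combination had
  subst hd
  have hc : c ≠ 0 := by
    intro hc
    subst hc
    exact hns a (by linear_combination e1)
  obtain ⟨r, s, hrs⟩ := ZMod.sq_add_sq q (-c)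
  obtain ⟨u₁, hu⟩ : ∃ u₁ : ZMod q, c * u₁ = r + a * s := ⟨(r + a * s) / c, by field_simp⟩
  have hdet : (!![u₁, -(a * u₁ + b * s); s, -(c * u₁ + -a * s)] :
      Matrix (Fin 2) (Fin 2) (ZMod q)).det = 1 := by
    rw [Matrix.det_fin_two_of]
    have hcu : c * (u₁ * -(c * u₁ + -a * s) - -(a * u₁ + b * s) * s) = c := by
      have : c * (u₁ * -(c * u₁ + -a * s) - -(a * u₁ + b * s) * s)
          = -((c * u₁ - a * s) ^ 2) + (a * a + b * c) * s ^ 2 := by ring
      rw [this, e1, hu]
      linear_combination -hrs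
    have := mul_left_cancel₀ hc (hcu.trans (mul_one c).symm)
    exact this
  refine ⟨Matrix.GeneralLinearGroup.mkOfDetNeZero !![u₁, -(a * u₁ + b * s); s, -(c * u₁ + -a * s)]
    (by rw [hdet]; exact one_ne_zero), ?_, ?_⟩
  · apply Units.ext
    rw [Matrix.GeneralLinearGroup.val_det_apply]
    exact hdet
  · apply Units.ext
    show (g : Matrix (Fin 2) (Fin 2) (ZMod q)) * !![u₁, -(a * u₁ + b * s); s, -(c * u₁ + -a * s)]
      = !![u₁, -(a * u₁ + b * s); s, -(c * u₁ + -a * s)] * !![0, 1; -1, 0]
    rw [← hM, hMeta]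
    ext i j
    fin_cases i <;> fin_cases j <;> simp [Matrix.mul_apply, Fin.sum_univ_two] <;>
      first | ring1 | linear_combination (-u₁) * e1 | linear_combination (-s) * e1

theorem c2Stmt_of_prime {q : ℕ} (hq : q.Prime) (hq4 : q % 4 = 3) : C2Stmt q := by
  have : Fact q.Prime := ⟨hq⟩
  intro g g' hg hg'
  obtain ⟨P, hdP, hP⟩ := conj_w0 hq4 g hg
  obtain ⟨P', hdP', hP'⟩ := conj_w0 hq4 g' hg'
  refine ⟨P' * P⁻¹, ?_, ?_⟩
  · rw [map_mul, map_inv, hdP, hdP', inv_one, mul_one]
  · have e1 : g = P * w0 q * P⁻¹ := by rw [← hP]; group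
    have e2 : g' = P' * w0 q * P'⁻¹ := by rw [← hP']; group
    rw [e1, e2]
    group

end Cfsg.Agent.Lib.Helper18.SSolJ6
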