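import Mathlib
import Cfsg.Prelude.Def_ClassicalGeometry
import Cfsg.Prelude.Def_LieClassical
import Cfsg.Agent.Lib.Helper18.UnitaryTv
import Cfsg.Agent.S0782

/-!
# Heisenberg elements are products of unitary transvections (helper18)

`F` a field with `q^2` elements, `h = Cfsg.hermForm n F q`.

* `tvSet n F q`: the elements of `SU_n(q)` whose matrix is a unitary transvection `t_{v,c}`
  with `v` isotropic (the generating set of S0780); `tvGrp n F q` its closure.
* `tvGrp_normal`: `tvGrp` is normal in `SU_n(q)`.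
* `heis_mem_tvGrp`: if `4 ≤ n` or `3 ≤ q`, every element of `SU_n(q)` whose matrix is a
  Heisenberg element `heis q n e w a` (`e` isotropic, `w ⊥ e`) lies in `tvGrp`.
-/

set_option autoImplicit false
set_option linter.unusedSectionVars false
set_option linter.unusedVariables false

namespace Cfsg.Agent.Lib.Helper18

open Matrix Cfsg.Agent.Lib.Helper7

section
variable {F : Type*} [Field F] [Fintype F] {q : ℕ}

/-- the matrix of an element of `SU` -/
abbrev sm {n : ℕ} (A : Cfsg.SU n F q) : Matrix (Fin n) (Fin n) F :=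
  ((A : Matrix.SpecialLinearGroup (Fin n) F) : Matrix (Fin n) (Fin n) F)

/-- the elements of `SU_n(q)` which are unitary transvections with isotropic centre -/
def tvSet (n : ℕ) (F : Type*) [Field F] (q : ℕ) : Set (Cfsg.SU n F q) :=
  {A | ∃ (v : Fin n → F) (c : F), Cfsg.hermForm n F q v v = 0 ∧
    ((A : Matrix.SpecialLinearGroup (Fin n) F) : Matrix (Fin n) (Fin n) F) =
      Cfsg.unitaryTransvection n q v c}

/-- the subgroup of `SU_n(q)` generated by the unitary transvections -/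
def tvGrp (n : ℕ) (F : Type*) [Field F] (q : ℕ) : Subgroup (Cfsg.SU n F q) :=
  Subgroup.closure (tvSet n F q)

theorem sm_mul {n : ℕ} (A B : Cfsg.SU n F q) : sm (A * B) = sm A * sm B := rfl

theorem sm_one {n : ℕ} : sm (1 : Cfsg.SU n F q) = 1 := rfl

theorem sm_ext {n : ℕ} {A B : Cfsg.SU n F q} (h : sm A = sm B) : A = B :=
  Subtype.ext (Subtype.ext h)

theorem sm_mul_inv {n : ℕ} (A : Cfsg.SU n F q) : sm A * sm A⁻¹ = 1 := by
  rw [← sm_mul, mul_inv_cancel, sm_one]

theorem sm_cancel {n : ℕ} (X Y : Cfsg.SU n F q) (M : Matrix (Fin n) (Fin n) F)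
    (h : sm X * sm Y = M * sm Y) : sm X = M := by
  calc sm X = sm X * (sm Y * sm Y⁻¹) := by rw [sm_mul_inv, mul_one]
    _ = (sm X * sm Y) * sm Y⁻¹ := by rw [mul_assoc]
    _ = M * sm Y * sm Y⁻¹ := by rw [h]
    _ = M := by rw [mul_assoc, sm_mul_inv, mul_one]

theorem sm_pres {n : ℕ} (A : Cfsg.SU n F q) (x y : Fin n → F) :
    Cfsg.hermForm n F q (sm A *ᵥ x) (sm A *ᵥ y) = Cfsg.hermForm n F q x y :=
  (mem_SU_iff A.1).mp A.2 x y

theorem exists_su (hF : Fintype.card F = q ^ 2) {n : ℕ} (M : Matrix (Fin n) (Fin n) F)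
    (hdet : M.det = 1)
    (hpres : ∀ x y, Cfsg.hermForm n F q (M *ᵥ x) (M *ᵥ y) = Cfsg.hermForm n F q x y) :
    ∃ A : Cfsg.SU n F q, sm A = M :=
  ⟨suMk hF M hdet (isFr_of_preserves hF M hpres), rfl⟩

theorem tv_mem {n : ℕ} (A : Cfsg.SU n F q) (v : Fin n → F) (c : F)
    (hvv : Cfsg.hermForm n F q v v = 0) (hA : sm A = Cfsg.unitaryTransvection n q v c) :
    A ∈ tvGrp n F q :=
  Subgroup.subset_closure ⟨v, c, hvv, hA⟩

theorem exists_su_tv (hF : Fintype.card F = q ^ 2) (n : ℕ) (v : Fin n → F) (c : F)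
    (hvv : Cfsg.hermForm n F q v v = 0) (hc : c + c ^ q = 0) :
    ∃ A : Cfsg.SU n F q, sm A = Cfsg.unitaryTransvection n q v c ∧ A ∈ tvGrp n F q := by
  obtain ⟨A, hA⟩ := exists_su hF (Cfsg.unitaryTransvection n q v c) (transvection_det n v c hvv)
    (transvection_preserves hF n v c hvv hc)
  exact ⟨A, hA, tv_mem A v c hvv hA⟩

theorem exists_su_heis (hF : Fintype.card F = q ^ 2) (n : ℕ) (e w : Fin n → F)
    (hee : Cfsg.hermForm n F q e e = 0) (hwe : Cfsg.hermForm n F q w e = 0) :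
    ∃ (a : F) (A : Cfsg.SU n F q), sm A = heis q n e w a := by
  obtain ⟨l, hl⟩ := exists_trace_one hF
  have ha : -(l * Cfsg.hermForm n F q w w) + (-(l * Cfsg.hermForm n F q w w)) ^ q +
      Cfsg.hermForm n F q w w = 0 := by
    rw [herm_neg_pow hF, mul_pow, hf_self_pow hF]
    linear_combination (-Cfsg.hermForm n F q w w) * hl
  obtain ⟨A, hA⟩ := exists_su hF (heis q n e w (-(l * Cfsg.hermForm n F q w w)))
    (heis_det hF n e w _ hee hwe) (heis_preserves hF n e w _ hee hwe ha)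
  exact ⟨_, A, hA⟩

theorem tvGrp_normal (hF : Fintype.card F = q ^ 2) (n : ℕ) : (tvGrp n F q).Normal := by
  constructor
  intro x hx g
  induction hx using Subgroup.closure_induction with
  | mem x hx =>
    obtain ⟨v, c, hvv, hA⟩ := hx
    refine tv_mem _ (sm g *ᵥ v) c (by rw [sm_pres, hvv]) ?_
    apply sm_cancel _ g
    rw [← sm_mul, inv_mul_cancel_right, sm_mul]
    have hA' : sm x = Cfsg.unitaryTransvection n q v c := hA
    rw [hA', conj_transvection _ (sm_pres g)]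
  | one =>
    rw [mul_one, mul_inv_cancel]
    exact one_mem _
  | mul x y _ _ hx hy =>
    have e1 : g * (x * y) * g⁻¹ = (g * x * g⁻¹) * (g * y * g⁻¹) := by group
    rw [e1]
    exact mul_mem hx hy
  | inv x _ hx =>
    have e1 : g * x⁻¹ * g⁻¹ = (g * x * g⁻¹)⁻¹ := by group
    rw [e1]
    exact inv_mem hx

theorem heis_smul_e (n : ℕ) (e : Fin n → F) (a b : F) :
    heis q n e (b • e) a = Cfsg.unitaryTransvection n q e (a + b - b ^ q) := by
  apply Matrix.mulVec_injective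
  funext x
  rw [heis_mulVec, unitaryTransvection_mulVec, hf_smul_right]
  module

theorem heis_zero_e (hF : Fintype.card F = q ^ 2) (n : ℕ) (w : Fin n → F) (a : F) :
    heis q n (0 : Fin n → F) w a = 1 := by
  apply Matrix.mulVec_injective
  funext x
  rw [heis_mulVec, hf_zero_right hF, Matrix.one_mulVec]
  simp

/-- `w` is in the part of the Heisenberg group at `e` generated by transvections -/
def InW (q n : ℕ) (e w : Fin n → F) : Prop :=
  ∀ (A : Cfsg.SU n F q) (a : F), sm A = heis q n e w a → A ∈ tvGrp n F q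

theorem inW_of_one (hF : Fintype.card F = q ^ 2) {n : ℕ} {e w : Fin n → F}
    (hee : Cfsg.hermForm n F q e e = 0) (hwe : Cfsg.hermForm n F q w e = 0)
    (A₀ : Cfsg.SU n F q) (a₀ : F) (hA₀ : sm A₀ = heis q n e w a₀) (hmem : A₀ ∈ tvGrp n F q) :
    InW q n e w := by
  intro A a hA
  have h1 : sm (A * A₀⁻¹) = Cfsg.unitaryTransvection n q e (a - a₀) := by
    apply sm_cancel _ A₀
    rw [← sm_mul, inv_mul_cancel_right, hA, hA₀,
      transvection_mul_heis hF n e w a₀ (a - a₀) hee hwe]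
    have e1 : a₀ + (a - a₀) = a := by ring
    rw [e1]
  have h2 : A * A₀⁻¹ ∈ tvGrp n F q := tv_mem _ e _ hee h1
  have h3 : A = (A * A₀⁻¹) * A₀ := by group
  rw [h3]
  exact mul_mem h2 hmem

theorem inW_add (hF : Fintype.card F = q ^ 2) {n : ℕ} {e w w' : Fin n → F}
    (hee : Cfsg.hermForm n F q e e = 0) (hwe : Cfsg.hermForm n F q w e = 0)
    (hw'e : Cfsg.hermForm n F q w' e = 0) (h1 : InW q n e w) (h2 : InW q n e w') :
    InW q n e (w + w') := by
  obtain ⟨a₁, A₁, hA₁⟩ := exists_su_heis hF n e w hee hwe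
  obtain ⟨a₂, A₂, hA₂⟩ := exists_su_heis hF n e w' hee hw'e
  refine inW_of_one hF hee (by rw [hf_add_left, hwe, hw'e, add_zero]) (A₁ * A₂)
    (a₁ + a₂ - Cfsg.hermForm n F q w' w) ?_ (mul_mem (h1 A₁ a₁ hA₁) (h2 A₂ a₂ hA₂))
  rw [sm_mul, hA₁, hA₂, heis_mul hF n e w w' a₁ a₂ hee hwe hw'e]

theorem inW_smul_e {n : ℕ} (e : Fin n → F) (hee : Cfsg.hermForm n F q e e = 0) (b : F) :
    InW q n e (b • e) := by
  intro A a hA
  exact tv_mem A e _ hee (by rw [hA, heis_smul_e n e a b])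

theorem spanning_id (hF : Fintype.card F = q ^ 2) (n : ℕ) (e w : Fin n → F)
    (hee : Cfsg.hermForm n F q e e = 0) (hww : Cfsg.hermForm n F q w w = 0)
    (hwe : Cfsg.hermForm n F q w e = 0) (c s : F) (hc : c + c ^ q = 0) :
    Cfsg.unitaryTransvection n q (e + s • w) c * (Cfsg.unitaryTransvection n q e (-c) *
      Cfsg.unitaryTransvection n q w (-(c * s ^ (q + 1)))) = heis q n e ((c * s) • w) 0 := by
  have hew : Cfsg.hermForm n F q e w = 0 := hf_eq_zero_symm hF n _ _ hwe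
  have hcs : (c * s) ^ q = -(c * s ^ q) := by
    rw [mul_pow]
    linear_combination s ^ q * hc
  apply Matrix.mulVec_injective
  funext x
  rw [← Matrix.mulVec_mulVec, ← Matrix.mulVec_mulVec, heis_mulVec, unitaryTransvection_mulVec,
    unitaryTransvection_mulVec, unitaryTransvection_mulVec]
  simp only [hf_add_left, hf_add_right hF, hf_smul_left, hf_smul_right, hee, hww, hwe, hew,
    mul_zero, add_zero, zero_mul, hcs]
  module

theorem exists_trace_zero (hF : Fintype.card F = q ^ 2) : ∃ μ : F, μ ≠ 0 ∧ μ + μ ^ q = 0 := by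
  obtain ⟨θ, hθ⟩ := Cfsg.Agent.S0782.exists_not_fixed hF
  refine ⟨θ - θ ^ q, sub_ne_zero.mpr (Ne.symm hθ), ?_⟩
  rw [herm_sub_pow hF, herm_pow_pow hF]
  ring

/-- isotropic vectors orthogonal to `e` -/
theorem inW_iso (hF : Fintype.card F = q ^ 2) {n : ℕ} {e w : Fin n → F}
    (hee : Cfsg.hermForm n F q e e = 0) (hww : Cfsg.hermForm n F q w w = 0)
    (hwe : Cfsg.hermForm n F q w e = 0) : InW q n e w := by
  obtain ⟨μ, hμ0, hμ⟩ := exists_trace_zero hF
  have hew : Cfsg.hermForm n F q e w = 0 := hf_eq_zero_symm hF n _ _ hwe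
  have hiso : Cfsg.hermForm n F q (e + μ⁻¹ • w) (e + μ⁻¹ • w) = 0 := by
    simp only [hf_add_left, hf_add_right hF, hf_smul_left, hf_smul_right, hee, hww, hwe, hew]
    ring
  obtain ⟨A₁, hA₁, hm₁⟩ := exists_su_tv hF n (e + μ⁻¹ • w) μ hiso hμ
  obtain ⟨A₂, hA₂, hm₂⟩ := exists_su_tv hF n e (-μ) hee
    (by rw [herm_neg_pow hF]; linear_combination -hμ)
  obtain ⟨A₃, hA₃, hm₃⟩ := exists_su_tv hF n w (-(μ * μ⁻¹ ^ (q + 1))) hww
    (by rw [herm_neg_pow hF, mul_pow, herm_norm_fixed hF]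
        linear_combination (-(μ⁻¹ ^ (q + 1))) * hμ)
  refine inW_of_one hF hee hwe (A₁ * (A₂ * A₃)) 0 ?_ (mul_mem hm₁ (mul_mem hm₂ hm₃))
  rw [sm_mul, sm_mul, hA₁, hA₂, hA₃, spanning_id hF n e w hee hww hwe μ μ⁻¹ hμ,
    mul_inv_cancel₀ hμ0, one_smul]

/-- all vectors orthogonal to `e`, in dimension at least four -/
theorem inW_all_of_four (hF : Fintype.card F = q ^ 2) {n : ℕ} (hn : 4 ≤ n) {e w : Fin n → F}
    (he : e ≠ 0) (hee : Cfsg.hermForm n F q e e = 0) (hwe : Cfsg.hermForm n F q w e = 0) :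
    InW q n e w := by
  classical
  have hli : LinearIndependent F (fun _ : Fin 1 => e) := linearIndependent_unique_iff.mpr he
  obtain ⟨f, hxf, hff⟩ :=
    exists_herm_partner_family hF (fun _ : Fin 1 => e) hli (fun _ _ => hee)
  have hfr : IsHypFr q n 1 (fun _ : Fin 1 => e) f := ⟨fun _ _ => hee, hff, hxf⟩
  have hef : Cfsg.hermForm n F q e (f 0) = 1 := by
    have := hxf 0 0
    simpa using this
  obtain ⟨wU, hwU⟩ : ∃ wU : Fin n → F, wU = w - Cfsg.hermForm n F q w (f 0) • e := ⟨_, rfl⟩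
  have hwUe : Cfsg.hermForm n F q wU e = 0 := by
    rw [hwU, hf_sub_left, hf_smul_left, hwe, hee]; ring
  have hwUf : Cfsg.hermForm n F q wU (f 0) = 0 := by
    rw [hwU, hf_sub_left, hf_smul_left, hef]; ring
  have hw : w = wU + Cfsg.hermForm n F q w (f 0) • e := by rw [hwU]; abel
  rw [hw]
  refine inW_add hF hee hwUe (by rw [hf_smul_left, hee, mul_zero]) ?_ (inW_smul_e e hee _)
  by_cases hν : Cfsg.hermForm n F q wU wU = 0
  · exact inW_iso hF hee hν hwUe
  · obtain ⟨l, hl⟩ := exists_trace_one hF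
    obtain ⟨ω, hω0, hω⟩ := exists_omega hF
    have hc := isFr_hyp hF l ω hl hω hfr
    obtain ⟨t, ht0, ht⟩ := herm_norm_surj hF _ hν (hf_self_pow hF n wU)
    obtain ⟨w1, hw1⟩ : ∃ w1 : Fin n → F, w1 = t⁻¹ • wU := ⟨_, rfl⟩
    have hw1n : Cfsg.hermForm n F q w1 w1 = 1 := by
      rw [hw1, hf_smul_left, hf_smul_right, ← ht, inv_pow, pow_succ]
      field_simp
    have hw1c1 : Cfsg.hermForm n F q w1 (hypC1 l (fun _ : Fin 1 => e) f 0) = 0 := by
      rw [hw1]
      unfold hypC1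
      rw [hf_smul_left, hf_add_right hF, hf_smul_right, hwUe, hwUf]
      ring
    have hw1c2 : Cfsg.hermForm n F q w1 (hypC2 l ω (fun _ : Fin 1 => e) f 0) = 0 := by
      rw [hw1]
      unfold hypC2
      rw [hf_smul_left, hf_smul_right, hf_sub_right hF, hf_smul_right, hwUe, hwUf]
      ring
    have hc3 : IsFr q n (1 + 1 + 1) (Fin.cons w1
        (Fin.append (hypC1 l (fun _ : Fin 1 => e) f) (hypC2 l ω (fun _ : Fin 1 => e) f)) :
        Fin (1 + 1 + 1) → Fin n → F) := by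
      rw [isFr_cons hF]
      refine ⟨hc, fun i => ?_, hw1n⟩
      induction i using Fin.addCases with
      | left i =>
        rw [Fin.append_left]
        have hi : i = 0 := Subsingleton.elim _ _
        rw [hi]; exact hw1c1
      | right i =>
        rw [Fin.append_right]
        have hi : i = 0 := Subsingleton.elim _ _
        rw [hi]; exact hw1c2
    obtain ⟨w2, hw2, hw2n⟩ := exists_unit_perp hF (show 1 + 1 + 1 < n by omega) _ hc3
    have hw2w1 : Cfsg.hermForm n F q w2 w1 = 0 := by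
      have := hw2 0
      rwa [Fin.cons_zero] at this
    have hw2c1 : Cfsg.hermForm n F q w2 (hypC1 l (fun _ : Fin 1 => e) f 0) = 0 := by
      have := hw2 (Fin.succ (Fin.castAdd 1 0))
      rwa [Fin.cons_succ, Fin.append_left] at this
    have hw2c2 : Cfsg.hermForm n F q w2 (hypC2 l ω (fun _ : Fin 1 => e) f 0) = 0 := by
      have := hw2 (Fin.succ (Fin.natAdd 1 0))
      rwa [Fin.cons_succ, Fin.append_right] at this
    have hw2e : Cfsg.hermForm n F q w2 e = 0 := by
      have h1 : e = hypC1 l (fun _ : Fin 1 => e) f 0 + ω • hypC2 l ω (fun _ : Fin 1 => e) f 0 :=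
        hyp_x l ω hω0 (fun _ : Fin 1 => e) f 0
      rw [h1, hf_add_right hF, hf_smul_right, hw2c1, hw2c2]
      ring
    have hwUt : wU = t • w1 := by
      rw [hw1, smul_smul, mul_inv_cancel₀ ht0, one_smul]
    have hw2wU : Cfsg.hermForm n F q w2 wU = 0 := by
      rw [hwUt, hf_smul_right, hw2w1, mul_zero]
    have hwUw2 : Cfsg.hermForm n F q wU w2 = 0 := hf_eq_zero_symm hF n _ _ hw2wU
    obtain ⟨ζ, hζ, hζ1⟩ := exists_norm_one_sq_ne hF
    have hζne : ζ ≠ 1 := by
      rintro rfl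
      exact hζ1 (mul_one 1)
    obtain ⟨s₁, hs₁0, hs₁⟩ := herm_norm_surj hF (-Cfsg.hermForm n F q wU wU)
      (neg_ne_zero.mpr hν) (by rw [herm_neg_pow hF, hf_self_pow hF])
    obtain ⟨s₂, hs₂⟩ : ∃ s₂ : F, s₂ = ζ * s₁ := ⟨_, rfl⟩
    have hs₂n : s₂ ^ (q + 1) = -Cfsg.hermForm n F q wU wU := by
      rw [hs₂, mul_pow, hζ, one_mul, hs₁]
    have hd : s₂ - s₁ ≠ 0 := by
      rw [hs₂]
      have : ζ * s₁ - s₁ = (ζ - 1) * s₁ := by ring
      rw [this]
      exact mul_ne_zero (sub_ne_zero.mpr hζne) hs₁0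
    have hxiso : ∀ s : F, s ^ (q + 1) = -Cfsg.hermForm n F q wU wU →
        Cfsg.hermForm n F q (wU + s • w2) (wU + s • w2) = 0 := by
      intro s hs
      simp only [hf_add_left, hf_add_right hF, hf_smul_left, hf_smul_right, hw2wU, hwUw2, hw2n,
        mul_zero, add_zero, zero_add, mul_one]
      linear_combination hs
    have hxe : ∀ s : F, Cfsg.hermForm n F q (wU + s • w2) e = 0 := by
      intro s
      rw [hf_add_left, hf_smul_left, hwUe, hw2e]
      ring
    obtain ⟨α, hα⟩ : ∃ α : F, α = s₂ * (s₂ - s₁)⁻¹ := ⟨_, rfl⟩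
    obtain ⟨β, hβ⟩ : ∃ β : F, β = -(s₁ * (s₂ - s₁)⁻¹) := ⟨_, rfl⟩
    have e1 : α + β = 1 := by
      rw [hα, hβ]
      field_simp
      ring
    have e2 : α * s₁ + β * s₂ = 0 := by
      rw [hα, hβ]
      ring
    have hdec : wU = α • (wU + s₁ • w2) + β • (wU + s₂ • w2) := by
      calc wU = (α + β) • wU + (α * s₁ + β * s₂) • w2 := by rw [e1, e2]; simp
        _ = α • (wU + s₁ • w2) + β • (wU + s₂ • w2) := by module
    have hsm : ∀ (γ s : F), s ^ (q + 1) = -Cfsg.hermForm n F q wU wU →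
        InW q n e (γ • (wU + s • w2)) := by
      intro γ s hs
      apply inW_iso hF hee
      · rw [hf_smul_left, hf_smul_right, hxiso s hs]; ring
      · rw [hf_smul_left, hxe]; ring
    rw [hdec]
    exact inW_add hF hee (by rw [hf_smul_left, hxe]; ring) (by rw [hf_smul_left, hxe]; ring)
      (hsm α s₁ hs₁) (hsm β s₂ hs₂n)

/-! ### The torus trick for `q ≥ 3` -/

theorem exists_fixed_ne (hF : Fintype.card F = q ^ 2) (hq : 3 ≤ q) :
    ∃ s : F, s ^ q = s ∧ s ≠ 0 ∧ s ≠ 1 := by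
  classical
  have hex : ∃ t : F, t ≠ 0 ∧ t ^ (q + 1) ≠ 1 := by
    by_contra hcon
    push Not at hcon
    have hsub : (Finset.univ.erase (0 : F)) ⊆ Finset.univ.filter (fun x : F => x ^ (q + 1) = 1) := by
      intro x hx
      rw [Finset.mem_erase] at hx
      rw [Finset.mem_filter]
      exact ⟨Finset.mem_univ _, hcon x hx.1⟩
    have h1 := Finset.card_le_card hsub
    rw [herm_card_norm_one hF, Finset.card_erase_of_mem (Finset.mem_univ _), Finset.card_univ,
      hF] at h1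
    have h2 : q ^ 2 ≥ 3 * q := by nlinarith
    omega
  obtain ⟨t, ht0, ht1⟩ := hex
  exact ⟨t ^ (q + 1), herm_norm_fixed hF t, pow_ne_zero _ ht0, ht1⟩

theorem ut_e_step (n : ℕ) (e f x : Fin n → F) (hee : Cfsg.hermForm n F q e e = 0)
    (hfe : Cfsg.hermForm n F q f e = 1) (c α β : F) :
    Cfsg.unitaryTransvection n q e c *ᵥ (x + α • e + β • f) =
      x + (α + c * (Cfsg.hermForm n F q x e + β)) • e + β • f := by
  rw [unitaryTransvection_mulVec]
  simp only [hf_add_left, hf_smul_left, hee, hfe, mul_zero, add_zero, mul_one]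
  module

theorem ut_f_step (n : ℕ) (e f x : Fin n → F) (hff : Cfsg.hermForm n F q f f = 0)
    (hef : Cfsg.hermForm n F q e f = 1) (c α β : F) :
    Cfsg.unitaryTransvection n q f c *ᵥ (x + α • e + β • f) =
      x + α • e + (β + c * (Cfsg.hermForm n F q x f + α)) • f := by
  rw [unitaryTransvection_mulVec]
  simp only [hf_add_left, hf_smul_left, hff, hef, mul_zero, add_zero, mul_one]
  module

/-- the torus element `e ↦ s e`, `f ↦ s⁻¹ f` as a product of six transvections -/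
theorem torus_id (hF : Fintype.card F = q ^ 2) (n : ℕ) (e f : Fin n → F)
    (hee : Cfsg.hermForm n F q e e = 0) (hff : Cfsg.hermForm n F q f f = 0)
    (hef : Cfsg.hermForm n F q e f = 1) (μ s : F) (hμ0 : μ ≠ 0) (hs0 : s ≠ 0) :
    Cfsg.unitaryTransvection n q e (μ * s) * (Cfsg.unitaryTransvection n q f (-(μ * s)⁻¹) *
      (Cfsg.unitaryTransvection n q e (μ * s) * (Cfsg.unitaryTransvection n q e (-μ) *
      (Cfsg.unitaryTransvection n q f μ⁻¹ * Cfsg.unitaryTransvection n q e (-μ))))) =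
      Cfsg.Agent.S0782.hdiag q n e f s s⁻¹ := by
  have hfe : Cfsg.hermForm n F q f e = 1 := by rw [hf_conj hF n e f, hef, one_pow]
  apply Matrix.mulVec_injective
  funext x
  have key : ∀ a a' b b' : F, a = a' → b = b' →
      x + a • e + b • f = x + a' • e + b' • f := by
    rintro _ _ _ _ rfl rfl; rfl
  have h0 : x = x + (0 : F) • e + (0 : F) • f := by simp
  calc (Cfsg.unitaryTransvection n q e (μ * s) * (Cfsg.unitaryTransvection n q f (-(μ * s)⁻¹) *
      (Cfsg.unitaryTransvection n q e (μ * s) * (Cfsg.unitaryTransvection n q e (-μ) *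
      (Cfsg.unitaryTransvection n q f μ⁻¹ * Cfsg.unitaryTransvection n q e (-μ)))))) *ᵥ x
      = (Cfsg.unitaryTransvection n q e (μ * s) * (Cfsg.unitaryTransvection n q f (-(μ * s)⁻¹) *
      (Cfsg.unitaryTransvection n q e (μ * s) * (Cfsg.unitaryTransvection n q e (-μ) *
      (Cfsg.unitaryTransvection n q f μ⁻¹ * Cfsg.unitaryTransvection n q e (-μ)))))) *ᵥ
        (x + (0 : F) • e + (0 : F) • f) := by rw [← h0]
    _ = Cfsg.Agent.S0782.hdiag q n e f s s⁻¹ *ᵥ x := by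
      rw [← Matrix.mulVec_mulVec, ← Matrix.mulVec_mulVec, ← Matrix.mulVec_mulVec,
        ← Matrix.mulVec_mulVec, ← Matrix.mulVec_mulVec,
        ut_e_step n e f x hee hfe, ut_f_step n e f x hff hef, ut_e_step n e f x hee hfe,
        ut_e_step n e f x hee hfe, ut_f_step n e f x hff hef, ut_e_step n e f x hee hfe,
        Cfsg.Agent.S0782.hdiag_mulVec]
      apply key
      · field_simp
        ring
      · field_simp
        ring

theorem hdiag_mul_heis (hF : Fintype.card F = q ^ 2) (n : ℕ) (e f w : Fin n → F) (a s : F)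
    (hee : Cfsg.hermForm n F q e e = 0) (hff : Cfsg.hermForm n F q f f = 0)
    (hef : Cfsg.hermForm n F q e f = 1) (hwe : Cfsg.hermForm n F q w e = 0)
    (hwf : Cfsg.hermForm n F q w f = 0) (hs : s ^ q = s) (hs0 : s ≠ 0) :
    Cfsg.Agent.S0782.hdiag q n e f s s⁻¹ * heis q n e w a =
      heis q n e (s • w) (a * s ^ 2) * Cfsg.Agent.S0782.hdiag q n e f s s⁻¹ := by
  have hfe : Cfsg.hermForm n F q f e = 1 := by rw [hf_conj hF n e f, hef, one_pow]
  have hew : Cfsg.hermForm n F q e w = 0 := hf_eq_zero_symm hF n _ _ hwe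
  have hfw : Cfsg.hermForm n F q f w = 0 := hf_eq_zero_symm hF n _ _ hwf
  apply Matrix.mulVec_injective
  funext x
  rw [← Matrix.mulVec_mulVec, ← Matrix.mulVec_mulVec, heis_mulVec, Cfsg.Agent.S0782.hdiag_mulVec,
    Cfsg.Agent.S0782.hdiag_mulVec, heis_mulVec]
  simp only [hf_add_left, hf_smul_left, hf_smul_right, hee, hef, hfe, hwe, hwf, hew, hfw,
    mul_zero, add_zero, mul_one, hs]
  ext i
  simp only [Pi.add_apply, Pi.smul_apply, smul_eq_mul]
  field_simp
  ring

/-- vectors orthogonal to a hyperbolic pair `e, f`, for `q ≥ 3` -/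
theorem inW_torus (hF : Fintype.card F = q ^ 2) {n : ℕ} (hq : 3 ≤ q) {e f w : Fin n → F}
    (hee : Cfsg.hermForm n F q e e = 0) (hff : Cfsg.hermForm n F q f f = 0)
    (hef : Cfsg.hermForm n F q e f = 1) (hwe : Cfsg.hermForm n F q w e = 0)
    (hwf : Cfsg.hermForm n F q w f = 0) : InW q n e w := by
  obtain ⟨s, hs, hs0, hs1⟩ := exists_fixed_ne hF hq
  obtain ⟨μ, hμ0, hμ⟩ := exists_trace_zero hF
  have hμq : μ ^ q = -μ := by linear_combination hμ
  obtain ⟨X1, hX1, hm1⟩ := exists_su_tv hF n e (μ * s) hee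
    (by rw [mul_pow, hs, hμq]; ring)
  obtain ⟨Y1, hY1, hmY1⟩ := exists_su_tv hF n f (-(μ * s)⁻¹) hff
    (by rw [herm_neg_pow hF, inv_pow, mul_pow, hs, hμq]
        field_simp
        ring)
  obtain ⟨X2, hX2, hm2⟩ := exists_su_tv hF n e (-μ) hee
    (by rw [herm_neg_pow hF, hμq]; ring)
  obtain ⟨Y2, hY2, hmY2⟩ := exists_su_tv hF n f μ⁻¹ hff
    (by rw [inv_pow, hμq]
        field_simp
        ring)
  obtain ⟨D, hD⟩ : ∃ D : Cfsg.SU n F q, D = X1 * (Y1 * (X1 * (X2 * (Y2 * X2)))) := ⟨_, rfl⟩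
  have hDm : D ∈ tvGrp n F q := by
    rw [hD]
    exact mul_mem hm1 (mul_mem hmY1 (mul_mem hm1 (mul_mem hm2 (mul_mem hmY2 hm2))))
  have hDs : sm D = Cfsg.Agent.S0782.hdiag q n e f s s⁻¹ := by
    rw [hD]
    simp only [sm_mul]
    rw [hX1, hY1, hX2, hY2, torus_id hF n e f hee hff hef μ s hμ0 hs0]
  have hs1' : s - 1 ≠ 0 := sub_ne_zero.mpr hs1
  obtain ⟨w₀, hw₀⟩ : ∃ w₀ : Fin n → F, w₀ = (s - 1)⁻¹ • w := ⟨_, rfl⟩
  have hw₀e : Cfsg.hermForm n F q w₀ e = 0 := by rw [hw₀, hf_smul_left, hwe, mul_zero]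
  have hw₀f : Cfsg.hermForm n F q w₀ f = 0 := by rw [hw₀, hf_smul_left, hwf, mul_zero]
  have hww₀ : w = (s - 1) • w₀ := by
    rw [hw₀, smul_smul, mul_inv_cancel₀ hs1', one_smul]
  obtain ⟨a₀, H, hH⟩ := exists_su_heis hF n e w₀ hee hw₀e
  have hK : D * (H * D⁻¹ * H⁻¹) ∈ tvGrp n F q :=
    mul_mem hDm ((tvGrp_normal hF n).conj_mem _ (inv_mem hDm) H)
  have hH' : sm (D * H * D⁻¹) = heis q n e (s • w₀) (a₀ * s ^ 2) := by
    apply sm_cancel _ D
    rw [← sm_mul, inv_mul_cancel_right, sm_mul, hDs, hH,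
      hdiag_mul_heis hF n e f w₀ a₀ s hee hff hef hw₀e hw₀f hs hs0]
  have hKm : sm (D * (H * D⁻¹ * H⁻¹)) =
      heis q n e w (a₀ * s ^ 2 - a₀ + Cfsg.hermForm n F q w₀ w) := by
    apply sm_cancel _ H
    have e1 : D * (H * D⁻¹ * H⁻¹) * H = D * H * D⁻¹ := by group
    rw [← sm_mul, e1, hH', hH, heis_mul hF n e w w₀ _ a₀ hee hwe hw₀e]
    have e2 : s • w₀ = w + w₀ := by
      rw [hww₀]
      module
    have e3 : a₀ * s ^ 2 = a₀ * s ^ 2 - a₀ + Cfsg.hermForm n F q w₀ w + a₀ -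
        Cfsg.hermForm n F q w₀ w := by ring
    rw [e2, ← e3]
  exact inW_of_one hF hee hwe _ _ hKm hK

theorem inW_all_of_three (hF : Fintype.card F = q ^ 2) {n : ℕ} (hq : 3 ≤ q) {e w : Fin n → F}
    (he : e ≠ 0) (hee : Cfsg.hermForm n F q e e = 0) (hwe : Cfsg.hermForm n F q w e = 0) :
    InW q n e w := by
  classical
  have hli : LinearIndependent F (fun _ : Fin 1 => e) := linearIndependent_unique_iff.mpr he
  obtain ⟨f, hxf, hff⟩ :=
    exists_herm_partner_family hF (fun _ : Fin 1 => e) hli (fun _ _ => hee)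
  have hef : Cfsg.hermForm n F q e (f 0) = 1 := by
    have := hxf 0 0
    simpa using this
  obtain ⟨wU, hwU⟩ : ∃ wU : Fin n → F, wU = w - Cfsg.hermForm n F q w (f 0) • e := ⟨_, rfl⟩
  have hwUe : Cfsg.hermForm n F q wU e = 0 := by
    rw [hwU, hf_sub_left, hf_smul_left, hwe, hee]; ring
  have hwUf : Cfsg.hermForm n F q wU (f 0) = 0 := by
    rw [hwU, hf_sub_left, hf_smul_left, hef]; ring
  have hw : w = wU + Cfsg.hermForm n F q w (f 0) • e := by rw [hwU]; abel
  rw [hw]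
  exact inW_add hF hee hwUe (by rw [hf_smul_left, hee, mul_zero])
    (inW_torus hF hq hee (hff 0 0) hef hwUe hwUf) (inW_smul_e e hee _)

/-- **Heisenberg elements are products of transvections**, for `n ≥ 4` or `q ≥ 3`. -/
theorem heis_mem_tvGrp (hF : Fintype.card F = q ^ 2) {n : ℕ} (h32 : 4 ≤ n ∨ 3 ≤ q)
    (A : Cfsg.SU n F q) (e w : Fin n → F) (a : F) (hee : Cfsg.hermForm n F q e e = 0)
    (hwe : Cfsg.hermForm n F q w e = 0) (hA : sm A = heis q n e w a) : A ∈ tvGrp n F q := by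
  by_cases he : e = 0
  · have h1 : A = 1 := by
      apply sm_ext
      rw [hA, he, heis_zero_e hF]
      rfl
    rw [h1]
    exact one_mem _
  · rcases h32 with h4 | h3
    · exact inW_all_of_four hF h4 he hee hwe A a hA
    · exact inW_all_of_three hF h3 he hee hwe A a hA

end

end Cfsg.Agent.Lib.Helper18
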