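import Mathlib
import Cfsg.Prelude.Def_Classical
import Cfsg.Prelude.Def_ClassicalGeometry
import Cfsg.Prelude.Def_LieClassical
import Cfsg.Agent.Lib.Helper18.UnitaryGenB
import Cfsg.Agent.S0781

/-!
# Simplicity of `PSU_n(q)` from generation by transvections (helper18)

`psu_simple_of_gen`: for `n ≥ 3`, `(n,q) ≠ (3,2)`, if the unitary transvections generate
`SU_n(q)` (`tvGrp n F q = ⊤`, statement S0780) then `PSU_n(q)` is simple.  Iwasawa's criterion
for the action on isotropic points.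
-/

set_option autoImplicit false
set_option linter.unusedSectionVars false
set_option linter.unusedVariables false

namespace Cfsg.Agent.Lib.Helper18

open Matrix Cfsg.Agent.Lib.Helper7
open scoped LinearAlgebra.Projectivization Pointwise

section
variable {F : Type*} [Field F] [Fintype F] {q : ℕ}

theorem exists_partner (hF : Fintype.card F = q ^ 2) {n : ℕ} (u : Fin n → F) (hu : u ≠ 0)
    (huu : Cfsg.hermForm n F q u u = 0) :
    ∃ f : Fin n → F, Cfsg.hermForm n F q f f = 0 ∧ Cfsg.hermForm n F q u f = 1 := by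
  classical
  obtain ⟨f, hxf, hff⟩ := exists_herm_partner_family hF (fun _ : Fin 1 => u)
    (linearIndependent_unique_iff.mpr hu) (fun _ _ => huu)
  exact ⟨f 0, hff 0 0, by simpa using hxf 0 0⟩

/-- an isotropic vector not orthogonal to two given orthogonal isotropic vectors -/
theorem exists_iso_both (hF : Fintype.card F = q ^ 2) {n : ℕ} (u w : Fin n → F) (hu : u ≠ 0)
    (hw : w ≠ 0) (huu : Cfsg.hermForm n F q u u = 0) (hww : Cfsg.hermForm n F q w w = 0)
    (huw : Cfsg.hermForm n F q u w = 0) :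
    ∃ x : Fin n → F, Cfsg.hermForm n F q x x = 0 ∧ Cfsg.hermForm n F q u x ≠ 0 ∧
      Cfsg.hermForm n F q x w ≠ 0 := by
  obtain ⟨f, hff, huf⟩ := exists_partner hF u hu huu
  by_cases h1 : Cfsg.hermForm n F q f w = 0
  · obtain ⟨g, hgg, hwg⟩ := exists_partner hF w hw hww
    obtain ⟨l, hl⟩ := exists_trace_one hF
    have hwu : Cfsg.hermForm n F q w u = 0 := hf_eq_zero_symm hF n _ _ huw
    have hfu : Cfsg.hermForm n F q f u = 1 := by rw [hf_conj hF n u f, huf, one_pow]
    have hgw : Cfsg.hermForm n F q g w = 1 := by rw [hf_conj hF n w g, hwg, one_pow]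
    obtain ⟨z₀, hz₀⟩ : ∃ z₀ : Fin n → F, z₀ = f + (g - Cfsg.hermForm n F q g u • f) := ⟨_, rfl⟩
    have hz₀u : Cfsg.hermForm n F q z₀ u = 1 := by
      rw [hz₀]
      simp only [hf_add_left, hf_sub_left, hf_smul_left, hfu]
      ring
    have huz₀ : Cfsg.hermForm n F q u z₀ = 1 := by rw [hf_conj hF n z₀ u, hz₀u, one_pow]
    have hz₀w : Cfsg.hermForm n F q z₀ w = 1 := by
      rw [hz₀]
      simp only [hf_add_left, hf_sub_left, hf_smul_left, h1, hgw]
      ring
    obtain ⟨s, hs⟩ : ∃ s : F, s = -(l * Cfsg.hermForm n F q z₀ z₀) := ⟨_, rfl⟩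
    refine ⟨z₀ + s • u, ?_, ?_, ?_⟩
    · simp only [hf_add_left, hf_add_right hF, hf_smul_left, hf_smul_right, huu, hz₀u, huz₀]
      rw [hs, herm_neg_pow hF, mul_pow, hf_self_pow hF]
      linear_combination (-Cfsg.hermForm n F q z₀ z₀) * hl
    · rw [hf_add_right hF, hf_smul_right, huu, huz₀]
      simp
    · rw [hf_add_left, hf_smul_left, huw, hz₀w]
      simp
  · exact ⟨f, hff, by rw [huf]; exact one_ne_zero, h1⟩

/-- an element of `SU` fixing `u` and mapping one hyperbolic partner of `u` to another -/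
theorem exists_su_fix_map (hF : Fintype.card F = q ^ 2) {n : ℕ} (u v w : Fin n → F)
    (huu : Cfsg.hermForm n F q u u = 0) (hvv : Cfsg.hermForm n F q v v = 0)
    (hww : Cfsg.hermForm n F q w w = 0) (huv : Cfsg.hermForm n F q u v = 1)
    (huw : Cfsg.hermForm n F q u w = 1) :
    ∃ g : Cfsg.SU n F q, sm g *ᵥ u = u ∧ sm g *ᵥ v = w := by
  have hvu : Cfsg.hermForm n F q v u = 1 := by rw [hf_conj hF n u v, huv, one_pow]
  have hwu : Cfsg.hermForm n F q w u = 1 := by rw [hf_conj hF n u w, huw, one_pow]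
  have hwe : Cfsg.hermForm n F q (w - v) u = 0 := by rw [hf_sub_left, hwu, hvu, sub_self]
  have ha : Cfsg.hermForm n F q v w + Cfsg.hermForm n F q v w ^ q +
      Cfsg.hermForm n F q (w - v) (w - v) = 0 := by
    rw [← hf_conj hF n v w]
    simp only [hf_sub_left, hf_sub_right hF, hvv, hww]
    ring
  obtain ⟨g, hg⟩ := exists_su hF (heis q n u (w - v) (Cfsg.hermForm n F q v w))
    (heis_det hF n u (w - v) _ huu hwe) (heis_preserves hF n u (w - v) _ huu hwe ha)
  refine ⟨g, ?_, ?_⟩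
  · rw [hg, heis_mulVec]
    simp only [hf_sub_right hF, huu, huv, huw, mul_zero, sub_self, zero_smul, add_zero]
  · rw [hg, heis_mulVec]
    simp only [hf_sub_right hF, hvu, hvv, mul_one, one_smul, sub_zero, sub_self, zero_smul,
      add_zero]
    abel

theorem su_smul_vec {n : ℕ} (g : Cfsg.SU n F q) (v : Fin n → F) : g • v = sm g *ᵥ v := rfl

theorem iso_smul {n : ℕ} (a : F) (v : Fin n → F) (hvv : Cfsg.hermForm n F q v v = 0) :
    Cfsg.hermForm n F q (a • v) (a • v) = 0 := by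
  rw [hf_smul_left, hf_smul_right, hvv, mul_zero, mul_zero]

theorem rep_smul {n : ℕ} (g : Cfsg.SU n F q) (p : ℙ F (Fin n → F)) :
    ∃ a : F, a ≠ 0 ∧ (g • p).rep = a • (sm g *ᵥ p.rep) := by
  have h1 : g • p = Projectivization.mk F (g • p.rep)
      ((smul_ne_zero_iff_ne g).mpr p.rep_nonzero) := by
    conv_lhs => rw [← Projectivization.mk_rep p]
    rfl
  obtain ⟨a, ha⟩ := Projectivization.exists_smul_eq_mk_rep F (g • p.rep)
    ((smul_ne_zero_iff_ne g).mpr p.rep_nonzero)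
  refine ⟨(a : F), a.ne_zero, ?_⟩
  rw [h1, ← ha]
  rfl

theorem rep_mk {n : ℕ} (v : Fin n → F) (hv : v ≠ 0) :
    ∃ a : F, a ≠ 0 ∧ (Projectivization.mk F v hv).rep = a • v := by
  obtain ⟨a, ha⟩ := Projectivization.exists_smul_eq_mk_rep F v hv
  exact ⟨(a : F), a.ne_zero, by rw [← ha]; rfl⟩

/-- the isotropic points, as an invariant subset of projective space -/
def isoPts (n : ℕ) (F : Type*) [Field F] [Fintype F] (q : ℕ) :
    SubMulAction (Cfsg.SU n F q) (ℙ F (Fin n → F)) where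
  carrier := {p | Cfsg.hermForm n F q p.rep p.rep = 0}
  smul_mem' := by
    intro g p hp
    obtain ⟨a, ha, hrep⟩ := rep_smul g p
    show Cfsg.hermForm n F q (g • p).rep (g • p).rep = 0
    rw [hrep]
    apply iso_smul
    rw [sm_pres]
    exact hp

theorem mem_isoPts {n : ℕ} (p : ℙ F (Fin n → F)) :
    p ∈ isoPts n F q ↔ Cfsg.hermForm n F q p.rep p.rep = 0 := Iff.rfl

theorem mk_mem_isoPts {n : ℕ} (v : Fin n → F) (hv : v ≠ 0) :
    Projectivization.mk F v hv ∈ isoPts n F q ↔ Cfsg.hermForm n F q v v = 0 := by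
  obtain ⟨a, ha, hrep⟩ := rep_mk v hv
  rw [mem_isoPts, hrep, hf_smul_left, hf_smul_right]
  constructor
  · intro h
    have h1 : a * a ^ q ≠ 0 := mul_ne_zero ha (pow_ne_zero _ ha)
    have h2 : (a * a ^ q) * Cfsg.hermForm n F q v v = 0 := by linear_combination h
    exact (mul_eq_zero.mp h2).resolve_left h1
  · intro h
    rw [h, mul_zero, mul_zero]

/-- the isotropic point of an isotropic vector -/
def pt {n : ℕ} (v : Fin n → F) (hv : v ≠ 0) (hvv : Cfsg.hermForm n F q v v = 0) :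
    isoPts n F q :=
  ⟨Projectivization.mk F v hv, (mk_mem_isoPts v hv).mpr hvv⟩

theorem smul_pt {n : ℕ} (g : Cfsg.SU n F q) (v : Fin n → F) (hv : v ≠ 0)
    (hvv : Cfsg.hermForm n F q v v = 0) (hv' : sm g *ᵥ v ≠ 0)
    (hvv' : Cfsg.hermForm n F q (sm g *ᵥ v) (sm g *ᵥ v) = 0) :
    g • pt v hv hvv = pt (sm g *ᵥ v) hv' hvv' :=
  Subtype.ext rfl

theorem pt_smul {n : ℕ} (a : F) (ha : a ≠ 0) (v : Fin n → F) (hv : v ≠ 0)
    (hvv : Cfsg.hermForm n F q v v = 0) (hv' : a • v ≠ 0)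
    (hvv' : Cfsg.hermForm n F q (a • v) (a • v) = 0) :
    pt (a • v) hv' hvv' = pt v hv hvv := by
  apply Subtype.ext
  show Projectivization.mk F (a • v) hv' = Projectivization.mk F v hv
  rw [Projectivization.mk_eq_mk_iff']
  exact ⟨a, rfl⟩

theorem iso_rep {n : ℕ} (P : isoPts n F q) :
    Cfsg.hermForm n F q P.1.rep P.1.rep = 0 := P.2

theorem pt_rep {n : ℕ} (P : isoPts n F q) : pt P.1.rep P.1.rep_nonzero (iso_rep P) = P :=
  Subtype.ext (Projectivization.mk_rep P.1)

theorem su_mulVec_ne_zero {n : ℕ} (g : Cfsg.SU n F q) (v : Fin n → F) (hv : v ≠ 0) :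
    sm g *ᵥ v ≠ 0 := (smul_ne_zero_iff_ne g).mpr hv

theorem isoPts_pretransitive (hF : Fintype.card F = q ^ 2) {n : ℕ} (hn : 3 ≤ n) :
    MulAction.IsPretransitive (Cfsg.SU n F q) (isoPts n F q) := by
  constructor
  intro P Q
  obtain ⟨g, hg⟩ := exists_SU_map_iso hF hn P.1.rep Q.1.rep P.1.rep_nonzero Q.1.rep_nonzero
    (iso_rep P) (iso_rep Q)
  refine ⟨g, ?_⟩
  rw [← pt_rep P, ← pt_rep Q]
  rw [smul_pt g _ _ _ (su_mulVec_ne_zero g _ P.1.rep_nonzero)
    (by rw [sm_pres]; exact iso_rep P)]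
  apply Subtype.ext
  show Projectivization.mk F _ _ = Projectivization.mk F _ _
  rw [Projectivization.mk_eq_mk_iff']
  exact ⟨1, by rw [one_smul]; exact hg.symm⟩

theorem scale_partner (hF : Fintype.card F = q ^ 2) {n : ℕ} (u v : Fin n → F)
    (huv : Cfsg.hermForm n F q u v ≠ 0) :
    ∃ a : F, a ≠ 0 ∧ Cfsg.hermForm n F q u (a • v) = 1 := by
  refine ⟨((Cfsg.hermForm n F q u v)⁻¹) ^ q, pow_ne_zero _ (inv_ne_zero huv), ?_⟩
  rw [hf_smul_right, herm_pow_pow hF, inv_mul_cancel₀ huv]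

theorem block_univ (hF : Fintype.card F = q ^ 2) {n : ℕ} (hn : 3 ≤ n)
    (B : Set (isoPts n F q)) (hB : MulAction.IsBlock (Cfsg.SU n F q) B)
    (hns : ¬ B.Subsingleton) : B = Set.univ := by
  classical
  obtain ⟨S, hS⟩ : ∃ S : Set (Fin n → F), ∀ v, v ∈ S ↔
      ∃ (hv : v ≠ 0) (hvv : Cfsg.hermForm n F q v v = 0), pt v hv hvv ∈ B :=
    ⟨{v | ∃ (hv : v ≠ 0) (hvv : Cfsg.hermForm n F q v v = 0), pt v hv hvv ∈ B},
      fun v => Iff.rfl⟩
  have S1 : ∀ v ∈ S, ∀ a : F, a ≠ 0 → a • v ∈ S := by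
    intro v hvS a ha
    obtain ⟨hv, hvv, hvB⟩ := (hS v).1 hvS
    refine (hS _).2 ⟨smul_ne_zero ha hv, iso_smul a v hvv, ?_⟩
    rw [pt_smul a ha v hv hvv]
    exact hvB
  have S2 : ∀ (g : Cfsg.SU n F q) (u : Fin n → F), u ∈ S → sm g *ᵥ u = u →
      ∀ v ∈ S, sm g *ᵥ v ∈ S := by
    intro g u huS hgu v hvS
    obtain ⟨hu, huu, huB⟩ := (hS u).1 huS
    obtain ⟨hv, hvv, hvB⟩ := (hS v).1 hvS
    have h1 : g • pt u hu huu ∈ B := by
      rw [smul_pt g u hu huu (by rw [hgu]; exact hu) (by rw [hgu]; exact huu)]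
      have : pt (sm g *ᵥ u) (by rw [hgu]; exact hu) (by rw [hgu]; exact huu) = pt u hu huu := by
        apply Subtype.ext
        show Projectivization.mk F _ _ = Projectivization.mk F _ _
        rw [Projectivization.mk_eq_mk_iff']
        exact ⟨1, by rw [one_smul]; exact hgu.symm⟩
      rw [this]
      exact huB
    have h2 : g • B = B := hB.smul_eq_of_mem huB h1
    have hv' := su_mulVec_ne_zero g v hv
    have hvv' : Cfsg.hermForm n F q (sm g *ᵥ v) (sm g *ᵥ v) = 0 := by rw [sm_pres]; exact hvv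
    refine (hS _).2 ⟨hv', hvv', ?_⟩
    have h3 : g • pt v hv hvv ∈ g • B := Set.smul_mem_smul_set hvB
    rw [h2, smul_pt g v hv hvv hv' hvv'] at h3
    exact h3
  have N1 : ∀ u ∈ S, ∀ v ∈ S, Cfsg.hermForm n F q u v ≠ 0 → ∀ w : Fin n → F,
      Cfsg.hermForm n F q w w = 0 → Cfsg.hermForm n F q u w ≠ 0 → w ∈ S := by
    intro u hu v hv huv w hww huw
    obtain ⟨hu0, huu, -⟩ := (hS u).1 hu
    obtain ⟨hv0, hvv, -⟩ := (hS v).1 hv
    obtain ⟨a, ha, hav⟩ := scale_partner hF u v huv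
    obtain ⟨b, hb, hbw⟩ := scale_partner hF u w huw
    obtain ⟨g, hgu, hgv⟩ := exists_su_fix_map hF u (a • v) (b • w) huu (iso_smul a v hvv)
      (iso_smul b w hww) hav hbw
    have h1 := S2 g u hu hgu (a • v) (S1 v hv a ha)
    rw [hgv] at h1
    have h2 := S1 _ h1 b⁻¹ (inv_ne_zero hb)
    rwa [smul_smul, inv_mul_cancel₀ hb, one_smul] at h2
  have N2 : ∀ u ∈ S, ∀ v ∈ S, Cfsg.hermForm n F q u v ≠ 0 → ∀ w : Fin n → F, w ≠ 0 →
      Cfsg.hermForm n F q w w = 0 → w ∈ S := by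
    intro u hu v hv huv w hw hww
    obtain ⟨hu0, huu, -⟩ := (hS u).1 hu
    by_cases huw : Cfsg.hermForm n F q u w = 0
    · obtain ⟨x, hxx, hux, hxw⟩ := exists_iso_both hF u w hu0 hw huu hww huw
      have hxS := N1 u hu v hv huv x hxx hux
      have hxu : Cfsg.hermForm n F q x u ≠ 0 := fun h0 => hux (hf_eq_zero_symm hF n _ _ h0)
      exact N1 x hxS u hu hxu w hww hxw
    · exact N1 u hu v hv huv w hww huw
  rw [Set.not_subsingleton_iff] at hns
  obtain ⟨P, hP, Q, hQ, hPQ⟩ := hns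
  have hPS : P.1.rep ∈ S := (hS _).2 ⟨P.1.rep_nonzero, iso_rep P, by rw [pt_rep]; exact hP⟩
  have hQS : Q.1.rep ∈ S := (hS _).2 ⟨Q.1.rep_nonzero, iso_rep Q, by rw [pt_rep]; exact hQ⟩
  have hall : ∀ w : Fin n → F, w ≠ 0 → Cfsg.hermForm n F q w w = 0 → w ∈ S := by
    by_cases h0 : Cfsg.hermForm n F q P.1.rep Q.1.rep = 0
    · have hli : LinearIndependent F ![P.1.rep, Q.1.rep] := by
        rw [LinearIndependent.pair_iff' P.1.rep_nonzero]
        intro a ha
        apply hPQ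
        apply Subtype.ext
        rw [← Projectivization.mk_rep P.1, ← Projectivization.mk_rep Q.1,
          Projectivization.mk_eq_mk_iff']
        exact ⟨a⁻¹, by
          have ha0 : a ≠ 0 := by
            rintro rfl
            rw [zero_smul] at ha
            exact Q.1.rep_nonzero ha.symm
          rw [← ha, smul_smul, inv_mul_cancel₀ ha0, one_smul]⟩
      have h0' : Cfsg.hermForm n F q Q.1.rep P.1.rep = 0 := hf_eq_zero_symm hF n _ _ h0
      have hiso : ∀ i j : Fin 2, Cfsg.hermForm n F q (![P.1.rep, Q.1.rep] i)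
          (![P.1.rep, Q.1.rep] j) = 0 := by
        intro i j
        fin_cases i <;> fin_cases j
        · exact iso_rep P
        · exact h0
        · exact h0'
        · exact iso_rep Q
      obtain ⟨f, hxf, hff⟩ := exists_herm_partner_family hF ![P.1.rep, Q.1.rep] hli hiso
      have hPf : Cfsg.hermForm n F q P.1.rep (f 0) = 1 := by
        have := hxf 0 0
        simpa using this
      have hQf : Cfsg.hermForm n F q Q.1.rep (f 0) = 0 := by
        have := hxf 1 0
        simpa using this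
      obtain ⟨μ, hμ0, hμ⟩ := exists_trace_zero hF
      obtain ⟨g, hg, -⟩ := exists_su_tv hF n (f 0) μ (hff 0 0) hμ
      have hgQ : sm g *ᵥ Q.1.rep = Q.1.rep := by
        rw [hg, unitaryTransvection_mulVec, hQf, mul_zero, zero_smul, add_zero]
      have h1 := S2 g Q.1.rep hQS hgQ P.1.rep hPS
      rw [hg, unitaryTransvection_mulVec, hPf, mul_one] at h1
      have h2 : Cfsg.hermForm n F q P.1.rep (P.1.rep + μ • f 0) ≠ 0 := by
        rw [hf_add_right hF, hf_smul_right, iso_rep P, hPf, zero_add, mul_one]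
        exact pow_ne_zero _ hμ0
      exact N2 P.1.rep hPS _ h1 h2
    · exact N2 P.1.rep hPS Q.1.rep hQS h0
  apply Set.eq_univ_of_forall
  intro R
  obtain ⟨hR, hRR, hRB⟩ := (hS _).1 (hall R.1.rep R.1.rep_nonzero (iso_rep R))
  rwa [pt_rep] at hRB

theorem isoPts_preprimitive (hF : Fintype.card F = q ^ 2) {n : ℕ} (hn : 3 ≤ n) :
    MulAction.IsPreprimitive (Cfsg.SU n F q) (isoPts n F q) :=
  { toIsPretransitive := isoPts_pretransitive hF hn
    isTrivialBlock_of_isBlock := by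
      intro B hB
      by_cases hs : B.Subsingleton
      · exact Or.inl hs
      · exact Or.inr (block_univ hF hn B hB hs) }

/-! ### Root subgroups and the Iwasawa structure -/

theorem ut_mul (n : ℕ) (e : Fin n → F) (c d : F) (hee : Cfsg.hermForm n F q e e = 0) :
    Cfsg.unitaryTransvection n q e c * Cfsg.unitaryTransvection n q e d =
      Cfsg.unitaryTransvection n q e (c + d) := by
  apply Matrix.mulVec_injective
  funext x
  rw [← Matrix.mulVec_mulVec, unitaryTransvection_mulVec, unitaryTransvection_mulVec,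
    unitaryTransvection_mulVec]
  simp only [hf_add_left, hf_smul_left, hee, mul_zero, add_zero]
  module

theorem ut_zero (n : ℕ) (e : Fin n → F) : Cfsg.unitaryTransvection n q e 0 = 1 := by
  unfold Cfsg.unitaryTransvection
  simp

theorem ut_smul (n : ℕ) (a : F) (v : Fin n → F) (c : F) :
    Cfsg.unitaryTransvection n q (a • v) c = Cfsg.unitaryTransvection n q v (c * a ^ (q + 1)) := by
  apply Matrix.mulVec_injective
  funext x
  rw [unitaryTransvection_mulVec, unitaryTransvection_mulVec, hf_smul_right, smul_smul]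
  congr 2
  ring

theorem sm_inv_mul {n : ℕ} (A : Cfsg.SU n F q) : sm A⁻¹ * sm A = 1 := by
  rw [← sm_mul, inv_mul_cancel, sm_one]

theorem sm_cancel_left {n : ℕ} (Y X : Cfsg.SU n F q) (M : Matrix (Fin n) (Fin n) F)
    (h : sm Y * sm X = sm Y * M) : sm X = M := by
  calc sm X = (sm Y⁻¹ * sm Y) * sm X := by rw [sm_inv_mul, one_mul]
    _ = sm Y⁻¹ * (sm Y * sm X) := by rw [mul_assoc]
    _ = sm Y⁻¹ * (sm Y * M) := by rw [h]
    _ = M := by rw [← mul_assoc, sm_inv_mul, one_mul]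

/-- the root subgroup of an isotropic point -/
def rootSub {n : ℕ} (P : isoPts n F q) : Subgroup (Cfsg.SU n F q) where
  carrier := {g | ∃ c : F, sm g = Cfsg.unitaryTransvection n q P.1.rep c}
  one_mem' := ⟨0, by rw [ut_zero]; rfl⟩
  mul_mem' := by
    rintro a b ⟨c, hc⟩ ⟨d, hd⟩
    exact ⟨c + d, by rw [sm_mul, hc, hd, ut_mul _ _ _ _ (iso_rep P)]⟩
  inv_mem' := by
    rintro a ⟨c, hc⟩
    refine ⟨-c, ?_⟩
    apply sm_cancel _ a
    rw [← sm_mul, inv_mul_cancel, hc, ut_mul _ _ _ _ (iso_rep P), neg_add_cancel, ut_zero]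
    rfl

theorem mem_rootSub_iff {n : ℕ} (P : isoPts n F q) (v : Fin n → F) (a : F) (ha : a ≠ 0)
    (hv : P.1.rep = a • v) (g : Cfsg.SU n F q) :
    g ∈ rootSub P ↔ ∃ c : F, sm g = Cfsg.unitaryTransvection n q v c := by
  constructor
  · rintro ⟨c, hc⟩
    exact ⟨c * a ^ (q + 1), by rw [hc, hv, ut_smul]⟩
  · rintro ⟨c, hc⟩
    refine ⟨c / a ^ (q + 1), ?_⟩
    show sm g = _
    rw [hc, hv, ut_smul]
    congr 1
    field_simp

theorem rootSub_conj {n : ℕ} (g : Cfsg.SU n F q) (P : isoPts n F q) :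
    rootSub (g • P) = MulAut.conj g • rootSub P := by
  obtain ⟨a, ha, hrep⟩ := rep_smul g P.1
  have hrep' : (g • P).1.rep = a • (sm g *ᵥ P.1.rep) := hrep
  ext k
  rw [Subgroup.mem_pointwise_smul_iff_inv_smul_mem,
    mem_rootSub_iff (g • P) (sm g *ᵥ P.1.rep) a ha hrep']
  simp only [MulAut.smul_def, MulAut.conj_inv_apply]
  have hconj : ∀ c : F, sm g * Cfsg.unitaryTransvection n q P.1.rep c =
      Cfsg.unitaryTransvection n q (sm g *ᵥ P.1.rep) c * sm g :=
    fun c => conj_transvection _ (sm_pres g) _ c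
  constructor
  · rintro ⟨c, hc⟩
    refine ⟨c, ?_⟩
    apply sm_cancel_left g
    rw [← sm_mul, hconj, ← hc, ← sm_mul]
    congr 1
    group
  · rintro ⟨c, hc⟩
    refine ⟨c, ?_⟩
    apply sm_cancel _ g
    rw [← hconj, ← hc, ← sm_mul, ← sm_mul]
    congr 1
    group

/-- the Iwasawa structure of `SU_n(q)` on isotropic points -/
noncomputable def iwasawaSU {n : ℕ} (hgen : tvGrp n F q = ⊤) :
    MulAction.IwasawaStructure (Cfsg.SU n F q) (isoPts n F q) where
  T := rootSub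
  is_comm P := ⟨⟨fun a b => by
    obtain ⟨c, hc⟩ := a.2
    obtain ⟨d, hd⟩ := b.2
    apply Subtype.ext
    show (a : Cfsg.SU n F q) * b = b * a
    apply sm_ext
    rw [sm_mul, sm_mul, hc, hd, ut_mul _ _ _ _ (iso_rep P), ut_mul _ _ _ _ (iso_rep P),
      add_comm]⟩⟩
  is_conj g P := rootSub_conj g P
  is_generator := by
    rw [eq_top_iff, ← hgen]
    unfold tvGrp
    rw [Subgroup.closure_le]
    rintro A ⟨v, c, hvv, hA⟩
    by_cases hv : v = 0
    · have h1 : A = 1 := by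
        apply sm_ext
        show sm A = 1
        have hA' : sm A = Cfsg.unitaryTransvection n q v c := hA
        rw [hA', hv]
        unfold Cfsg.unitaryTransvection
        simp
      rw [h1]
      exact one_mem _
    · obtain ⟨a, ha, hrep⟩ := rep_mk v hv
      apply Subgroup.mem_iSup_of_mem (pt v hv hvv)
      rw [mem_rootSub_iff (pt v hv hvv) v a ha hrep]
      exact ⟨c, hA⟩

/-! ### The kernel of the action -/

theorem exists_iso_ne_zero (hF : Fintype.card F = q ^ 2) {n : ℕ} (hn : 2 ≤ n) :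
    ∃ e : Fin n → F, e ≠ 0 ∧ Cfsg.hermForm n F q e e = 0 := by
  classical
  obtain ⟨ω, hω0, hω⟩ := exists_omega hF
  obtain ⟨i0, hi0⟩ : ∃ i0 : Fin n, i0 = ⟨0, by omega⟩ := ⟨_, rfl⟩
  obtain ⟨i1, hi1⟩ : ∃ i1 : Fin n, i1 = ⟨1, by omega⟩ := ⟨_, rfl⟩
  have hne : i0 ≠ i1 := by
    rw [hi0, hi1]
    intro h
    exact absurd (congrArg Fin.val h) (by simp)
  obtain ⟨u₀, hu₀⟩ : ∃ u₀ : Fin n → F, u₀ = Pi.single i0 1 + ω • Pi.single i1 1 := ⟨_, rfl⟩
  have hu₀0 : u₀ i0 = 1 := by rw [hu₀]; simp [hne]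
  have hu₀1 : u₀ i1 = ω := by rw [hu₀]; simp [hne.symm]
  refine ⟨u₀, ?_, ?_⟩
  · intro h0
    rw [h0] at hu₀0
    exact zero_ne_one hu₀0
  · nth_rewrite 1 [hu₀]
    rw [hf_add_left, hf_smul_left, hf_single_left, hf_single_left, hu₀0, hu₀1, one_pow]
    linear_combination hω

theorem scalar_of_iso_eigen (hF : Fintype.card F = q ^ 2) {n : ℕ} (hn : 2 ≤ n)
    (M : Matrix (Fin n) (Fin n) F) (a : F)
    (hM : ∀ z : Fin n → F, Cfsg.hermForm n F q z z = 0 → M *ᵥ z = a • z) (x : Fin n → F) :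
    M *ᵥ x = a • x := by
  obtain ⟨e, he, hee⟩ := exists_iso_ne_zero hF hn
  obtain ⟨f, hff, hef⟩ := exists_partner hF e he hee
  have hfe : Cfsg.hermForm n F q f e = 1 := by rw [hf_conj hF n e f, hef, one_pow]
  obtain ⟨l, hl⟩ := exists_trace_one hF
  obtain ⟨y, hy⟩ : ∃ y : Fin n → F,
      y = x - Cfsg.hermForm n F q x f • e - Cfsg.hermForm n F q x e • f := ⟨_, rfl⟩
  have hye : Cfsg.hermForm n F q y e = 0 := by
    rw [hy]
    simp only [hf_sub_left, hf_smul_left, hee, hfe]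
    ring
  have hyf : Cfsg.hermForm n F q y f = 0 := by
    rw [hy]
    simp only [hf_sub_left, hf_smul_left, hff, hef]
    ring
  have hey : Cfsg.hermForm n F q e y = 0 := hf_eq_zero_symm hF n _ _ hye
  have hfy : Cfsg.hermForm n F q f y = 0 := hf_eq_zero_symm hF n _ _ hyf
  obtain ⟨s, hs⟩ : ∃ s : F, s = -(l * Cfsg.hermForm n F q y y) := ⟨_, rfl⟩
  obtain ⟨z, hz⟩ : ∃ z : Fin n → F, z = y + e + s • f := ⟨_, rfl⟩
  have hzz : Cfsg.hermForm n F q z z = 0 := by
    rw [hz]
    simp only [hf_add_left, hf_add_right hF, hf_smul_left, hf_smul_right, hee, hff, hef, hfe,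
      hye, hyf, hey, hfy]
    rw [hs, herm_neg_pow hF, mul_pow, hf_self_pow hF]
    linear_combination (-Cfsg.hermForm n F q y y) * hl
  obtain ⟨c₁, hc₁⟩ : ∃ c₁ : F, c₁ = Cfsg.hermForm n F q x f - 1 := ⟨_, rfl⟩
  obtain ⟨c₂, hc₂⟩ : ∃ c₂ : F, c₂ = Cfsg.hermForm n F q x e - s := ⟨_, rfl⟩
  have hx : x = z + c₁ • e + c₂ • f := by
    rw [hz, hy, hc₁, hc₂]
    module
  rw [hx, Matrix.mulVec_add, Matrix.mulVec_add, Matrix.mulVec_smul, Matrix.mulVec_smul,
    hM z hzz, hM e hee, hM f hff]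
  module

theorem eigen_eq (hF : Fintype.card F = q ^ 2) {n : ℕ} (g : Cfsg.SU n F q) (e z : Fin n → F)
    (hee : Cfsg.hermForm n F q e e = 0) (hzz : Cfsg.hermForm n F q z z = 0)
    (hez : Cfsg.hermForm n F q e z ≠ 0)
    (heig : ∀ w : Fin n → F, w ≠ 0 → Cfsg.hermForm n F q w w = 0 → ∃ b : F, sm g *ᵥ w = b • w)
    (b b' : F) (hb : sm g *ᵥ e = b • e) (hb' : sm g *ᵥ z = b' • z) : b = b' := by
  obtain ⟨c, hc, hcz⟩ := scale_partner hF e z hez
  obtain ⟨μ, hμ0, hμ⟩ := exists_trace_zero hF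
  have hze : Cfsg.hermForm n F q (c • z) e = 1 := by rw [hf_conj hF n e (c • z), hcz, one_pow]
  have hzz' : Cfsg.hermForm n F q (c • z) (c • z) = 0 := iso_smul c z hzz
  obtain ⟨w, hw⟩ : ∃ w : Fin n → F, w = e + μ • (c • z) := ⟨_, rfl⟩
  have hww : Cfsg.hermForm n F q w w = 0 := by
    rw [hw]
    simp only [hf_add_left, hf_add_right hF, hf_smul_left (a := μ), hf_smul_right (a := μ), hee,
      hzz', hcz, hze]
    linear_combination hμ
  have hw0 : w ≠ 0 := by
    intro h0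
    have h1 : Cfsg.hermForm n F q e w = 0 := by rw [h0, hf_zero_right hF]
    rw [hw, hf_add_right hF, hf_smul_right (a := μ), hee, hcz] at h1
    have h2 : μ ^ q = 0 := by linear_combination h1
    exact hμ0 (pow_eq_zero_iff (herm_q_ne_zero hF) |>.mp h2)
  obtain ⟨b'', hb''⟩ := heig w hw0 hww
  have hgw : sm g *ᵥ w = b • e + (μ * b') • (c • z) := by
    rw [hw, Matrix.mulVec_add, Matrix.mulVec_smul, Matrix.mulVec_smul, hb, hb']
    module
  have h1 : b • e + (μ * b') • (c • z) = b'' • (e + μ • (c • z)) := by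
    rw [← hgw, hb'', hw]
  have h2 := congrArg (fun t => Cfsg.hermForm n F q t (c • z)) h1
  have h3 := congrArg (fun t => Cfsg.hermForm n F q t e) h1
  simp only [hf_add_left, hf_smul_left (a := b), hf_smul_left (a := μ * b'),
    hf_smul_left (a := b''), hf_smul_left (a := μ), hcz, hzz', hee, hze] at h2 h3
  have h4 : b = b'' := by linear_combination h2
  have h5 : μ * (b' - b'') = 0 := by linear_combination h3
  have h6 : b' = b'' := by
    have := (mul_eq_zero.mp h5).resolve_left hμ0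
    linear_combination this
  rw [h4, h6]

theorem central_of_fix (hF : Fintype.card F = q ^ 2) {n : ℕ} (hn : 3 ≤ n) (g : Cfsg.SU n F q)
    (hg : ∀ P : isoPts n F q, g • P = P) : g ∈ Subgroup.center (Cfsg.SU n F q) := by
  have heig : ∀ w : Fin n → F, w ≠ 0 → Cfsg.hermForm n F q w w = 0 →
      ∃ b : F, sm g *ᵥ w = b • w := by
    intro w hw hww
    have h1 := hg (pt w hw hww)
    rw [smul_pt g w hw hww (su_mulVec_ne_zero g w hw) (by rw [sm_pres]; exact hww)] at h1
    have h2 := congrArg Subtype.val h1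
    have h3 : Projectivization.mk F (sm g *ᵥ w) (su_mulVec_ne_zero g w hw) =
        Projectivization.mk F w hw := h2
    rw [Projectivization.mk_eq_mk_iff'] at h3
    obtain ⟨b, hb⟩ := h3
    exact ⟨b, hb.symm⟩
  obtain ⟨e, he, hee⟩ := exists_iso_ne_zero hF (show 2 ≤ n by omega)
  obtain ⟨a, ha⟩ := heig e he hee
  have hall : ∀ z : Fin n → F, Cfsg.hermForm n F q z z = 0 → sm g *ᵥ z = a • z := by
    intro z hzz
    by_cases hz : z = 0
    · rw [hz, Matrix.mulVec_zero, smul_zero]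
    · obtain ⟨b, hb⟩ := heig z hz hzz
      by_cases hez : Cfsg.hermForm n F q e z = 0
      · obtain ⟨x, hxx, hex, hxz⟩ := exists_iso_both hF e z he hz hee hzz hez
        have hx0 : x ≠ 0 := by
          rintro rfl
          exact hex (hf_zero_right hF n e)
        obtain ⟨b₁, hb₁⟩ := heig x hx0 hxx
        have e1 := eigen_eq hF g e x hee hxx hex heig a b₁ ha hb₁
        have e2 := eigen_eq hF g x z hxx hzz hxz heig b₁ b hb₁ hb
        rw [hb, e1, e2]
      · have e1 := eigen_eq hF g e z hee hzz hez heig a b ha hb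
        rw [hb, e1]
  have hsc := scalar_of_iso_eigen hF (show 2 ≤ n by omega) (sm g) a hall
  rw [Subgroup.mem_center_iff]
  intro k
  apply sm_ext
  rw [sm_mul, sm_mul]
  apply Matrix.mulVec_injective
  funext x
  rw [← Matrix.mulVec_mulVec, ← Matrix.mulVec_mulVec, hsc, hsc, Matrix.mulVec_smul]

/-! ### Simplicity -/

/-- `PSU_n(q)` is simple as soon as the unitary transvections generate `SU_n(q)`. -/
theorem psu_simple_of_gen (hF : Fintype.card F = q ^ 2) {n : ℕ} (hn : 3 ≤ n)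
    (h32 : ¬ (n = 3 ∧ q = 2)) (hgen : tvGrp n F q = ⊤) : IsSimpleGroup (Cfsg.PSU n F q) := by
  have hq := herm_two_le hF
  have hperf : commutator (Cfsg.SU n F q) = ⊤ := by
    rw [eq_top_iff, ← hgen]
    unfold tvGrp
    rw [Subgroup.closure_le]
    rintro A ⟨v, c, hvv, hA⟩
    have h781 := Cfsg.Agent.S0781.result hF n (by omega) A v c hvv hA
    rw [commutator_eq_closure]
    exact Subgroup.subset_closure h781
  have hcen : Subgroup.center (Cfsg.SU n F q) ≠ ⊤ := by
    intro htop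
    have h1 := (commutator_eq_bot_iff_center_eq_top _).2 htop
    rw [hperf] at h1
    obtain ⟨e, he, hee⟩ := exists_iso_ne_zero hF (show 2 ≤ n by omega)
    obtain ⟨μ, hμ0, hμ⟩ := exists_trace_zero hF
    obtain ⟨d, hd, -⟩ := exists_su_tv hF n e μ hee hμ
    have h2 : d ∈ (⊥ : Subgroup (Cfsg.SU n F q)) := h1 ▸ Subgroup.mem_top _
    rw [Subgroup.mem_bot] at h2
    have h3 := transvection_sub_one_rank hF e μ he hμ0
    rw [← hd, h2] at h3
    have h4 : sm (1 : Cfsg.SU n F q) - 1 = 0 := sub_self _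
    rw [h4, Matrix.rank_zero] at h3
    exact zero_ne_one h3
  have : Nontrivial (Cfsg.PSU n F q) := QuotientGroup.nontrivial_iff.2 hcen
  have := isoPts_preprimitive hF hn
  apply IsSimpleGroup.mk
  intro Nbar hNbar
  have hmap : (Nbar.comap (QuotientGroup.mk' (Subgroup.center (Cfsg.SU n F q)))).map
      (QuotientGroup.mk' _) = Nbar :=
    Subgroup.map_comap_eq_self_of_surjective (QuotientGroup.mk'_surjective _) Nbar
  have : (Nbar.comap (QuotientGroup.mk' (Subgroup.center (Cfsg.SU n F q)))).Normal :=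
    hNbar.comap _
  by_cases hfix : MulAction.fixedPoints
      (Nbar.comap (QuotientGroup.mk' (Subgroup.center (Cfsg.SU n F q))))
      (isoPts n F q) = Set.univ
  · left
    have hNc : Nbar.comap (QuotientGroup.mk' (Subgroup.center (Cfsg.SU n F q))) ≤
        Subgroup.center (Cfsg.SU n F q) := by
      intro g hg
      apply central_of_fix hF hn
      intro P
      have hP : P ∈ MulAction.fixedPoints
          (Nbar.comap (QuotientGroup.mk' (Subgroup.center (Cfsg.SU n F q))))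
          (isoPts n F q) := by rw [hfix]; trivial
      exact hP ⟨g, hg⟩
    rw [← hmap, eq_bot_iff]
    rintro _ ⟨g, hg, rfl⟩
    rw [Subgroup.mem_bot]
    exact (QuotientGroup.eq_one_iff g).2 (hNc hg)
  · right
    have h1 := (iwasawaSU hgen).commutator_le _ hfix
    rw [hperf, top_le_iff] at h1
    rw [← hmap, h1]
    exact Subgroup.map_top_of_surjective _ (QuotientGroup.mk'_surjective _)

end

end Cfsg.Agent.Lib.Helper18
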