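import Mathlib
import Cfsg.Prelude.Def_ClassicalGeometry
import Cfsg.Prelude.Def_LieClassical
import Cfsg.Agent.Lib.Helper18.UnitaryIwasawa

/-!
# `SU_n(q)` is generated by Heisenberg elements, hence by unitary transvections (helper18)

* `heisGrp n F q`: the subgroup of `SU_n(q)` generated by the Heisenberg elements
  `heis q n e w a` (`e` isotropic, `w ⊥ e`).
* `heisGrp_trans_iso`, `heisGrp_trans_hyp`, `heisGrp_trans_unit`: for `n ≥ 3` it is transitive
  on nonzero isotropic vectors, hyperbolic pairs and unit vectors.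
* `heisGrp_eq_top`: `heisGrp n F q = ⊤` for `n ≥ 3`.
* `tvGrp_eq_top`: the unitary transvections generate `SU_n(q)` for `n ≥ 3`, `(n,q) ≠ (3,2)`.
-/

set_option autoImplicit false
set_option linter.unusedSectionVars false
set_option linter.unusedVariables false

namespace Cfsg.Agent.Lib.Helper18

open Matrix Cfsg.Agent.Lib.Helper7

section
variable {F : Type*} [Field F] [Fintype F] {q : ℕ}

/-- the Heisenberg elements of `SU_n(q)` -/
def heisSet (n : ℕ) (F : Type*) [Field F] (q : ℕ) : Set (Cfsg.SU n F q) :=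
  {A | ∃ (e w : Fin n → F) (a : F), Cfsg.hermForm n F q e e = 0 ∧
    Cfsg.hermForm n F q w e = 0 ∧
    ((A : Matrix.SpecialLinearGroup (Fin n) F) : Matrix (Fin n) (Fin n) F) = heis q n e w a}

/-- the subgroup generated by the Heisenberg elements -/
def heisGrp (n : ℕ) (F : Type*) [Field F] (q : ℕ) : Subgroup (Cfsg.SU n F q) :=
  Subgroup.closure (heisSet n F q)

/-- a Heisenberg element fixing `u` and mapping one hyperbolic partner of `u` to another -/
theorem exists_heis_fix_map (hF : Fintype.card F = q ^ 2) {n : ℕ} (u v w : Fin n → F)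
    (huu : Cfsg.hermForm n F q u u = 0) (hvv : Cfsg.hermForm n F q v v = 0)
    (hww : Cfsg.hermForm n F q w w = 0) (huv : Cfsg.hermForm n F q u v = 1)
    (huw : Cfsg.hermForm n F q u w = 1) :
    ∃ g ∈ heisGrp n F q, sm g *ᵥ u = u ∧ sm g *ᵥ v = w := by
  have hvu : Cfsg.hermForm n F q v u = 1 := by rw [hf_conj hF n u v, huv, one_pow]
  have hwu : Cfsg.hermForm n F q w u = 1 := by rw [hf_conj hF n u w, huw, one_pow]
  have hwe : Cfsg.hermForm n F q (w - v) u = 0 := by rw [hf_sub_left, hwu, hvu, sub_self]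
  have ha : Cfsg.hermForm n F q v w + Cfsg.hermForm n F q v w ^ q +
      Cfsg.hermForm n F q (w - v) (w - v) = 0 := by
    rw [← hf_conj hF n v w]
    simp only [hf_sub_left, hf_sub_right hF, hvv, hww]
    ring
  obtain ⟨g, hg⟩ := exists_su hF (heis q n u (w - v) (Cfsg.hermForm n F q v w))
    (heis_det hF n u (w - v) _ huu hwe) (heis_preserves hF n u (w - v) _ huu hwe ha)
  refine ⟨g, Subgroup.subset_closure ⟨u, w - v, _, huu, hwe, hg⟩, ?_, ?_⟩
  · rw [hg, heis_mulVec]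
    simp only [hf_sub_right hF, huu, huv, huw, mul_zero, sub_self, zero_smul, add_zero]
  · rw [hg, heis_mulVec]
    simp only [hf_sub_right hF, hvu, hvv, mul_one, one_smul, sub_zero, sub_self, zero_smul,
      add_zero]
    abel

/-- a unit vector orthogonal to a hyperbolic pair, in dimension at least three -/
theorem exists_unit_perp_pair (hF : Fintype.card F = q ^ 2) {n : ℕ} (hn : 3 ≤ n)
    (e f : Fin n → F) (hee : Cfsg.hermForm n F q e e = 0) (hff : Cfsg.hermForm n F q f f = 0)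
    (hef : Cfsg.hermForm n F q e f = 1) :
    ∃ w : Fin n → F, Cfsg.hermForm n F q w w = 1 ∧ Cfsg.hermForm n F q w e = 0 ∧
      Cfsg.hermForm n F q w f = 0 := by
  classical
  have hfr : IsHypFr q n 1 (fun _ : Fin 1 => e) (fun _ : Fin 1 => f) :=
    ⟨fun _ _ => hee, fun _ _ => hff, fun i j => by
      rw [if_pos (Subsingleton.elim i j)]; exact hef⟩
  obtain ⟨l, hl⟩ := exists_trace_one hF
  obtain ⟨ω, hω0, hω⟩ := exists_omega hF
  have hc := isFr_hyp hF l ω hl hω hfr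
  obtain ⟨w, hw, hww⟩ := exists_unit_perp hF (show 1 + 1 < n by omega) _ hc
  have e1 := hw (Fin.castAdd 1 0)
  have e2 := hw (Fin.natAdd 1 0)
  rw [Fin.append_left] at e1
  rw [Fin.append_right] at e2
  refine ⟨w, hww, ?_, ?_⟩
  · have h2 : e = hypC1 l (fun _ : Fin 1 => e) (fun _ : Fin 1 => f) 0 +
        ω • hypC2 l ω (fun _ : Fin 1 => e) (fun _ : Fin 1 => f) 0 :=
      hyp_x l ω hω0 (fun _ : Fin 1 => e) (fun _ : Fin 1 => f) 0
    rw [h2, hf_add_right hF, hf_smul_right, e1, e2]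
    ring
  · have h2 : f = (1 - l) • hypC1 l (fun _ : Fin 1 => e) (fun _ : Fin 1 => f) 0 -
        (l * ω) • hypC2 l ω (fun _ : Fin 1 => e) (fun _ : Fin 1 => f) 0 :=
      hyp_f l ω hω0 (fun _ : Fin 1 => e) (fun _ : Fin 1 => f) 0
    rw [h2, hf_sub_right hF, hf_smul_right, hf_smul_right, e1, e2]
    ring

/-- a common hyperbolic partner of two non-orthogonal isotropic vectors -/
theorem exists_common_partner (hF : Fintype.card F = q ^ 2) {n : ℕ} (hn : 3 ≤ n)
    (e e' : Fin n → F) (hee : Cfsg.hermForm n F q e e = 0)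
    (hee' : Cfsg.hermForm n F q e' e' = 0) (hκ : Cfsg.hermForm n F q e e' ≠ 0) :
    ∃ z : Fin n → F, Cfsg.hermForm n F q z z = 0 ∧ Cfsg.hermForm n F q z e = 1 ∧
      Cfsg.hermForm n F q z e' = 1 := by
  obtain ⟨κ, hκdef⟩ : ∃ κ : F, κ = Cfsg.hermForm n F q e e' := ⟨_, rfl⟩
  rw [← hκdef] at hκ
  have hκ' : Cfsg.hermForm n F q e' e = κ ^ q := by rw [hκdef]; exact hf_conj hF n e e'
  have hκq : κ ^ q ≠ 0 := pow_ne_zero _ hκ
  obtain ⟨A, hA⟩ : ∃ A : F, A = κ⁻¹ := ⟨_, rfl⟩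
  obtain ⟨B, hB⟩ : ∃ B : F, B = (κ ^ q)⁻¹ := ⟨_, rfl⟩
  have hAκ : A * κ = 1 := by rw [hA, inv_mul_cancel₀ hκ]
  have hBκ : B * κ ^ q = 1 := by rw [hB, inv_mul_cancel₀ hκq]
  have hAq : A ^ q = B := by rw [hA, hB, inv_pow]
  have hBq : B ^ q = A := by rw [hA, hB, inv_pow, herm_pow_pow hF]
  have hB0 : B ≠ 0 := by rw [hB]; exact inv_ne_zero hκq
  -- unit vector orthogonal to e and e'
  have hef1 : Cfsg.hermForm n F q e (B • e') = 1 := by
    rw [hf_smul_right, hBq, ← hκdef, hAκ]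
  obtain ⟨w, hww, hwe, hwf⟩ := exists_unit_perp_pair hF hn e (B • e') hee (iso_smul B e' hee') hef1
  have hwe' : Cfsg.hermForm n F q w e' = 0 := by
    rw [hf_smul_right] at hwf
    exact (mul_eq_zero.mp hwf).resolve_left (pow_ne_zero _ hB0)
  have hew : Cfsg.hermForm n F q e w = 0 := hf_eq_zero_symm hF n _ _ hwe
  have he'w : Cfsg.hermForm n F q e' w = 0 := hf_eq_zero_symm hF n _ _ hwe'
  obtain ⟨t, ht⟩ : ∃ t : F, t ^ (q + 1) = -(A + B) := by
    by_cases hρ : -(A + B) = 0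
    · exact ⟨0, by rw [hρ, zero_pow (by omega)]⟩
    · obtain ⟨t, -, ht⟩ := herm_norm_surj hF (-(A + B)) hρ
        (by rw [herm_neg_pow hF, herm_add_pow hF, hAq, hBq]; ring)
      exact ⟨t, ht⟩
  refine ⟨A • e + B • e' + t • w, ?_, ?_, ?_⟩
  · simp only [hf_add_left, hf_add_right hF, hf_smul_left, hf_smul_right, hee, hee', hww, hwe,
      hwe', hew, he'w, ← hκdef, hκ', hAq, hBq, mul_zero, add_zero, zero_add, mul_one]
    linear_combination A * hAκ + B * hBκ + ht
  · simp only [hf_add_left, hf_smul_left, hee, hκ', hwe, mul_zero, add_zero, zero_add]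
    exact hBκ
  · simp only [hf_add_left, hf_smul_left, hee', ← hκdef, hwe', mul_zero, add_zero]
    exact hAκ

theorem heis_step (hF : Fintype.card F = q ^ 2) {n : ℕ} (hn : 3 ≤ n) (e e' : Fin n → F)
    (hee : Cfsg.hermForm n F q e e = 0) (hee' : Cfsg.hermForm n F q e' e' = 0)
    (hκ : Cfsg.hermForm n F q e e' ≠ 0) : ∃ g ∈ heisGrp n F q, sm g *ᵥ e = e' := by
  obtain ⟨z, hzz, hze, hze'⟩ := exists_common_partner hF hn e e' hee hee' hκ
  obtain ⟨g, hg, -, hge⟩ := exists_heis_fix_map hF z e e' hzz hee hee' hze hze'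
  exact ⟨g, hg, hge⟩

/-- `heisGrp` is transitive on nonzero isotropic vectors -/
theorem heisGrp_trans_iso (hF : Fintype.card F = q ^ 2) {n : ℕ} (hn : 3 ≤ n) (e e' : Fin n → F)
    (he : e ≠ 0) (he' : e' ≠ 0) (hee : Cfsg.hermForm n F q e e = 0)
    (hee' : Cfsg.hermForm n F q e' e' = 0) : ∃ g ∈ heisGrp n F q, sm g *ᵥ e = e' := by
  by_cases hκ : Cfsg.hermForm n F q e e' = 0
  · obtain ⟨x, hxx, hex, hxe'⟩ := exists_iso_both hF e e' he he' hee hee' hκ
    obtain ⟨g₁, hg₁, h1⟩ := heis_step hF hn e x hee hxx hex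
    obtain ⟨g₂, hg₂, h2⟩ := heis_step hF hn x e' hxx hee' hxe'
    exact ⟨g₂ * g₁, mul_mem hg₂ hg₁, by rw [sm_mul, ← Matrix.mulVec_mulVec, h1, h2]⟩
  · exact heis_step hF hn e e' hee hee' hκ

/-- `heisGrp` is transitive on hyperbolic pairs -/
theorem heisGrp_trans_hyp (hF : Fintype.card F = q ^ 2) {n : ℕ} (hn : 3 ≤ n)
    (e f e' f' : Fin n → F) (hee : Cfsg.hermForm n F q e e = 0)
    (hff : Cfsg.hermForm n F q f f = 0) (hef : Cfsg.hermForm n F q e f = 1)
    (hee' : Cfsg.hermForm n F q e' e' = 0) (hff' : Cfsg.hermForm n F q f' f' = 0)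
    (hef' : Cfsg.hermForm n F q e' f' = 1) :
    ∃ g ∈ heisGrp n F q, sm g *ᵥ e = e' ∧ sm g *ᵥ f = f' := by
  have he : e ≠ 0 := by
    rintro rfl
    rw [hf_zero_left] at hef
    exact zero_ne_one hef
  have he' : e' ≠ 0 := by
    rintro rfl
    rw [hf_zero_left] at hef'
    exact zero_ne_one hef'
  obtain ⟨g₁, hg₁, h1⟩ := heisGrp_trans_iso hF hn e e' he he' hee hee'
  have h2 : Cfsg.hermForm n F q e' (sm g₁ *ᵥ f) = 1 := by rw [← h1, sm_pres, hef]
  have h3 : Cfsg.hermForm n F q (sm g₁ *ᵥ f) (sm g₁ *ᵥ f) = 0 := by rw [sm_pres, hff]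
  obtain ⟨g₂, hg₂, h4, h5⟩ := exists_heis_fix_map hF e' (sm g₁ *ᵥ f) f' hee' h3 hff' h2 hef'
  refine ⟨g₂ * g₁, mul_mem hg₂ hg₁, ?_, ?_⟩
  · rw [sm_mul, ← Matrix.mulVec_mulVec, h1, h4]
  · rw [sm_mul, ← Matrix.mulVec_mulVec, h5]

/-- a unit vector is `l e + f` for a hyperbolic pair `e, f` -/
theorem unit_decomp (hF : Fintype.card F = q ^ 2) {n : ℕ} (hn : 2 ≤ n) (u : Fin n → F)
    (huu : Cfsg.hermForm n F q u u = 1) (l ω : F) (hl : l + l ^ q = 1)
    (hω : ω ^ (q + 1) = -1) :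
    ∃ e f : Fin n → F, Cfsg.hermForm n F q e e = 0 ∧ Cfsg.hermForm n F q f f = 0 ∧
      Cfsg.hermForm n F q e f = 1 ∧ u = l • e + f := by
  classical
  have hfr1 : IsFr q n 1 (fun _ : Fin 1 => u) := fun i j => by
    rw [if_pos (Subsingleton.elim i j)]; exact huu
  obtain ⟨c, hc, hcc⟩ := exists_unit_perp hF (show 1 < n by omega) _ hfr1
  have hcu : Cfsg.hermForm n F q c u = 0 := hc 0
  have huc : Cfsg.hermForm n F q u c = 0 := hf_eq_zero_symm hF n _ _ hcu
  obtain ⟨e, he⟩ : ∃ e : Fin n → F, e = u + ω • c := ⟨_, rfl⟩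
  have hee : Cfsg.hermForm n F q e e = 0 := by
    rw [he]
    simp only [hf_add_left, hf_add_right hF, hf_smul_left, hf_smul_right, huu, hcc, hcu, huc,
      mul_zero, add_zero, zero_add, mul_one]
    linear_combination hω
  have heu : Cfsg.hermForm n F q e u = 1 := by
    rw [he, hf_add_left, hf_smul_left, huu, hcu]
    ring
  have hue : Cfsg.hermForm n F q u e = 1 := by rw [hf_conj hF n e u, heu, one_pow]
  refine ⟨e, u - l • e, hee, ?_, ?_, by abel⟩
  · simp only [hf_sub_left, hf_sub_right hF, hf_smul_left, hf_smul_right, huu, hee, heu, hue]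
    linear_combination -hl
  · simp only [hf_sub_right hF, hf_smul_right, hee, heu]
    ring

/-- `heisGrp` is transitive on unit vectors -/
theorem heisGrp_trans_unit (hF : Fintype.card F = q ^ 2) {n : ℕ} (hn : 3 ≤ n)
    (u u' : Fin n → F) (huu : Cfsg.hermForm n F q u u = 1)
    (huu' : Cfsg.hermForm n F q u' u' = 1) : ∃ g ∈ heisGrp n F q, sm g *ᵥ u = u' := by
  obtain ⟨l, hl⟩ := exists_trace_one hF
  obtain ⟨ω, hω0, hω⟩ := exists_omega hF
  obtain ⟨e, f, hee, hff, hef, hu⟩ := unit_decomp hF (show 2 ≤ n by omega) u huu l ω hl hω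
  obtain ⟨e', f', hee', hff', hef', hu'⟩ :=
    unit_decomp hF (show 2 ≤ n by omega) u' huu' l ω hl hω
  obtain ⟨g, hg, h1, h2⟩ := heisGrp_trans_hyp hF hn e f e' f' hee hff hef hee' hff' hef'
  refine ⟨g, hg, ?_⟩
  rw [hu, hu', Matrix.mulVec_add, Matrix.mulVec_smul, h1, h2]

/-! ### The block embedding `SU_m → SU_{m+1}` -/

theorem hf_succ (m : ℕ) (x y : Fin (m + 1) → F) :
    Cfsg.hermForm (m + 1) F q x y =
      Cfsg.hermForm m F q (Fin.init x) (Fin.init y) + x (Fin.last m) * y (Fin.last m) ^ q := by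
  unfold Cfsg.hermForm
  rw [Fin.sum_univ_castSucc]
  rfl

theorem hf_snoc_zero (hF : Fintype.card F = q ^ 2) (m : ℕ) (e w : Fin m → F) :
    Cfsg.hermForm (m + 1) F q (Fin.snoc e 0 : Fin (m + 1) → F) (Fin.snoc w 0 : Fin (m + 1) → F) =
      Cfsg.hermForm m F q e w := by
  rw [hf_succ, Fin.init_snoc, Fin.init_snoc, Fin.snoc_last, Fin.snoc_last,
    zero_pow (herm_q_ne_zero hF), mul_zero, add_zero]

/-- the block embedding `M ↦ diag(M, 1)` -/
def embM {m : ℕ} (M : Matrix (Fin m) (Fin m) F) : Matrix (Fin (m + 1)) (Fin (m + 1)) F :=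
  Matrix.of (fun i j => Fin.lastCases (Fin.lastCases (1 : F) (fun _ => 0) j)
    (fun i' => Fin.lastCases (0 : F) (fun j' => M i' j') j) i)

theorem embM_last_last {m : ℕ} (M : Matrix (Fin m) (Fin m) F) :
    embM M (Fin.last m) (Fin.last m) = 1 := by
  simp [embM]

theorem embM_last_cast {m : ℕ} (M : Matrix (Fin m) (Fin m) F) (j : Fin m) :
    embM M (Fin.last m) j.castSucc = 0 := by
  simp [embM]

theorem embM_cast_last {m : ℕ} (M : Matrix (Fin m) (Fin m) F) (i : Fin m) :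
    embM M i.castSucc (Fin.last m) = 0 := by
  simp [embM]

theorem embM_cast_cast {m : ℕ} (M : Matrix (Fin m) (Fin m) F) (i j : Fin m) :
    embM M i.castSucc j.castSucc = M i j := by
  simp [embM]

theorem embM_mulVec {m : ℕ} (M : Matrix (Fin m) (Fin m) F) (x : Fin (m + 1) → F) :
    embM M *ᵥ x = (Fin.snoc (M *ᵥ Fin.init x) (x (Fin.last m)) : Fin (m + 1) → F) := by
  funext i
  induction i using Fin.lastCases with
  | last =>
    rw [Fin.snoc_last]
    simp only [Matrix.mulVec, dotProduct, Fin.sum_univ_castSucc, embM_last_last, embM_last_cast,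
      zero_mul, Finset.sum_const_zero, zero_add, one_mul]
  | cast i =>
    rw [Fin.snoc_castSucc]
    simp only [Matrix.mulVec, dotProduct, Fin.sum_univ_castSucc, embM_cast_last, embM_cast_cast,
      zero_mul, add_zero]
    rfl

theorem embM_det {m : ℕ} (M : Matrix (Fin m) (Fin m) F) : (embM M).det = M.det := by
  rw [Matrix.det_succ_row _ (Fin.last m), Fin.sum_univ_castSucc]
  have h1 : (embM M).submatrix (Fin.last m).succAbove (Fin.last m).succAbove = M := by
    ext i j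
    rw [Matrix.submatrix_apply, Fin.succAbove_last, embM_cast_cast]
  have h2 : (-1 : F) ^ ((Fin.last m : ℕ) + (Fin.last m : ℕ)) = 1 :=
    Even.neg_one_pow ⟨_, rfl⟩
  simp only [embM_last_cast, mul_zero, zero_mul, Finset.sum_const_zero, zero_add,
    embM_last_last, mul_one, h1, h2, one_mul]

theorem embM_one {m : ℕ} : embM (1 : Matrix (Fin m) (Fin m) F) = 1 := by
  apply Matrix.mulVec_injective
  funext x
  rw [embM_mulVec, Matrix.one_mulVec, Matrix.one_mulVec, Fin.snoc_init_self]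

theorem embM_mul {m : ℕ} (A B : Matrix (Fin m) (Fin m) F) :
    embM (A * B) = embM A * embM B := by
  apply Matrix.mulVec_injective
  funext x
  rw [← Matrix.mulVec_mulVec, embM_mulVec, embM_mulVec, embM_mulVec, Fin.init_snoc,
    Fin.snoc_last, Matrix.mulVec_mulVec]

theorem embM_pres {m : ℕ} (M : Matrix (Fin m) (Fin m) F)
    (hM : ∀ x y, Cfsg.hermForm m F q (M *ᵥ x) (M *ᵥ y) = Cfsg.hermForm m F q x y)
    (x y : Fin (m + 1) → F) :
    Cfsg.hermForm (m + 1) F q (embM M *ᵥ x) (embM M *ᵥ y) = Cfsg.hermForm (m + 1) F q x y := by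
  rw [embM_mulVec, embM_mulVec, hf_succ, hf_succ, Fin.init_snoc, Fin.init_snoc, Fin.snoc_last,
    Fin.snoc_last, hM]

theorem embM_heis (hF : Fintype.card F = q ^ 2) {m : ℕ} (e w : Fin m → F) (a : F) :
    embM (heis q m e w a) =
      heis q (m + 1) (Fin.snoc e 0 : Fin (m + 1) → F) (Fin.snoc w 0 : Fin (m + 1) → F) a := by
  apply Matrix.mulVec_injective
  funext x
  rw [embM_mulVec, heis_mulVec, heis_mulVec, hf_succ, hf_succ, Fin.init_snoc, Fin.init_snoc,
    Fin.snoc_last, Fin.snoc_last, zero_pow (herm_q_ne_zero hF), mul_zero, add_zero, add_zero]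
  funext i
  induction i using Fin.lastCases with
  | last =>
    simp only [Fin.snoc_last, Pi.add_apply, Pi.smul_apply, smul_eq_mul, mul_zero, add_zero]
  | cast i =>
    simp only [Fin.snoc_castSucc, Pi.add_apply, Pi.smul_apply, smul_eq_mul]
    rfl

theorem exists_emb_su (hF : Fintype.card F = q ^ 2) {m : ℕ} (x : Cfsg.SU m F q) :
    ∃ X : Cfsg.SU (m + 1) F q, sm X = embM (sm x) :=
  exists_su hF _ (by rw [embM_det]; exact x.1.2) (embM_pres _ (sm_pres x))

theorem emb_heisGrp (hF : Fintype.card F = q ^ 2) {m : ℕ} (g₁ : Cfsg.SU m F q)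
    (hg₁ : g₁ ∈ heisGrp m F q) :
    ∀ G : Cfsg.SU (m + 1) F q, sm G = embM (sm g₁) → G ∈ heisGrp (m + 1) F q := by
  induction hg₁ using Subgroup.closure_induction with
  | mem x hx =>
    intro G hG
    obtain ⟨e, w, a, hee, hwe, hx'⟩ := hx
    have hx'' : sm x = heis q m e w a := hx'
    apply Subgroup.subset_closure
    refine ⟨(Fin.snoc e 0 : Fin (m + 1) → F), (Fin.snoc w 0 : Fin (m + 1) → F), a,
      by rw [hf_snoc_zero hF]; exact hee, by rw [hf_snoc_zero hF]; exact hwe, ?_⟩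
    show sm G = _
    rw [hG, hx'', embM_heis hF]
  | one =>
    intro G hG
    have h1 : G = 1 := by
      apply sm_ext
      rw [hG, sm_one, embM_one]
      rfl
    rw [h1]
    exact one_mem _
  | mul x y _ _ hx hy =>
    intro G hG
    obtain ⟨X, hX⟩ := exists_emb_su hF x
    obtain ⟨Y, hY⟩ := exists_emb_su hF y
    have h1 : G = X * Y := by
      apply sm_ext
      rw [hG, sm_mul, sm_mul, hX, hY, embM_mul]
    rw [h1]
    exact mul_mem (hx X hX) (hy Y hY)
  | inv x _ hx =>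
    intro G hG
    obtain ⟨X, hX⟩ := exists_emb_su hF x
    have h1 : G = X⁻¹ := by
      rw [eq_inv_iff_mul_eq_one]
      apply sm_ext
      rw [sm_mul, hG, hX, ← embM_mul, sm_inv_mul, embM_one]
      rfl
    rw [h1]
    exact inv_mem (hx X hX)

theorem eq_embM_of_fix (hF : Fintype.card F = q ^ 2) {m : ℕ}
    (M : Matrix (Fin (m + 1)) (Fin (m + 1)) F)
    (hpres : ∀ x y, Cfsg.hermForm (m + 1) F q (M *ᵥ x) (M *ᵥ y) = Cfsg.hermForm (m + 1) F q x y)
    (hfix : M *ᵥ Pi.single (Fin.last m) 1 = Pi.single (Fin.last m) 1) :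
    M = embM (M.submatrix Fin.castSucc Fin.castSucc) := by
  classical
  have hcol : ∀ i, M i (Fin.last m) = (Pi.single (Fin.last m) (1 : F) : Fin (m + 1) → F) i := by
    intro i
    have := congrFun hfix i
    rwa [Matrix.mulVec_single_one] at this
  ext i j
  induction i using Fin.lastCases with
  | last =>
    induction j using Fin.lastCases with
    | last =>
      rw [embM_last_last, hcol, Pi.single_eq_same]
    | cast j =>
      rw [embM_last_cast]
      have h1 := hpres (Pi.single j.castSucc 1) (Pi.single (Fin.last m) 1)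
      rw [hfix, hf_single_right hF, hf_single_right hF, Matrix.mulVec_single_one] at h1
      rw [show M (Fin.last m) j.castSucc = (M.col j.castSucc) (Fin.last m) from rfl, h1]
      exact Pi.single_eq_of_ne (Fin.castSucc_lt_last j).ne' 1
  | cast i =>
    induction j using Fin.lastCases with
    | last =>
      rw [embM_cast_last, hcol]
      exact Pi.single_eq_of_ne (Fin.castSucc_lt_last i).ne 1
    | cast j =>
      rw [embM_cast_cast]
      rfl

theorem exists_su_of_fix_last (hF : Fintype.card F = q ^ 2) {m : ℕ} (g : Cfsg.SU (m + 1) F q)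
    (hfix : sm g *ᵥ Pi.single (Fin.last m) 1 = Pi.single (Fin.last m) 1) :
    ∃ g₁ : Cfsg.SU m F q, sm g = embM (sm g₁) := by
  have h1 := eq_embM_of_fix hF (sm g) (sm_pres g) hfix
  obtain ⟨M₁, hM₁⟩ : ∃ M₁ : Matrix (Fin m) (Fin m) F,
      M₁ = (sm g).submatrix Fin.castSucc Fin.castSucc := ⟨_, rfl⟩
  rw [← hM₁] at h1
  have hdet : M₁.det = 1 := by
    rw [← embM_det, ← h1]
    exact g.1.2
  have hpres : ∀ x y, Cfsg.hermForm m F q (M₁ *ᵥ x) (M₁ *ᵥ y) = Cfsg.hermForm m F q x y := by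
    intro x y
    have h2 := sm_pres g (Fin.snoc x 0 : Fin (m + 1) → F) (Fin.snoc y 0 : Fin (m + 1) → F)
    rw [h1, embM_mulVec, embM_mulVec, hf_succ, hf_succ] at h2
    simp only [Fin.init_snoc, Fin.snoc_last, zero_pow (herm_q_ne_zero hF), mul_zero,
      add_zero] at h2
    exact h2
  obtain ⟨g₁, hg₁⟩ := exists_su hF M₁ hdet hpres
  exact ⟨g₁, by rw [hg₁]; exact h1⟩

/-! ### The base case `n = 3` and the induction -/

theorem isFr_span (hF : Fintype.card F = q ^ 2) {n : ℕ} (B : Fin n → Fin n → F)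
    (hB : IsFr q n n B) (x : Fin n → F) : ∃ c : Fin n → F, x = ∑ j, c j • B j := by
  classical
  obtain ⟨M, hM⟩ : ∃ M : Matrix (Fin n) (Fin n) F, M = Matrix.of (fun l j => B j l) :=
    ⟨_, rfl⟩
  have hcol : colFr M = B := by rw [hM]; rfl
  have hfr : IsFr q n n (colFr M) := by rw [hcol]; exact hB
  obtain ⟨U, hU⟩ := isUnit_of_preserves hF M (preserves_of_isFr hF M hfr)
  refine ⟨(↑U⁻¹ : Matrix (Fin n) (Fin n) F) *ᵥ x, ?_⟩
  have h1 : M *ᵥ ((↑U⁻¹ : Matrix (Fin n) (Fin n) F) *ᵥ x) = x := by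
    rw [Matrix.mulVec_mulVec, ← hU, ← Units.val_mul, mul_inv_cancel, Units.val_one,
      Matrix.one_mulVec]
  rw [← hcol, ← mulVec_eq_lincomb, h1]

theorem eq_of_agree_isFr (hF : Fintype.card F = q ^ 2) {n : ℕ} (B : Fin n → Fin n → F)
    (hB : IsFr q n n B) (M₁ M₂ : Matrix (Fin n) (Fin n) F)
    (h : ∀ j, M₁ *ᵥ B j = M₂ *ᵥ B j) : M₁ = M₂ := by
  apply Matrix.mulVec_injective
  funext x
  obtain ⟨c, hc⟩ := isFr_span hF B hB x
  rw [hc, Matrix.mulVec_sum, Matrix.mulVec_sum]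
  refine Finset.sum_congr rfl fun j _ => ?_
  rw [Matrix.mulVec_smul, Matrix.mulVec_smul, h]

/-- an element of `SU_3` fixing a hyperbolic pair is the identity -/
theorem su3_fix_pair (hF : Fintype.card F = q ^ 2) (g : Cfsg.SU 3 F q) (e f : Fin 3 → F)
    (hee : Cfsg.hermForm 3 F q e e = 0) (hff : Cfsg.hermForm 3 F q f f = 0)
    (hef : Cfsg.hermForm 3 F q e f = 1) (hge : sm g *ᵥ e = e) (hgf : sm g *ᵥ f = f) :
    g = 1 := by
  classical
  obtain ⟨u, huu, hue, huf⟩ := exists_unit_perp_pair hF (le_refl 3) e f hee hff hef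
  obtain ⟨l, hl⟩ := exists_trace_one hF
  obtain ⟨ω, hω0, hω⟩ := exists_omega hF
  have hfr : IsHypFr q 3 1 (fun _ : Fin 1 => e) (fun _ : Fin 1 => f) :=
    ⟨fun _ _ => hee, fun _ _ => hff, fun i j => by
      rw [if_pos (Subsingleton.elim i j)]; exact hef⟩
  have hc := isFr_hyp hF l ω hl hω hfr
  obtain ⟨c1, hc1⟩ : ∃ c1 : Fin 3 → F,
      c1 = hypC1 l (fun _ : Fin 1 => e) (fun _ : Fin 1 => f) 0 := ⟨_, rfl⟩
  obtain ⟨c2, hc2⟩ : ∃ c2 : Fin 3 → F,
      c2 = hypC2 l ω (fun _ : Fin 1 => e) (fun _ : Fin 1 => f) 0 := ⟨_, rfl⟩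
  have hne : (Fin.castAdd 1 (0 : Fin 1)) ≠ Fin.natAdd 1 (0 : Fin 1) := by decide
  have h11 : Cfsg.hermForm 3 F q c1 c1 = 1 := by
    have := hc (Fin.castAdd 1 0) (Fin.castAdd 1 0)
    rw [Fin.append_left, if_pos rfl] at this
    rw [hc1]; exact this
  have h12 : Cfsg.hermForm 3 F q c1 c2 = 0 := by
    have := hc (Fin.castAdd 1 0) (Fin.natAdd 1 0)
    rw [Fin.append_left, Fin.append_right, if_neg hne] at this
    rw [hc1, hc2]; exact this
  have h21 : Cfsg.hermForm 3 F q c2 c1 = 0 := hf_eq_zero_symm hF 3 _ _ h12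
  have h22 : Cfsg.hermForm 3 F q c2 c2 = 1 := by
    have := hc (Fin.natAdd 1 0) (Fin.natAdd 1 0)
    rw [Fin.append_right, if_pos rfl] at this
    rw [hc2]; exact this
  have hgc1 : sm g *ᵥ c1 = c1 := by
    rw [hc1]
    unfold hypC1
    rw [Matrix.mulVec_add, Matrix.mulVec_smul, hge, hgf]
  have hgc2 : sm g *ᵥ c2 = c2 := by
    rw [hc2]
    unfold hypC2
    rw [Matrix.mulVec_smul, Matrix.mulVec_sub, Matrix.mulVec_smul, hge, hgf]
  have huc1 : Cfsg.hermForm 3 F q u c1 = 0 := by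
    rw [hc1]
    unfold hypC1
    rw [hf_add_right hF, hf_smul_right, hue, huf]
    ring
  have huc2 : Cfsg.hermForm 3 F q u c2 = 0 := by
    rw [hc2]
    unfold hypC2
    rw [hf_smul_right, hf_sub_right hF, hf_smul_right, hue, huf]
    ring
  have hc1u : Cfsg.hermForm 3 F q c1 u = 0 := hf_eq_zero_symm hF 3 _ _ huc1
  have hc2u : Cfsg.hermForm 3 F q c2 u = 0 := hf_eq_zero_symm hF 3 _ _ huc2
  obtain ⟨B, hBdef⟩ : ∃ B : Fin 3 → Fin 3 → F, B = ![u, c1, c2] := ⟨_, rfl⟩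
  have hB0 : B 0 = u := by rw [hBdef]; rfl
  have hB1 : B 1 = c1 := by rw [hBdef]; rfl
  have hB2 : B 2 = c2 := by rw [hBdef]; rfl
  have hB : IsFr q 3 3 B := by
    intro i j
    fin_cases i <;> fin_cases j
    · show Cfsg.hermForm 3 F q (B 0) (B 0) = _
      rw [hB0, huu]; rfl
    · show Cfsg.hermForm 3 F q (B 0) (B 1) = _
      rw [hB0, hB1, huc1]; rfl
    · show Cfsg.hermForm 3 F q (B 0) (B 2) = _
      rw [hB0, hB2, huc2]; rfl
    · show Cfsg.hermForm 3 F q (B 1) (B 0) = _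
      rw [hB0, hB1, hc1u]; rfl
    · show Cfsg.hermForm 3 F q (B 1) (B 1) = _
      rw [hB1, h11]; rfl
    · show Cfsg.hermForm 3 F q (B 1) (B 2) = _
      rw [hB1, hB2, h12]; rfl
    · show Cfsg.hermForm 3 F q (B 2) (B 0) = _
      rw [hB0, hB2, hc2u]; rfl
    · show Cfsg.hermForm 3 F q (B 2) (B 1) = _
      rw [hB1, hB2, h21]; rfl
    · show Cfsg.hermForm 3 F q (B 2) (B 2) = _
      rw [hB2, h22]; rfl
  obtain ⟨c, hcu⟩ := isFr_span hF B hB (sm g *ᵥ u)
  have hcoef : ∀ i, c i = Cfsg.hermForm 3 F q (sm g *ᵥ u) (B i) := by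
    intro i
    rw [hcu, hf_lincomb_left B hB c i]
  have hc1z : c 1 = 0 := by
    rw [hcoef, hB1]
    have h0 : Cfsg.hermForm 3 F q (sm g *ᵥ u) (sm g *ᵥ c1) = 0 := by rw [sm_pres, huc1]
    rwa [hgc1] at h0
  have hc2z : c 2 = 0 := by
    rw [hcoef, hB2]
    have h0 : Cfsg.hermForm 3 F q (sm g *ᵥ u) (sm g *ᵥ c2) = 0 := by rw [sm_pres, huc2]
    rwa [hgc2] at h0
  have hgu : sm g *ᵥ u = c 0 • u := by
    rw [hcu, Fin.sum_univ_three, hc1z, hc2z, hB0]
    simp
  have hM : sm g = qrefl q 3 u (c 0) := by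
    apply eq_of_agree_isFr hF B hB
    intro j
    fin_cases j
    · show sm g *ᵥ B 0 = qrefl q 3 u (c 0) *ᵥ B 0
      rw [hB0, hgu, qrefl_mulVec, huu]
      module
    · show sm g *ᵥ B 1 = qrefl q 3 u (c 0) *ᵥ B 1
      rw [hB1, hgc1, qrefl_mulVec, hc1u]
      simp
    · show sm g *ᵥ B 2 = qrefl q 3 u (c 0) *ᵥ B 2
      rw [hB2, hgc2, qrefl_mulVec, hc2u]
      simp
  have hdet : (sm g).det = 1 := g.1.2
  rw [hM, qrefl_det 3 u (c 0) huu] at hdet
  apply sm_ext
  rw [hM, hdet]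
  unfold qrefl
  simp
  rfl

theorem heisGrp_three (hF : Fintype.card F = q ^ 2) : heisGrp 3 F q = ⊤ := by
  rw [eq_top_iff]
  intro g _
  obtain ⟨e, he, hee⟩ := exists_iso_ne_zero hF (show 2 ≤ 3 by norm_num)
  obtain ⟨f, hff, hef⟩ := exists_partner hF e he hee
  obtain ⟨r, hr, h1, h2⟩ := heisGrp_trans_hyp hF (le_refl 3) (sm g *ᵥ e) (sm g *ᵥ f) e f
    (by rw [sm_pres, hee]) (by rw [sm_pres, hff]) (by rw [sm_pres, hef]) hee hff hef
  have h3 : r * g = 1 := by
    apply su3_fix_pair hF (r * g) e f hee hff hef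
    · rw [sm_mul, ← Matrix.mulVec_mulVec, h1]
    · rw [sm_mul, ← Matrix.mulVec_mulVec, h2]
  have h4 : g = r⁻¹ := eq_inv_of_mul_eq_one_right h3
  rw [h4]
  exact inv_mem hr

/-- **`SU_n(q)` is generated by Heisenberg elements**, `n ≥ 3`. -/
theorem heisGrp_eq_top (hF : Fintype.card F = q ^ 2) (n : ℕ) (hn : 3 ≤ n) :
    heisGrp n F q = ⊤ := by
  induction n, hn using Nat.le_induction with
  | base => exact heisGrp_three hF
  | succ n hn ih =>
    classical
    rw [eq_top_iff]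
    intro g _
    obtain ⟨u₀, hu₀⟩ : ∃ u₀ : Fin (n + 1) → F, u₀ = Pi.single (Fin.last n) 1 := ⟨_, rfl⟩
    have huu₀ : Cfsg.hermForm (n + 1) F q u₀ u₀ = 1 := by
      rw [hu₀, hf_single_left, Pi.single_eq_same, one_pow]
    obtain ⟨r, hr, h1⟩ := heisGrp_trans_unit hF (show 3 ≤ n + 1 by omega) (sm g *ᵥ u₀) u₀
      (by rw [sm_pres, huu₀]) huu₀
    have h2 : sm (r * g) *ᵥ Pi.single (Fin.last n) 1 = Pi.single (Fin.last n) 1 := by
      rw [sm_mul, ← Matrix.mulVec_mulVec, ← hu₀, h1]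
    obtain ⟨g₁, hg₁⟩ := exists_su_of_fix_last hF (r * g) h2
    have h3 : g₁ ∈ heisGrp n F q := by rw [ih]; trivial
    have h4 : r * g ∈ heisGrp (n + 1) F q := emb_heisGrp hF g₁ h3 (r * g) hg₁
    have h5 : g = r⁻¹ * (r * g) := by group
    rw [h5]
    exact mul_mem (inv_mem hr) h4

/-- **`SU_n(q)` is generated by unitary transvections**, `n ≥ 3`, `(n, q) ≠ (3, 2)`. -/
theorem tvGrp_eq_top (hF : Fintype.card F = q ^ 2) (n : ℕ) (hn : 3 ≤ n)
    (h32 : ¬ (n = 3 ∧ q = 2)) : tvGrp n F q = ⊤ := by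
  have hq := herm_two_le hF
  rw [eq_top_iff, ← heisGrp_eq_top hF n hn]
  unfold heisGrp
  rw [Subgroup.closure_le]
  rintro A ⟨e, w, a, hee, hwe, hA⟩
  exact heis_mem_tvGrp hF (by omega) A e w a hee hwe hA

end

end Cfsg.Agent.Lib.Helper18
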