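import Mathlib
import Cfsg.Prelude.Def_ClassicalGeometry
import Cfsg.Prelude.Def_LieClassical
import Cfsg.Agent.Lib.Helper7.GUOrder
import Cfsg.Agent.Lib.Helper7.SUOrder
import Cfsg.Agent.Lib.Helper18.Unitary
import Cfsg.Agent.Lib.Helper18.UnitaryWitt
import Cfsg.Agent.Lib.Helper18.UnitaryTv
import Cfsg.Agent.Lib.Helper18.UnitaryIwasawa
import Cfsg.Agent.Lib.Helper18.UnitaryGenA

/-!
# More existence lemmas for the standard hermitian form (helper18)

`F` a field with `q^2` elements, `h = Cfsg.hermForm n F q`.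

* `exists_unit_perp3`: a second unit vector orthogonal to a hyperbolic pair and a unit vector.
* `exists_iso_perp_one`: for `u` isotropic and `w ⊥ u` non-isotropic, an isotropic `s ⊥ u`
  with `h(w, s) = 1`.
* `exists_iso_comb`: a nonzero isotropic vector in the span of two independent vectors.
* `witt_iso_SU`: Witt's theorem for isotropic frames with determinant one.
-/

set_option autoImplicit false
set_option linter.unusedSectionVars false
set_option linter.unusedVariables false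

namespace Cfsg.Agent.Lib.Helper18

open Matrix Cfsg.Agent.Lib.Helper7

section UnitaryFr

variable {F : Type*} [Field F] [Fintype F] {q : ℕ}

/-- a unit vector orthogonal to a hyperbolic pair and to a unit vector orthogonal to the pair -/
theorem exists_unit_perp3 (hF : Fintype.card F = q ^ 2) {n : ℕ} (hn : 4 ≤ n)
    (e f c : Fin n → F) (hee : Cfsg.hermForm n F q e e = 0) (hff : Cfsg.hermForm n F q f f = 0)
    (hef : Cfsg.hermForm n F q e f = 1) (hcc : Cfsg.hermForm n F q c c = 1)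
    (hce : Cfsg.hermForm n F q c e = 0) (hcf : Cfsg.hermForm n F q c f = 0) :
    ∃ w : Fin n → F, Cfsg.hermForm n F q w w = 1 ∧ Cfsg.hermForm n F q w e = 0 ∧
      Cfsg.hermForm n F q w f = 0 ∧ Cfsg.hermForm n F q w c = 0 := by
  classical
  have hfr : IsHypFr q n 1 (fun _ : Fin 1 => e) (fun _ : Fin 1 => f) :=
    ⟨fun _ _ => hee, fun _ _ => hff, fun i j => by
      rw [if_pos (Subsingleton.elim i j)]; exact hef⟩
  obtain ⟨l, hl⟩ := exists_trace_one hF
  obtain ⟨ω, hω0, hω⟩ := exists_omega hF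
  have hc := isFr_hyp hF l ω hl hω hfr
  have hc3 : IsFr q n (1 + 1 + 1) (Fin.cons c (Fin.append (hypC1 l (fun _ : Fin 1 => e)
      (fun _ : Fin 1 => f)) (hypC2 l ω (fun _ : Fin 1 => e) (fun _ : Fin 1 => f)))) := by
    rw [isFr_cons hF]
    refine ⟨hc, ?_, hcc⟩
    intro i
    refine Fin.addCases (fun i => ?_) (fun i => ?_) i
    · rw [Fin.append_left]
      unfold hypC1
      rw [hf_add_right hF, hf_smul_right, hce, hcf]
      ring
    · rw [Fin.append_right]
      unfold hypC2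
      rw [hf_smul_right, hf_sub_right hF, hf_smul_right, hce, hcf]
      ring
  obtain ⟨w, hw, hww⟩ := exists_unit_perp hF (show 1 + 1 + 1 < n by omega) _ hc3
  have e0 := hw 0
  have e1 := hw (Fin.succ (Fin.castAdd 1 0))
  have e2 := hw (Fin.succ (Fin.natAdd 1 0))
  rw [Fin.cons_zero] at e0
  rw [Fin.cons_succ, Fin.append_left] at e1
  rw [Fin.cons_succ, Fin.append_right] at e2
  refine ⟨w, hww, ?_, ?_, e0⟩
  · have h2 : e = hypC1 l (fun _ : Fin 1 => e) (fun _ : Fin 1 => f) 0 +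
        ω • hypC2 l ω (fun _ : Fin 1 => e) (fun _ : Fin 1 => f) 0 :=
      hyp_x l ω hω0 (fun _ : Fin 1 => e) (fun _ : Fin 1 => f) 0
    rw [h2, hf_add_right hF, hf_smul_right, e1, e2]
    ring
  · have h2 : f = (1 - l) • hypC1 l (fun _ : Fin 1 => e) (fun _ : Fin 1 => f) 0 -
        (l * ω) • hypC2 l ω (fun _ : Fin 1 => e) (fun _ : Fin 1 => f) 0 :=
      hyp_f l ω hω0 (fun _ : Fin 1 => e) (fun _ : Fin 1 => f) 0
    rw [h2, hf_sub_right hF, hf_smul_right, hf_smul_right, e1, e2]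
    ring

/-- a nonzero isotropic vector orthogonal to a hyperbolic pair -/
theorem exists_iso_perp_hyp (hF : Fintype.card F = q ^ 2) {n : ℕ} (hn : 4 ≤ n)
    (e f : Fin n → F) (hee : Cfsg.hermForm n F q e e = 0) (hff : Cfsg.hermForm n F q f f = 0)
    (hef : Cfsg.hermForm n F q e f = 1) :
    ∃ z : Fin n → F, z ≠ 0 ∧ Cfsg.hermForm n F q z z = 0 ∧ Cfsg.hermForm n F q z e = 0 ∧
      Cfsg.hermForm n F q z f = 0 := by
  obtain ⟨c, hcc, hce, hcf⟩ := exists_unit_perp_pair hF (show 3 ≤ n by omega) e f hee hff hef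
  obtain ⟨c', hcc', hce', hcf', hc'c⟩ := exists_unit_perp3 hF hn e f c hee hff hef hcc hce hcf
  obtain ⟨ω, hω0, hω⟩ := exists_omega hF
  have hcc'2 : Cfsg.hermForm n F q c c' = 0 := hf_eq_zero_symm hF n _ _ hc'c
  refine ⟨c + ω • c', ?_, ?_, ?_, ?_⟩
  · intro h0
    have h1 : Cfsg.hermForm n F q (c + ω • c') c = 1 := by
      rw [hf_add_left, hf_smul_left, hcc, hc'c]
      ring
    rw [h0, hf_zero_left] at h1
    exact zero_ne_one h1
  · simp only [hf_add_left, hf_add_right hF, hf_smul_left, hf_smul_right, hcc, hcc', hc'c, hcc'2]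
    linear_combination hω
  · rw [hf_add_left, hf_smul_left, hce, hce']
    ring
  · rw [hf_add_left, hf_smul_left, hcf, hcf']
    ring

/-- a norm with prescribed fixed value (possibly zero) -/
theorem exists_norm_eq (hF : Fintype.card F = q ^ 2) (y : F) (hy : y ^ q = y) :
    ∃ t : F, t ^ (q + 1) = y := by
  by_cases hy0 : y = 0
  · exact ⟨0, by rw [hy0, zero_pow (by omega)]⟩
  · obtain ⟨t, -, ht⟩ := herm_norm_surj hF y hy0 hy
    exact ⟨t, ht⟩

/-- for `u` isotropic nonzero and `w ⊥ u` non-isotropic: an isotropic `s ⊥ u` with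
`h(w, s) = 1` -/
theorem exists_iso_perp_one (hF : Fintype.card F = q ^ 2) {n : ℕ} (hn : 4 ≤ n)
    (u w : Fin n → F) (hu : u ≠ 0) (huu : Cfsg.hermForm n F q u u = 0)
    (hwu : Cfsg.hermForm n F q w u = 0) (hww : Cfsg.hermForm n F q w w ≠ 0) :
    ∃ s : Fin n → F, Cfsg.hermForm n F q s s = 0 ∧ Cfsg.hermForm n F q s u = 0 ∧
      Cfsg.hermForm n F q w s = 1 := by
  obtain ⟨f, hff, huf⟩ := exists_partner hF u hu huu
  have hfu : Cfsg.hermForm n F q f u = 1 := by rw [hf_conj hF n u f, huf, one_pow]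
  have huw : Cfsg.hermForm n F q u w = 0 := hf_eq_zero_symm hF n _ _ hwu
  obtain ⟨α, hα⟩ : ∃ α : F, α = Cfsg.hermForm n F q w w := ⟨_, rfl⟩
  rw [← hα] at hww
  have hαq : α ^ q = α := by rw [hα]; exact hf_self_pow hF n w
  obtain ⟨w', hw'⟩ : ∃ w' : Fin n → F, w' = w - Cfsg.hermForm n F q w f • u := ⟨_, rfl⟩
  have hw'u : Cfsg.hermForm n F q w' u = 0 := by
    rw [hw', hf_sub_left, hf_smul_left, hwu, huu]
    ring
  have hw'f : Cfsg.hermForm n F q w' f = 0 := by
    rw [hw', hf_sub_left, hf_smul_left, huf]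
    ring
  have hw'w' : Cfsg.hermForm n F q w' w' = α := by
    rw [hw']
    simp only [hf_sub_left, hf_sub_right hF, hf_smul_left, hf_smul_right, hwu, huw, huu, ← hα]
    ring
  have hww' : Cfsg.hermForm n F q w w' = α := by
    rw [hw']
    simp only [hf_sub_right hF, hf_smul_right, hwu, ← hα]
    ring
  obtain ⟨lam, hlam0, hlam⟩ := herm_norm_surj hF α hww hαq
  have hlamq : lam ^ q ≠ 0 := pow_ne_zero _ hlam0
  have hlam' : lam * lam ^ q = α := by rw [← hlam, pow_succ]; ring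
  obtain ⟨c, hc⟩ : ∃ c : Fin n → F, c = lam⁻¹ • w' := ⟨_, rfl⟩
  have hcc : Cfsg.hermForm n F q c c = 1 := by
    rw [hc, hf_smul_left, hf_smul_right, hw'w', inv_pow, ← hlam']
    field_simp
  have hce : Cfsg.hermForm n F q c u = 0 := by rw [hc, hf_smul_left, hw'u, mul_zero]
  have hcf : Cfsg.hermForm n F q c f = 0 := by rw [hc, hf_smul_left, hw'f, mul_zero]
  obtain ⟨c', hcc', hc'u, hc'f, hc'c⟩ := exists_unit_perp3 hF hn u f c huu hff huf hcc hce hcf
  have huc' : Cfsg.hermForm n F q u c' = 0 := hf_eq_zero_symm hF n _ _ hc'u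
  have hc'w' : Cfsg.hermForm n F q c' w' = 0 := by
    have h1 : w' = lam • c := by rw [hc, smul_smul, mul_inv_cancel₀ hlam0, one_smul]
    rw [h1, hf_smul_right, hc'c, mul_zero]
  have hw'c' : Cfsg.hermForm n F q w' c' = 0 := hf_eq_zero_symm hF n _ _ hc'w'
  have hwc' : Cfsg.hermForm n F q w c' = 0 := by
    have h1 : w = w' + Cfsg.hermForm n F q w f • u := by rw [hw']; abel
    rw [h1, hf_add_left, hf_smul_left, hw'c', huc']
    ring
  obtain ⟨μ, hμ⟩ := exists_norm_eq hF (-α) (by rw [herm_neg_pow hF, hαq])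
  have hμ' : μ * μ ^ q = -α := by rw [← hμ, pow_succ]; ring
  refine ⟨α⁻¹ • (w' + μ • c'), ?_, ?_, ?_⟩
  · simp only [hf_smul_left, hf_smul_right, hf_add_left, hf_add_right hF, hw'w', hcc', hc'w',
      hw'c', mul_zero, add_zero, zero_add, mul_one]
    rw [inv_pow, hαq]
    field_simp
    linear_combination hμ'
  · rw [hf_smul_left, hf_add_left, hf_smul_left, hw'u, hc'u]
    ring
  · rw [hf_smul_right, hf_add_right hF, hf_smul_right, hww', hwc', inv_pow, hαq]
    field_simp
    ring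

/-- for `w` non-isotropic: an isotropic `s` with `h(w, s) = 1` -/
theorem exists_iso_one (hF : Fintype.card F = q ^ 2) {n : ℕ} (hn : 2 ≤ n)
    (w : Fin n → F) (hww : Cfsg.hermForm n F q w w ≠ 0) :
    ∃ s : Fin n → F, Cfsg.hermForm n F q s s = 0 ∧ Cfsg.hermForm n F q w s = 1 := by
  classical
  obtain ⟨α, hα⟩ : ∃ α : F, α = Cfsg.hermForm n F q w w := ⟨_, rfl⟩
  rw [← hα] at hww
  have hαq : α ^ q = α := by rw [hα]; exact hf_self_pow hF n w
  obtain ⟨lam, hlam0, hlam⟩ := herm_norm_surj hF α hww hαq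
  have hlamq : lam ^ q ≠ 0 := pow_ne_zero _ hlam0
  have hlam' : lam * lam ^ q = α := by rw [← hlam, pow_succ]; ring
  obtain ⟨c, hc⟩ : ∃ c : Fin n → F, c = lam⁻¹ • w := ⟨_, rfl⟩
  have hcc : Cfsg.hermForm n F q c c = 1 := by
    rw [hc, hf_smul_left, hf_smul_right, ← hα, inv_pow, ← hlam']
    field_simp
  have hfr1 : IsFr q n 1 (fun _ : Fin 1 => c) := fun i j => by
    rw [if_pos (Subsingleton.elim i j)]; exact hcc
  obtain ⟨c', hc', hcc'⟩ := exists_unit_perp hF (show 1 < n by omega) _ hfr1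
  have hc'c : Cfsg.hermForm n F q c' c = 0 := hc' 0
  have hc'w : Cfsg.hermForm n F q c' w = 0 := by
    have h1 : w = lam • c := by rw [hc, smul_smul, mul_inv_cancel₀ hlam0, one_smul]
    rw [h1, hf_smul_right, hc'c, mul_zero]
  have hwc' : Cfsg.hermForm n F q w c' = 0 := hf_eq_zero_symm hF n _ _ hc'w
  obtain ⟨μ, hμ⟩ := exists_norm_eq hF (-α) (by rw [herm_neg_pow hF, hαq])
  have hμ' : μ * μ ^ q = -α := by rw [← hμ, pow_succ]; ring
  refine ⟨α⁻¹ • (w + μ • c'), ?_, ?_⟩
  · simp only [hf_smul_left, hf_smul_right, hf_add_left, hf_add_right hF, ← hα, hcc', hc'w,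
      hwc', mul_zero, add_zero, zero_add, mul_one]
    rw [inv_pow, hαq]
    field_simp
    linear_combination hμ'
  · rw [hf_smul_right, hf_add_right hF, hf_smul_right, ← hα, hwc', inv_pow, hαq]
    field_simp
    ring

/-- a nonzero isotropic vector in the span of two linearly independent vectors -/
theorem exists_iso_comb (hF : Fintype.card F = q ^ 2) {n : ℕ} (a b : Fin n → F)
    (hli : LinearIndependent F ![a, b]) :
    ∃ lam μ : F, lam • a + μ • b ≠ 0 ∧
      Cfsg.hermForm n F q (lam • a + μ • b) (lam • a + μ • b) = 0 := by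
  rw [LinearIndependent.pair_iff] at hli
  by_cases haa : Cfsg.hermForm n F q a a = 0
  · refine ⟨1, 0, ?_, ?_⟩
    · intro h0
      have := (hli 1 0 h0).1
      exact one_ne_zero this
    · rw [zero_smul, add_zero, one_smul]
      exact haa
  · obtain ⟨α, hα⟩ : ∃ α : F, α = Cfsg.hermForm n F q a a := ⟨_, rfl⟩
    obtain ⟨β, hβ⟩ : ∃ β : F, β = Cfsg.hermForm n F q a b := ⟨_, rfl⟩
    obtain ⟨γ, hγ⟩ : ∃ γ : F, γ = Cfsg.hermForm n F q b b := ⟨_, rfl⟩
    rw [← hα] at haa
    have hαq : α ^ q = α := by rw [hα]; exact hf_self_pow hF n a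
    have hγq : γ ^ q = γ := by rw [hγ]; exact hf_self_pow hF n b
    have hba : Cfsg.hermForm n F q b a = β ^ q := by rw [hβ]; exact hf_conj hF n a b
    obtain ⟨ν, hν⟩ := exists_norm_eq hF (β * β ^ q - α * γ) (by
      rw [herm_sub_pow hF, mul_pow, mul_pow, herm_pow_pow hF, hαq, hγq]
      ring)
    have hν' : ν * ν ^ q = β * β ^ q - α * γ := by rw [← hν, pow_succ]; ring
    refine ⟨(ν - β ^ q) / α, 1, ?_, ?_⟩
    · intro h0
      have := (hli _ 1 h0).2
      exact one_ne_zero this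
    · simp only [hf_add_left, hf_add_right hF, hf_smul_left, hf_smul_right, ← hα, ← hβ, ← hγ,
        hba, one_pow, one_mul]
      rw [div_pow, herm_sub_pow hF, herm_pow_pow hF, hαq]
      field_simp
      linear_combination hν'

/-- Witt's theorem for isotropic frames, with determinant one -/
theorem witt_iso_SU (hF : Fintype.card F = q ^ 2) {n k : ℕ} (hk : k + k < n)
    (x x' : Fin k → Fin n → F)
    (hli : LinearIndependent F x) (hli' : LinearIndependent F x')
    (hiso : ∀ i j, Cfsg.hermForm n F q (x i) (x j) = 0)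
    (hiso' : ∀ i j, Cfsg.hermForm n F q (x' i) (x' j) = 0) :
    ∃ M : Matrix (Fin n) (Fin n) F, M.det = 1 ∧
      (∀ a b, Cfsg.hermForm n F q (M *ᵥ a) (M *ᵥ b) = Cfsg.hermForm n F q a b) ∧
      ∀ i, M *ᵥ x i = x' i := by
  classical
  obtain ⟨g, hg⟩ := witt_iso_GU hF x x' hli hli' hiso hiso'
  obtain ⟨f', hxf', hff'⟩ := exists_herm_partner_family hF x' hli' hiso'
  have hfr : IsHypFr q n k x' f' := ⟨hiso', hff', hxf'⟩
  obtain ⟨l, hl⟩ := exists_trace_one hF
  obtain ⟨ω, hω0, hω⟩ := exists_omega hF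
  have hc := isFr_hyp hF l ω hl hω hfr
  obtain ⟨w, hw, hww⟩ := exists_unit_perp hF hk _ hc
  have hxw : ∀ i, Cfsg.hermForm n F q (x' i) w = 0 := by
    intro i
    apply hf_eq_zero_symm hF
    have e1 := hw (Fin.castAdd k i)
    have e2 := hw (Fin.natAdd k i)
    rw [Fin.append_left] at e1
    rw [Fin.append_right] at e2
    rw [hyp_x l ω hω0 x' f' i, hf_add_right hF, hf_smul_right, e1, e2]
    ring
  obtain ⟨G, hG⟩ : ∃ G : Matrix (Fin n) (Fin n) F,
      G = ((g : GL (Fin n) F) : Matrix (Fin n) (Fin n) F) := ⟨_, rfl⟩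
  have hGpres : ∀ x y, Cfsg.hermForm n F q (G *ᵥ x) (G *ᵥ y) = Cfsg.hermForm n F q x y := by
    rw [hG]; exact GU_preserves g
  have hGdet : G.det ^ (q + 1) = 1 := det_pow_of_isFr hF G (isFr_of_preserves hF G hGpres)
  have hd0 : G.det ≠ 0 := by
    intro h0
    rw [h0, zero_pow (by omega)] at hGdet
    exact zero_ne_one hGdet
  refine ⟨qrefl q n w (G.det)⁻¹ * G, ?_, ?_, ?_⟩
  · rw [Matrix.det_mul, qrefl_det n w _ hww, inv_mul_cancel₀ hd0]
  · intro a b
    rw [← Matrix.mulVec_mulVec, ← Matrix.mulVec_mulVec,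
      qrefl_preserves hF n w _ hww (by rw [inv_pow, hGdet, inv_one]), hGpres]
  · intro i
    rw [← Matrix.mulVec_mulVec, hG, hg i, qrefl_mulVec, hxw i, mul_zero, zero_smul, add_zero]

/-- a family with a dual family for the hermitian form is linearly independent -/
theorem linearIndependent_of_herm_dual {n k : ℕ} (x g : Fin k → Fin n → F)
    (h : ∀ i j, Cfsg.hermForm n F q (x i) (g j) = if i = j then 1 else 0) :
    LinearIndependent F x := by
  classical
  rw [Fintype.linearIndependent_iff]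
  intro a ha i
  have h1 : Cfsg.hermForm n F q (∑ j, a j • x j) (g i) = a i := by
    rw [hf_sum_left]
    simp only [hf_smul_left, h]
    simp
  rw [ha, hf_zero_left] at h1
  exact h1.symm

/-- the isotropic vector `e_i + ω e_j` -/
def pv {n : ℕ} (ω : F) (i j : Fin n) : Fin n → F := Pi.single i 1 + ω • Pi.single j 1

theorem pv_apply_left {n : ℕ} (ω : F) {i j : Fin n} (hij : i ≠ j) : pv ω i j i = 1 := by
  simp [pv, hij]

theorem pv_apply_right {n : ℕ} (ω : F) {i j : Fin n} (hij : i ≠ j) : pv ω i j j = ω := by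
  simp [pv, hij.symm]

theorem pv_apply_ne {n : ℕ} (ω : F) {i j k : Fin n} (hki : k ≠ i) (hkj : k ≠ j) :
    pv ω i j k = 0 := by
  simp [pv, hki, hkj]

theorem hf_pv_left {n : ℕ} (ω : F) (i j : Fin n) (v : Fin n → F) :
    Cfsg.hermForm n F q (pv ω i j) v = v i ^ q + ω * v j ^ q := by
  unfold pv
  rw [hf_add_left, hf_smul_left, hf_single_left, hf_single_left]

theorem pv_iso {n : ℕ} (ω : F) (hω : ω ^ (q + 1) = -1) {i j : Fin n} (hij : i ≠ j) :
    Cfsg.hermForm n F q (pv ω i j) (pv ω i j) = 0 := by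
  rw [hf_pv_left, pv_apply_left ω hij, pv_apply_right ω hij, one_pow]
  linear_combination hω

theorem pv_orth (hF : Fintype.card F = q ^ 2) {n : ℕ} (ω : F) {i j k l : Fin n} (hik : i ≠ k)
    (hil : i ≠ l) (hjk : j ≠ k) (hjl : j ≠ l) :
    Cfsg.hermForm n F q (pv ω i j) (pv ω k l) = 0 := by
  rw [hf_pv_left, pv_apply_ne ω hik hil, pv_apply_ne ω hjk hjl, zero_pow (herm_q_ne_zero hF)]
  ring

theorem pv_ne_zero {n : ℕ} (ω : F) {i j : Fin n} (hij : i ≠ j) : pv ω i j ≠ 0 := by
  intro h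
  have h1 := pv_apply_left ω hij
  rw [h, Pi.zero_apply] at h1
  exact zero_ne_one h1

end UnitaryFr

end Cfsg.Agent.Lib.Helper18
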