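import Mathlib
import Cfsg.Agent.Lib.Helper44.SURegBase

set_option autoImplicit false

namespace Cfsg.Agent.Lib.Helper18.SUReg

open Matrix Cfsg.Agent.Lib.Helper7 Cfsg.Agent.Lib.Helper18 Cfsg.Agent.Lib.Helper93
  Cfsg.Agent.Lib.Helper44.SUReg

variable {F : Type*} [Field F] [Fintype F] {q n m : ℕ}

/-- a unit vector orthogonal to a hyperbolic frame -/
theorem exists_unit_perp_hyp (hF : Fintype.card F = q ^ 2) {k : ℕ} (hk : k + k < n)
    {x f : Fin k → Fin n → F} (h : IsHypFr q n k x f) :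
    ∃ u : Fin n → F, Cfsg.hermForm n F q u u = 1 ∧
      ∀ i, Cfsg.hermForm n F q u (x i) = 0 ∧ Cfsg.hermForm n F q u (f i) = 0 := by
  obtain ⟨l, hl⟩ := exists_trace_one hF
  obtain ⟨ω, hω0, hω⟩ := exists_omega hF
  have hc := isFr_hyp hF l ω hl hω h
  obtain ⟨u, hu, huu⟩ := exists_unit_perp hF hk _ hc
  refine ⟨u, huu, fun i => ?_⟩
  have e1 := hu (Fin.castAdd k i)
  have e2 := hu (Fin.natAdd k i)
  rw [Fin.append_left] at e1
  rw [Fin.append_right] at e2
  constructor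
  · rw [hyp_x l ω hω0 x f i, hf_add_right hF, hf_smul_right, e1, e2]
    ring
  · rw [hyp_f l ω hω0 x f i, hf_sub_right hF, hf_smul_right, hf_smul_right, e1, e2]
    ring

/-- a unit vector of `Wc j` orthogonal to a hyperbolic pair of `Wc j` -/
theorem exists_unit_in_Wc (hF : Fintype.card F = q ^ 2) (hn : n = 2 * m + 1)
    {e f : ℕ → Fin n → F} {d : Fin n → F} (fr : WFr q n m e f d) {j : ℕ} (hj : j < m)
    (w w₂ : Fin n → F) (hw : w ∈ Wc q e f j) (hw₂ : w₂ ∈ Wc q e f j)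
    (hww : Cfsg.hermForm n F q w w = 0) (hww₂ : Cfsg.hermForm n F q w₂ w₂ = 0)
    (h1 : Cfsg.hermForm n F q w w₂ = 1) :
    ∃ u : Fin n → F, u ∈ Wc q e f j ∧ Cfsg.hermForm n F q u u = 1 ∧
      Cfsg.hermForm n F q u w = 0 ∧ Cfsg.hermForm n F q u w₂ = 0 := by
  classical
  obtain ⟨X, hX⟩ : ∃ X : Fin (j + 1) → Fin n → F,
      X = fun i : Fin (j + 1) => if (i : ℕ) < j then e i else w := ⟨_, rfl⟩
  obtain ⟨Y, hY⟩ : ∃ Y : Fin (j + 1) → Fin n → F,
      Y = fun i : Fin (j + 1) => if (i : ℕ) < j then f i else w₂ := ⟨_, rfl⟩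
  have hfr : IsHypFr q n (j + 1) X Y := by
    refine ⟨fun i k => ?_, fun i k => ?_, fun i k => ?_⟩
    · rw [hX]
      by_cases hi : (i : ℕ) < j <;> by_cases hk : (k : ℕ) < j
      · simp only [if_pos hi, if_pos hk]
        exact fr.ee i k (by omega) (by omega)
      · simp only [if_pos hi, if_neg hk]
        exact hf_eq_zero_symm hF n _ _ (mem_Wc.mp hw i hi).1
      · simp only [if_neg hi, if_pos hk]
        exact (mem_Wc.mp hw k hk).1
      · simp only [if_neg hi, if_neg hk]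
        exact hww
    · rw [hY]
      by_cases hi : (i : ℕ) < j <;> by_cases hk : (k : ℕ) < j
      · simp only [if_pos hi, if_pos hk]
        exact fr.ff i k (by omega) (by omega)
      · simp only [if_pos hi, if_neg hk]
        exact hf_eq_zero_symm hF n _ _ (mem_Wc.mp hw₂ i hi).2
      · simp only [if_neg hi, if_pos hk]
        exact (mem_Wc.mp hw₂ k hk).2
      · simp only [if_neg hi, if_neg hk]
        exact hww₂
    · rw [hX, hY]
      by_cases hi : (i : ℕ) < j <;> by_cases hk : (k : ℕ) < j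
      · simp only [if_pos hi, if_pos hk]
        rw [fr.ef i k (by omega) (by omega)]
        simp [Fin.ext_iff]
      · simp only [if_pos hi, if_neg hk]
        have hne : ¬ (i = k) := by
          intro h
          apply hk
          rw [← h]
          exact hi
        rw [hf_eq_zero_symm hF n _ _ (mem_Wc.mp hw₂ i hi).1, if_neg hne]
      · simp only [if_neg hi, if_pos hk]
        have hne : ¬ (i = k) := by
          intro h
          apply hi
          rw [h]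
          exact hk
        rw [(mem_Wc.mp hw k hk).2, if_neg hne]
      · simp only [if_neg hi, if_neg hk]
        have heq : i = k := by
          apply Fin.ext
          have := i.2
          have := k.2
          omega
        rw [h1, if_pos heq]
  obtain ⟨u, huu, hu⟩ := exists_unit_perp_hyp hF (by omega : (j + 1) + (j + 1) < n) hfr
  refine ⟨u, ?_, huu, ?_, ?_⟩
  · intro i hi
    have h2 := hu ⟨i, by omega⟩
    rw [hX, hY] at h2
    simp only [if_pos hi] at h2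
    exact h2
  · have h2 := (hu ⟨j, by omega⟩).1
    rw [hX] at h2
    simpa using h2
  · have h2 := (hu ⟨j, by omega⟩).2
    rw [hY] at h2
    simpa using h2

/-- a common hyperbolic partner, inside `Wc j`, of two non-orthogonal isotropic vectors of
`Wc j` -/
theorem exists_common_partner_Wc (hF : Fintype.card F = q ^ 2) (hn : n = 2 * m + 1)
    {e f : ℕ → Fin n → F} {d : Fin n → F} (fr : WFr q n m e f d) {j : ℕ} (hj : j < m)
    (w w' : Fin n → F) (hw : w ∈ Wc q e f j) (hw' : w' ∈ Wc q e f j)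
    (hww : Cfsg.hermForm n F q w w = 0) (hww' : Cfsg.hermForm n F q w' w' = 0)
    (hκ : Cfsg.hermForm n F q w w' ≠ 0) :
    ∃ z : Fin n → F, z ∈ Wc q e f j ∧ Cfsg.hermForm n F q z z = 0 ∧
      Cfsg.hermForm n F q z w = 1 ∧ Cfsg.hermForm n F q z w' = 1 := by
  obtain ⟨κ, hκdef⟩ : ∃ κ : F, κ = Cfsg.hermForm n F q w w' := ⟨_, rfl⟩
  rw [← hκdef] at hκ
  have hκ' : Cfsg.hermForm n F q w' w = κ ^ q := by rw [hκdef]; exact hf_conj hF n w w'
  have hκq : κ ^ q ≠ 0 := pow_ne_zero _ hκ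
  obtain ⟨A, hA⟩ : ∃ A : F, A = κ⁻¹ := ⟨_, rfl⟩
  obtain ⟨B, hB⟩ : ∃ B : F, B = (κ ^ q)⁻¹ := ⟨_, rfl⟩
  have hAκ : A * κ = 1 := by rw [hA, inv_mul_cancel₀ hκ]
  have hBκ : B * κ ^ q = 1 := by rw [hB, inv_mul_cancel₀ hκq]
  have hAq : A ^ q = B := by rw [hA, hB, inv_pow]
  have hBq : B ^ q = A := by rw [hA, hB, inv_pow, herm_pow_pow hF]
  have hB0 : B ≠ 0 := by rw [hB]; exact inv_ne_zero hκq
  have hef1 : Cfsg.hermForm n F q w (B • w') = 1 := by
    rw [hf_smul_right, hBq, ← hκdef, hAκ]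
  obtain ⟨u, huW, huu, huw, huf⟩ := exists_unit_in_Wc hF hn fr hj w (B • w') hw
    ((Wc q e f j).smul_mem B hw') hww (iso_smul B w' hww') hef1
  have huw' : Cfsg.hermForm n F q u w' = 0 := by
    rw [hf_smul_right] at huf
    exact (mul_eq_zero.mp huf).resolve_left (pow_ne_zero _ hB0)
  have hwu : Cfsg.hermForm n F q w u = 0 := hf_eq_zero_symm hF n _ _ huw
  have hw'u : Cfsg.hermForm n F q w' u = 0 := hf_eq_zero_symm hF n _ _ huw'
  obtain ⟨t, ht⟩ : ∃ t : F, t ^ (q + 1) = -(A + B) := by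
    by_cases hρ : -(A + B) = 0
    · exact ⟨0, by rw [hρ, zero_pow (by omega)]⟩
    · obtain ⟨t, -, ht⟩ := herm_norm_surj hF (-(A + B)) hρ
        (by rw [herm_neg_pow hF, herm_add_pow hF, hAq, hBq]; ring)
      exact ⟨t, ht⟩
  refine ⟨A • w + B • w' + t • u, (Wc q e f j).add_mem ((Wc q e f j).add_mem
    ((Wc q e f j).smul_mem A hw) ((Wc q e f j).smul_mem B hw')) ((Wc q e f j).smul_mem t huW),
    ?_, ?_, ?_⟩
  · simp only [hf_add_left, hf_add_right hF, hf_smul_left, hf_smul_right, hww, hww', huu, huw,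
      huw', hwu, hw'u, ← hκdef, hκ', hAq, hBq, mul_zero, add_zero, zero_add, mul_one]
    linear_combination A * hAκ + B * hBκ + ht
  · simp only [hf_add_left, hf_smul_left, hww, hκ', huw, mul_zero, add_zero, zero_add]
    exact hBκ
  · simp only [hf_add_left, hf_smul_left, hww', ← hκdef, huw', mul_zero, add_zero]
    exact hAκ

/-- the transitivity relation of `su_lemT` -/
def TrW (q : ℕ) (H : Subgroup (GL (Fin n) F)) (e f : ℕ → Fin n → F) (j : ℕ)
    (w w' : Fin n → F) : Prop :=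
  ∃ A : Matrix (Fin n) (Fin n) F, MIn H A ∧ A *ᵥ w = w' ∧
    ∀ y : Fin n → F, (∀ x ∈ Wc q e f j, Cfsg.hermForm n F q y x = 0) → A *ᵥ y = y

theorem TrW.trans {H : Subgroup (GL (Fin n) F)} {e f : ℕ → Fin n → F} {j : ℕ}
    {a b c : Fin n → F} (h1 : TrW q H e f j a b) (h2 : TrW q H e f j b c) :
    TrW q H e f j a c := by
  obtain ⟨A, hA, hAw, hAy⟩ := h1
  obtain ⟨B, hB, hBw, hBy⟩ := h2
  refine ⟨B * A, hB.mul hA, ?_, fun y hy => ?_⟩
  · rw [← Matrix.mulVec_mulVec, hAw, hBw]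
  · rw [← Matrix.mulVec_mulVec, hAy y hy, hBy y hy]

/-- one step: two isotropic vectors of `Wc j` whose product has trace zero -/
theorem trW_step (hF : Fintype.card F = q ^ 2) {H : Subgroup (GL (Fin n) F)}
    {e f : ℕ → Fin n → F} {j : ℕ}
    (hcen : ∀ v ∈ Wc q e f j, Cfsg.hermForm n F q v v = 0 → Cen q H v)
    (x₁ x₂ : Fin n → F) (h₁ : x₁ ∈ Wc q e f j) (h₂ : x₂ ∈ Wc q e f j)
    (h11 : Cfsg.hermForm n F q x₁ x₁ = 0) (h22 : Cfsg.hermForm n F q x₂ x₂ = 0)
    (hκ0 : Cfsg.hermForm n F q x₁ x₂ ≠ 0)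
    (hκ : Cfsg.hermForm n F q x₁ x₂ + Cfsg.hermForm n F q x₁ x₂ ^ q = 0) :
    TrW q H e f j x₁ x₂ := by
  obtain ⟨κ, hκd⟩ : ∃ κ, κ = Cfsg.hermForm n F q x₁ x₂ := ⟨_, rfl⟩
  rw [← hκd] at hκ0 hκ
  have h21 : Cfsg.hermForm n F q x₂ x₁ = κ ^ q := by rw [hκd]; exact hf_conj hF n x₁ x₂
  have hyW : x₂ - x₁ ∈ Wc q e f j := (Wc q e f j).sub_mem h₂ h₁
  have hyy : Cfsg.hermForm n F q (x₂ - x₁) (x₂ - x₁) = 0 := by
    rw [hf_sub_left, hf_sub_right hF, hf_sub_right hF, h11, h22, h21, ← hκd]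
    linear_combination (-1 : F) * hκ
  have hκq : κ ^ q = -κ := by linear_combination hκ
  have hc : κ⁻¹ + κ⁻¹ ^ q = 0 := by
    rw [inv_pow, hκq, inv_neg]
    ring
  have hC := hcen _ hyW hyy
  refine ⟨Cfsg.unitaryTransvection n q (x₂ - x₁) κ⁻¹, hC.2 _ hc, ?_, fun y hy => ?_⟩
  · rw [unitaryTransvection_mulVec, hf_sub_right hF, h11, ← hκd, sub_zero, inv_mul_cancel₀ hκ0,
      one_smul]
    abel
  · rw [unitaryTransvection_mulVec, hy _ hyW, mul_zero, zero_smul, add_zero]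

/-- two non-orthogonal isotropic vectors of `Wc j` -/
theorem trW_of_ne (hF : Fintype.card F = q ^ 2) (hn : n = 2 * m + 1)
    {H : Subgroup (GL (Fin n) F)}
    {e f : ℕ → Fin n → F} {d : Fin n → F} (fr : WFr q n m e f d) {j : ℕ} (hj : j < m)
    (hcen : ∀ v ∈ Wc q e f j, Cfsg.hermForm n F q v v = 0 → Cen q H v)
    (w w' : Fin n → F) (hw : w ∈ Wc q e f j) (hw' : w' ∈ Wc q e f j)
    (hww : Cfsg.hermForm n F q w w = 0) (hww' : Cfsg.hermForm n F q w' w' = 0)
    (hκ : Cfsg.hermForm n F q w w' ≠ 0) : TrW q H e f j w w' := by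
  obtain ⟨z, hzW, hzz, hzw, hzw'⟩ :=
    exists_common_partner_Wc hF hn fr hj w w' hw hw' hww hww' hκ
  obtain ⟨c₀, hc0, hc⟩ := exists_trace_zero_ne hF
  have hwz : Cfsg.hermForm n F q w z = 1 := by rw [hf_conj hF n z w, hzw, one_pow]
  have hcW : c₀ • z ∈ Wc q e f j := (Wc q e f j).smul_mem c₀ hzW
  have hcc : Cfsg.hermForm n F q (c₀ • z) (c₀ • z) = 0 := iso_smul c₀ z hzz
  have s1 : TrW q H e f j w (c₀ • z) := by
    apply trW_step hF hcen w (c₀ • z) hw hcW hww hcc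
    · rw [hf_smul_right, hwz, mul_one]
      exact pow_ne_zero _ hc0
    · rw [hf_smul_right, hwz, mul_one, herm_pow_pow hF, hc]
      ring
  have s2 : TrW q H e f j (c₀ • z) w' := by
    apply trW_step hF hcen (c₀ • z) w' hcW hw' hcc hww'
    · rw [hf_smul_left, hzw', mul_one]
      exact hc0
    · rw [hf_smul_left, hzw', mul_one, hc]
      ring
  exact s1.trans s2

/-- projection to `Wc j` -/
noncomputable def prW (q : ℕ) (e f : ℕ → Fin n → F) (j : ℕ) (x : Fin n → F) : Fin n → F :=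
  x - ∑ i ∈ Finset.range j,
    (Cfsg.hermForm n F q x (f i) • e i + Cfsg.hermForm n F q x (e i) • f i)

theorem prW_mem (hF : Fintype.card F = q ^ 2) {e f : ℕ → Fin n → F} {d : Fin n → F}
    (fr : WFr q n m e f d) {j : ℕ} (hj : j ≤ m) (x : Fin n → F) :
    prW q e f j x ∈ Wc q e f j := by
  classical
  intro k hk
  unfold prW
  constructor
  · rw [hf_sub_left, hf_sum_left]
    have h1 : ∀ i ∈ Finset.range j, Cfsg.hermForm n F q
        (Cfsg.hermForm n F q x (f i) • e i + Cfsg.hermForm n F q x (e i) • f i) (e k) =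
        if i = k then Cfsg.hermForm n F q x (e k) else 0 := by
      intro i hi
      have hi' : i < m := lt_of_lt_of_le (Finset.mem_range.mp hi) hj
      rw [hf_add_left, hf_smul_left, hf_smul_left, fr.ee i k hi' (by omega),
        fr.fe hF i k hi' (by omega)]
      by_cases hik : i = k
      · subst hik
        simp
      · simp [hik]
    rw [Finset.sum_congr rfl h1, Finset.sum_ite_eq', if_pos (Finset.mem_range.mpr hk), sub_self]
  · rw [hf_sub_left, hf_sum_left]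
    have h1 : ∀ i ∈ Finset.range j, Cfsg.hermForm n F q
        (Cfsg.hermForm n F q x (f i) • e i + Cfsg.hermForm n F q x (e i) • f i) (f k) =
        if i = k then Cfsg.hermForm n F q x (f k) else 0 := by
      intro i hi
      have hi' : i < m := lt_of_lt_of_le (Finset.mem_range.mp hi) hj
      rw [hf_add_left, hf_smul_left, hf_smul_left, fr.ef i k hi' (by omega),
        fr.ff i k hi' (by omega)]
      by_cases hik : i = k
      · subst hik
        simp
      · simp [hik]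
    rw [Finset.sum_congr rfl h1, Finset.sum_ite_eq', if_pos (Finset.mem_range.mpr hk), sub_self]

theorem prW_left (hF : Fintype.card F = q ^ 2) {e f : ℕ → Fin n → F} {j : ℕ} {v : Fin n → F}
    (hv : v ∈ Wc q e f j) (x : Fin n → F) :
    Cfsg.hermForm n F q v (prW q e f j x) = Cfsg.hermForm n F q v x := by
  unfold prW
  rw [hf_sub_right hF, hf_sum_right hF, Finset.sum_eq_zero, sub_zero]
  intro i hi
  have hi' := Finset.mem_range.mp hi
  rw [hf_add_right hF, hf_smul_right, hf_smul_right, (mem_Wc.mp hv i hi').1,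
    (mem_Wc.mp hv i hi').2, mul_zero, mul_zero, add_zero]

theorem prW_right (hF : Fintype.card F = q ^ 2) {e f : ℕ → Fin n → F} {j : ℕ} {v : Fin n → F}
    (hv : v ∈ Wc q e f j) (x : Fin n → F) :
    Cfsg.hermForm n F q (prW q e f j x) v = Cfsg.hermForm n F q x v := by
  unfold prW
  rw [hf_sub_left, hf_sum_left, Finset.sum_eq_zero, sub_zero]
  intro i hi
  have hi' := Finset.mem_range.mp hi
  rw [hf_add_left, hf_smul_left, hf_smul_left, hf_eq_zero_symm hF n _ _ (mem_Wc.mp hv i hi').1,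
    hf_eq_zero_symm hF n _ _ (mem_Wc.mp hv i hi').2, mul_zero, mul_zero, add_zero]

/-- an isotropic vector of `Wc j` orthogonal to neither of two orthogonal isotropic vectors of
`Wc j` -/
theorem exists_iso_both_Wc (hF : Fintype.card F = q ^ 2)
    {e f : ℕ → Fin n → F} {d : Fin n → F} (fr : WFr q n m e f d) {j : ℕ} (hj : j ≤ m)
    (w w' : Fin n → F) (hw : w ∈ Wc q e f j) (hw' : w' ∈ Wc q e f j)
    (hww : Cfsg.hermForm n F q w w = 0) (hww' : Cfsg.hermForm n F q w' w' = 0)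
    (hw0 : w ≠ 0) (hw0' : w' ≠ 0) (h0 : Cfsg.hermForm n F q w w' = 0) :
    ∃ x : Fin n → F, x ∈ Wc q e f j ∧ Cfsg.hermForm n F q x x = 0 ∧
      Cfsg.hermForm n F q w x ≠ 0 ∧ Cfsg.hermForm n F q x w' ≠ 0 := by
  obtain ⟨x₀, -, h1, h2⟩ := exists_iso_both hF w w' hw0 hw0' hww hww' h0
  obtain ⟨x₁, hx₁⟩ : ∃ x₁, x₁ = prW q e f j x₀ := ⟨_, rfl⟩
  have hx₁W : x₁ ∈ Wc q e f j := by rw [hx₁]; exact prW_mem hF fr hj x₀
  have hwx₁ : Cfsg.hermForm n F q w x₁ = Cfsg.hermForm n F q w x₀ := by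
    rw [hx₁]; exact prW_left hF hw x₀
  have hx₁w' : Cfsg.hermForm n F q x₁ w' = Cfsg.hermForm n F q x₀ w' := by
    rw [hx₁]; exact prW_right hF hw' x₀
  obtain ⟨l, hl⟩ := exists_trace_one hF
  obtain ⟨N, hN⟩ : ∃ N, N = Cfsg.hermForm n F q x₁ x₁ := ⟨_, rfl⟩
  have hNq : N ^ q = N := by rw [hN]; exact (hf_conj hF n x₁ x₁).symm
  obtain ⟨κ, hκ⟩ : ∃ κ, κ = Cfsg.hermForm n F q w x₁ := ⟨_, rfl⟩
  have hκ0 : κ ≠ 0 := by rw [hκ, hwx₁]; exact h1
  have hx₁w : Cfsg.hermForm n F q x₁ w = κ ^ q := by rw [hκ]; exact hf_conj hF n w x₁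
  obtain ⟨s, hs⟩ : ∃ s, s = -(l * N) / κ := ⟨_, rfl⟩
  have hsκ : s * κ = -(l * N) := by rw [hs, div_mul_cancel₀ _ hκ0]
  have e1 : s ^ q * κ ^ q = -(l ^ q * N) := by
    rw [← mul_pow, hsκ, herm_neg_pow hF, mul_pow, hNq]
  refine ⟨x₁ + s • w, (Wc q e f j).add_mem hx₁W ((Wc q e f j).smul_mem s hw), ?_, ?_, ?_⟩
  · simp only [hf_add_left, hf_add_right hF, hf_smul_left, hf_smul_right, hww, ← hN, ← hκ, hx₁w,
      mul_zero, add_zero]
    linear_combination e1 + hsκ - N * hl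
  · rw [hf_add_right hF, hf_smul_right, hww, mul_zero, add_zero, ← hκ]
    exact hκ0
  · rw [hf_add_left, hf_smul_left, h0, mul_zero, add_zero, hx₁w']
    exact h2

theorem su_lemT (hF : Fintype.card F = q ^ 2) (hn : n = 2 * m + 1) {H : Subgroup (GL (Fin n) F)}
    (hH : H ≤ Cfsg.GU n F q ⊓ Cfsg.Geo.specialLinear (Fin n) F)
    {e f : ℕ → Fin n → F} {d : Fin n → F} (fr : WFr q n m e f d) {j : ℕ} (hj : j < m)
    (hcen : ∀ v ∈ Wc q e f j, Cfsg.hermForm n F q v v = 0 → Cen q H v)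
    (w w' : Fin n → F) (hw : w ∈ Wc q e f j) (hw' : w' ∈ Wc q e f j)
    (hww : Cfsg.hermForm n F q w w = 0) (hww' : Cfsg.hermForm n F q w' w' = 0)
    (hw0 : w ≠ 0) (hw0' : w' ≠ 0) :
    ∃ A : Matrix (Fin n) (Fin n) F, MIn H A ∧ A *ᵥ w = w' ∧
      ∀ y : Fin n → F, (∀ x ∈ Wc q e f j, Cfsg.hermForm n F q y x = 0) → A *ᵥ y = y := by
  by_cases h0 : Cfsg.hermForm n F q w w' = 0
  · obtain ⟨x, hxW, hxx, hwx, hxw'⟩ :=
      exists_iso_both_Wc hF fr (le_of_lt hj) w w' hw hw' hww hww' hw0 hw0' h0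
    exact (trW_of_ne hF hn fr hj hcen w x hw hxW hww hxx hwx).trans
      (trW_of_ne hF hn fr hj hcen x w' hxW hw' hxx hww' hxw')
  · exact trW_of_ne hF hn fr hj hcen w w' hw hw' hww hww' h0

end Cfsg.Agent.Lib.Helper18.SUReg
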