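import Mathlib
import Cfsg.Agent.Lib.Helper44.SURegBase

set_option autoImplicit false

namespace Cfsg.Agent.Lib.Helper18.SUReg

open Matrix Cfsg.Agent.Lib.Helper7 Cfsg.Agent.Lib.Helper18 Cfsg.Agent.Lib.Helper93
  Cfsg.Agent.Lib.Helper44.SUReg

variable {F : Type*} [Field F] [Fintype F] {q n m : ℕ}

theorem su_wdef (hF : Fintype.card F = q ^ 2) {e f : ℕ → Fin n → F} {d : Fin n → F}
    (fr : WFr q n m e f d) :
    ∃ (Wm : Matrix (Fin n) (Fin n) F) (ε : F), Wm.det = 1 ∧ suPres q n Wm ∧ ε ^ (q + 1) = 1 ∧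
      (∀ k, k < m → Wm *ᵥ e k = f k) ∧ (∀ k, k < m → Wm *ᵥ f k = e k) ∧ Wm *ᵥ d = ε • d := by
  classical
  have hxy : IsHypFr q n m (fun i : Fin m => e i) (fun i : Fin m => f i) := by
    refine ⟨fun i j => fr.ee i j i.2 j.2, fun i j => fr.ff i j i.2 j.2, fun i j => ?_⟩
    rw [fr.ef i j i.2 j.2]
    simp [Fin.ext_iff]
  have hyx : IsHypFr q n m (fun i : Fin m => f i) (fun i : Fin m => e i) := by
    refine ⟨fun i j => fr.ff i j i.2 j.2, fun i j => fr.ee i j i.2 j.2, fun i j => ?_⟩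
    rw [fr.fe hF i j i.2 j.2]
    simp [Fin.ext_iff]
  obtain ⟨g, hg1, hg2⟩ := witt_hyp_GU hF _ _ _ _ hxy hyx
  obtain ⟨G, hG⟩ : ∃ G : Matrix (Fin n) (Fin n) F,
      G = ((g : GL (Fin n) F) : Matrix (Fin n) (Fin n) F) := ⟨_, rfl⟩
  have hGp : suPres q n G := by
    rw [hG]
    exact (mem_GU_iff g.1).mp g.2
  have hGe : ∀ k, k < m → G *ᵥ e k = f k := fun k hk => by
    rw [hG]
    exact hg1 ⟨k, hk⟩
  have hGf : ∀ k, k < m → G *ᵥ f k = e k := fun k hk => by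
    rw [hG]
    exact hg2 ⟨k, hk⟩
  obtain ⟨ε', hε'⟩ : ∃ ε', ε' = Cfsg.hermForm n F q (G *ᵥ d) d := ⟨_, rfl⟩
  have hGd : G *ᵥ d = ε' • d := by
    have h0 : G *ᵥ d - ε' • d = 0 := by
      apply fr.cpl
      · intro i hi
        constructor
        · rw [hf_sub_left, hf_smul_left, fr.de i hi, mul_zero, sub_zero, ← hGf i hi, hGp,
            fr.df i hi]
        · rw [hf_sub_left, hf_smul_left, fr.df i hi, mul_zero, sub_zero, ← hGe i hi, hGp,
            fr.de i hi]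
      · rw [hf_sub_left, hf_smul_left, fr.dd, mul_one, hε', sub_self]
    exact sub_eq_zero.mp h0
  have hε'N : ε' ^ (q + 1) = 1 := by
    have h1 := hGp d d
    rw [hGd, hf_smul_left, hf_smul_right, fr.dd, mul_one] at h1
    rw [pow_succ']
    exact h1
  obtain ⟨δ, hδ⟩ : ∃ δ, δ = G.det := ⟨_, rfl⟩
  have hδN : δ ^ (q + 1) = 1 := by
    rw [hδ, hG]
    exact det_pow_of_isFr hF _ ((mem_GU_iff_isFr hF g.1).mp g.2)
  have hδ0 : δ ≠ 0 := by
    intro h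
    rw [h, zero_pow (Nat.succ_ne_zero q)] at hδN
    exact zero_ne_one hδN
  have hδiN : δ⁻¹ ^ (q + 1) = 1 := by rw [inv_pow, hδN, inv_one]
  refine ⟨qrefl q n d δ⁻¹ * G, ε' * δ⁻¹, ?_, ?_, ?_, ?_, ?_, ?_⟩
  · rw [Matrix.det_mul, qrefl_det n d δ⁻¹ fr.dd, ← hδ, inv_mul_cancel₀ hδ0]
  · exact suPres_mul (fun u v => qrefl_preserves hF n d δ⁻¹ fr.dd hδiN u v) hGp
  · rw [mul_pow, hε'N, hδiN, mul_one]
  · intro k hk
    rw [← Matrix.mulVec_mulVec, hGe k hk, qrefl_mulVec, fr.fd hF k hk, mul_zero, zero_smul,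
      add_zero]
  · intro k hk
    rw [← Matrix.mulVec_mulVec, hGf k hk, qrefl_mulVec, fr.ed hF k hk, mul_zero, zero_smul,
      add_zero]
  · rw [← Matrix.mulVec_mulVec, hGd, qrefl_mulVec, hf_smul_left, fr.dd, mul_one, ← add_smul]
    congr 1
    ring

end Cfsg.Agent.Lib.Helper18.SUReg
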