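import Mathlib
import Cfsg.Agent.Lib.Helper93.Sp4Defs
import Cfsg.Agent.Lib.Helper23.PresSURJ

/-!
# S2293 piece SP4-COMMB (helper18 for helper93): `x_β` commutes with `x_{2α+β}`
-/

set_option autoImplicit false

namespace Cfsg.Agent.Lib.Helper93.Sp4

section level2

variable {F : Type*} [Field F] {P : Type*} [Group P] {ζ : F} {n : ℕ} {xa xb : F → P}
  {ha ta hb tb : P}

/-- COMMB -/
theorem comm_b_aab [Fintype F] (D : C2Root ζ n xa xb ha ta hb tb)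
    (M : C2Moves ζ xa xb ha ta hb tb) (hζ0 : ζ ≠ 0)
    (hζ : ∀ a : F, a ≠ 0 → ∃ j : ℕ, a = ζ ^ j) :
    ∀ b d : F, Commute (xb b) (ta * xb d * ta⁻¹) := by
  have hxb0 : xb 0 = 1 := by
    have h := D.addb 0 0
    rw [add_zero] at h
    exact (mul_eq_left (a := xb 0)).mp h.symm
  -- conjugation by `hb`
  have hB : ∀ (i : ℕ) (b d : F), Commute (xb b) (ta * xb d * ta⁻¹) →
      Commute (xb ((ζ⁻¹ ^ 2) ^ i * b)) (ta * xb d * ta⁻¹) := by
    intro i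
    induction i with
    | zero =>
      intro b d h
      rw [pow_zero, one_mul]
      exact h
    | succ k ih =>
      intro b d h
      have h1 := (Commute.conj_iff hb).2 (ih b d h)
      rw [M.b_hb, M.aab_hb] at h1
      have e1 : (ζ⁻¹ ^ 2) ^ (k + 1) * b = ζ⁻¹ ^ 2 * ((ζ⁻¹ ^ 2) ^ k * b) := by ring
      rw [e1]
      exact h1
  -- conjugation by `ha`
  have hA : ∀ (j : ℕ) (b d : F), Commute (xb b) (ta * xb d * ta⁻¹) →
      Commute (xb ((ζ ^ 2) ^ j * b)) (ta * xb ((ζ⁻¹ ^ 2) ^ j * d) * ta⁻¹) := by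
    intro j
    induction j with
    | zero =>
      intro b d h
      rw [pow_zero, one_mul, pow_zero, one_mul]
      exact h
    | succ k ih =>
      intro b d h
      have h1 := (Commute.conj_iff ha).2 (ih b d h)
      rw [M.b_ha, M.aab_ha] at h1
      have e1 : (ζ ^ 2) ^ (k + 1) * b = ζ ^ 2 * ((ζ ^ 2) ^ k * b) := by ring
      have e2 : (ζ⁻¹ ^ 2) ^ (k + 1) * d = ζ⁻¹ ^ 2 * ((ζ⁻¹ ^ 2) ^ k * d) := by ring
      rw [e1, e2]
      exact h1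
  -- nonzero squares
  have hS0 : ∀ β δ : F, β ≠ 0 → δ ≠ 0 → Commute (xb (β ^ 2)) (ta * xb (δ ^ 2) * ta⁻¹) := by
    intro β δ hβ hδ
    obtain ⟨j, hj⟩ := hζ δ⁻¹ (inv_ne_zero hδ)
    obtain ⟨i, hi⟩ := hζ (β * ζ⁻¹ ^ j)⁻¹
      (inv_ne_zero (mul_ne_zero hβ (pow_ne_zero _ (inv_ne_zero hζ0))))
    have h1 := hA j _ _ (hB i _ _ D.s3)
    have hδ' : δ = ζ⁻¹ ^ j := by rw [inv_pow, ← hj, inv_inv]
    have hβ' : β * ζ⁻¹ ^ j = ζ⁻¹ ^ i := by rw [inv_pow ζ i, ← hi, inv_inv]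
    have hβ'' : β = ζ⁻¹ ^ i * ζ ^ j := by
      rw [← hβ', mul_assoc, ← mul_pow, inv_mul_cancel₀ hζ0, one_pow, mul_one]
    have e1 : (ζ ^ 2) ^ j * ((ζ⁻¹ ^ 2) ^ i * 1) = β ^ 2 := by
      rw [hβ'']
      ring
    have e2 : (ζ⁻¹ ^ 2) ^ j * 1 = δ ^ 2 := by
      rw [hδ']
      ring
    rw [e1, e2] at h1
    exact h1
  -- all squares
  have hS : ∀ β δ : F, Commute (xb (β ^ 2)) (ta * xb (δ ^ 2) * ta⁻¹) := by
    intro β δ
    by_cases hβ : β = 0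
    · rw [hβ, zero_pow (by norm_num), hxb0]
      exact Commute.one_left _
    by_cases hδ : δ = 0
    · rw [hδ, zero_pow (by norm_num), hxb0, mul_one, mul_inv_cancel]
      exact Commute.one_right _
    exact hS0 β δ hβ hδ
  intro b d
  obtain ⟨b1, b2, hb12⟩ := Cfsg.Agent.Lib.Helper93.Pres.h23_sum_two_sq b
  obtain ⟨d1, d2, hd12⟩ := Cfsg.Agent.Lib.Helper93.Pres.h23_sum_two_sq d
  rw [← hb12, ← hd12, D.addb, D.addb]
  have e : ta * (xb (d1 ^ 2) * xb (d2 ^ 2)) * ta⁻¹ =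
      (ta * xb (d1 ^ 2) * ta⁻¹) * (ta * xb (d2 ^ 2) * ta⁻¹) := by group
  rw [e]
  exact ((hS b1 d1).mul_right (hS b1 d2)).mul_left ((hS b2 d1).mul_right (hS b2 d2))

end level2

end Cfsg.Agent.Lib.Helper93.Sp4
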