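import Mathlib
import Cfsg.Agent.Lib.Helper72.ZGPL

/-!
# Soluble groups with one class of involutions have 2-length one: definitions (helper18)

Shared definitions for the pieces of S3797 (Thompson).  `G` is a finite group, `Z` is the subgroup
of all elements with `g ^ 2 = 1` (in the situation `O(G) = 1` these form a normal elementary
abelian subgroup), and `G` permutes `Z ∖ 1` transitively by conjugation.
-/

set_option autoImplicit false

namespace Cfsg.Agent.Lib.Helper18.TL

open Subgroup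
open scoped commutatorElement

universe u

variable {G : Type u} [Group G]

/-- internal 2-length at most one of a subgroup `K` of `G` (helper72's `PL1 2 K`): a chain
`A ≤ B ≤ K` of `K`-invariant subgroups, `A` of odd order, `B / A` a 2-group, `K / B` of odd
order. -/
abbrev PL (K : Subgroup G) : Prop := Cfsg.Agent.Lib.Helper72.ZG.PL1 2 K

/-- `H` permutes the non-identity elements of `Z` transitively by conjugation. -/
def TransOn (Z H : Subgroup G) : Prop :=
  ∀ z ∈ Z, ∀ z' ∈ Z, z ≠ 1 → z' ≠ 1 → ∃ h ∈ H, h * z * h⁻¹ = z'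

/-- The ambient situation (a minimal counterexample with `O(G) = 1`): `G` soluble, `Z` is the set
of all `g` with `g ^ 2 = 1`, `G` is transitive on `Z ∖ 1`, `|Z| ≥ 4`, no non-trivial normal
subgroup of odd order, and every proper subgroup containing `Z` and transitive on `Z ∖ 1` has
2-length at most one. -/
structure Amb (G : Type u) [Group G] (Z : Subgroup G) : Prop where
  solv : Group.IsSolvable G
  memZ : ∀ g : G, g ∈ Z ↔ g ^ 2 = 1
  trans : TransOn Z ⊤
  four : ∃ z ∈ Z, ∃ z' ∈ Z, z ≠ 1 ∧ z' ≠ 1 ∧ z ≠ z'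
  oddcore : ∀ N : Subgroup G, N.Normal → Odd (Nat.card N) → N = ⊥
  ih : ∀ H : Subgroup G, H ≠ ⊤ → Z ≤ H → TransOn Z H → PL H

/-- The ambient situation together with a subgroup `Y` of odd order transitive on `Z ∖ 1`. -/
structure Cfg (Z Y : Subgroup G) : Prop where
  amb : Amb G Z
  oddY : Odd (Nat.card Y)
  trans : TransOn Z Y

/-- An admissible triple `(P, W, T)` (relative to `Z`, `Y`): `P`, `T` are 2-groups, `W` has odd
order, `Y` normalizes `P`, `W`, `T`, `T` normalizes `P`, `W`, `W` normalizes `P`, `Z ≤ T`,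
`T` and `W` centralize `Z`, and `[W, T]` does not centralize `P`. -/
structure Adm (Z Y P W T : Subgroup G) : Prop where
  pP : IsPGroup 2 P
  pT : IsPGroup 2 T
  oddW : Odd (Nat.card W)
  YP : Y ≤ normalizer (P : Set G)
  YW : Y ≤ normalizer (W : Set G)
  YT : Y ≤ normalizer (T : Set G)
  TP : T ≤ normalizer (P : Set G)
  TW : T ≤ normalizer (W : Set G)
  WP : W ≤ normalizer (P : Set G)
  ZT : Z ≤ T
  TZ : T ≤ centralizer (Z : Set G)
  WZ : W ≤ centralizer (Z : Set G)
  nontriv : ¬ (⁅W, T⁆ ≤ centralizer (P : Set G))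

/-- An admissible triple minimal for componentwise inclusion. -/
def MinAdm (Z Y P W T : Subgroup G) : Prop :=
  Adm Z Y P W T ∧ ∀ P' W' T' : Subgroup G, Adm Z Y P' W' T' → P' ≤ P → W' ≤ W → T' ≤ T →
    P' = P ∧ W' = W ∧ T' = T

/-- `B` is a subgroup of index two of `T` containing `Z` (elementwise form). -/
def IsMaxIn (Z T B : Subgroup G) : Prop :=
  Z ≤ B ∧ B ≤ T ∧ B ≠ T ∧ ∀ a ∈ T, ∀ b ∈ T, a ∉ B → b ∉ B → a * b ∈ B

/-- The first reduced configuration reached from a minimal admissible triple: `P` is special with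
`P' = Z = C_P(W)` and all squares in `Z`, `[P, W] = P`, `W` faithful on `P`, `[W, T] = W`,
`C_T(W) = Z`, `T / Z` is elementary abelian, irreducible under `Y`, of order at least four; and the
minimality properties of `P` and `W`. -/
structure Red0 (Z Y P W T : Subgroup G) : Prop where
  cfg : Cfg Z Y
  adm : Adm Z Y P W T
  ZP : Z ≤ P
  PZ : P ≤ centralizer (Z : Set G)
  commP : ⁅P, P⁆ ≤ Z
  sqP : ∀ x ∈ P, x ^ 2 ∈ Z
  PW : ⁅P, W⁆ = P
  cPW : P ⊓ centralizer (W : Set G) = Z
  faith : W ⊓ centralizer (P : Set G) = ⊥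
  WT : ⁅W, T⁆ = W
  cTW : T ⊓ centralizer (W : Set G) = Z
  sqT : ∀ a ∈ T, a ^ 2 ∈ Z
  commT : ∀ a ∈ T, ∀ b ∈ T, ⁅a, b⁆ ∈ Z
  Tirr : ∀ T' : Subgroup G, Z ≤ T' → T' ≤ T → Y ≤ normalizer (T' : Set G) → T' = Z ∨ T' = T
  Tidx : ∀ a ∈ T, ∃ b ∈ T, b ∉ Z ∧ b * a⁻¹ ∉ Z
  minP : ∀ P' : Subgroup G, P' ≤ P → P' ≠ P → W ≤ normalizer (P' : Set G) →
    T ≤ normalizer (P' : Set G) → Y ≤ normalizer (P' : Set G) → W ≤ centralizer (P' : Set G)
  maxW : ∀ W' : Subgroup G, W' ≤ W → W' ≠ W → T ≤ normalizer (W' : Set G) →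
    Y ≤ normalizer (W' : Set G) → W' ≤ centralizer (T : Set G)

/-- The reduced configuration: `Red0` together with `W` abelian and `C_W(T) = 1`. -/
structure Red (Z Y P W T : Subgroup G) : Prop where
  red0 : Red0 Z Y P W T
  Wab : ∀ w ∈ W, ∀ w' ∈ W, w * w' = w' * w
  cWT : W ⊓ centralizer (T : Set G) = ⊥

end Cfsg.Agent.Lib.Helper18.TL
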