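import Mathlib
import Cfsg.Agent.Lib.Helper72.ZGNf
import Cfsg.Agent.Lib.Helper18.TLDefs

/-! Coprime action of an odd-order group on a 2-group, in the form used by the `TL` pieces
(helper18). -/

set_option autoImplicit false

namespace Cfsg.Agent.Lib.Helper18.TL

open Subgroup
open scoped commutatorElement

universe u

variable {G : Type u} [Group G]

theorem cop_coprime [Finite G] {X A : Subgroup G} (hX : IsPGroup 2 X) (hA : Odd (Nat.card A)) :
    (Nat.card A).Coprime (Nat.card X) := by
  obtain ⟨n, hn⟩ := IsPGroup.iff_card.1 hX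
  rw [hn]
  exact Nat.Coprime.pow_right n (Nat.coprime_two_right.2 hA)

theorem cop_solvable [Finite G] {X : Subgroup G} (hX : IsPGroup 2 X) : Group.IsSolvable ↥X := by
  have : Fact (Nat.Prime 2) := ⟨Nat.prime_two⟩
  have := hX.isNilpotent
  infer_instance

/-- coprime action: `[X, A, A] = [X, A]` for `A` of odd order normalizing the 2-group `X`. -/
theorem cop_comm_eq [Finite G] {X A : Subgroup G} (hX : IsPGroup 2 X) (hA : Odd (Nat.card A))
    (hAX : A ≤ normalizer (X : Set G)) : ⁅⁅X, A⁆, A⁆ = ⁅X, A⁆ :=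
  Cfsg.Agent.Lib.Helper72.ZG.commutator_commutator_eq hAX
    (Cfsg.Agent.Lib.Helper72.ZG.le_cent_mul_commutator hAX (cop_coprime hX hA)
      (Or.inr (cop_solvable hX)))

theorem cop_le_centralizer_of_comm_bot {X A : Subgroup G} (h : ⁅X, A⁆ = ⊥) :
    A ≤ centralizer (X : Set G) := by
  intro a ha
  rw [Subgroup.mem_centralizer_iff]
  intro x hx
  have h1 : ⁅x, a⁆ ∈ ⁅X, A⁆ := Subgroup.commutator_mem_commutator hx ha
  rw [h, Subgroup.mem_bot, commutatorElement_eq_one_iff_mul_comm] at h1
  exact h1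

theorem cop_comm_bot_of_le_centralizer {X A : Subgroup G} (h : A ≤ centralizer (X : Set G)) :
    ⁅X, A⁆ = ⊥ := by
  rw [eq_bot_iff, Subgroup.commutator_le]
  intro x hx a ha
  rw [Subgroup.mem_bot, commutatorElement_eq_one_iff_mul_comm]
  exact (Subgroup.mem_centralizer_iff.1 (h ha)) x hx

/-- If `A` (odd order, normalizing the 2-group `X`) centralizes `[X, A]`, then `A` centralizes
`X`. -/
theorem cop_centralizes [Finite G] {X A : Subgroup G} (hX : IsPGroup 2 X) (hA : Odd (Nat.card A))
    (hAX : A ≤ normalizer (X : Set G)) (h : A ≤ centralizer ((⁅X, A⁆ : Subgroup G) : Set G)) :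
    A ≤ centralizer (X : Set G) := by
  apply cop_le_centralizer_of_comm_bot
  rw [← cop_comm_eq hX hA hAX]
  exact cop_comm_bot_of_le_centralizer h

end Cfsg.Agent.Lib.Helper18.TL
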