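import Mathlib

set_option autoImplicit false

namespace Cfsg.Agent.Lib.Helper18.TwoPr

open Equiv Equiv.Perm MulAction

theorem mem_union_iff_apply {α : Type*} [Fintype α] [DecidableEq α] (σ τ : Perm α) (x : α) :
    σ x ∈ σ.support ∪ τ.support ↔ x ∈ σ.support ∪ τ.support := by
  by_cases hx : x ∈ σ.support
  · have h1 : σ x ∈ σ.support := Perm.apply_mem_support.mpr hx
    simp only [Finset.mem_union, hx, h1, true_or]
  · have h1 : σ x = x := Perm.notMem_support.mp hx
    rw [h1]

/-- TP-RES -/
theorem exists_restrict {α : Type*} [Fintype α] [DecidableEq α] (σ τ : Perm α) :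
    ∃ (σ' τ' : Perm {x // x ∈ σ.support ∪ τ.support}),
      σ'.cycleType = σ.cycleType ∧ τ'.cycleType = τ.cycleType ∧
      σ'.support ∪ τ'.support = Finset.univ ∧
      Nonempty (Subgroup.closure ({σ, τ} : Set (Perm α)) ≃*
        Subgroup.closure ({σ', τ'} : Set (Perm {x // x ∈ σ.support ∪ τ.support}))) := by
  have hσ : ∀ x, σ x ∈ σ.support ∪ τ.support ↔ x ∈ σ.support ∪ τ.support :=
    mem_union_iff_apply σ τ
  have hτ : ∀ x, τ x ∈ σ.support ∪ τ.support ↔ x ∈ σ.support ∪ τ.support := by
    intro x
    have := mem_union_iff_apply τ σ x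
    rwa [Finset.union_comm] at this
  have eσ : Perm.ofSubtype (σ.subtypePerm hσ) = σ := by
    apply Perm.ofSubtype_subtypePerm
    intro x hx
    exact Finset.mem_union_left _ (Perm.mem_support.mpr hx)
  have eτ : Perm.ofSubtype (τ.subtypePerm hτ) = τ := by
    apply Perm.ofSubtype_subtypePerm
    intro x hx
    exact Finset.mem_union_right _ (Perm.mem_support.mpr hx)
  refine ⟨σ.subtypePerm hσ, τ.subtypePerm hτ, ?_, ?_, ?_, ?_⟩
  · conv_rhs => rw [← eσ]
    exact (Perm.cycleType_ofSubtype).symm
  · conv_rhs => rw [← eτ]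
    exact (Perm.cycleType_ofSubtype).symm
  · ext x
    simp only [Finset.mem_union, Finset.mem_univ, iff_true, Perm.mem_support]
    have hx := x.2
    rw [Finset.mem_union, Perm.mem_support, Perm.mem_support] at hx
    rcases hx with h | h
    · left
      intro h'
      apply h
      have := congrArg Subtype.val h'
      simpa using this
    · right
      intro h'
      apply h
      have := congrArg Subtype.val h'
      simpa using this
  · have hinj : Function.Injective
        (Perm.ofSubtype : Perm {x // x ∈ σ.support ∪ τ.support} →* Perm α) :=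
      Perm.ofSubtype_injective
    have hmap : (Subgroup.closure ({σ.subtypePerm hσ, τ.subtypePerm hτ} :
        Set (Perm {x // x ∈ σ.support ∪ τ.support}))).map Perm.ofSubtype =
        Subgroup.closure ({σ, τ} : Set (Perm α)) := by
      rw [MonoidHom.map_closure, Set.image_pair, eσ, eτ]
    exact ⟨(MulEquiv.subgroupCongr hmap.symm).trans
      (Subgroup.equivMapOfInjective _ _ hinj).symm⟩

end Cfsg.Agent.Lib.Helper18.TwoPr
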