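import Mathlib
import Cfsg.Prelude.Def_Classical
import Cfsg.Agent.Lib.Helper18.UEDefs
import Cfsg.Agent.Lib.Helper7.SUCenter

/-!
S2335 piece UE-LEVEL (helper18): the level set `{u | hq σ K u = hq σ K u₀}` has at most
`(q + 1) |u₀^⊥|` elements (decompose `u = w + a • u₀`; `a` solves a norm equation).
-/

set_option autoImplicit false

namespace Cfsg.Agent.Lib.Helper18.UE

open Matrix

universe u

variable {F : Type u} [Field F] {m : ℕ}

theorem card_level [Fintype F] {q : ℕ} (hF : Fintype.card F = q ^ 2) (σ : F →+* F)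
    (hσ : ∀ x, σ x = x ^ q) (K : Matrix (Fin m) (Fin m) F) (hK : IsHerm σ K)
    (u₀ : Fin m → F) (hα : hq σ K u₀ ≠ 0)
    (hnorm : ∀ c : F, Nat.card {a : F | a * a ^ q = c} ≤ q + 1) :
    Nat.card {u : Fin m → F | hq σ K u = hq σ K u₀} ≤
      (q + 1) * Nat.card {w : Fin m → F | hB σ K w u₀ = 0} := by
  classical
  have hσ2 : ∀ x, σ (σ x) = x := fun x => by
    rw [hσ, hσ]
    exact Cfsg.Agent.Lib.Helper7.herm_pow_pow hF x
  have hα' : hB σ K u₀ u₀ ≠ 0 := hα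
  have key : ∀ u : Fin m → F,
      hB σ K (u - σ (hB σ K u u₀ / hB σ K u₀ u₀) • u₀) u₀ = 0 := by
    intro u
    have h1 := hB_add_left σ K (u - σ (hB σ K u u₀ / hB σ K u₀ u₀) • u₀)
      (σ (hB σ K u u₀ / hB σ K u₀ u₀) • u₀) u₀
    rw [sub_add_cancel, hB_smul_left, hσ2, div_mul_cancel₀ _ hα'] at h1
    linear_combination -h1
  have hfib : ∀ (w : Fin m → F) (a : F), hB σ K w u₀ = 0 →
      hq σ K (w + a • u₀) = hq σ K u₀ →
      a * a ^ q = (hq σ K u₀ - hq σ K w) / hq σ K u₀ := by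
    intro w a hw0 hu
    have hw0' : hB σ K u₀ w = 0 := by rw [← hB_conj σ hσ2 hK w u₀, hw0, map_zero]
    have h1 : hq σ K (w + a • u₀) = hq σ K w + a * σ a * hq σ K u₀ := by
      rw [hq_add, hq_smul, hB_smul_right, hB_smul_left, hw0, hw0']
      ring
    rw [hu] at h1
    rw [← hσ a, eq_div_iff hα]
    linear_combination -h1
  have hemb : ∀ c : F, Nonempty ({a : F | a * a ^ q = c} ↪ Fin (q + 1)) := by
    intro c
    apply Function.Embedding.nonempty_of_card_le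
    rw [Fintype.card_fin, ← Nat.card_eq_fintype_card]
    exact hnorm c
  let N : F → F → Fin (q + 1) := fun c a =>
    if h : a * a ^ q = c then (hemb c).some ⟨a, h⟩ else 0
  have hN : ∀ (c a a' : F), a * a ^ q = c → a' * a' ^ q = c → N c a = N c a' → a = a' := by
    intro c a a' ha ha' h
    simp only [N, dif_pos ha, dif_pos ha'] at h
    exact congrArg Subtype.val ((hemb c).some.injective h)
  let f : {u : Fin m → F | hq σ K u = hq σ K u₀} →
      {w : Fin m → F | hB σ K w u₀ = 0} × Fin (q + 1) := fun u =>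
    (⟨u.1 - σ (hB σ K u.1 u₀ / hB σ K u₀ u₀) • u₀, key u.1⟩,
      N ((hq σ K u₀ - hq σ K (u.1 - σ (hB σ K u.1 u₀ / hB σ K u₀ u₀) • u₀)) / hq σ K u₀)
        (σ (hB σ K u.1 u₀ / hB σ K u₀ u₀)))
  have hf : Function.Injective f := by
    rintro ⟨u, hu⟩ ⟨u', hu'⟩ h
    have h1 : u - σ (hB σ K u u₀ / hB σ K u₀ u₀) • u₀ =
        u' - σ (hB σ K u' u₀ / hB σ K u₀ u₀) • u₀ :=
      congrArg (fun p => (p.1 : Fin m → F)) h
    have h2 : N ((hq σ K u₀ - hq σ K (u - σ (hB σ K u u₀ / hB σ K u₀ u₀) • u₀)) / hq σ K u₀)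
        (σ (hB σ K u u₀ / hB σ K u₀ u₀)) =
        N ((hq σ K u₀ - hq σ K (u' - σ (hB σ K u' u₀ / hB σ K u₀ u₀) • u₀)) / hq σ K u₀)
        (σ (hB σ K u' u₀ / hB σ K u₀ u₀)) := congrArg Prod.snd h
    have e1 := hfib _ (σ (hB σ K u u₀ / hB σ K u₀ u₀)) (key u) (by rw [sub_add_cancel]; exact hu)
    have e2 := hfib _ (σ (hB σ K u' u₀ / hB σ K u₀ u₀)) (key u')
      (by rw [sub_add_cancel]; exact hu')
    rw [← h1] at h2 e2
    have h3 := hN _ _ _ e1 e2 h2
    apply Subtype.ext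
    show u = u'
    have h4 : u = (u - σ (hB σ K u u₀ / hB σ K u₀ u₀) • u₀) +
        σ (hB σ K u u₀ / hB σ K u₀ u₀) • u₀ := by rw [sub_add_cancel]
    have h5 : u' = (u' - σ (hB σ K u' u₀ / hB σ K u₀ u₀) • u₀) +
        σ (hB σ K u' u₀ / hB σ K u₀ u₀) • u₀ := by rw [sub_add_cancel]
    rw [h4, h5, ← h1, h3]
  have h6 := Nat.card_le_card_of_injective f hf
  rw [Nat.card_prod, Nat.card_eq_fintype_card (α := Fin (q + 1)), Fintype.card_fin,
    mul_comm] at h6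
  exact h6

end Cfsg.Agent.Lib.Helper18.UE
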