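import Mathlib
import Cfsg.Prelude.Def_Classical
import Cfsg.Agent.Lib.Helper18.UEDefs
import Cfsg.Agent.Lib.Helper18.UELEVEL
import Cfsg.Agent.Lib.Helper60.U3Base
import Cfsg.Agent.Lib.Helper61.LSFAITH1
import Cfsg.Agent.Lib.Helper4.LSINDEP
import Cfsg.Agent.S0283
import Cfsg.Agent.Lib.Helper14.UEBASIS
import Cfsg.Agent.Lib.Helper19.UENORM
import Cfsg.Agent.Lib.Helper21.UEMEM
import Cfsg.Agent.Lib.Helper30.UETRANS
import Cfsg.Agent.Lib.Helper31.UECHARFORM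
import Cfsg.Agent.Lib.Helper36.UESEP
import Cfsg.Agent.Lib.Helper36.UEWTMOVE
import Cfsg.Agent.Lib.Helper43.UEPSI0
import Cfsg.Agent.Lib.Helper46.UEE0
import Cfsg.Agent.Lib.Helper54.UESHEARSL
import Cfsg.Agent.Lib.Helper56.UESHEARINJ
import Cfsg.Agent.Lib.Helper57.UETINJ
import Cfsg.Agent.Lib.Helper59.UECOMEIGP
import Cfsg.Agent.Lib.Helper6.UELCARD
import Cfsg.Agent.Lib.Helper61.UENC
import Cfsg.Agent.Lib.Helper62.UEWCARD
import Cfsg.Agent.Lib.Helper77.UEHOM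
import Cfsg.Agent.Lib.Helper82.UENPTS
import Cfsg.Agent.Lib.Helper90.UEBLOCK

/-!
# Minimal degree of `SU_n(q)`, `n` even: assembly (helper18, S2335)

`main_bound_u`: every irreducible complex representation of `SU_{2m}(q)`, `m ≥ 2`, of degree
`k ≥ 2` satisfies `(q^(2m) - 1) / (q + 1) ≤ k`.  The pieces `UE<TAG>` were proved by helpers
6, 14, 19, 21, 30, 31, 36, 43, 46, 54, 56, 57, 59, 61, 62, 77, 82, 90.
-/

set_option autoImplicit false

namespace Cfsg.Agent.Lib.Helper18.UE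

open Matrix

universe u

variable {F : Type u} [Field F] {m : ℕ}

/-! ## glue (helper18) -/

/-- a representation with trivial action on a space of dimension at least two is reducible -/
theorem not_irr_of_trivial {G : Type*} [Group G] {k : ℕ} (hk : 2 ≤ k)
    (ρ : Representation ℂ G (Fin k → ℂ)) (htriv : ∀ g, ρ g = 1) : ¬ ρ.IsIrreducible := by
  intro hirr
  let i0 : Fin k := ⟨0, by omega⟩
  let i1 : Fin k := ⟨1, by omega⟩
  have h01 : i1 ≠ i0 := by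
    intro h
    have := congrArg Fin.val h
    simp [i0, i1] at this
  let τ : Subrepresentation ρ :=
    ⟨Submodule.span ℂ {(Pi.single i0 1 : Fin k → ℂ)}, fun g v hv => by
      rw [htriv g]
      exact hv⟩
  rcases eq_bot_or_eq_top τ with h | h
  · have h1 : τ.toSubmodule = ⊥ := congrArg Subrepresentation.toSubmodule h
    have h2 : (Pi.single i0 1 : Fin k → ℂ) ∈ τ.toSubmodule :=
      Submodule.subset_span (Set.mem_singleton _)
    rw [h1, Submodule.mem_bot] at h2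
    have := congrFun h2 i0
    simp at this
  · have h1 : τ.toSubmodule = ⊤ := congrArg Subrepresentation.toSubmodule h
    have h2 : (Pi.single i1 1 : Fin k → ℂ) ∈ τ.toSubmodule := by
      rw [h1]
      trivial
    obtain ⟨c, hc⟩ := Submodule.mem_span_singleton.mp h2
    have := congrFun hc i1
    simp [h01] at this

/-- the elements `u(H)` and `d(g)` inside `SU_{2m}(q)` -/
theorem exists_uH_dG [Fintype F] {q : ℕ} (hF : Fintype.card F = q ^ 2) (σ : F →+* F)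
    (hσ : ∀ x, σ x = x ^ q) (hσ2 : ∀ x, σ (σ x) = x) (m : ℕ) (hm : 1 ≤ m) :
    ∃ (uH : Matrix (Fin m) (Fin m) F → ↥(Cfsg.SU (m + m) F q))
      (dG : SpecialLinearGroup (Fin m) F → ↥(Cfsg.SU (m + m) F q)),
      uH 0 = 1 ∧
      (∀ H H' : Matrix (Fin m) (Fin m) F, IsHerm σ H → IsHerm σ H' →
        uH (H + H') = uH H * uH H') ∧
      (∀ (g : SpecialLinearGroup (Fin m) F) (H : Matrix (Fin m) (Fin m) F), IsHerm σ H →
        dG g * uH H =
          uH ((g : Matrix (Fin m) (Fin m) F) * H * hconj σ (g : Matrix (Fin m) (Fin m) F)) *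
            dG g) ∧
      uH (E0 m F) ∉ Subgroup.center ↥(Cfsg.SU (m + m) F q) := by
  classical
  obtain ⟨β, P, P', -, h1, h2, h3⟩ := exists_basis hF σ hσ m
  obtain ⟨φ, hφ⟩ := model_hom hF σ hσ m β P P' h1 h2 h3
  let uH : Matrix (Fin m) (Fin m) F → ↥(Cfsg.SU (m + m) F q) := fun H =>
    if h : IsHerm σ H then φ ⟨uB H, uB_mem σ β h⟩ else 1
  let dG : SpecialLinearGroup (Fin m) F → ↥(Cfsg.SU (m + m) F q) := fun g =>
    φ ⟨dB σ g, dB_mem σ hσ2 β g⟩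
  have huH : ∀ (H : Matrix (Fin m) (Fin m) F) (h : IsHerm σ H),
      uH H = φ ⟨uB H, uB_mem σ β h⟩ := fun H h => dif_pos h
  refine ⟨uH, dG, ?_, ?_, ?_, ?_⟩
  · rw [huH 0 (isHerm_zero σ), ← map_one φ]
    congr 1
    exact Subtype.ext uB_zero
  · intro H H' hH hH'
    rw [huH _ (hH.add hH'), huH _ hH, huH _ hH', ← map_mul]
    congr 1
    exact Subtype.ext (uB_add H H')
  · intro g H hH
    rw [huH _ hH, huH _ (herm_conj σ hσ2 _ hH)]
    show φ _ * φ _ = φ _ * φ _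
    rw [← map_mul, ← map_mul]
    congr 1
    exact Subtype.ext (dB_mul_uB σ g H)
  · intro hc
    rw [Subgroup.mem_center_iff] at hc
    have h4 := hc (φ ⟨lB (E0 m F), lB_mem σ β (E0_isHerm σ)⟩)
    rw [huH _ (E0_isHerm σ), ← map_mul, ← map_mul] at h4
    have h5 := congrArg Subtype.val (hφ h4)
    exact uB_lB_ne hm h5.symm

/-- a nontrivial irreducible representation of `SU_n(q)`, `n ≥ 3`, `(n, q) ≠ (3, 2)`, is
nontrivial on every non-central element -/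
theorem su_faithful [Fintype F] {q : ℕ} (hF : Fintype.card F = q ^ 2) (n : ℕ) (hn : 3 ≤ n)
    (hex : ¬ (n = 3 ∧ q = 2)) {k : ℕ} (hk : 2 ≤ k)
    (ρ : Representation ℂ ↥(Cfsg.SU n F q) (Fin k → ℂ))
    (hirr : ρ.IsIrreducible) (x : ↥(Cfsg.SU n F q))
    (hx : x ∉ Subgroup.center ↥(Cfsg.SU n F q)) : ρ x ≠ 1 := by
  intro h1
  have hq2 : 2 ≤ q := Cfsg.Agent.Lib.Helper7.herm_two_le hF
  have hnq : 4 ≤ n ∨ 3 ≤ q := by
    by_cases h3 : n = 3
    · right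
      by_contra hq
      exact hex ⟨h3, by omega⟩
    · left
      omega
  have hnq' : 4 ≤ n ∨ (n = 3 ∧ 3 ≤ q) := by
    by_cases h3 : n = 3
    · right
      refine ⟨h3, ?_⟩
      by_contra hq
      exact hex ⟨h3, by omega⟩
    · left
      omega
  have hperf : commutator ↥(Cfsg.SU n F q) = ⊤ := by
    have hcl := Cfsg.Agent.Lib.Helper7.su_closure_eq_top hF n hn hnq
    rw [commutator_eq_closure, eq_top_iff, ← hcl]
    apply Subgroup.closure_mono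
    rintro A ⟨v, c, hv, hA⟩
    exact Cfsg.Agent.S0781.result hF n hnq' A v c hv hA
  have hsimple : IsSimpleGroup
      (↥(Cfsg.SU n F q) ⧸ Subgroup.center ↥(Cfsg.SU n F q)) :=
    Cfsg.Agent.S0283.result hF n hn hex
  have hmem : x ∈ MonoidHom.ker ρ := h1
  have htop := Cfsg.Agent.Lib.Helper18.LS.normal_eq_top_of_not_central hperf hsimple
    (MonoidHom.ker ρ) x hmem hx
  apply not_irr_of_trivial hk ρ _ hirr
  intro g
  have : g ∈ MonoidHom.ker ρ := by rw [htop]; trivial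
  exact this

/-- REP: the degree is at least the size of the orbit of a nonzero Hermitian form -/
theorem rep_bound_u [Fintype F] {q : ℕ} (hF : Fintype.card F = q ^ 2) (σ : F →+* F)
    (hσ : ∀ x, σ x = x ^ q) (hσ2 : ∀ x, σ (σ x) = x) (hm : 1 ≤ m) {G : Type*} [Group G]
    {k : ℕ} (ρ : Representation ℂ G (Fin k → ℂ)) (uH : Matrix (Fin m) (Fin m) F → G)
    (dG : SpecialLinearGroup (Fin m) F → G) (h0 : uH 0 = 1)
    (hadd : ∀ H H' : Matrix (Fin m) (Fin m) F, IsHerm σ H → IsHerm σ H' →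
      uH (H + H') = uH H * uH H')
    (hconj' : ∀ (g : SpecialLinearGroup (Fin m) F) (H : Matrix (Fin m) (Fin m) F),
      IsHerm σ H → dG g * uH H =
        uH ((g : Matrix (Fin m) (Fin m) F) * H * hconj σ (g : Matrix (Fin m) (Fin m) F)) *
          dG g)
    (hne : ρ (uH (E0 m F)) ≠ 1) :
    ∃ (K : Matrix (Fin m) (Fin m) F) (u₀ : Fin m → F), IsHerm σ K ∧ hq σ K u₀ ≠ 0 ∧
      Nat.card (horb σ K) ≤ k := by
  classical
  obtain ⟨ψ₀, hψ1, hψ2⟩ := exists_psi0 hF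
  let T : ↥(hermG σ m) → (Fin k → ℂ) →ₗ[ℂ] (Fin k → ℂ) := fun a => ρ (uH a.1)
  have hT0 : T 0 = 1 := by
    show ρ (uH (0 : Matrix (Fin m) (Fin m) F)) = 1
    rw [h0, map_one]
  have hTadd : ∀ a b, T (a + b) = T a * T b := by
    intro a b
    show ρ (uH (a.1 + b.1)) = ρ (uH a.1) * ρ (uH b.1)
    rw [hadd _ _ a.2 b.2, map_mul]
  have hexp : ∀ a : ↥(hermG σ m), Fintype.card F • a = 0 := by
    intro a
    apply Subtype.ext
    rw [AddSubgroup.coe_nsmul]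
    ext i j
    rw [Matrix.smul_apply, nsmul_eq_mul, FiniteField.cast_card_eq_zero, zero_mul]
    rfl
  obtain ⟨v, χ', hv, hχ0, hχ1, hχm, hχ⟩ :=
    common_eigenvector_exp T hT0 hTadd (Fintype.card F) Fintype.card_pos hexp
      ⟨E0 m F, E0_isHerm σ⟩ hne
  let χ : Matrix (Fin m) (Fin m) F → ℂ := fun S =>
    if h : IsHerm σ S then χ' ⟨S, mem_hermG.2 h⟩ else 1
  have hχd : ∀ (S : Matrix (Fin m) (Fin m) F) (h : IsHerm σ S), χ S = χ' ⟨S, h⟩ :=
    fun S h => dif_pos h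
  obtain ⟨K, hK, hKχ⟩ := herm_char_form hF σ hσ ψ₀ hψ1 χ
    (by rw [hχd 0 (isHerm_zero σ)]; exact hχ1)
    (fun S T hS hT => by
      rw [hχd _ hS, hχd _ hT, hχd _ (hS.add hT)]
      exact hχm ⟨S, hS⟩ ⟨T, hT⟩)
  have hw : ∀ H : Matrix (Fin m) (Fin m) F, IsHerm σ H →
      ρ (uH H) v = ψ₀ (trace (H * K)) • v := by
    intro H hH
    rw [← hKχ H hH, hχd H hH]
    exact hχ ⟨H, hH⟩
  have hne0 : hq σ K (Pi.single (⟨0, hm⟩ : Fin m) 1) ≠ 0 := by
    intro h0'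
    apply hχ0
    have h5 := hKχ (E0 m F) (E0_isHerm σ)
    rw [hχd _ (E0_isHerm σ), E0_trace hm σ K, h0', AddChar.map_zero_eq_one] at h5
    exact h5
  refine ⟨K, _, hK, hne0, ?_⟩
  have hex : ∀ φ : ↥(horb σ K), ∃ (w : Fin k → ℂ) (K' : Matrix (Fin m) (Fin m) F), w ≠ 0 ∧
      IsHerm σ K' ∧
      (∀ H : Matrix (Fin m) (Fin m) F, IsHerm σ H → ρ (uH H) w = ψ₀ (trace (H * K')) • w) ∧
      (∀ x : Fin m → F, hq σ K' x = φ.1 x) := by
    rintro ⟨φ, g, rfl⟩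
    exact weight_move ρ σ hσ2 uH dG hconj' ψ₀ K hK v hv hw g
  choose w K' hw0 hK' hw1 hw2 using hex
  have hfin : Finite ↥(horb σ K) := Subtype.finite
  have key := Cfsg.Agent.Lib.Helper18.LS.card_le_finrank_of_eigen (V := Fin k → ℂ)
    (ι := ↥(horb σ K)) (A := ↥(hermG σ m))
    (fun a => ρ (uH a.1)) (fun φ a => ψ₀ (trace (a.1 * K' φ))) ?_ w hw0
    (fun φ a => hw1 φ a.1 a.2)
  · rwa [Module.finrank_fin_fun] at key
  · intro φ φ' hEq
    apply Subtype.ext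
    funext x
    rw [← hw2 φ x, ← hw2 φ' x]
    exact herm_sep hF σ hσ ψ₀ hψ2 (K' φ) (K' φ') (hK' φ) (hK' φ')
      (fun S hS => congrFun hEq ⟨S, hS⟩) x

/-- the orbit of a nonzero Hermitian form under `SL_m(q²)` is large -/
theorem uqf_count [Fintype F] {q : ℕ} (hF : Fintype.card F = q ^ 2) (σ : F →+* F)
    (hσ : ∀ x, σ x = x ^ q) (hσ2 : ∀ x, σ (σ x) = x) (hm : 2 ≤ m)
    (K : Matrix (Fin m) (Fin m) F) (hK : IsHerm σ K) (u₀ : Fin m → F)
    (hα : hq σ K u₀ ≠ 0) :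
    Fintype.card F ^ m - 1 ≤ (q + 1) * Nat.card (horb σ K) := by
  have hu0 : u₀ ≠ 0 := by
    rintro rfl
    exact hα (hB_zero_left σ K 0)
  have hL := card_L u₀ hu0
  have hW := card_W σ hσ2 K u₀ hα
  have hq0 : 0 < Fintype.card F := Fintype.card_pos
  have hLW : Nat.card {ℓ : Fin m → F | ℓ ⬝ᵥ u₀ = 0} =
      Nat.card {w : Fin m → F | hB σ K w u₀ = 0} :=
    Nat.eq_of_mul_eq_mul_right hq0 (hL.trans hW.symm)
  have hLpos : 0 < Nat.card {ℓ : Fin m → F | ℓ ⬝ᵥ u₀ = 0} := by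
    rcases Nat.eq_zero_or_pos (Nat.card {ℓ : Fin m → F | ℓ ⬝ᵥ u₀ = 0}) with h0 | h0
    · rw [h0, zero_mul] at hL
      exact absurd hL.symm (pow_pos hq0 m).ne'
    · exact h0
  have hTI := card_inj_u σ K u₀ (fun u hu => sl_trans hm u u₀ hu hu0)
    (fun ℓ hℓ => shear_sl u₀ ℓ hℓ)
    (fun ℓ ℓ' hℓ hℓ' heq => shear_inj_u hF σ hσ K hK u₀ hα ℓ ℓ' hℓ hℓ' heq)
  have hLev := card_level hF σ hσ K hK u₀ hα (fun c => card_norm_le hF c)
  rw [card_nonzero] at hTI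
  rw [← hLW] at hLev
  have h5 : (Fintype.card F ^ m - 1) * Nat.card {ℓ : Fin m → F | ℓ ⬝ᵥ u₀ = 0} ≤
      ((q + 1) * Nat.card (horb σ K)) * Nat.card {ℓ : Fin m → F | ℓ ⬝ᵥ u₀ = 0} := by
    calc _ ≤ Nat.card (horb σ K) * Nat.card {u : Fin m → F | hq σ K u = hq σ K u₀} := hTI
      _ ≤ Nat.card (horb σ K) * ((q + 1) * Nat.card {ℓ : Fin m → F | ℓ ⬝ᵥ u₀ = 0}) :=
          Nat.mul_le_mul_left _ hLev
      _ = _ := by ring
  exact Nat.le_of_mul_le_mul_right h5 hLpos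

/-- the Landazuri–Seitz bound for `SU_{2m}(q)`, `m ≥ 2` -/
theorem main_bound_u [Fintype F] {q : ℕ} (hF : Fintype.card F = q ^ 2) (m : ℕ) (hm : 2 ≤ m)
    (k : ℕ) (ρ : Representation ℂ ↥(Cfsg.SU (m + m) F q) (Fin k → ℂ))
    (hirr : ρ.IsIrreducible) (hk : 2 ≤ k) : (q ^ (m + m) - 1) / (q + 1) ≤ k := by
  have hσ : ∀ x, Cfsg.Agent.Lib.Helper60.frobQ hF x = x ^ q := fun x => rfl
  have hσ2 : ∀ x, Cfsg.Agent.Lib.Helper60.frobQ hF (Cfsg.Agent.Lib.Helper60.frobQ hF x) = x :=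
    Cfsg.Agent.Lib.Helper60.frobQ_frobQ hF
  obtain ⟨uH, dG, h0, hadd, hconj', hnc⟩ :=
    exists_uH_dG hF (Cfsg.Agent.Lib.Helper60.frobQ hF) hσ hσ2 m (by omega)
  have hne := su_faithful hF (m + m) (by omega) (by omega) hk ρ hirr _ hnc
  obtain ⟨K, u₀, hK, hα, hcard⟩ :=
    rep_bound_u hF (Cfsg.Agent.Lib.Helper60.frobQ hF) hσ hσ2 (by omega) ρ uH dG h0 hadd
      hconj' hne
  have hcount := uqf_count hF (Cfsg.Agent.Lib.Helper60.frobQ hF) hσ hσ2 hm K hK u₀ hα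
  have hpow : q ^ (m + m) = Fintype.card F ^ m := by rw [hF, ← pow_mul, two_mul]
  rw [hpow]
  exact (Nat.div_le_of_le_mul hcount).trans hcard


end Cfsg.Agent.Lib.Helper18.UE
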