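import Mathlib
import Cfsg.Prelude.Def_Classical
import Cfsg.Agent.Lib.Helper18.UEDefs

/-!
# Minimal degree of `SU_n(q)`, `n` odd: definitions (helper18, S2334)

Continues `UEDefs`.  `n = m + m + 1`; the model form is `J3 m β = Jb m β ⊕ [1]` on the index type
`I3 m = (Fin m ⊕ Fin m) ⊕ Fin 1`; `GJg σ J` is the group of matrices of determinant one preserving
a form matrix `J`.  Elements: `uB3 H`, `lB3 H` (the even elements, extended by `1`), `dB3 σ g`
(`g ∈ GL_m`, last entry `σ(det g)/det g`) and the Heisenberg elements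
`xB3 σ β η a = [[1, ηβ a aᴴ, a], [0, 1, 0], [0, β aᴴ, 1]]`.
-/

set_option autoImplicit false

namespace Cfsg.Agent.Lib.Helper18.UE

open Matrix

universe u

variable {F : Type u} [Field F] {m : ℕ}

/-- the `GL_m`-orbit of the function `hq σ K` -/
def gorb (σ : F →+* F) (K : Matrix (Fin m) (Fin m) F) : Set ((Fin m → F) → F) :=
  Set.range (fun (g : GL (Fin m) F) (x : Fin m → F) =>
    hq σ K ((g : Matrix (Fin m) (Fin m) F) *ᵥ x))

/-- the group of matrices of determinant one preserving the form matrix `J` -/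
def GJg {ι : Type} [Fintype ι] [DecidableEq ι] (σ : F →+* F) (J : Matrix ι ι F) :
    Submonoid (Matrix ι ι F) where
  carrier := {B | Bᵀ * J * B.map σ = J ∧ B.det = 1}
  mul_mem' := fun {A B} hA hB => by
    refine ⟨?_, ?_⟩
    · show (A * B)ᵀ * J * (A * B).map σ = J
      have h1 : (A * B)ᵀ * J * (A * B).map σ = Bᵀ * (Aᵀ * J * A.map σ) * B.map σ := by
        rw [transpose_mul, Matrix.map_mul]
        simp only [Matrix.mul_assoc]
      rw [h1, hA.1]
      exact hB.1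
    · show (A * B).det = 1
      rw [det_mul, hA.2, hB.2, one_mul]
  one_mem' := by
    refine ⟨?_, det_one⟩
    show (1 : Matrix ι ι F)ᵀ * J * (1 : Matrix ι ι F).map σ = J
    rw [transpose_one, Matrix.map_one σ (map_zero σ) (map_one σ), Matrix.one_mul, Matrix.mul_one]

theorem mem_GJg {ι : Type} [Fintype ι] [DecidableEq ι] {σ : F →+* F} {J : Matrix ι ι F}
    {B : Matrix ι ι F} : B ∈ GJg σ J ↔ Bᵀ * J * B.map σ = J ∧ B.det = 1 := Iff.rfl

/-- the index type of the odd model -/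
abbrev I3 (m : ℕ) : Type := (Fin m ⊕ Fin m) ⊕ Fin 1

/-- the odd form `Jb m β ⊕ [1]` -/
def J3 (m : ℕ) (β : F) : Matrix (I3 m) (I3 m) F :=
  fromBlocks (Jb m β) 0 0 (1 : Matrix (Fin 1) (Fin 1) F)

/-- `uB H ⊕ [1]` -/
def uB3 (H : Matrix (Fin m) (Fin m) F) : Matrix (I3 m) (I3 m) F :=
  fromBlocks (uB H) 0 0 (1 : Matrix (Fin 1) (Fin 1) F)

/-- `lB H ⊕ [1]` -/
def lB3 (H : Matrix (Fin m) (Fin m) F) : Matrix (I3 m) (I3 m) F :=
  fromBlocks (lB H) 0 0 (1 : Matrix (Fin 1) (Fin 1) F)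

/-- `[[g, 0], [0, (g⁻¹)ᴴ]] ⊕ [σ(det g)/det g]` for `g ∈ GL_m` -/
def dB3 (σ : F →+* F) (g : GL (Fin m) F) : Matrix (I3 m) (I3 m) F :=
  fromBlocks
    (fromBlocks (g : Matrix (Fin m) (Fin m) F) 0 0
      (hconj σ ((g⁻¹ : GL (Fin m) F) : Matrix (Fin m) (Fin m) F))) 0 0
    ((σ (det (g : Matrix (Fin m) (Fin m) F)) / det (g : Matrix (Fin m) (Fin m) F)) •
      (1 : Matrix (Fin 1) (Fin 1) F))

/-- the matrix `a a'ᴴ` -/
def outer (σ : F →+* F) (a a' : Fin m → F) : Matrix (Fin m) (Fin m) F :=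
  fun i j => a i * σ (a' j)

/-- the column `(a; 0)` -/
def colA (a : Fin m → F) : Matrix (Fin m ⊕ Fin m) (Fin 1) F :=
  fun i _ => Sum.elim a (fun _ => 0) i

/-- the row `(0, β aᴴ)` -/
def rowA (σ : F →+* F) (β : F) (a : Fin m → F) : Matrix (Fin 1) (Fin m ⊕ Fin m) F :=
  fun _ j => Sum.elim (fun _ => 0) (fun j' => β * σ (a j')) j

/-- the Heisenberg element `[[1, ηβ a aᴴ, a], [0, 1, 0], [0, β aᴴ, 1]]` -/
def xB3 (σ : F →+* F) (β η : F) (a : Fin m → F) : Matrix (I3 m) (I3 m) F :=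
  fromBlocks (uB ((η * β) • outer σ a a)) (colA a) (rowA σ β a)
    (1 : Matrix (Fin 1) (Fin 1) F)

/-- the commutator matrix `β (a a'ᴴ - a' aᴴ)` -/
def cmat (σ : F →+* F) (β : F) (a a' : Fin m → F) : Matrix (Fin m) (Fin m) F :=
  β • (outer σ a a' - outer σ a' a)

end Cfsg.Agent.Lib.Helper18.UE
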