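import Mathlib
import Cfsg.Prelude.Def_Classical
import Cfsg.Agent.Lib.Helper18.UEDefs
import Cfsg.Agent.Lib.Helper18.UODefs
import Cfsg.Agent.Lib.Helper18.UEGlue
import Cfsg.Agent.Lib.Helper21.UOSHEARGLU
import Cfsg.Agent.Lib.Helper23.UOTRANS1
import Cfsg.Agent.Lib.Helper37.UOMEM3
import Cfsg.Agent.Lib.Helper49.UOMEMX
import Cfsg.Agent.Lib.Helper51.UOINDEP2
import Cfsg.Agent.Lib.Helper53.UOBLOCKX
import Cfsg.Agent.Lib.Helper54.UOWTMOVEGL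
import Cfsg.Agent.Lib.Helper56.UOTINJG
import Cfsg.Agent.Lib.Helper57.UOBLOCK3
import Cfsg.Agent.Lib.Helper67.UOCMAT
import Cfsg.Agent.Lib.Helper69.UOBASIS3
import Cfsg.Agent.Lib.Helper73.UOHOMG
import Cfsg.Agent.Lib.Helper78.UOBETA
import Cfsg.Agent.Lib.Helper88.UOMULT

/-!
# Minimal degree of `SU_n(q)`, `n` odd: assembly (helper18, S2334)

`main_bound_o`: every irreducible complex representation of `SU_{2m+1}(q)`, `(n, q) ≠ (3, 2)`, of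
degree `k ≥ 2` satisfies `(q^n - q) / (q + 1) ≤ k`.  The pieces `UO<TAG>` were proved by helpers
21, 23, 37, 49, 51, 53, 54, 56, 57, 67, 69, 73, 78, 88.
-/

set_option autoImplicit false

namespace Cfsg.Agent.Lib.Helper18.UE

open Matrix

universe u

variable {F : Type u} [Field F] {m : ℕ}

/-! ## glue for odd `n` (helper18) -/

/-- the elements `u(H)`, `d(g)` and `x(a)` inside `SU_{2m+1}(q)` -/
theorem exists_model3 [Fintype F] {q : ℕ} (hF : Fintype.card F = q ^ 2) (σ : F →+* F)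
    (hσ : ∀ x, σ x = x ^ q) (hσ2 : ∀ x, σ (σ x) = x) (m : ℕ) (hm : 1 ≤ m) :
    ∃ (β : F) (uH : Matrix (Fin m) (Fin m) F → ↥(Cfsg.SU (m + m + 1) F q))
      (dG : GL (Fin m) F → ↥(Cfsg.SU (m + m + 1) F q))
      (xa : (Fin m → F) → ↥(Cfsg.SU (m + m + 1) F q)),
      β ≠ 0 ∧ σ β = -β ∧ uH 0 = 1 ∧
      (∀ H H' : Matrix (Fin m) (Fin m) F, IsHerm σ H → IsHerm σ H' →
        uH (H + H') = uH H * uH H') ∧
      (∀ (g : GL (Fin m) F) (H : Matrix (Fin m) (Fin m) F), IsHerm σ H →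
        dG g * uH H =
          uH ((g : Matrix (Fin m) (Fin m) F) * H * hconj σ (g : Matrix (Fin m) (Fin m) F)) *
            dG g) ∧
      uH (E0 m F) ∉ Subgroup.center ↥(Cfsg.SU (m + m + 1) F q) ∧
      (∀ (a : Fin m → F) (H : Matrix (Fin m) (Fin m) F), IsHerm σ H →
        xa a * uH H = uH H * xa a) ∧
      (∀ a a' : Fin m → F, xa a * xa a' = uH (cmat σ β a a') * (xa a' * xa a)) := by
  classical
  obtain ⟨β, P, P', hβ0, h1, h2, h3⟩ := exists_basis hF σ hσ m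
  have hβ : σ β = -β := beta_skew hm σ hσ2 β P h3
  obtain ⟨Q, Q', k1, k2, k3⟩ := exists_basis3 σ β P P' h1 h2 h3
  obtain ⟨φ, hφ⟩ := model_hom_g hF σ hσ (m + m + 1) (J3 m β) Q Q' k1 k2 k3
  obtain ⟨η, hη'⟩ := Cfsg.Agent.Lib.Helper60.trace_surj hF (1 : F) (one_pow q)
  have hη : η + σ η = 1 := by rw [hσ]; exact hη'
  let uH : Matrix (Fin m) (Fin m) F → ↥(Cfsg.SU (m + m + 1) F q) := fun H =>
    if h : IsHerm σ H then φ ⟨uB3 H, uB3_mem σ β h⟩ else 1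
  let dG : GL (Fin m) F → ↥(Cfsg.SU (m + m + 1) F q) := fun g =>
    φ ⟨dB3 σ g, dB3_mem σ hσ2 β g⟩
  let xa : (Fin m → F) → ↥(Cfsg.SU (m + m + 1) F q) := fun a =>
    φ ⟨xB3 σ β η a, xB3_mem σ hσ2 β η hβ hη a⟩
  have huH : ∀ (H : Matrix (Fin m) (Fin m) F) (h : IsHerm σ H),
      uH H = φ ⟨uB3 H, uB3_mem σ β h⟩ := fun H h => dif_pos h
  refine ⟨β, uH, dG, xa, hβ0, hβ, ?_, ?_, ?_, ?_, ?_, ?_⟩
  · rw [huH 0 (isHerm_zero σ), ← map_one φ]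
    congr 1
    exact Subtype.ext uB3_zero
  · intro H H' hH hH'
    rw [huH _ (hH.add hH'), huH _ hH, huH _ hH', ← map_mul]
    congr 1
    exact Subtype.ext (uB3_add H H')
  · intro g H hH
    rw [huH _ hH, huH _ (herm_conj σ hσ2 _ hH)]
    show φ _ * φ _ = φ _ * φ _
    rw [← map_mul, ← map_mul]
    congr 1
    exact Subtype.ext (dB3_mul_uB3 σ g H)
  · intro hc
    rw [Subgroup.mem_center_iff] at hc
    have h4 := hc (φ ⟨lB3 (E0 m F), lB3_mem σ β (E0_isHerm σ)⟩)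
    rw [huH _ (E0_isHerm σ), ← map_mul, ← map_mul] at h4
    have h5 := congrArg Subtype.val (hφ h4)
    exact uB3_lB3_ne hm h5.symm
  · intro a H hH
    rw [huH _ hH]
    show φ _ * φ _ = φ _ * φ _
    rw [← map_mul, ← map_mul]
    congr 1
    exact Subtype.ext (xB3_mul_uB3 σ β η a H)
  · intro a a'
    rw [huH _ (cmat_herm σ hσ2 β hβ a a')]
    show φ _ * φ _ = φ _ * (φ _ * φ _)
    rw [← map_mul, ← map_mul, ← map_mul]
    congr 1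
    exact Subtype.ext (xB3_mul_xB3 σ β η a a')

/-- REP (odd): the degree is at least `q` times the size of the `GL_m`-orbit of a nonzero
Hermitian form -/
theorem rep_bound_o [Fintype F] {q : ℕ} (hF : Fintype.card F = q ^ 2) (σ : F →+* F)
    (hσ : ∀ x, σ x = x ^ q) (hσ2 : ∀ x, σ (σ x) = x) (hm : 1 ≤ m) {G : Type*} [Group G]
    {k : ℕ} (ρ : Representation ℂ G (Fin k → ℂ)) (β : F) (hβ0 : β ≠ 0) (hβ : σ β = -β)
    (uH : Matrix (Fin m) (Fin m) F → G) (dG : GL (Fin m) F → G) (xa : (Fin m → F) → G)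
    (h0 : uH 0 = 1)
    (hadd : ∀ H H' : Matrix (Fin m) (Fin m) F, IsHerm σ H → IsHerm σ H' →
      uH (H + H') = uH H * uH H')
    (hconj' : ∀ (g : GL (Fin m) F) (H : Matrix (Fin m) (Fin m) F),
      IsHerm σ H → dG g * uH H =
        uH ((g : Matrix (Fin m) (Fin m) F) * H * hconj σ (g : Matrix (Fin m) (Fin m) F)) *
          dG g)
    (hxu : ∀ (a : Fin m → F) (H : Matrix (Fin m) (Fin m) F), IsHerm σ H →
      xa a * uH H = uH H * xa a)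
    (hxx : ∀ a a' : Fin m → F, xa a * xa a' = uH (cmat σ β a a') * (xa a' * xa a))
    (hne : ρ (uH (E0 m F)) ≠ 1) :
    ∃ (K : Matrix (Fin m) (Fin m) F) (u₀ : Fin m → F), IsHerm σ K ∧ hq σ K u₀ ≠ 0 ∧
      Nat.card (gorb σ K) * q ≤ k := by
  classical
  obtain ⟨ψ₀, hψ1, hψ2⟩ := exists_psi0 hF
  let T : ↥(hermG σ m) → (Fin k → ℂ) →ₗ[ℂ] (Fin k → ℂ) := fun a => ρ (uH a.1)
  have hT0 : T 0 = 1 := by
    show ρ (uH (0 : Matrix (Fin m) (Fin m) F)) = 1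
    rw [h0, map_one]
  have hTadd : ∀ a b, T (a + b) = T a * T b := by
    intro a b
    show ρ (uH (a.1 + b.1)) = ρ (uH a.1) * ρ (uH b.1)
    rw [hadd _ _ a.2 b.2, map_mul]
  have hexp : ∀ a : ↥(hermG σ m), Fintype.card F • a = 0 := by
    intro a
    apply Subtype.ext
    rw [AddSubgroup.coe_nsmul]
    ext i j
    rw [Matrix.smul_apply, nsmul_eq_mul, FiniteField.cast_card_eq_zero, zero_mul]
    rfl
  obtain ⟨v, χ', hv, hχ0, hχ1, hχm, hχ⟩ :=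
    common_eigenvector_exp T hT0 hTadd (Fintype.card F) Fintype.card_pos hexp
      ⟨E0 m F, E0_isHerm σ⟩ hne
  let χ : Matrix (Fin m) (Fin m) F → ℂ := fun S =>
    if h : IsHerm σ S then χ' ⟨S, mem_hermG.2 h⟩ else 1
  have hχd : ∀ (S : Matrix (Fin m) (Fin m) F) (h : IsHerm σ S), χ S = χ' ⟨S, h⟩ :=
    fun S h => dif_pos h
  obtain ⟨K, hK, hKχ⟩ := herm_char_form hF σ hσ ψ₀ hψ1 χ
    (by rw [hχd 0 (isHerm_zero σ)]; exact hχ1)
    (fun S T hS hT => by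
      rw [hχd _ hS, hχd _ hT, hχd _ (hS.add hT)]
      exact hχm ⟨S, hS⟩ ⟨T, hT⟩)
  have hw : ∀ H : Matrix (Fin m) (Fin m) F, IsHerm σ H →
      ρ (uH H) v = ψ₀ (trace (H * K)) • v := by
    intro H hH
    rw [← hKχ H hH, hχd H hH]
    exact hχ ⟨H, hH⟩
  have hne0 : hq σ K (Pi.single (⟨0, hm⟩ : Fin m) 1) ≠ 0 := by
    intro h0'
    apply hχ0
    have h5 := hKχ (E0 m F) (E0_isHerm σ)
    rw [hχd _ (E0_isHerm σ), E0_trace hm σ K, h0', AddChar.map_zero_eq_one] at h5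
    exact h5
  refine ⟨K, _, hK, hne0, ?_⟩
  have hex : ∀ φ : ↥(gorb σ K), ∃ (w : Fin k → ℂ) (K' : Matrix (Fin m) (Fin m) F)
      (u' : Fin m → F), w ≠ 0 ∧ IsHerm σ K' ∧
      (∀ H : Matrix (Fin m) (Fin m) F, IsHerm σ H → ρ (uH H) w = ψ₀ (trace (H * K')) • w) ∧
      (∀ x : Fin m → F, hq σ K' x = φ.1 x) ∧ hq σ K' u' ≠ 0 := by
    rintro ⟨φ, g, rfl⟩
    obtain ⟨w, K', hw0, hK', hw1, hw2⟩ :=
      weight_move_gl ρ σ hσ2 uH dG hconj' ψ₀ K hK v hv hw g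
    refine ⟨w, K', ((g⁻¹ : GL (Fin m) F) : Matrix (Fin m) (Fin m) F) *ᵥ
      (Pi.single (⟨0, hm⟩ : Fin m) 1), hw0, hK', hw1, hw2, ?_⟩
    rw [hw2, Matrix.mulVec_mulVec, Units.mul_inv, Matrix.one_mulVec]
    exact hne0
  choose w K' u' hw0 hK' hw1 hw2 hu' using hex
  have hmult : ∀ φ : ↥(gorb σ K), ∃ W : Fin q → (Fin k → ℂ), LinearIndependent ℂ W ∧
      ∀ (j : Fin q) (H : Matrix (Fin m) (Fin m) F), IsHerm σ H →
        ρ (uH H) (W j) = ψ₀ (trace (H * K' φ)) • W j := by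
    intro φ
    have hfix : σ (hq σ (K' φ) (u' φ)) = hq σ (K' φ) (u' φ) :=
      hB_conj σ hσ2 (hK' φ) (u' φ) (u' φ)
    exact weight_mult hF σ hσ ψ₀ hψ2 ρ uH (fun s => xa (s • u' φ)) (K' φ)
      (β * hq σ (K' φ) (u' φ)) (mul_ne_zero hβ0 (hu' φ))
      (by rw [map_mul, hβ, hfix, neg_mul])
      (fun s t => cmat σ β (s • u' φ) (t • u' φ)) (fun s t => cmat_herm σ hσ2 β hβ _ _)
      (fun s t => cmat_trace σ β (K' φ) (u' φ) s t)
      (fun s H hH => hxu (s • u' φ) H hH) (fun s t => hxx (s • u' φ) (t • u' φ))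
      (w φ) (hw0 φ) (hw1 φ)
  choose W hWli hW using hmult
  have hfin : Finite ↥(gorb σ K) := Subtype.finite
  have key := card_mul_le_finrank_of_eigen (V := Fin k → ℂ) (ι := ↥(gorb σ K))
    (A := ↥(hermG σ m)) (fun a => ρ (uH a.1)) (fun φ a => ψ₀ (trace (a.1 * K' φ))) ?_ q W
    (fun φ j a => hW φ j a.1 a.2) hWli
  · rwa [Module.finrank_fin_fun] at key
  · intro φ φ' hEq
    apply Subtype.ext
    funext x
    rw [← hw2 φ x, ← hw2 φ' x]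
    exact herm_sep hF σ hσ ψ₀ hψ2 (K' φ) (K' φ') (hK' φ) (hK' φ')
      (fun S hS => congrFun hEq ⟨S, hS⟩) x

/-- the orbit of a nonzero Hermitian form under `GL_m(q²)` is large (`m ≥ 1`) -/
theorem gqf_count [Fintype F] {q : ℕ} (hF : Fintype.card F = q ^ 2) (σ : F →+* F)
    (hσ : ∀ x, σ x = x ^ q) (hσ2 : ∀ x, σ (σ x) = x)
    (K : Matrix (Fin m) (Fin m) F) (hK : IsHerm σ K) (u₀ : Fin m → F)
    (hα : hq σ K u₀ ≠ 0) :
    Fintype.card F ^ m - 1 ≤ (q + 1) * Nat.card (gorb σ K) := by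
  have hu0 : u₀ ≠ 0 := by
    rintro rfl
    exact hα (hB_zero_left σ K 0)
  have hL := card_L u₀ hu0
  have hW := card_W σ hσ2 K u₀ hα
  have hq0 : 0 < Fintype.card F := Fintype.card_pos
  have hLW : Nat.card {ℓ : Fin m → F | ℓ ⬝ᵥ u₀ = 0} =
      Nat.card {w : Fin m → F | hB σ K w u₀ = 0} :=
    Nat.eq_of_mul_eq_mul_right hq0 (hL.trans hW.symm)
  have hLpos : 0 < Nat.card {ℓ : Fin m → F | ℓ ⬝ᵥ u₀ = 0} := by
    rcases Nat.eq_zero_or_pos (Nat.card {ℓ : Fin m → F | ℓ ⬝ᵥ u₀ = 0}) with h0 | h0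
    · rw [h0, zero_mul] at hL
      exact absurd hL.symm (pow_pos hq0 m).ne'
    · exact h0
  have hTI := card_inj_g σ K u₀ (fun u hu => gl_trans1 u u₀ hu hu0)
    (fun ℓ hℓ => shear_glu u₀ ℓ hℓ)
    (fun ℓ ℓ' hℓ hℓ' heq => shear_inj_u hF σ hσ K hK u₀ hα ℓ ℓ' hℓ hℓ' heq)
  have hLev := card_level hF σ hσ K hK u₀ hα (fun c => card_norm_le hF c)
  rw [card_nonzero] at hTI
  rw [← hLW] at hLev
  have h5 : (Fintype.card F ^ m - 1) * Nat.card {ℓ : Fin m → F | ℓ ⬝ᵥ u₀ = 0} ≤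
      ((q + 1) * Nat.card (gorb σ K)) * Nat.card {ℓ : Fin m → F | ℓ ⬝ᵥ u₀ = 0} := by
    calc _ ≤ Nat.card (gorb σ K) * Nat.card {u : Fin m → F | hq σ K u = hq σ K u₀} := hTI
      _ ≤ Nat.card (gorb σ K) * ((q + 1) * Nat.card {ℓ : Fin m → F | ℓ ⬝ᵥ u₀ = 0}) :=
          Nat.mul_le_mul_left _ hLev
      _ = _ := by ring
  exact Nat.le_of_mul_le_mul_right h5 hLpos

/-- the Landazuri–Seitz bound for `SU_n(q)`, `n = 2m + 1`, `(n, q) ≠ (3, 2)` -/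
theorem main_bound_o [Fintype F] {q : ℕ} (hF : Fintype.card F = q ^ 2) (n m : ℕ)
    (hnm : n = m + m + 1) (hm : 1 ≤ m) (hex : ¬ (n = 3 ∧ q = 2)) (k : ℕ)
    (ρ : Representation ℂ ↥(Cfsg.SU n F q) (Fin k → ℂ))
    (hirr : ρ.IsIrreducible) (hk : 2 ≤ k) : (q ^ n - q) / (q + 1) ≤ k := by
  subst hnm
  have hσ : ∀ x, Cfsg.Agent.Lib.Helper60.frobQ hF x = x ^ q := fun x => rfl
  have hσ2 : ∀ x, Cfsg.Agent.Lib.Helper60.frobQ hF (Cfsg.Agent.Lib.Helper60.frobQ hF x) = x :=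
    Cfsg.Agent.Lib.Helper60.frobQ_frobQ hF
  obtain ⟨β, uH, dG, xa, hβ0, hβ, h0, hadd, hconj', hnc, hxu, hxx⟩ :=
    exists_model3 hF (Cfsg.Agent.Lib.Helper60.frobQ hF) hσ hσ2 m hm
  have hne := su_faithful hF (m + m + 1) (by omega) hex hk ρ hirr _ hnc
  obtain ⟨K, u₀, hK, hα, hcard⟩ :=
    rep_bound_o hF (Cfsg.Agent.Lib.Helper60.frobQ hF) hσ hσ2 hm ρ β hβ0 hβ uH dG xa h0 hadd
      hconj' hxu hxx hne
  have hcount := gqf_count hF (Cfsg.Agent.Lib.Helper60.frobQ hF) hσ hσ2 K hK u₀ hα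
  have hpow : q ^ (m + m + 1) - q = q * (Fintype.card F ^ m - 1) := by
    rw [hF, ← pow_mul, Nat.mul_sub, mul_one, two_mul, pow_succ, mul_comm]
  rw [hpow]
  apply Nat.div_le_of_le_mul
  calc q * (Fintype.card F ^ m - 1) ≤ q * ((q + 1) * Nat.card (gorb (Cfsg.Agent.Lib.Helper60.frobQ hF) K)) :=
        Nat.mul_le_mul_left _ hcount
    _ = (q + 1) * (Nat.card (gorb (Cfsg.Agent.Lib.Helper60.frobQ hF) K) * q) := by ring
    _ ≤ (q + 1) * k := Nat.mul_le_mul_left _ hcard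


end Cfsg.Agent.Lib.Helper18.UE
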