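import Mathlib
import Cfsg.Agent.Lib.Helper18.LSDefs
import Cfsg.Agent.Lib.Helper18.WRDefs
import Cfsg.Agent.Lib.Helper18.LSGlue
import Cfsg.Agent.Lib.Helper18.UOGlue
import Cfsg.Agent.S0269
import Cfsg.Agent.Lib.Helper10.WRWREL
import Cfsg.Agent.Lib.Helper13.WRLEVELODD
import Cfsg.Agent.Lib.Helper16.WRSPAN
import Cfsg.Agent.Lib.Helper2.WRPARCOMM
import Cfsg.Agent.Lib.Helper23.WRWTRP
import Cfsg.Agent.Lib.Helper28.WRMASCHKE
import Cfsg.Agent.Lib.Helper3.WRSHEARODD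
import Cfsg.Agent.Lib.Helper34.WRDETSMUL
import Cfsg.Agent.Lib.Helper38.WRODDNZ
import Cfsg.Agent.Lib.Helper39.WRTRIVS
import Cfsg.Agent.Lib.Helper52.WRTRIVB
import Cfsg.Agent.Lib.Helper60.WRWPAR
import Cfsg.Agent.Lib.Helper66.WRDETMUL
import Cfsg.Agent.Lib.Helper68.WRFINRANKM
import Cfsg.Agent.Lib.Helper75.WRWTR
import Cfsg.Agent.Lib.Helper76.WRONEDIM
import Cfsg.Agent.Lib.Helper77.WRIRRFIN
import Cfsg.Agent.Lib.Helper82.WRSPACT
import Cfsg.Agent.Lib.Helper83.WRDIM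
import Cfsg.Agent.Lib.Helper86.WRSVN
import Cfsg.Agent.Lib.Helper89.WRTRANSV
import Cfsg.Agent.Lib.Helper93.WRMINSUB
import Cfsg.Agent.Lib.Helper93.WRTRIVA
import Cfsg.Agent.Lib.Helper94.WRTWO
import Cfsg.Agent.Lib.Helper95.WRSCHUR

/-!
# `Sp_{2n}(q)`, `q` odd: minimal degree and the Weil representation: assembly (helper18, S2347)

`main_lower`: every irreducible complex representation of `Sp_{2n}(q)` (`q` odd, `n ≥ 2`) of degree
`k ≥ 2` satisfies `(q^n - 1)/2 ≤ k` (weights of the group of symmetric matrices; the `GL_n`-orbit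
of a nonzero quadratic form has at least `(q^n - 1)/2` elements).

`exists_irr`: an irreducible representation of degree `(q^n - 1)/2` exists.  The Weyl operators
`W ψ v` form a basis of `End(E)`, `E` the functions on `F^n`; for a symplectic `g` the map
`W v ↦ W (g v)` is an algebra automorphism, hence inner (`weyl_svn`), the intertwiner is unique up
to a scalar and commutes with the parity operator; because `dim E⁺ - dim E⁻ = 1` there is a unique
intertwiner with `det (A|E⁺) = det (A|E⁻)`, and these form a representation (`exists_weil`).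
Its restriction to `E⁻ = ker (par + 1)`, of dimension `(q^n - 1)/2`, is irreducible by the lower
bound, Maschke and perfectness (`irr_or_trivial`), since `Sp_{2n}` cannot act trivially on `E⁻`.
The pieces were proved by helpers 2, 3, 10, 13, 16, 23, 28, 34, 38, 39, 52, 60, 66, 68, 75, 76,
77, 82, 83, 86, 89, 93, 94, 95.
-/

set_option autoImplicit false

namespace Cfsg.Agent.Lib.Helper18.WR

open Matrix

universe u

variable {F : Type u} [Field F] {n : ℕ}

/-! ## glue (helper18): the lower bound -/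

/-- WT: a weight vector for the group of symmetric matrices (any characteristic) -/
theorem exists_weight_odd [Fintype F] {k : ℕ}
    (ρ : Representation ℂ (symplecticGroup (Fin n) F) (Fin k → ℂ))
    (hne : ρ (LS.uS (LS.S0 n F)) ≠ 1) :
    ∃ (v : Fin k → ℂ) (χ : Matrix (Fin n) (Fin n) F → ℂ), v ≠ 0 ∧ χ (LS.S0 n F) ≠ 1 ∧
      χ 0 = 1 ∧
      (∀ S T : Matrix (Fin n) (Fin n) F, S.IsSymm → T.IsSymm → χ (S + T) = χ S * χ T) ∧
      (∀ S : Matrix (Fin n) (Fin n) F, S.IsSymm → ρ (LS.uS S) v = χ S • v) := by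
  classical
  let T : ↥(LS.symG n F) → (Fin k → ℂ) →ₗ[ℂ] (Fin k → ℂ) := fun a => ρ (LS.uS a.1)
  have hT0 : T 0 = 1 := by
    show ρ (LS.uS (0 : Matrix (Fin n) (Fin n) F)) = 1
    rw [LS.uS_zero, map_one]
  have hTadd : ∀ a b, T (a + b) = T a * T b := by
    intro a b
    show ρ (LS.uS (a.1 + b.1)) = ρ (LS.uS a.1) * ρ (LS.uS b.1)
    rw [LS.uS_add a.2 b.2, map_mul]
  have hexp : ∀ a : ↥(LS.symG n F), Fintype.card F • a = 0 := by
    intro a
    apply Subtype.ext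
    show Fintype.card F • a.1 = 0
    ext i j
    rw [Matrix.smul_apply, nsmul_eq_mul, Nat.cast_card_eq_zero, zero_mul]
    rfl
  obtain ⟨v, χ', hv, hχ0, hχ1, hχm, hχ⟩ :=
    UE.common_eigenvector_exp T hT0 hTadd (Fintype.card F) Fintype.card_pos hexp
      ⟨LS.S0 n F, LS.S0_isSymm⟩ hne
  refine ⟨v, fun S => if h : S.IsSymm then χ' ⟨S, LS.mem_symG.2 h⟩ else 1, hv, ?_, ?_, ?_, ?_⟩
  · beta_reduce
    rw [dif_pos LS.S0_isSymm]; exact hχ0
  · beta_reduce
    rw [dif_pos isSymm_zero]; exact hχ1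
  · intro S T hS hT
    beta_reduce
    rw [dif_pos hS, dif_pos hT, dif_pos (hS.add hT)]
    exact hχm ⟨S, hS⟩ ⟨T, hT⟩
  · intro S hS
    beta_reduce
    rw [dif_pos hS]
    exact hχ ⟨S, hS⟩

/-- REP: the degree is at least the size of the orbit of a quadratic form with nonzero polar
form (any characteristic) -/
theorem rep_bound_odd [Fintype F] (hn : 2 ≤ n) {k : ℕ}
    (ρ : Representation ℂ (symplecticGroup (Fin n) F) (Fin k → ℂ))
    (hne : ρ (LS.uS (LS.S0 n F)) ≠ 1) :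
    ∃ M : Matrix (Fin n) (Fin n) F, M + Mᵀ ≠ 0 ∧ Nat.card (LS.orb M) ≤ k := by
  classical
  obtain ⟨ψ, hψ1, hψ2⟩ := LS.exists_psi (F := F)
  obtain ⟨v, χ, hv, hχS0, hχ0, hχadd, hχ⟩ := exists_weight_odd ρ hne
  obtain ⟨M, hM⟩ := LS.char_form ψ hψ1 χ hχ0 hχadd
  have hw : ∀ S : Matrix (Fin n) (Fin n) F, S.IsSymm →
      ρ (LS.uS S) v = ψ (trace (S * M)) • v := by
    intro S hS
    rw [hχ S hS, hM S hS]
  have hMne : M + Mᵀ ≠ 0 := by
    apply LS.S0_trace_ne hn
    intro h0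
    apply hχS0
    rw [hM _ LS.S0_isSymm, h0]
    exact AddChar.map_zero_eq_one ψ
  refine ⟨M, hMne, ?_⟩
  have hex : ∀ φ : ↥(LS.orb M), ∃ (w : Fin k → ℂ) (M' : Matrix (Fin n) (Fin n) F), w ≠ 0 ∧
      (∀ S : Matrix (Fin n) (Fin n) F, S.IsSymm → ρ (LS.uS S) w = ψ (trace (S * M')) • w) ∧
      (∀ x : Fin n → F, LS.qf M' x = φ.1 x) := by
    rintro ⟨φ, g, rfl⟩
    obtain ⟨w, M', hw0, hw1, hw2⟩ :=
      LS.weight_move ρ ψ (fun g S hS => LS.dG_mul_uS g hS) M v hv hw g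
    exact ⟨w, M', hw0, hw1, hw2⟩
  choose w M' hw0 hw1 hw2 using hex
  have hfin : Finite ↥(LS.orb M) := Subtype.finite
  have key := LS.card_le_finrank_of_eigen (V := Fin k → ℂ) (ι := ↥(LS.orb M))
    (A := ↥(LS.symG n F))
    (fun a => ρ (LS.uS a.1)) (fun φ a => ψ (trace (a.1 * M' φ))) ?_ w hw0
    (fun φ a => hw1 φ a.1 a.2)
  · rwa [Module.finrank_fin_fun] at key
  · intro φ φ' hEq
    apply Subtype.ext
    funext x
    rw [← hw2 φ x, ← hw2 φ' x]
    exact LS.char_sep ψ hψ2 (M' φ) (M' φ') (fun S hS => congrFun hEq ⟨S, hS⟩) x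

/-- QF: the orbit of a quadratic form with nonzero polar form has at least `(q^n - 1)/2`
elements (odd characteristic) -/
theorem qf_count_odd [Fintype F] (h2 : (2 : F) ≠ 0) (M : Matrix (Fin n) (Fin n) F)
    (hM : M + Mᵀ ≠ 0) : Fintype.card F ^ n - 1 ≤ 2 * Nat.card (LS.orb M) := by
  obtain ⟨u₀, hα⟩ := exists_qf_ne M hM
  have hu₀ : u₀ ≠ 0 := by
    rintro rfl
    exact hα (LS.qf_zero M)
  have hTI := UE.card_inj_g (RingHom.id F) M u₀ (fun u hu => UE.gl_trans1 u u₀ hu hu₀)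
    (fun ℓ h => UE.shear_glu u₀ ℓ h)
    (fun ℓ ℓ' hℓ hℓ' heq => shear_inj_odd h2 M u₀ hα ℓ ℓ' hℓ hℓ' heq)
  have e1 : UE.gorb (RingHom.id F) M = LS.orb M := rfl
  have e2 : {u : Fin n → F | UE.hq (RingHom.id F) M u = UE.hq (RingHom.id F) M u₀} =
      {u : Fin n → F | LS.qf M u = LS.qf M u₀} := rfl
  rw [e1, e2] at hTI
  have hlev := card_level_odd h2 M u₀ hα
  have hbl : LS.bl M u₀ u₀ = 2 * LS.qf M u₀ := by
    rw [LS.bl_eq]
    unfold LS.qf
    ring
  have hw₀ : (M + Mᵀ) *ᵥ u₀ ≠ 0 := by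
    intro h0
    have : LS.bl M u₀ u₀ = 0 := by
      unfold LS.bl
      rw [h0, dotProduct_zero]
    rw [hbl] at this
    rcases mul_eq_zero.mp this with h | h
    · exact h2 h
    · exact hα h
  have hL := UE.card_L u₀ hu₀
  have hW := UE.card_L ((M + Mᵀ) *ᵥ u₀) hw₀
  have e3 : {ℓ : Fin n → F | ℓ ⬝ᵥ ((M + Mᵀ) *ᵥ u₀) = 0} = {w : Fin n → F | LS.bl M w u₀ = 0} :=
    rfl
  rw [e3] at hW
  have hq : 0 < Fintype.card F := Fintype.card_pos
  have hLW : Nat.card {ℓ : Fin n → F | ℓ ⬝ᵥ u₀ = 0} =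
      Nat.card {w : Fin n → F | LS.bl M w u₀ = 0} :=
    Nat.eq_of_mul_eq_mul_right hq (hL.trans hW.symm)
  have hLpos : 0 < Nat.card {ℓ : Fin n → F | ℓ ⬝ᵥ u₀ = 0} := by
    rcases Nat.eq_zero_or_pos (Nat.card {ℓ : Fin n → F | ℓ ⬝ᵥ u₀ = 0}) with h0 | h0
    · rw [h0, zero_mul] at hL
      exact absurd hL.symm (pow_pos hq n).ne'
    · exact h0
  have hN := UE.card_nonzero (F := F) (m := n)
  rw [hN] at hTI
  rw [← hLW] at hlev
  have h5 : (Fintype.card F ^ n - 1) * Nat.card {ℓ : Fin n → F | ℓ ⬝ᵥ u₀ = 0} ≤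
      (2 * Nat.card (LS.orb M)) * Nat.card {ℓ : Fin n → F | ℓ ⬝ᵥ u₀ = 0} := by
    calc _ ≤ Nat.card (LS.orb M) * Nat.card {u : Fin n → F | LS.qf M u = LS.qf M u₀} := hTI
      _ ≤ Nat.card (LS.orb M) * (2 * Nat.card {ℓ : Fin n → F | ℓ ⬝ᵥ u₀ = 0}) :=
          Nat.mul_le_mul_left _ hlev
      _ = _ := by ring
  exact Nat.le_of_mul_le_mul_right h5 hLpos

/-- the lower bound for `Sp_{2n}(q)`, `q` odd -/
theorem main_lower [Fintype F] (hn : 2 ≤ n) (hodd : Odd (Fintype.card F)) (k : ℕ)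
    (ρ : Representation ℂ (symplecticGroup (Fin n) F) (Fin k → ℂ)) (hirr : ρ.IsIrreducible)
    (hk : 2 ≤ k) : (Fintype.card F ^ n - 1) / 2 ≤ k := by
  have h2 : (2 : F) ≠ 0 := two_ne_zero_of_odd hodd
  have hq : n = 2 → 3 ≤ Fintype.card F := by
    intro _
    have h3 : 1 < Fintype.card F := Fintype.one_lt_card
    obtain ⟨t, ht⟩ := hodd
    omega
  have hne := LS.faithful_S0 hn hq hk ρ hirr
  obtain ⟨M, hM, hcard⟩ := rep_bound_odd hn ρ hne
  exact (Nat.div_le_of_le_mul (qf_count_odd h2 M hM)).trans hcard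

/-! ## glue (helper18): the normalised intertwiners -/

/-- the normalised intertwiners of a Weyl system form a representation commuting with the
parity operator -/
theorem exists_weil {G : Type*} [Group G] {E V : Type*} [AddCommGroup E] [Module ℂ E]
    [FiniteDimensional ℂ E] [AddCommGroup V] [Finite V] (W : V → Module.End ℂ E)
    (c : V → V → ℂ) (P : Module.End ℂ E) (h0 : W 0 = 1)
    (hmul : ∀ u v, W u * W v = c u v • W (u + v)) (hinv : ∀ u, W u * W (-u) = 1)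
    (htr : ∀ v, v ≠ 0 → LinearMap.trace ℂ E (W v) = 0)
    (hcard : Nat.card V = Module.finrank ℂ E ^ 2) (hPW : ∀ v, P * W v = W (-v) * P)
    (hPP : P * P = 1) (htrP : LinearMap.trace ℂ E P = 1) (b : ℕ)
    (hb : Module.finrank ℂ E = 2 * b + 1) (act : G → V ≃+ V)
    (hact_mul : ∀ g h v, act (g * h) v = act g (act h v)) (hact_one : ∀ v, act 1 v = v)
    (hc : ∀ g u v, c (act g u) (act g v) = c u v) :
    ∃ ω : Representation ℂ G E, (∀ g v, ω g * W v = W (act g v) * ω g) ∧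
      (∀ g, ω g * P = P * ω g) := by
  classical
  have hE : Nontrivial E := by
    apply Module.nontrivial_of_finrank_pos (R := ℂ)
    omega
  obtain ⟨hli, hspan⟩ := weyl_span W c hmul hinv htr hE hcard
  have hschur : ∀ C : Module.End ℂ E, (∀ v, C * W v = W v * C) → ∃ z : ℂ, C = z • 1 :=
    fun C hC => weyl_schur W hspan C hC
  have htrP0 : LinearMap.trace ℂ E P ≠ 0 := by rw [htrP]; exact one_ne_zero
  -- the two projections
  obtain ⟨π, hπdef⟩ : ∃ π : Module.End ℂ E, π = (2⁻¹ : ℂ) • (1 + P) := ⟨_, rfl⟩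
  obtain ⟨π', hπ'def⟩ : ∃ π' : Module.End ℂ E, π' = (2⁻¹ : ℂ) • (1 - P) := ⟨_, rfl⟩
  have e1 : (1 + P) * (1 + P) = (2 : ℂ) • (1 + P) := by
    rw [mul_add, add_mul, add_mul, one_mul, mul_one, one_mul, hPP, two_smul]
    abel
  have e2 : (1 - P) * (1 - P) = (2 : ℂ) • (1 - P) := by
    rw [mul_sub, sub_mul, sub_mul, one_mul, mul_one, one_mul, hPP, two_smul]
    abel
  have hππ : π * π = π := by
    rw [hπdef, smul_mul_smul_comm, e1, smul_smul]
    norm_num
  have hπ'π' : π' * π' = π' := by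
    rw [hπ'def, smul_mul_smul_comm, e2, smul_smul]
    norm_num
  have h1 : π + π' = 1 := by
    rw [hπdef, hπ'def, ← smul_add]
    have : (1 + P) + (1 - P) = (2 : ℂ) • (1 : Module.End ℂ E) := by
      rw [two_smul]
      abel
    rw [this, smul_smul]
    norm_num
  have h1' : π' + π = 1 := by rw [add_comm]; exact h1
  have htrπ : LinearMap.trace ℂ E π = ((b + 1 : ℕ) : ℂ) := by
    rw [hπdef, map_smul, map_add, LinearMap.trace_one, htrP, hb]
    push_cast
    rw [smul_eq_mul]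
    ring
  have htrπ' : LinearMap.trace ℂ E π' = ((b : ℕ) : ℂ) := by
    rw [hπ'def, map_smul, map_sub, LinearMap.trace_one, htrP, hb]
    push_cast
    rw [smul_eq_mul]
    ring
  have hcommπ : ∀ A : Module.End ℂ E, A * P = P * A → A * π = π * A := by
    intro A hA
    rw [hπdef, mul_smul_comm, smul_mul_assoc, mul_add, add_mul, mul_one, one_mul, hA]
  have hcommπ' : ∀ A : Module.End ℂ E, A * P = P * A → A * π' = π' * A := by
    intro A hA
    rw [hπ'def, mul_smul_comm, smul_mul_assoc, mul_sub, sub_mul, mul_one, one_mul, hA]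
  -- F1: intertwiners commute with P
  have F1 : ∀ (g : G) (A : Module.End ℂ E), IsUnit A → (∀ v, A * W v = W (act g v) * A) →
      A * P = P * A := by
    intro g A hA hAW
    obtain ⟨u, rfl⟩ := hA
    exact par_comm W P hPW hPP htrP0 hschur (act g) u hAW
  -- F2: the determinants do not vanish
  have F2 : ∀ A : Module.End ℂ E, IsUnit A → A * P = P * A →
      LinearMap.det (A * π + π') ≠ 0 ∧ LinearMap.det (A * π' + π) ≠ 0 := by
    intro A hA hAP
    obtain ⟨u, rfl⟩ := hA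
    have hinvP : (↑u⁻¹ : Module.End ℂ E) * P = P * (↑u⁻¹ : Module.End ℂ E) := by
      have h3 : (↑u⁻¹ : Module.End ℂ E) * ((u : Module.End ℂ E) * P) * (↑u⁻¹ : Module.End ℂ E) =
          (↑u⁻¹ : Module.End ℂ E) * (P * (u : Module.End ℂ E)) * (↑u⁻¹ : Module.End ℂ E) := by
        rw [hAP]
      rw [← mul_assoc, Units.inv_mul, one_mul, mul_assoc, mul_assoc, Units.mul_inv,
        mul_one] at h3
      exact h3.symm
    have k1 := det_mul_proj π π' hππ h1 (u : Module.End ℂ E) (↑u⁻¹ : Module.End ℂ E)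
      (hcommπ _ hinvP)
    have k2 := det_mul_proj π' π hπ'π' h1' (u : Module.End ℂ E) (↑u⁻¹ : Module.End ℂ E)
      (hcommπ' _ hinvP)
    rw [Units.mul_inv, one_mul, h1, map_one] at k1
    rw [Units.mul_inv, one_mul, h1', map_one] at k2
    exact ⟨left_ne_zero_of_mul_eq_one k1.symm, left_ne_zero_of_mul_eq_one k2.symm⟩
  -- the normalisation predicate
  obtain ⟨N, hN⟩ : ∃ N : G → Module.End ℂ E → Prop, ∀ g A, N g A ↔
      (IsUnit A ∧ (∀ v, A * W v = W (act g v) * A) ∧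
        LinearMap.det (A * π + π') = LinearMap.det (A * π' + π)) := ⟨_, fun _ _ => Iff.rfl⟩
  -- F3: existence
  have F3 : ∀ g, ∃ A, N g A := by
    intro g
    obtain ⟨A, hA⟩ := weyl_svn W c h0 hmul hli hspan (act g) (hc g)
    have hAP := par_comm W P hPW hPP htrP0 hschur (act g) A hA
    obtain ⟨hdp, hdm⟩ := F2 (A : Module.End ℂ E) A.isUnit hAP
    obtain ⟨z, hzdef⟩ : ∃ z : ℂ, z = LinearMap.det ((A : Module.End ℂ E) * π' + π) /
      LinearMap.det ((A : Module.End ℂ E) * π + π') := ⟨_, rfl⟩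
    have hz : z ≠ 0 := by rw [hzdef]; exact div_ne_zero hdm hdp
    have hzmul : z * LinearMap.det ((A : Module.End ℂ E) * π + π') =
        LinearMap.det ((A : Module.End ℂ E) * π' + π) := by
      rw [hzdef, div_mul_cancel₀ _ hdp]
    refine ⟨z • (A : Module.End ℂ E), (hN _ _).2 ⟨?_, ?_, ?_⟩⟩
    · refine ⟨⟨z • (A : Module.End ℂ E), z⁻¹ • (↑A⁻¹ : Module.End ℂ E), ?_, ?_⟩, rfl⟩
      · rw [smul_mul_smul_comm, mul_inv_cancel₀ hz, Units.mul_inv, one_smul]
      · rw [smul_mul_smul_comm, inv_mul_cancel₀ hz, Units.inv_mul, one_smul]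
    · intro v
      rw [smul_mul_assoc, mul_smul_comm, hA v]
    · rw [det_smul_proj π π' hππ h1 (b + 1) htrπ (A : Module.End ℂ E) (hcommπ _ hAP) z,
        det_smul_proj π' π hπ'π' h1' b htrπ' (A : Module.End ℂ E) (hcommπ' _ hAP) z,
        pow_succ, mul_assoc, hzmul]
  -- F4: uniqueness
  have F4 : ∀ g A₁ A₂, N g A₁ → N g A₂ → A₁ = A₂ := by
    intro g A₁ A₂ hA₁ hA₂
    obtain ⟨hu₁, hW₁, hd₁⟩ := (hN _ _).1 hA₁
    obtain ⟨hu₂, hW₂, hd₂⟩ := (hN _ _).1 hA₂
    have hP₁ := F1 g A₁ hu₁ hW₁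
    have hP₂ := F1 g A₂ hu₂ hW₂
    obtain ⟨hdp₁, -⟩ := F2 A₁ hu₁ hP₁
    obtain ⟨hdp₂, -⟩ := F2 A₂ hu₂ hP₂
    obtain ⟨u₁, rfl⟩ := hu₁
    have hC : ∀ v, ((↑u₁⁻¹ : Module.End ℂ E) * A₂) * W v = W v * ((↑u₁⁻¹ : Module.End ℂ E) * A₂) := by
      intro v
      have h3 : (↑u₁⁻¹ : Module.End ℂ E) * W (act g v) = W v * (↑u₁⁻¹ : Module.End ℂ E) := by
        have h4 : (↑u₁⁻¹ : Module.End ℂ E) * ((u₁ : Module.End ℂ E) * W v) *
            (↑u₁⁻¹ : Module.End ℂ E) =
            (↑u₁⁻¹ : Module.End ℂ E) * (W (act g v) * (u₁ : Module.End ℂ E)) *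
              (↑u₁⁻¹ : Module.End ℂ E) := by
          rw [hW₁ v]
        rw [← mul_assoc, Units.inv_mul, one_mul, mul_assoc, mul_assoc, Units.mul_inv,
          mul_one] at h4
        exact h4.symm
      rw [mul_assoc, hW₂ v, ← mul_assoc, h3, mul_assoc]
    obtain ⟨z, hz⟩ := hschur _ hC
    have hA₂ : A₂ = z • (u₁ : Module.End ℂ E) := by
      have h5 : (u₁ : Module.End ℂ E) * ((↑u₁⁻¹ : Module.End ℂ E) * A₂) =
          (u₁ : Module.End ℂ E) * (z • 1) := by rw [hz]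
      rw [← mul_assoc, Units.mul_inv, one_mul, mul_smul_comm, mul_one] at h5
      exact h5
    have k1 := det_smul_proj π π' hππ h1 (b + 1) htrπ (u₁ : Module.End ℂ E) (hcommπ _ hP₁) z
    have k2 := det_smul_proj π' π hπ'π' h1' b htrπ' (u₁ : Module.End ℂ E) (hcommπ' _ hP₁) z
    rw [← hA₂] at k1 k2
    have hz0 : z ≠ 0 := by
      rintro rfl
      rw [zero_pow (Nat.succ_ne_zero b), zero_mul] at k1
      exact hdp₂ k1
    have k3 : z ^ (b + 1) * LinearMap.det ((u₁ : Module.End ℂ E) * π + π') =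
        z ^ b * LinearMap.det ((u₁ : Module.End ℂ E) * π + π') := by
      rw [← k1, hd₂, k2, hd₁]
    have k4 : z ^ (b + 1) = z ^ b := mul_right_cancel₀ hdp₁ k3
    have k5 : z = 1 := by
      rw [pow_succ] at k4
      have : z ^ b * z = z ^ b * 1 := by rw [k4, mul_one]
      exact mul_left_cancel₀ (pow_ne_zero b hz0) this
    rw [hA₂, k5, one_smul]
  -- F5, F6: multiplicativity
  have F5 : N 1 1 := by
    refine (hN _ _).2 ⟨isUnit_one, ?_, ?_⟩
    · intro v
      rw [hact_one, one_mul, mul_one]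
    · rw [one_mul, one_mul, h1, h1']
  have F6 : ∀ g h A B, N g A → N h B → N (g * h) (A * B) := by
    intro g h A B hA hB
    obtain ⟨hu₁, hW₁, hd₁⟩ := (hN _ _).1 hA
    obtain ⟨hu₂, hW₂, hd₂⟩ := (hN _ _).1 hB
    have hP₂ := F1 h B hu₂ hW₂
    refine (hN _ _).2 ⟨hu₁.mul hu₂, ?_, ?_⟩
    · intro v
      rw [mul_assoc, hW₂ v, ← mul_assoc, hW₁, hact_mul, mul_assoc]
    · rw [det_mul_proj π π' hππ h1 A B (hcommπ _ hP₂),
        det_mul_proj π' π hπ'π' h1' A B (hcommπ' _ hP₂), hd₁, hd₂]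
  choose ωf hωf using F3
  refine ⟨{ toFun := ωf, map_one' := F4 1 _ _ (hωf 1) F5,
            map_mul' := fun g h => F4 (g * h) _ _ (hωf (g * h)) (F6 g h _ _ (hωf g) (hωf h)) },
    ?_, ?_⟩
  · intro g v
    exact ((hN _ _).1 (hωf g)).2.1 v
  · intro g
    exact F1 g _ ((hN _ _).1 (hωf g)).1 ((hN _ _).1 (hωf g)).2.1

/-! ## glue (helper18): irreducible or trivial -/

/-- an invariant subspace of dimension `b` is irreducible or carries the trivial action, if the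
group is perfect and has no irreducible representation of degree between `2` and `b - 1` -/
theorem irr_or_trivial {G : Type*} [Group G] [Finite G] {E : Type*} [AddCommGroup E]
    [Module ℂ E] [FiniteDimensional ℂ E] (ω : Representation ℂ G E) (U : Submodule ℂ E)
    (hU : ∀ g, ∀ f ∈ U, ω g f ∈ U) (b : ℕ) (hb : Module.finrank ℂ U = b)
    (hperf : commutator G = ⊤)
    (hlow : ∀ (k : ℕ) (ρ : Representation ℂ G (Fin k → ℂ)), ρ.IsIrreducible → 2 ≤ k → b ≤ k) :
    (∃ ρ : Representation ℂ G (Fin b → ℂ), ρ.IsIrreducible) ∨ (∀ g, ∀ f ∈ U, ω g f = f) := by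
  classical
  let U₀ : Submodule ℂ E :=
    { carrier := {f | f ∈ U ∧ ∀ g, ω g f = f}
      add_mem' := fun {x y} hx hy =>
        ⟨U.add_mem hx.1 hy.1, fun g => by rw [map_add, hx.2 g, hy.2 g]⟩
      zero_mem' := ⟨U.zero_mem, fun g => map_zero _⟩
      smul_mem' := fun c x hx => ⟨U.smul_mem c hx.1, fun g => by rw [map_smul, hx.2 g]⟩ }
  have hmem : ∀ f, f ∈ U₀ ↔ (f ∈ U ∧ ∀ g, ω g f = f) := fun f => Iff.rfl
  have hU₀ : ∀ g, ∀ f ∈ U₀, ω g f ∈ U₀ := fun g f hf => by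
    rw [((hmem f).1 hf).2 g]
    exact hf
  have hle : U₀ ≤ U := fun f hf => ((hmem f).1 hf).1
  by_cases htop : U₀ = U
  · right
    intro g f hf
    have h3 : f ∈ U₀ := by rw [htop]; exact hf
    exact ((hmem f).1 h3).2 g
  left
  obtain ⟨C, hC, hCU, hinf, hsup⟩ := maschke_compl ω U U₀ hU hU₀ hle
  have hCne : C ≠ ⊥ := by
    rintro rfl
    apply htop
    rw [← hsup, sup_bot_eq]
  obtain ⟨C', hC'C, hC'ne, hC', hmin⟩ := exists_min_invariant ω C hC hCne
  have hkpos : 0 < Module.finrank ℂ C' :=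
    Nat.pos_of_ne_zero (fun h => hC'ne (Submodule.finrank_eq_zero.mp h))
  by_cases h1 : Module.finrank ℂ C' = 1
  · exfalso
    have htriv := one_dim_trivial ω C' hC' h1 hperf
    have hsub : C' ≤ U₀ ⊓ C := fun f hf =>
      ⟨(hmem f).2 ⟨hCU (hC'C hf), fun g => htriv g f hf⟩, hC'C hf⟩
    rw [hinf] at hsub
    exact hC'ne (le_bot_iff.mp hsub)
  · have hk2 : 2 ≤ Module.finrank ℂ C' := by omega
    obtain ⟨ρ, hρ⟩ := irr_fin_of_min ω C' hC' hC'ne hmin _ rfl
    have hbk := hlow _ ρ hρ hk2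
    have hC'U : C' ≤ U := hC'C.trans hCU
    have hEq : C' = U := Submodule.eq_of_le_of_finrank_le hC'U (by rw [hb]; exact hbk)
    have hfb : Module.finrank ℂ C' = b := by rw [hEq]; exact hb
    exact irr_fin_of_min ω C' hC' hC'ne hmin b hfb

/-! ## glue (helper18): the Weil representation of `Sp_{2n}(q)` -/

/-- an irreducible representation of `Sp_{2n}(q)`, `q` odd, of degree `(q^n - 1)/2` -/
theorem exists_irr [Fintype F] (hn : 2 ≤ n) (hodd : Odd (Fintype.card F)) :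
    ∃ ρ : Representation ℂ (symplecticGroup (Fin n) F)
      (Fin ((Fintype.card F ^ n - 1) / 2) → ℂ), ρ.IsIrreducible := by
  classical
  have h2 : (2 : F) ≠ 0 := two_ne_zero_of_odd hodd
  have h3 : 3 ≤ Fintype.card F := by
    have h3 : 1 < Fintype.card F := Fintype.one_lt_card
    obtain ⟨t, ht⟩ := hodd
    omega
  obtain ⟨ψ, -, hψ2⟩ := LS.exists_psi (F := F)
  obtain ⟨b, hbdef⟩ : ∃ b : ℕ, b = (Fintype.card F ^ n - 1) / 2 := ⟨_, rfl⟩
  have hqn : Fintype.card F ^ n = 2 * b + 1 := by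
    have hoddn : Odd (Fintype.card F ^ n) := hodd.pow
    obtain ⟨t, ht⟩ := hoddn
    omega
  have h9 : 9 ≤ Fintype.card F ^ n :=
    calc 9 = 3 ^ 2 := by norm_num
      _ ≤ 3 ^ n := Nat.pow_le_pow_right (by norm_num) hn
      _ ≤ Fintype.card F ^ n := Nat.pow_le_pow_left h3 n
  have hb2 : 2 ≤ b := by omega
  rw [← hbdef]
  have hfr : Module.finrank ℂ ((Fin n → F) → ℂ) = 2 * b + 1 := by rw [finrank_E, hqn]
  have hcard : Nat.card (Fin n ⊕ Fin n → F) = Module.finrank ℂ ((Fin n → F) → ℂ) ^ 2 := by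
    rw [card_V, finrank_E]
  have hE : Nontrivial ((Fin n → F) → ℂ) := inferInstance
  obtain ⟨ω, hω, hωP⟩ := exists_weil (G := symplecticGroup (Fin n) F) (W ψ) (coc ψ) par
    (W_zero ψ) (W_mul h2 ψ) (W_mul_neg h2 ψ) (fun v hv => trace_W ψ hψ2 v hv) hcard
    (par_mul_W ψ) par_mul_par (trace_par h2) b hfr act act_mul act_one
    (fun g u v => by unfold coc; rw [sform_act])
  have hU : ∀ g, ∀ f ∈ LinearMap.ker ((par : Module.End ℂ ((Fin n → F) → ℂ)) + 1),
      ω g f ∈ LinearMap.ker ((par : Module.End ℂ ((Fin n → F) → ℂ)) + 1) := by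
    intro g f hf
    rw [LinearMap.mem_ker] at hf ⊢
    have h4 : (par + 1) (ω g f) = ω g ((par + 1) f) := by
      have h5 := congrArg (fun T : Module.End ℂ ((Fin n → F) → ℂ) => T f) (hωP g)
      simp only [Module.End.mul_apply] at h5
      rw [LinearMap.add_apply, LinearMap.add_apply, map_add, Module.End.one_apply,
        Module.End.one_apply, h5]
    rw [h4, hf, map_zero]
  have hbU : Module.finrank ℂ (LinearMap.ker ((par : Module.End ℂ ((Fin n → F) → ℂ)) + 1)) = b :=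
    finrank_minus par par_mul_par (trace_par h2) b hfr
  have hperf : commutator (symplecticGroup (Fin n) F) = ⊤ := by
    apply Cfsg.Agent.S0269.result
    by_cases h : n = 2
    · exact Or.inr (Or.inl ⟨h, h3⟩)
    · left; omega
  have hfin : Finite (symplecticGroup (Fin n) F) := Subtype.finite
  rcases irr_or_trivial ω _ hU b hbU hperf
    (fun k ρ hρ hk => by rw [hbdef]; exact main_lower hn hodd k ρ hρ hk) with h | htriv
  · exact h
  · exfalso
    have hn0 : 0 < n := by omega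
    obtain ⟨v₀, hv₀def⟩ : ∃ v₀ : Fin n ⊕ Fin n → F, v₀ = fun _ => 1 := ⟨_, rfl⟩
    have hv₀ : v₀ ≠ 0 := by
      intro h
      have h5 := congrFun h (Sum.inl ⟨0, hn0⟩)
      rw [hv₀def] at h5
      exact one_ne_zero h5
    have htrivop : ∀ g, ω g * (1 - par) = 1 - par := by
      intro g
      apply LinearMap.ext
      intro f
      have hmem : (1 - par) f ∈ LinearMap.ker ((par : Module.End ℂ ((Fin n → F) → ℂ)) + 1) := by
        rw [LinearMap.mem_ker]
        have h5 : ((par : Module.End ℂ ((Fin n → F) → ℂ)) + 1) * (1 - par) = 0 := by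
          rw [add_mul, mul_sub, mul_sub, mul_one, one_mul, one_mul, par_mul_par]
          abel
        have h6 := congrArg (fun T : Module.End ℂ ((Fin n → F) → ℂ) => T f) h5
        simpa only [Module.End.mul_apply, LinearMap.zero_apply] using h6
      rw [Module.End.mul_apply]
      exact htriv g _ hmem
    have hS : ∀ v, v ≠ 0 →
        (W ψ v + W ψ (-v)) * (1 - par) = (W ψ v₀ + W ψ (-v₀)) * (1 - par) := by
      intro v hv
      obtain ⟨g, hg⟩ := sp_trans v₀ v hv₀ hv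
      have h5 := triv_orbit (W ψ) par (par_mul_W ψ) (ω g) (act g) (fun w => hω g w)
        (htrivop g) v₀
      rw [hg] at h5
      exact h5
    obtain ⟨-, hspan⟩ := weyl_span (W ψ) (coc ψ) (W_mul h2 ψ) (W_mul_neg h2 ψ)
      (fun v hv => trace_W ψ hψ2 v hv) hE hcard
    have hD := triv_span (W ψ) par (par_mul_W ψ) par_mul_par (W_zero ψ) hspan v₀ hS
    have hSP : par * (W ψ v₀ + W ψ (-v₀)) = (W ψ v₀ + W ψ (-v₀)) * par := by
      rw [mul_add, add_mul, par_mul_W, par_mul_W, neg_neg, add_comm]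
    exact triv_contra par (W ψ v₀ + W ψ (-v₀)) par_mul_par hSP hD (by rw [hbU]; exact hb2)


end Cfsg.Agent.Lib.Helper18.WR
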